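import Cfsg.Agent.H75.BlkGal
import Cfsg.Agent.H4.BlkQuot

/-!
# Principal block of a central product over a `p`-group (owner: helper75)
-/

set_option autoImplicit false
set_option linter.style.haveILetI false
set_option linter.unusedSectionVars false

namespace Cfsg.Agent.H75

open scoped ComplexConjugate
open Cfsg Cfsg.Agent.CharBase Cfsg.Agent.Char Cfsg.Agent.Blk Cfsg.Agent.BlkC

universe u

section

variable {G : Type u} [Group G] [Fintype G] {U₁ U₂ : Subgroup G}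

theorem cp_le_normalizer (hcomm : ∀ u ∈ U₁, ∀ v ∈ U₂, u * v = v * u) (hgen : U₁ ⊔ U₂ = ⊤) :
    U₁.Normal := by
  rw [← Subgroup.normalizer_eq_top_iff, eq_top_iff, ← hgen, sup_le_iff]
  refine ⟨Subgroup.le_normalizer, fun v hv => ?_⟩
  rw [Subgroup.mem_normalizer_iff]
  intro u
  constructor
  · intro hu
    rw [← hcomm u hu v hv, mul_inv_cancel_right]
    exact hu
  · intro hu
    have h1 := hcomm _ hu v hv
    have h2 : v * (v * u * v⁻¹) = v * (u * v * v⁻¹) := by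
      rw [← h1]; group
    have h3 := mul_left_cancel h2
    rw [mul_inv_cancel_right] at h3
    rw [← h3]
    exact hu

theorem cp_symm (hcomm : ∀ u ∈ U₁, ∀ v ∈ U₂, u * v = v * u) : ∀ v ∈ U₂, ∀ u ∈ U₁, v * u = u * v :=
  fun v hv u hu => (hcomm u hu v hv).symm

theorem cp_exists (hcomm : ∀ u ∈ U₁, ∀ v ∈ U₂, u * v = v * u) (hgen : U₁ ⊔ U₂ = ⊤) (g : G) :
    ∃ u ∈ U₁, ∃ v ∈ U₂, u * v = g := by
  haveI := cp_le_normalizer hcomm hgen
  have : g ∈ U₁ ⊔ U₂ := by rw [hgen]; trivial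
  obtain ⟨u, hu, v, hv, rfl⟩ := Subgroup.mem_sup_of_normal_left.mp this
  exact ⟨u, hu, v, hv, rfl⟩

/-- the value of an irreducible character at a product -/
theorem cp_char_mul (hcomm : ∀ u ∈ U₁, ∀ v ∈ U₂, u * v = v * u) (hgen : U₁ ⊔ U₂ = ⊤)
    {χ : G → ℂ} (hχ : IsIrrCharacter G χ) {u v : G} (hu : u ∈ U₁) (hv : v ∈ U₂) :
    χ (u * v) = χ u * χ v / χ 1 := by
  have h1 := sum_conj_mul hχ u v
  have h2 : ∀ x : G, χ (u * (x * v * x⁻¹)) = χ (u * v) := by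
    intro x
    obtain ⟨a, ha, b, hb, rfl⟩ := cp_exists hcomm hgen x
    have hbv : b * v * b⁻¹ ∈ U₂ := U₂.mul_mem (U₂.mul_mem hb hv) (U₂.inv_mem hb)
    have h3 : a * b * v * (a * b)⁻¹ = b * v * b⁻¹ := by
      have := hcomm a ha _ hbv
      calc a * b * v * (a * b)⁻¹ = (a * (b * v * b⁻¹)) * a⁻¹ := by group
        _ = _ := by rw [this]; group
    rw [h3]
    have h4 : u * (b * v * b⁻¹) = b * (u * v) * b⁻¹ := by
      have := hcomm u hu b hb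
      calc u * (b * v * b⁻¹) = (u * b) * v * b⁻¹ := by group
        _ = _ := by rw [this]; group
    rw [h4]
    exact isClassFunction_of_isCharacter (isCharacter_of_isIrr hχ) _ _
  rw [Finset.sum_congr rfl fun x _ => h2 x, Finset.sum_const, Finset.card_univ, nsmul_eq_mul,
    ← Nat.card_eq_fintype_card] at h1
  have h0 : (Nat.card G : ℂ) ≠ 0 := by exact_mod_cast Nat.card_pos.ne'
  have h5 : (Nat.card G : ℂ) * χ (u * v) = (Nat.card G : ℂ) * (χ u * χ v / χ 1) := by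
    rw [h1]; ring
  exact mul_left_cancel₀ h0 h5

theorem cp_cj (hcomm : ∀ u ∈ U₁, ∀ v ∈ U₂, u * v = v * u) (hgen : U₁ ⊔ U₂ = ⊤)
    [hN : U₁.Normal] {θ : U₁ → ℂ} (hθ : IsClassFunction U₁ θ) (g : G) : cj U₁ g θ = θ := by
  obtain ⟨u, hu, v, hv, rfl⟩ := cp_exists hcomm hgen g
  rw [cj_mul]
  have h1 : cj U₁ u θ = θ := cj_of_mem U₁ u hu hθ
  rw [h1]
  funext n
  rw [cj_apply]
  congr 1
  apply Subtype.ext
  change v * (n : G) * v⁻¹ = n
  rw [← hcomm n n.2 v hv, mul_inv_cancel_right]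

theorem cp_div [Fintype U₁] (hcomm : ∀ u ∈ U₁, ∀ v ∈ U₂, u * v = v * u) (hgen : U₁ ⊔ U₂ = ⊤)
    {χ : G → ℂ} (hχ : IsIrrCharacter G χ) {θ : U₁ → ℂ} (hθ : IsIrrCharacter U₁ θ)
    (h1 : classInner (fun n : U₁ => χ n) θ ≠ 0) (u : U₁) : χ u / χ 1 = θ u / θ 1 := by
  haveI := cp_le_normalizer hcomm hgen
  have h2 := clifford U₁ hχ hθ h1
  have h3 : orb U₁ θ = {θ} := by
    ext ψ
    rw [mem_orb, Finset.mem_singleton]
    have h4 : ∀ g, cj U₁ g θ = θ := cp_cj hcomm hgen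
      (isClassFunction_of_isCharacter (isCharacter_of_isIrr hθ))
    constructor
    · rintro ⟨g, rfl⟩; exact h4 g
    · rintro rfl; exact ⟨1, h4 1⟩
  rw [h3, Finset.sum_singleton] at h2
  have h5 := congrFun h2 u
  have h6 := congrFun h2 1
  simp only [Pi.smul_apply, smul_eq_mul] at h5 h6
  rw [h5]
  have h7 : χ ((1 : U₁) : G) = χ 1 := rfl
  rw [← h7, h6, mul_div_mul_left _ _ h1]

variable {p : ℕ} [hp : Fact p.Prime]

/-- exponent killing the `p`-part -/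
theorem exists_pexp (p : ℕ) [hp : Fact p.Prime] (G : Type u) [Group G] [Fintype G] :
    ∃ m : ℕ, (∀ g : G, ¬ p ∣ orderOf g → g ^ m = g) ∧ (∀ g : G, (∃ k, orderOf g = p ^ k) → g ^ m = 1)
      ∧ ∀ g : G, ¬ p ∣ orderOf (g ^ m) := by
  have h1 : (p ^ (Nat.card G).factorization p).Coprime (gp' G p) := by
    apply Nat.Coprime.pow_left
    rw [Nat.Prime.coprime_iff_not_dvd hp.out]
    exact not_dvd_gp'
  obtain ⟨m, hm1, hm2⟩ := Nat.chineseRemainder h1 0 1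
  refine ⟨m, fun g hg => ?_, fun g hg => ?_, fun g => ?_⟩
  · have h2 : orderOf g ∣ gp' G p := by
      have h3 : orderOf g ∣ p ^ (Nat.card G).factorization p * gp' G p := by
        rw [ppow_mul_gp']; exact orderOf_dvd_natCard g
      refine Nat.Coprime.dvd_of_dvd_mul_left ?_ h3
      exact Nat.Coprime.pow_right _ ((Nat.Prime.coprime_iff_not_dvd hp.out).mpr hg).symm
    have h4 : m ≡ 1 [MOD orderOf g] := hm2.of_dvd h2
    have h5 := pow_eq_pow_iff_modEq.mpr h4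
    rwa [pow_one] at h5
  · obtain ⟨k, hk⟩ := hg
    rw [← orderOf_dvd_iff_pow_eq_one]
    have h3 : orderOf g ∣ p ^ (Nat.card G).factorization p := by
      have h4 : orderOf g ∣ p ^ (Nat.card G).factorization p * gp' G p := by
        rw [ppow_mul_gp']; exact orderOf_dvd_natCard g
      refine Nat.Coprime.dvd_of_dvd_mul_right ?_ h4
      rw [hk]
      exact Nat.Coprime.pow_left _ ((Nat.Prime.coprime_iff_not_dvd hp.out).mpr not_dvd_gp')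
    exact h3.trans ((Nat.modEq_zero_iff_dvd).mp hm1)
  · have h3 : (g ^ m) ^ gp' G p = 1 := by
      rw [← pow_mul, ← orderOf_dvd_iff_pow_eq_one]
      refine (orderOf_dvd_natCard g).trans ?_
      rw [← ppow_mul_gp' (G := G) (p := p)]
      exact Nat.mul_dvd_mul ((Nat.modEq_zero_iff_dvd).mp hm1) dvd_rfl
    intro h4
    exact not_dvd_gp' (h4.trans (orderOf_dvd_of_pow_eq_one h3))

/-- regular elements are products of regular elements -/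
theorem cp_exists_reg (hcomm : ∀ u ∈ U₁, ∀ v ∈ U₂, u * v = v * u) (hgen : U₁ ⊔ U₂ = ⊤) (g : G)
    (hg : ¬ p ∣ orderOf g) :
    ∃ u ∈ U₁, ∃ v ∈ U₂, u * v = g ∧ ¬ p ∣ orderOf u ∧ ¬ p ∣ orderOf v := by
  obtain ⟨m, h1, -, h3⟩ := exists_pexp p G
  obtain ⟨u, hu, v, hv, h⟩ := cp_exists hcomm hgen g
  refine ⟨u ^ m, U₁.pow_mem hu m, v ^ m, U₂.pow_mem hv m, ?_, h3 u, h3 v⟩
  rw [← Commute.mul_pow (show Commute u v from hcomm u hu v hv), h, h1 g hg]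

theorem cp_unique (hcomm : ∀ u ∈ U₁, ∀ v ∈ U₂, u * v = v * u) (hgen : U₁ ⊔ U₂ = ⊤)
    (hZ : IsPGroup p ↥(U₁ ⊓ U₂)) {u u' v v' : G} (hu : u ∈ U₁) (hu' : u' ∈ U₁) (hv : v ∈ U₂)
    (hv' : v' ∈ U₂) (h : u * v = u' * v') (hpu : ¬ p ∣ orderOf u) (hpu' : ¬ p ∣ orderOf u') :
    u = u' ∧ v = v' := by
  obtain ⟨m, h1, h2, -⟩ := exists_pexp p G
  have h4 : u'⁻¹ * u = v' * v⁻¹ := by
    rw [inv_mul_eq_iff_eq_mul, ← mul_assoc, ← h, mul_inv_cancel_right]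
  have h5 : u'⁻¹ * u ∈ U₁ ⊓ U₂ :=
    ⟨U₁.mul_mem (U₁.inv_mem hu') hu, by rw [h4]; exact U₂.mul_mem hv' (U₂.inv_mem hv)⟩
  have h6 : u = u' * (u'⁻¹ * u) := by group
  have h7 : Commute u' (u'⁻¹ * u) := hcomm u' hu' _ h5.2
  have h8 : u ^ m = u' ^ m * (u'⁻¹ * u) ^ m := by
    nth_rewrite 1 [h6]
    exact h7.mul_pow m
  have h9 : ∃ k, orderOf (u'⁻¹ * u) = p ^ k := by
    obtain ⟨k, hk⟩ := (IsPGroup.iff_orderOf.mp hZ) ⟨_, h5⟩
    rw [← Subgroup.orderOf_coe] at hk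
    exact ⟨k, hk⟩
  rw [h1 u hpu, h1 u' hpu', h2 _ h9, mul_one] at h8
  refine ⟨h8, ?_⟩
  rw [h8] at h
  exact mul_left_cancel h

theorem cp_index (hcomm : ∀ u ∈ U₁, ∀ v ∈ U₂, u * v = v * u) (hgen : U₁ ⊔ U₂ = ⊤)
    (hZ : IsPGroup p ↥(U₁ ⊓ U₂)) (u : U₁) (v : U₂) (hpu : ¬ p ∣ orderOf u) :
    (Subgroup.centralizer ({(u : G) * (v : G)} : Set G)).index =
      (Subgroup.centralizer ({u} : Set U₁)).index * (Subgroup.centralizer ({v} : Set U₂)).index := by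
  rw [← card_isConj_eq_index, ← card_isConj_eq_index, ← card_isConj_eq_index, ← Nat.card_prod]
  symm
  have hmap : ∀ (x : U₁) (y : U₂), IsConj u x → IsConj v y →
      IsConj ((u : G) * (v : G)) ((x : G) * (y : G)) := by
    intro x y hx hy
    obtain ⟨a, ha⟩ := isConj_iff.mp hx
    obtain ⟨b, hb⟩ := isConj_iff.mp hy
    rw [isConj_iff]
    refine ⟨(a : G) * (b : G), ?_⟩
    rw [← ha, ← hb]
    have e1 := hcomm a a.2 b b.2
    have e2 := hcomm u u.2 b b.2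
    have e3 : (a : G)⁻¹ * (b : G) = b * (a : G)⁻¹ := hcomm _ (U₁.inv_mem a.2) b b.2
    have e4 : (a : G)⁻¹ * (v : G) = v * (a : G)⁻¹ := hcomm _ (U₁.inv_mem a.2) v v.2
    have e5 : (a : G)⁻¹ * (b : G)⁻¹ = (b : G)⁻¹ * (a : G)⁻¹ :=
      hcomm _ (U₁.inv_mem a.2) _ (U₂.inv_mem b.2)
    have e6 : (u : G) * (b : G) = b * u := e2
    simp only [Subgroup.coe_mul, Subgroup.coe_inv]
    calc (a : G) * b * (u * v) * ((a : G) * (b : G))⁻¹ = a * (b * u) * v * ((b : G)⁻¹ * (a : G)⁻¹) := by group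
      _ = a * (u * b) * v * ((a : G)⁻¹ * (b : G)⁻¹) := by rw [← e6, e5]
      _ = a * u * (b * (v * (a : G)⁻¹)) * (b : G)⁻¹ := by group
      _ = a * u * (b * ((a : G)⁻¹ * v)) * (b : G)⁻¹ := by rw [e4]
      _ = a * u * ((b * (a : G)⁻¹) * v) * (b : G)⁻¹ := by group
      _ = a * u * (((a : G)⁻¹ * b) * v) * (b : G)⁻¹ := by rw [e3]
      _ = _ := by group
  let F : {x : U₁ // IsConj u x} × {y : U₂ // IsConj v y} →
      {z : G // IsConj ((u : G) * (v : G)) z} :=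
    fun q => ⟨(q.1.1 : G) * (q.2.1 : G), hmap _ _ q.1.2 q.2.2⟩
  refine Nat.card_congr (Equiv.ofBijective F ⟨?_, ?_⟩)
  · rintro ⟨⟨x, hx⟩, ⟨y, hy⟩⟩ ⟨⟨x', hx'⟩, ⟨y', hy'⟩⟩ h
    have h1 : (x : G) * (y : G) = x' * y' := congrArg Subtype.val h
    have hord : ∀ w : U₁, IsConj u w → ¬ p ∣ orderOf (w : G) := by
      intro w hw
      obtain ⟨a, ha⟩ := isConj_iff.mp hw
      rw [Subgroup.orderOf_coe, ← ha, show a * u * a⁻¹ = MulAut.conj a u from rfl,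
        MulEquiv.orderOf_eq]
      exact hpu
    obtain ⟨e1, e2⟩ := cp_unique (p := p) hcomm hgen hZ x.2 x'.2 y.2 y'.2 h1 (hord x hx) (hord x' hx')
    have e1' : x = x' := Subtype.ext e1
    have e2' : y = y' := Subtype.ext e2
    subst e1'; subst e2'
    rfl
  · rintro ⟨z, hz⟩
    obtain ⟨g, hg⟩ := isConj_iff.mp hz
    obtain ⟨a, ha, b, hb, rfl⟩ := cp_exists hcomm hgen g
    refine ⟨⟨⟨⟨a, ha⟩ * u * ⟨a, ha⟩⁻¹, isConj_iff.mpr ⟨⟨a, ha⟩, rfl⟩⟩,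
      ⟨⟨b, hb⟩ * v * ⟨b, hb⟩⁻¹, isConj_iff.mpr ⟨⟨b, hb⟩, rfl⟩⟩⟩, ?_⟩
    apply Subtype.ext
    change (a * u * a⁻¹) * (b * v * b⁻¹) = z
    rw [← hg]
    have e2 := hcomm u u.2 b hb
    have e3 : a⁻¹ * b = b * a⁻¹ := hcomm _ (U₁.inv_mem ha) b hb
    have e4 : a⁻¹ * (v : G) = v * a⁻¹ := hcomm _ (U₁.inv_mem ha) v v.2
    have e5 : a⁻¹ * b⁻¹ = b⁻¹ * a⁻¹ := hcomm _ (U₁.inv_mem ha) _ (U₂.inv_mem hb)
    symm
    calc (a : G) * b * (u * v) * (a * b)⁻¹ = a * (b * u) * v * (b⁻¹ * a⁻¹) := by group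
      _ = a * (u * b) * v * (a⁻¹ * b⁻¹) := by rw [← e2, e5]
      _ = a * u * (b * (v * a⁻¹)) * b⁻¹ := by group
      _ = a * u * (b * (a⁻¹ * v)) * b⁻¹ := by rw [e4]
      _ = a * u * ((b * a⁻¹) * v) * b⁻¹ := by group
      _ = a * u * ((a⁻¹ * b) * v) * b⁻¹ := by rw [e3]
      _ = _ := by group

theorem cp_centralChar [Fintype U₁] [Fintype U₂]
    (hcomm : ∀ u ∈ U₁, ∀ v ∈ U₂, u * v = v * u) (hgen : U₁ ⊔ U₂ = ⊤)
    (hZ : IsPGroup p ↥(U₁ ⊓ U₂)) {χ : G → ℂ} (hχ : IsIrrCharacter G χ)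
    {ψ₁ : U₁ → ℂ} (hψ₁ : IsIrrCharacter U₁ ψ₁) {ψ₂ : U₂ → ℂ} (hψ₂ : IsIrrCharacter U₂ ψ₂)
    (h₁ : classInner (fun n : U₁ => χ n) ψ₁ ≠ 0) (h₂ : classInner (fun n : U₂ => χ n) ψ₂ ≠ 0)
    (u : U₁) (v : U₂) (hpu : ¬ p ∣ orderOf u) :
    centralChar χ ((u : G) * (v : G)) = centralChar ψ₁ u * centralChar ψ₂ v := by
  have h3 := cp_div hcomm hgen hχ hψ₁ h₁ u
  have h4 := cp_div (cp_symm hcomm) (by rw [sup_comm]; exact hgen) hχ hψ₂ h₂ v
  have h5 := cp_char_mul hcomm hgen hχ u.2 v.2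
  unfold centralChar
  rw [cp_index hcomm hgen hZ u v hpu, h5]
  push_cast
  rw [mul_div_assoc, mul_div_assoc (((Subgroup.centralizer ({u} : Set U₁)).index : ℂ)),
    mul_div_assoc (((Subgroup.centralizer ({v} : Set U₂)).index : ℂ)), ← h3, ← h4]
  ring

end

end Cfsg.Agent.H75
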