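import Cfsg.Agent.Hall.Basic
import Cfsg.Agent.H75.Zeros
import Cfsg.Agent.H75.Ito
import Cfsg.Agent.H75.Inflate
import Cfsg.Agent.Char.ModP
import Cfsg.Agent.Glaub.PGroup

/-!
# Class numbers of semidirect products with abelian kernel of coprime order (owner: helper75)
-/

set_option autoImplicit false
set_option linter.style.haveILetI false
set_option linter.unusedSectionVars false

namespace Cfsg.Agent.H75

open scoped ComplexConjugate Pointwise
open Cfsg Cfsg.Agent.CharBase Cfsg.Agent.Blk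

universe u

section Group

variable {X : Type u} [Group X] [Finite X]

theorem relIndex_sup_of_disjoint (V K : Subgroup X) [V.Normal] (h : V ⊓ K = ⊥) :
    V.relIndex (V ⊔ K) = Nat.card K := by
  rw [sup_comm, Subgroup.relIndex_sup_right, ← Subgroup.inf_relIndex_right, h,
    Subgroup.relIndex_bot_left]

theorem dedekind_complement (V G : Subgroup X) [V.Normal] (hGV : Subgroup.IsComplement' V G)
    (L : Subgroup X) (hVL : V ≤ L) : V ⊔ (G ⊓ L) = L := by
  apply le_antisymm (sup_le hVL inf_le_right)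
  intro x hx
  have : x ∈ V ⊔ G := by rw [hGV.sup_eq_top]; trivial
  obtain ⟨v, hv, g, hg, rfl⟩ := Subgroup.mem_sup_of_normal_left.mp this
  refine Subgroup.mul_mem _ (Subgroup.mem_sup_left hv) (Subgroup.mem_sup_right ⟨hg, ?_⟩)
  have h1 : v⁻¹ * (v * g) ∈ L := L.mul_mem (L.inv_mem (hVL hv)) hx
  rwa [inv_mul_cancel_left] at h1

theorem card_of_le (V G : Subgroup X) [V.Normal] (hGV : Subgroup.IsComplement' V G)
    (L : Subgroup X) (hVL : V ≤ L) : Nat.card L = Nat.card V * Nat.card (G ⊓ L : Subgroup X) := by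
  have hsup := dedekind_complement V G hGV L hVL
  have hVG : V ⊓ G = ⊥ := hGV.disjoint.eq_bot
  have h3 : V ⊓ (G ⊓ L) = ⊥ := by
    rw [eq_bot_iff]
    calc V ⊓ (G ⊓ L) ≤ V ⊓ G := inf_le_inf_left _ inf_le_left
      _ = ⊥ := hVG
  have h4 := relIndex_sup_of_disjoint V (G ⊓ L) h3
  rw [hsup] at h4
  have h5 := (V.subgroupOf L).card_mul_index
  rw [Nat.card_congr (Subgroup.subgroupOfEquivOfLe hVL).toEquiv] at h5
  rw [← h4]
  exact h5.symm

/-- elements of order prime to `|V|` are conjugate into a complement -/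
theorem exists_conj_mem_complement (V G : Subgroup X) [V.Normal] (hab : ∀ a ∈ V, ∀ b ∈ V, a * b = b * a)
    (hGV : Subgroup.IsComplement' V G) {y : X} (hy : (Nat.card V).Coprime (orderOf y)) :
    ∃ u ∈ V, u * y * u⁻¹ ∈ G := by
  have hdisj : V ⊓ Subgroup.zpowers y = ⊥ := by
    refine (Subgroup.disjoint_of_coprime_natCard ?_).eq_bot
    rw [Nat.card_zpowers]; exact hy
  set L := V ⊔ Subgroup.zpowers y with hL
  have h1 : V.relIndex L = Nat.card (Subgroup.zpowers y) := relIndex_sup_of_disjoint V _ hdisj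
  have hVG : V ⊓ G = ⊥ := hGV.disjoint.eq_bot
  have hsup : V ⊔ (G ⊓ L) = L := dedekind_complement V G hGV L le_sup_left
  have h2 : V.relIndex L = Nat.card (G ⊓ L : Subgroup X) := by
    rw [← hsup]
    have h3 : V ⊓ (G ⊓ L) = ⊥ := by
      rw [eq_bot_iff]
      calc V ⊓ (G ⊓ L) ≤ V ⊓ G := inf_le_inf_left _ inf_le_left
        _ = ⊥ := hVG
    have := relIndex_sup_of_disjoint V (G ⊓ L) h3
    rw [hsup] at this
    rw [hsup]
    exact this
  have hsolv : Group.IsSolvable V := by
    refine Group.isSolvable_of_comm ?_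
    intro a b
    exact Subtype.ext (hab a a.2 b b.2)
  obtain ⟨u, hu, huy⟩ := Hall.sz_conj_rel V L le_sup_left
    (by rw [Subgroup.normalizer_eq_top]; exact le_top)
    (by rw [h1, Nat.card_zpowers]; exact hy) hsolv (Subgroup.zpowers y) (G ⊓ L) le_sup_right
    inf_le_right h1.symm h2.symm
  refine ⟨u, hu, ?_⟩
  have h3 : u * y * u⁻¹ ∈ (MulAut.conj u • Subgroup.zpowers y : Subgroup X) := by
    rw [Hall.mem_conj_smul]
    have : u⁻¹ * (u * y * u⁻¹) * u = y := by group
    rw [this]
    exact Subgroup.mem_zpowers y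
  rw [huy] at h3
  exact h3.1

/-- the class number formula: classes of `X` from centralizers in a complement -/
theorem card_conjClasses_semidirect (V : Subgroup X) [hV : V.Normal]
    (hab : ∀ a ∈ V, ∀ b ∈ V, a * b = b * a) (G : Subgroup X) (hGV : Subgroup.IsComplement' V G)
    (hcop : (Nat.card V).Coprime (Nat.card G)) (S : Finset X) (hSV : ∀ s ∈ S, s ∈ V)
    (hrep : ∀ v ∈ V, ∃! s, s ∈ S ∧ ∃ g ∈ G, g * v * g⁻¹ = s) :
    Nat.card (ConjClasses X) =
      ∑ s ∈ S, Nat.card (ConjClasses ↥(G ⊓ Subgroup.centralizer ({s} : Set X))) := by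
  classical
  obtain ⟨m, hm1, hm2⟩ := Nat.chineseRemainder hcop 1 0
  obtain ⟨m', hm1', hm2'⟩ := Nat.chineseRemainder hcop 0 1
  have hcardX : Nat.card V * Nat.card G = Nat.card X := hGV.card_mul_card
  have hVm : ∀ v ∈ V, v ^ m = v := by
    intro v hv
    have h1 : orderOf v ∣ Nat.card V := by
      have := orderOf_dvd_natCard (⟨v, hv⟩ : V)
      rwa [← Subgroup.orderOf_coe] at this
    have h2 := pow_eq_pow_iff_modEq.mpr (hm1.of_dvd h1)
    rwa [pow_one] at h2
  have hGm : ∀ g ∈ G, g ^ m = 1 := by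
    intro g hg
    have h1 : orderOf g ∣ Nat.card G := by
      have := orderOf_dvd_natCard (⟨g, hg⟩ : G)
      rwa [← Subgroup.orderOf_coe] at this
    have h2 := pow_eq_pow_iff_modEq.mpr (hm2.of_dvd h1)
    rwa [pow_zero] at h2
  have hbot : ∀ x : X, x ∈ V → x ∈ G → x = 1 := by
    intro x h1 h2
    have : x ∈ V ⊓ G := ⟨h1, h2⟩
    rw [hGV.disjoint.eq_bot] at this
    exact Subgroup.mem_bot.mp this
  have hdec : ∀ x : X, ∃ u ∈ V, ∃ h ∈ G, u * h = x := by
    intro x
    have : x ∈ V ⊔ G := by rw [hGV.sup_eq_top]; trivial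
    obtain ⟨u, hu, h, hh, e⟩ := Subgroup.mem_sup_of_normal_left.mp this
    exact ⟨u, hu, h, hh, e⟩
  let F : (Σ s : S, ConjClasses ↥(G ⊓ Subgroup.centralizer ({(s : X)} : Set X))) → ConjClasses X :=
    fun q => Quotient.lift (fun g : ↥(G ⊓ Subgroup.centralizer ({(q.1 : X)} : Set X)) =>
      ConjClasses.mk ((q.1 : X) * (g : X))) (by
        intro a b hab'
        obtain ⟨c, hc⟩ := isConj_iff.mp (show IsConj a b from hab')
        rw [ConjClasses.mk_eq_mk_iff_isConj, isConj_iff]
        refine ⟨c, ?_⟩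
        have hc2 := Subgroup.mem_centralizer_singleton_iff.mp c.2.2
        rw [← hc]
        have e1 : (c : X) * q.1 * (c : X)⁻¹ = q.1 := by
          rw [hc2, mul_inv_cancel_right]
        calc (c : X) * (q.1 * a) * (c : X)⁻¹ = (c * q.1 * (c : X)⁻¹) * (c * a * (c : X)⁻¹) := by group
          _ = q.1 * (c * a * (c : X)⁻¹) := by rw [e1]
          _ = _ := rfl) q.2
  have hF : ∀ (s : S) (g : ↥(G ⊓ Subgroup.centralizer ({(s : X)} : Set X))),
      F ⟨s, ConjClasses.mk g⟩ = ConjClasses.mk ((s : X) * (g : X)) := fun s g => rfl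
  have hbij : Function.Bijective F := by
    constructor
    · rintro ⟨s, c⟩ ⟨s', c'⟩ h
      obtain ⟨g, rfl⟩ := ConjClasses.mk_surjective c
      obtain ⟨g', rfl⟩ := ConjClasses.mk_surjective c'
      rw [hF, hF, ConjClasses.mk_eq_mk_iff_isConj, isConj_iff] at h
      obtain ⟨x, hx⟩ := h
      obtain ⟨u, hu, h, hh, rfl⟩ := hdec x
      have hg2 := Subgroup.mem_centralizer_singleton_iff.mp g.2.2
      have hg2' := Subgroup.mem_centralizer_singleton_iff.mp g'.2.2
      have e1 : ((s : X) * (g : X)) ^ m = s := by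
        rw [Commute.mul_pow (show Commute (s : X) (g : X) from hg2.symm), hVm _ (hSV _ s.2),
          hGm _ g.2.1, mul_one]
      have e2 : ((s' : X) * (g' : X)) ^ m = s' := by
        rw [Commute.mul_pow (show Commute (s' : X) (g' : X) from hg2'.symm), hVm _ (hSV _ s'.2),
          hGm _ g'.2.1, mul_one]
      have e3 : (u * h) * (s : X) * (u * h)⁻¹ = s' := by
        rw [← e1, ← e2, ← hx, conj_pow]
      have hsV : h * (s : X) * h⁻¹ ∈ V := hV.conj_mem _ (hSV _ s.2) h
      have e4 : h * (s : X) * h⁻¹ = s' := by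
        rw [← e3]
        have := hab u hu _ hsV
        calc h * (s : X) * h⁻¹ = (h * (s : X) * h⁻¹) * u * u⁻¹ := by group
          _ = u * (h * (s : X) * h⁻¹) * u⁻¹ := by rw [← this]
          _ = _ := by group
      have hss : s = s' := by
        apply Subtype.ext
        obtain ⟨t, -, ht2⟩ := hrep s (hSV _ s.2)
        have h1 := ht2 s ⟨s.2, 1, G.one_mem, by group⟩
        have h2 := ht2 s' ⟨s'.2, h, hh, e4⟩
        rw [h1, h2]
      subst hss
      have hhc : h ∈ Subgroup.centralizer ({(s : X)} : Set X) := by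
        rw [Subgroup.mem_centralizer_singleton_iff]
        exact mul_inv_eq_iff_eq_mul.mp e4
      have e5 : (u * h) * (g : X) * (u * h)⁻¹ = g' := by
        have h1 : (u * h) * ((s : X) * g) * (u * h)⁻¹ =
            ((u * h) * (s : X) * (u * h)⁻¹) * ((u * h) * (g : X) * (u * h)⁻¹) := by group
        rw [h1, e3] at hx
        exact mul_left_cancel hx
      have e6 : (g' : X) * (h * g * h⁻¹)⁻¹ = 1 := by
        apply hbot
        · have h1 : (g' : X) * (h * g * h⁻¹)⁻¹ = u * ((h * g * h⁻¹) * u⁻¹ * (h * g * h⁻¹)⁻¹) := by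
            rw [← e5]; group
          rw [h1]
          exact V.mul_mem hu (hV.conj_mem _ (V.inv_mem hu) _)
        · exact G.mul_mem g'.2.1 (G.inv_mem (G.mul_mem (G.mul_mem hh g.2.1) (G.inv_mem hh)))
      have e7 : h * g * h⁻¹ = g' := (mul_inv_eq_one.mp e6).symm
      have e8 : ConjClasses.mk g = ConjClasses.mk g' := by
        rw [ConjClasses.mk_eq_mk_iff_isConj, isConj_iff]
        exact ⟨⟨h, hh, hhc⟩, Subtype.ext e7⟩
      rw [e8]
    · intro c
      obtain ⟨x, rfl⟩ := ConjClasses.mk_surjective c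
      -- decompose `x`
      have hxx : x ^ m * x ^ m' = x := by
        rw [← pow_add]
        have h1 : m + m' ≡ 1 [MOD Nat.card X] := by
          rw [← hcardX]
          refine (Nat.modEq_and_modEq_iff_modEq_mul hcop).mp ⟨?_, ?_⟩
          · exact (hm1.add hm1')
          · exact (hm2.add hm2')
        have h2 := pow_eq_pow_iff_modEq.mpr (h1.of_dvd (orderOf_dvd_natCard x))
        rwa [pow_one] at h2
      have hv1 : (x ^ m) ^ Nat.card V = 1 := by
        rw [← pow_mul, ← orderOf_dvd_iff_pow_eq_one]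
        refine (orderOf_dvd_natCard x).trans ?_
        rw [← hcardX, mul_comm]
        exact Nat.mul_dvd_mul ((Nat.modEq_zero_iff_dvd).mp hm2) dvd_rfl
      have hy1 : (x ^ m') ^ Nat.card G = 1 := by
        rw [← pow_mul, ← orderOf_dvd_iff_pow_eq_one]
        refine (orderOf_dvd_natCard x).trans ?_
        rw [← hcardX]
        exact Nat.mul_dvd_mul ((Nat.modEq_zero_iff_dvd).mp hm1') dvd_rfl
      have hvV : x ^ m ∈ V := by
        have h1 : (QuotientGroup.mk (x ^ m) : X ⧸ V) = 1 := by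
          rw [← orderOf_eq_one_iff]
          have h2 : orderOf (QuotientGroup.mk (x ^ m) : X ⧸ V) ∣ Nat.card V := by
            rw [orderOf_dvd_iff_pow_eq_one, ← QuotientGroup.mk_pow, hv1]; rfl
          have h3 : orderOf (QuotientGroup.mk (x ^ m) : X ⧸ V) ∣ Nat.card G := by
            have h4 := orderOf_dvd_natCard (QuotientGroup.mk (x ^ m) : X ⧸ V)
            have h5 : Nat.card (X ⧸ V) = Nat.card G := hGV.symm.index_eq_card
            rwa [h5] at h4
          exact Nat.eq_one_of_dvd_coprimes hcop h2 h3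
        exact (QuotientGroup.eq_one_iff _).mp h1
      have hycop : (Nat.card V).Coprime (orderOf (x ^ m')) :=
        hcop.coprime_dvd_right (orderOf_dvd_of_pow_eq_one hy1)
      obtain ⟨u, hu, huy⟩ := exists_conj_mem_complement V G hab hGV hycop
      set v := u * x ^ m * u⁻¹ with hv
      set y := u * x ^ m' * u⁻¹ with hy
      have hvV' : v ∈ V := hV.conj_mem _ hvV u
      have hvy : Commute v y := by
        have : Commute (x ^ m) (x ^ m') := (Commute.refl x).pow_pow m m'
        change v * y = y * v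
        rw [hv, hy]
        calc u * x ^ m * u⁻¹ * (u * x ^ m' * u⁻¹) = u * (x ^ m * x ^ m') * u⁻¹ := by group
          _ = u * (x ^ m' * x ^ m) * u⁻¹ := by rw [this.eq]
          _ = _ := by group
      obtain ⟨s, ⟨hsS, g, hg, hgs⟩, -⟩ := hrep v hvV'
      have hycent : g * y * g⁻¹ ∈ G ⊓ Subgroup.centralizer ({(s : X)} : Set X) := by
        refine Subgroup.mem_inf.mpr ⟨G.mul_mem (G.mul_mem hg huy) (G.inv_mem hg),
          Subgroup.mem_centralizer_singleton_iff.mpr ?_⟩
        rw [← hgs]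
        calc g * y * g⁻¹ * (g * v * g⁻¹) = g * (y * v) * g⁻¹ := by group
          _ = g * (v * y) * g⁻¹ := by rw [hvy.eq]
          _ = _ := by group
      refine ⟨⟨⟨s, hsS⟩, ConjClasses.mk ⟨g * y * g⁻¹, hycent⟩⟩, ?_⟩
      rw [hF, ConjClasses.mk_eq_mk_iff_isConj, isConj_comm, isConj_iff]
      refine ⟨g * u, ?_⟩
      change g * u * x * (g * u)⁻¹ = s * (g * y * g⁻¹)
      rw [← hgs, hv, hy]
      nth_rewrite 1 [← hxx]
      group
  rw [← Nat.card_congr (Equiv.ofBijective F hbij), Nat.card_sigma]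
  exact Finset.sum_coe_sort S
    (fun s => Nat.card (ConjClasses ↥(G ⊓ Subgroup.centralizer ({s} : Set X))))

end Group

section Infl

variable {G : Type u} [Group G] [Finite G]

/-- irreducible characters of the quotient are those with `N` in the kernel -/
noncomputable def inflEquiv (N : Subgroup G) [N.Normal] :
    IrrCharacter (G ⧸ N) ≃ {χ : IrrCharacter G // ∀ n ∈ N, (χ : G → ℂ) n = (χ : G → ℂ) 1} :=
  Equiv.ofBijective (fun χ => ⟨⟨fun g => (χ : G ⧸ N → ℂ) (QuotientGroup.mk g),
      isIrrCharacter_inflate N χ.2⟩, fun n hn => inflate_ker N (χ : G ⧸ N → ℂ) n hn⟩) (by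
    constructor
    · intro a b h
      apply Subtype.ext
      funext x
      obtain ⟨g, rfl⟩ := QuotientGroup.mk_surjective x
      exact congrFun (congrArg (fun q => ((q.1 : IrrCharacter G) : G → ℂ)) h) g
    · rintro ⟨χ, hχ⟩
      obtain ⟨χ', hχ', h⟩ := exists_deflate_irr N χ.2 hχ
      refine ⟨⟨χ', hχ'⟩, ?_⟩
      apply Subtype.ext
      apply Subtype.ext
      funext g
      exact h g)

theorem inflEquiv_apply (N : Subgroup G) [N.Normal] (χ : IrrCharacter (G ⧸ N)) (g : G) :
    ((inflEquiv N χ).1 : G → ℂ) g = (χ : G ⧸ N → ℂ) (QuotientGroup.mk g) := rfl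

end Infl

section KGV

theorem card_conjClasses_congr {A B : Type*} [Group A] [Group B] (e : A ≃* B) :
    Nat.card (ConjClasses A) = Nat.card (ConjClasses B) := by
  refine Nat.card_congr (Equiv.ofBijective (ConjClasses.map e.toMonoidHom) ⟨?_, ?_⟩)
  · intro a b h
    obtain ⟨x, rfl⟩ := ConjClasses.mk_surjective a
    obtain ⟨y, rfl⟩ := ConjClasses.mk_surjective b
    have h1 : ConjClasses.mk (e x) = ConjClasses.mk (e y) := h
    rw [ConjClasses.mk_eq_mk_iff_isConj, isConj_iff] at h1 ⊢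
    obtain ⟨c, hc⟩ := h1
    refine ⟨e.symm c, e.injective ?_⟩
    rw [map_mul, map_mul, map_inv, e.apply_symm_apply, hc]
  · intro b
    obtain ⟨y, rfl⟩ := ConjClasses.mk_surjective b
    refine ⟨ConjClasses.mk (e.symm y), ?_⟩
    change ConjClasses.mk (e (e.symm y)) = _
    rw [e.apply_symm_apply]

variable {X : Type u} [Group X] [Finite X]

theorem kgv_bound (p : ℕ) [hp : Fact p.Prime] (V : Subgroup X) [hV : V.Normal] (hVp : IsPGroup p V)
    (hidx : ¬ p ∣ V.index) (hab : ∀ a ∈ V, ∀ b ∈ V, a * b = b * a) (G : Subgroup X)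
    (hGV : Subgroup.IsComplement' V G) (v : X) (hv : v ∈ V) :
    Nat.card (ConjClasses X) + Nat.card G ≤
      Nat.card ↥(G ⊓ Subgroup.centralizer ({v} : Set X)) * Nat.card V + Nat.card (ConjClasses G) := by
  classical
  haveI := Fintype.ofFinite X
  haveI := Fintype.ofFinite (IrrCharacter X)
  haveI := Fintype.ofFinite (IrrCharacter (X ⧸ V))
  obtain ⟨M, hM⟩ := Glaub.exists_isPModular hp.out
  haveI := isPrime_of_isPModular hM
  haveI := charP_kM hM
  -- the centralizer
  have hVC : V ≤ Subgroup.centralizer ({v} : Set X) := by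
    intro w hw
    rw [Subgroup.mem_centralizer_singleton_iff]
    exact hab w hw v hv
  have hC := card_of_le V G hGV _ hVC
  -- the Galois orbit of `v`
  let S : Finset X := (Finset.univ : Finset X).filter
    (fun x => ∃ k : ℕ, k.Coprime (Nat.card X) ∧ x = v ^ k)
  have hvS : v ∈ S := by
    rw [Finset.mem_filter]; exact ⟨Finset.mem_univ _, 1, Nat.coprime_one_left _, (pow_one v).symm⟩
  have hSpos : 0 < S.card := Finset.card_pos.mpr ⟨v, hvS⟩
  have hSpow : ∀ k : ℕ, k.Coprime (Nat.card X) → ∀ g ∈ S, g ^ k ∈ S := by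
    intro k hk g hg
    obtain ⟨l, hl, rfl⟩ := (Finset.mem_filter.mp hg).2
    rw [Finset.mem_filter]
    exact ⟨Finset.mem_univ _, l * k, hl.mul_left hk, by rw [pow_mul]⟩
  have hSV : ∀ g ∈ S, g ∈ V := by
    intro g hg
    obtain ⟨l, hl, rfl⟩ := (Finset.mem_filter.mp hg).2
    exact V.pow_mem hv l
  have hSC : ∀ g ∈ S, Nat.card (Subgroup.centralizer ({g} : Set X)) =
      Nat.card (Subgroup.centralizer ({v} : Set X)) := by
    intro g hg
    obtain ⟨l, hl, rfl⟩ := (Finset.mem_filter.mp hg).2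
    congr 2
    obtain ⟨m, hm⟩ := exists_pow_eq_self_of_coprime (hl.coprime_dvd_right (orderOf_dvd_natCard v))
    ext x
    rw [Subgroup.mem_centralizer_singleton_iff, Subgroup.mem_centralizer_singleton_iff]
    constructor
    · intro h
      rw [← hm]
      exact (Commute.pow_right (show Commute x (v ^ l) from h) m).eq
    · intro h
      exact (Commute.pow_right (show Commute x v from h) l).eq
  -- nonvanishing
  have hne : ∀ (χ : IrrCharacter X), ∀ g ∈ S, (χ : X → ℂ) g ≠ 0 := by
    intro χ g hg h0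
    have hgV := hSV g hg
    obtain ⟨k, hk⟩ := (IsPGroup.iff_orderOf.mp hVp) ⟨g, hgV⟩
    rw [← Subgroup.orderOf_coe] at hk
    have h1 : IsPPart p g g := ⟨1, mul_one g, Commute.one_right g, ⟨k, hk⟩, by
      rw [orderOf_one]; exact hp.out.one_lt.ne' ∘ Nat.dvd_one.mp⟩
    have h2 := Char.MP.rd_char_ppart hM (irr_isCharacter χ) h1
    rw [inv_mul_cancel, h0, deg_spec, rd_zero, rd_natCast] at h2
    have h3 := (CharP.cast_eq_zero_iff (kM M) p (deg χ)).mp h2.symm
    exact hidx (h3.trans (ito χ V hab))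
  -- sum over all characters
  have hsum : (∑ χ : IrrCharacter X, ∑ g ∈ S, Complex.normSq ((χ : X → ℂ) g)) =
      S.card * Nat.card (Subgroup.centralizer ({v} : Set X)) := by
    rw [Finset.sum_comm]
    have h1 : ∀ g ∈ S, ∑ χ : IrrCharacter X, Complex.normSq ((χ : X → ℂ) g) =
        (Nat.card (Subgroup.centralizer ({v} : Set X)) : ℝ) := by
      intro g hg
      have h2 := column_orthogonality_of_isConj (IsConj.refl g)
      simp only [Complex.mul_conj] at h2
      rw [← hSC g hg]
      exact_mod_cast h2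
    rw [Finset.sum_congr rfl h1, Finset.sum_const, nsmul_eq_mul]
  -- split
  let K : Finset (IrrCharacter X) := Finset.univ.filter
    (fun χ => ∀ n ∈ V, (χ : X → ℂ) n = (χ : X → ℂ) 1)
  have hK1 : (∑ χ ∈ K, ∑ g ∈ S, Complex.normSq ((χ : X → ℂ) g)) = S.card * Nat.card G := by
    have h1 : ∀ χ ∈ K, ∑ g ∈ S, Complex.normSq ((χ : X → ℂ) g) = S.card * Complex.normSq ((χ : X → ℂ) 1) := by
      intro χ hχ
      rw [← nsmul_eq_mul, ← Finset.sum_const]
      refine Finset.sum_congr rfl fun g hg => ?_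
      rw [(Finset.mem_filter.mp hχ).2 g (hSV g hg)]
    rw [Finset.sum_congr rfl h1, ← Finset.mul_sum]
    congr 1
    have h2 : ∑ χ ∈ K, Complex.normSq ((χ : X → ℂ) 1) =
        ∑ ψ : IrrCharacter (X ⧸ V), Complex.normSq ((ψ : X ⧸ V → ℂ) 1) := by
      rw [Finset.sum_subtype K (p := fun χ : IrrCharacter X => ∀ n ∈ V, (χ : X → ℂ) n = (χ : X → ℂ) 1)
        (by intro χ; simp [K])]
      symm
      exact Fintype.sum_equiv (inflEquiv V) _ _ (fun ψ => rfl)
    rw [h2]
    have h3 := column_orthogonality_of_isConj (IsConj.refl (1 : X ⧸ V))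
    simp only [Complex.mul_conj] at h3
    have h4 : Nat.card (Subgroup.centralizer ({(1 : X ⧸ V)} : Set (X ⧸ V))) = Nat.card G := by
      have h5 : Subgroup.centralizer ({(1 : X ⧸ V)} : Set (X ⧸ V)) = ⊤ := by
        ext x; simp [Subgroup.mem_centralizer_singleton_iff]
      rw [h5, Subgroup.card_top]
      exact hGV.symm.index_eq_card
    rw [h4] at h3
    exact_mod_cast h3
  have hKc : K.card = Nat.card (ConjClasses G) := by
    have h1 : K.card = Nat.card {χ : IrrCharacter X // ∀ n ∈ V, (χ : X → ℂ) n = (χ : X → ℂ) 1} := by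
      rw [Nat.card_eq_fintype_card, Fintype.card_subtype]
    rw [h1, ← Nat.card_congr (inflEquiv V), card_irr_eq_card_conjClasses]
    have e : X ⧸ V ≃* G := hGV.symm.QuotientMulEquiv
    exact card_conjClasses_congr e
  have hKcomp : (∑ χ ∈ Kᶜ, ∑ g ∈ S, Complex.normSq ((χ : X → ℂ) g)) ≥ S.card * Kᶜ.card := by
    have h1 : ∀ χ ∈ Kᶜ, (S.card : ℝ) ≤ ∑ g ∈ S, Complex.normSq ((χ : X → ℂ) g) := fun χ _ =>
      card_le_sum_normSq (irr_isCharacter χ) S hSpow (hne χ)
    have := Finset.card_nsmul_le_sum Kᶜ _ _ h1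
    rw [nsmul_eq_mul, mul_comm] at this
    exact this
  have htot := Finset.sum_add_sum_compl K (fun χ : IrrCharacter X => ∑ g ∈ S,
    Complex.normSq ((χ : X → ℂ) g))
  rw [hsum, hK1] at htot
  have hcount : K.card + Kᶜ.card = Nat.card (ConjClasses X) := by
    rw [Finset.card_add_card_compl, ← Nat.card_eq_fintype_card, card_irr_eq_card_conjClasses]
  have hS0 : (0 : ℝ) < S.card := by exact_mod_cast hSpos
  have hfin : (Nat.card G : ℝ) + Kᶜ.card ≤ Nat.card (Subgroup.centralizer ({v} : Set X)) := by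
    have h1 : (S.card : ℝ) * (Nat.card G + Kᶜ.card) ≤
        S.card * Nat.card (Subgroup.centralizer ({v} : Set X)) := by
      rw [← htot, mul_add]
      exact add_le_add_right hKcomp _
    exact le_of_mul_le_mul_left h1 hS0
  have hfin' : Nat.card G + Kᶜ.card ≤ Nat.card (Subgroup.centralizer ({v} : Set X)) := by
    exact_mod_cast hfin
  rw [hC] at hfin'
  rw [← hcount, hKc, mul_comm (Nat.card ↥(G ⊓ Subgroup.centralizer ({v} : Set X)))]
  omega

end KGV

end Cfsg.Agent.H75
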