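import Mathlib

/-!
# The numerical part of the determination of the principal `2`-block for `C₂⁴` and inertial index `9`
(owner: helper75)
-/

set_option autoImplicit false
set_option linter.unusedSectionVars false

namespace Cfsg.Agent.H75.NumNine

open Finset

variable {B : Type*} [Fintype B] [DecidableEq B]

/-- one of the two integral projections (times `4`), with positive `a` -/
structure Proj (a : B → ℤ) (T : B → B → ℤ) : Prop where
  pos : ∀ χ, a χ = 1 ∨ a χ = 2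
  symm : ∀ χ ψ, T χ ψ = T ψ χ
  sq : ∀ χ θ, ∑ ψ, T χ ψ * T ψ θ = 4 * T χ θ
  ev : ∀ χ, ∑ ψ, T χ ψ * a ψ = 4 * a χ
  one : ∀ χ, a χ = 1 → 1 ≤ T χ χ
  two : ∀ χ, a χ = 2 → T χ χ = 2
  tr : ∑ χ, T χ χ = 16

theorem sum_one_ne (s : Finset B) (f c : B → ℤ) (hc : ∀ x ∈ s, 1 ≤ c x)
    (h1 : ∑ x ∈ s, f x ^ 2 = 1) : ∑ x ∈ s, f x * c x ≠ 0 := by
  classical
  obtain ⟨x, hx, hfx⟩ : ∃ x ∈ s, f x ≠ 0 := by
    by_contra h
    push Not at h
    rw [Finset.sum_eq_zero fun x hx => by rw [h x hx]; norm_num] at h1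
    norm_num at h1
  have h2 : f x ^ 2 + ∑ y ∈ s.erase x, f y ^ 2 = ∑ y ∈ s, f y ^ 2 :=
    Finset.add_sum_erase s (fun x => f x ^ 2) hx
  have h3 : 0 ≤ ∑ y ∈ s.erase x, f y ^ 2 := Finset.sum_nonneg fun _ _ => sq_nonneg _
  have h4 : 1 ≤ f x ^ 2 := by
    have : 0 < f x ^ 2 := by positivity
    omega
  have h5 : ∑ y ∈ s.erase x, f y ^ 2 = 0 := by omega
  have h6 : ∀ y ∈ s.erase x, f y = 0 := by
    intro y hy
    have := (Finset.sum_eq_zero_iff_of_nonneg fun _ _ => sq_nonneg _).mp h5 y hy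
    exact pow_eq_zero_iff (two_ne_zero) |>.mp this
  rw [← Finset.add_sum_erase s _ hx, Finset.sum_eq_zero fun y hy => by rw [h6 y hy, zero_mul],
    add_zero]
  exact mul_ne_zero hfx (by have := hc x hx; omega)

theorem Proj.row {a : B → ℤ} {T : B → B → ℤ} (h : Proj a T) (χ : B) :
    ∑ ψ, T χ ψ ^ 2 = 4 * T χ χ := by
  rw [← h.sq χ χ]
  refine Finset.sum_congr rfl fun ψ _ => ?_
  rw [h.symm ψ χ, pow_two]

theorem even_sq_sub (t : ℤ) : ∃ m, t ^ 2 - t = 2 * m := by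
  rcases Int.even_or_odd' t with ⟨k, rfl | rfl⟩
  · exact ⟨2 * k ^ 2 - k, by ring⟩
  · exact ⟨2 * k ^ 2 + k, by ring⟩

theorem sq_sub_nonneg (t : ℤ) : 0 ≤ t ^ 2 - t := by
  rcases le_or_gt t 0 with h | h
  · nlinarith
  · nlinarith

theorem sq_sub_eq_zero {t : ℤ} (h : t ^ 2 - t = 0) : t = 0 ∨ t = 1 := by
  have : t * (t - 1) = 0 := by rw [← h]; ring
  rcases mul_eq_zero.mp this with h | h
  · exact Or.inl h
  · exact Or.inr (by omega)

/-- the row of a character with `a = 2` -/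
theorem Proj.row_two {a : B → ℤ} {T : B → B → ℤ} (h : Proj a T) {ξ : B} (hξ : a ξ = 2)
    (h2 : ∀ χ ψ, a χ = 2 → a ψ = 2 → χ ≠ ξ → ψ ≠ ξ → χ = ψ) :
    (∃ ξ', ξ' ≠ ξ ∧ a ξ' = 2 ∧ T ξ ξ' = 2 ∧ ∀ ψ, a ψ = 1 → T ξ ψ = 0) ∨
    ((∀ ξ', ξ' ≠ ξ → a ξ' = 2 → T ξ ξ' = 0) ∧ (∀ ψ, a ψ = 1 → T ξ ψ = 0 ∨ T ξ ψ = 1) ∧
      ∑ ψ ∈ univ.filter (fun ψ => a ψ = 1), T ξ ψ = 4) := by
  have hr := h.row ξ
  have he := h.ev ξ
  have hT := h.two ξ hξ
  rw [hT] at hr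
  rw [hξ] at he
  -- split the sums
  have hsplit : ∀ F : B → ℤ, ∑ ψ, F ψ = F ξ + (∑ ψ ∈ univ.filter (fun ψ => a ψ = 1), F ψ +
      ∑ ψ ∈ univ.filter (fun ψ => a ψ = 2 ∧ ψ ≠ ξ), F ψ) := by
    intro F
    rw [← Finset.add_sum_erase univ F (mem_univ ξ)]
    congr 1
    rw [← Finset.sum_union]
    · refine Finset.sum_congr ?_ fun _ _ => rfl
      ext ψ
      simp only [mem_erase, mem_univ, and_true, mem_union, mem_filter, true_and]
      constructor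
      · intro hne
        rcases h.pos ψ with h1 | h1
        · exact Or.inl h1
        · exact Or.inr ⟨h1, hne⟩
      · rintro (h1 | h1)
        · rintro rfl; omega
        · exact h1.2
    · rw [Finset.disjoint_left]
      intro ψ h1 h2
      rw [mem_filter] at h1 h2
      have := h1.2
      have := h2.2.1
      omega
  rw [hsplit] at hr he
  rw [hT] at hr he
  rw [hξ] at he
  have he1 : ∑ ψ ∈ univ.filter (fun ψ => a ψ = 1), T ξ ψ * a ψ =
      ∑ ψ ∈ univ.filter (fun ψ => a ψ = 1), T ξ ψ := by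
    refine Finset.sum_congr rfl fun ψ hψ => ?_
    rw [(mem_filter.mp hψ).2, mul_one]
  have hdiff : ∑ ψ ∈ univ.filter (fun ψ => a ψ = 1), (T ξ ψ ^ 2 - T ξ ψ) =
      ∑ ψ ∈ univ.filter (fun ψ => a ψ = 1), T ξ ψ ^ 2 -
      ∑ ψ ∈ univ.filter (fun ψ => a ψ = 1), T ξ ψ := by
    rw [Finset.sum_sub_distrib]
  have hev : ∃ m, ∑ ψ ∈ univ.filter (fun ψ => a ψ = 1), (T ξ ψ ^ 2 - T ξ ψ) = 2 * m := by
    choose m hm using fun ψ => even_sq_sub (T ξ ψ)
    exact ⟨∑ ψ ∈ univ.filter (fun ψ => a ψ = 1), m ψ, by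
      rw [Finset.mul_sum]; exact Finset.sum_congr rfl fun ψ _ => hm ψ⟩
  have hnn : 0 ≤ ∑ ψ ∈ univ.filter (fun ψ => a ψ = 1), (T ξ ψ ^ 2 - T ξ ψ) :=
    Finset.sum_nonneg fun ψ _ => sq_sub_nonneg _
  have hS : 0 ≤ ∑ ψ ∈ univ.filter (fun ψ => a ψ = 1), T ξ ψ ^ 2 :=
    Finset.sum_nonneg fun ψ _ => sq_nonneg _
  by_cases hex : ∃ ξ', ξ' ≠ ξ ∧ a ξ' = 2
  · obtain ⟨ξ', hne, hξ'⟩ := hex
    have hset : univ.filter (fun ψ => a ψ = 2 ∧ ψ ≠ ξ) = {ξ'} := by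
      ext ψ
      rw [mem_filter, mem_singleton]
      constructor
      · rintro ⟨-, h1, h3⟩
        exact h2 ψ ξ' h1 hξ' h3 hne
      · rintro rfl
        exact ⟨mem_univ _, hξ', hne⟩
    rw [hset, Finset.sum_singleton] at hr he
    rw [hξ', he1] at he
    obtain ⟨m, hm⟩ := hev
    set t := T ξ ξ' with ht
    set S2 := ∑ ψ ∈ univ.filter (fun ψ => a ψ = 1), T ξ ψ ^ 2 with hS2
    set S1 := ∑ ψ ∈ univ.filter (fun ψ => a ψ = 1), T ξ ψ with hS1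
    have h3 : S2 = 4 - t ^ 2 := by linarith
    have h4 : S1 = 4 - 2 * t := by linarith
    have htb : -2 ≤ t ∧ t ≤ 2 := by constructor <;> nlinarith
    obtain ⟨t1, t2⟩ := htb
    have h5 : 2 * t - t ^ 2 = 2 * m := by rw [← hm, hdiff, h3, h4]; ring
    have h6 : 0 ≤ 2 * t - t ^ 2 := by rw [h5, ← hm]; exact hnn
    have h7 : t = 0 ∨ t = 2 := by
      interval_cases t
      · norm_num at h6
      · norm_num at h6
      · left; rfl
      · omega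
      · right; rfl
    rcases h7 with h7 | h7
    · right
      refine ⟨?_, ?_, ?_⟩
      · intro ξ'' h8 h9
        rw [h2 ξ'' ξ' h9 hξ' h8 hne, ← ht, h7]
      · intro ψ hψ
        have h8 : ∑ ψ ∈ univ.filter (fun ψ => a ψ = 1), (T ξ ψ ^ 2 - T ξ ψ) = 0 := by
          rw [hdiff, h3, h4, h7]; norm_num
        exact sq_sub_eq_zero ((Finset.sum_eq_zero_iff_of_nonneg fun ψ _ => sq_sub_nonneg _).mp h8 ψ
          (mem_filter.mpr ⟨mem_univ _, hψ⟩))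
      · rw [h4, h7]; norm_num
    · left
      refine ⟨ξ', hne, hξ', h7, ?_⟩
      intro ψ hψ
      have h8 : S2 = 0 := by rw [h3, h7]; norm_num
      have := (Finset.sum_eq_zero_iff_of_nonneg fun ψ _ => sq_nonneg _).mp h8 ψ
        (mem_filter.mpr ⟨mem_univ _, hψ⟩)
      exact pow_eq_zero_iff (two_ne_zero) |>.mp this
  · right
    have hset : univ.filter (fun ψ => a ψ = 2 ∧ ψ ≠ ξ) = ∅ := by
      ext ψ
      rw [mem_filter]
      constructor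
      · rintro ⟨-, h1, h3⟩
        exact absurd ⟨ψ, h3, h1⟩ hex
      · intro h; exact absurd h (Finset.notMem_empty _)
    rw [hset, Finset.sum_empty] at hr he
    rw [he1] at he
    refine ⟨fun ξ' h3 h4 => absurd ⟨ξ', h3, h4⟩ hex, ?_, by linarith⟩
    intro ψ hψ
    have h8 : ∑ ψ ∈ univ.filter (fun ψ => a ψ = 1), (T ξ ψ ^ 2 - T ξ ψ) = 0 := by
      rw [hdiff]; linarith
    exact sq_sub_eq_zero ((Finset.sum_eq_zero_iff_of_nonneg fun ψ _ => sq_sub_nonneg _).mp h8 ψ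
      (mem_filter.mpr ⟨mem_univ _, hψ⟩))

/-- the members adjacent to `ξ` have diagonal entry at least two -/
theorem Proj.two_le {a : B → ℤ} {T : B → B → ℤ} (h : Proj a T) {ξ : B} (hξ : a ξ = 2)
    (h0 : ∀ ξ', ξ' ≠ ξ → a ξ' = 2 → T ξ ξ' = 0) (h1 : ∀ ψ, a ψ = 1 → T ξ ψ = 0 ∨ T ξ ψ = 1)
    {e : B} (he : a e = 1) (heξ : T ξ e = 1) : 2 ≤ T e e := by
  by_contra hlt
  have hee : T e e = 1 := by
    have := h.one e he
    omega
  have hr := h.row e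
  have hv := h.ev e
  have hs := h.sq e ξ
  rw [hee] at hr
  rw [he] at hv
  rw [h.symm e ξ, heξ] at hs
  have hne : e ≠ ξ := by rintro rfl; omega
  set Ψ := univ.filter (fun ψ => a ψ = 1 ∧ T ξ ψ = 1 ∧ ψ ≠ e) with hΨ
  set R := univ.filter (fun ψ => ψ ≠ ξ ∧ ψ ≠ e ∧ ¬ (a ψ = 1 ∧ T ξ ψ = 1)) with hR
  have hsplit : ∀ F : B → ℤ, ∑ ψ, F ψ = F ξ + F e + (∑ ψ ∈ Ψ, F ψ + ∑ ψ ∈ R, F ψ) := by
    intro F
    rw [← Finset.add_sum_erase univ F (mem_univ ξ),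
      ← Finset.add_sum_erase (univ.erase ξ) F (mem_erase.mpr ⟨hne, mem_univ e⟩), add_assoc]
    congr 2
    rw [← Finset.sum_union]
    · refine Finset.sum_congr ?_ fun _ _ => rfl
      ext ψ
      simp only [mem_erase, mem_univ, and_true, mem_union, mem_filter, true_and, hΨ, hR]
      constructor
      · rintro ⟨h3, h4⟩
        by_cases h5 : a ψ = 1 ∧ T ξ ψ = 1
        · exact Or.inl ⟨h5.1, h5.2, h3⟩
        · exact Or.inr ⟨h4, h3, h5⟩
      · rintro (h5 | h5)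
        · refine ⟨h5.2.2, ?_⟩
          rintro rfl
          have := h5.1
          omega
        · exact ⟨h5.2.1, h5.1⟩
    · rw [Finset.disjoint_left]
      intro ψ h3 h4
      rw [hΨ, mem_filter] at h3
      rw [hR, mem_filter] at h4
      exact h4.2.2.2 ⟨h3.2.1, h3.2.2.1⟩
  rw [hsplit] at hr hv hs
  rw [hee, h.symm e ξ, heξ] at hr hv
  rw [hee, h.symm e ξ, heξ, h.two ξ hξ] at hs
  rw [hξ, he] at hv
  have h3 : ∑ ψ ∈ Ψ, T e ψ * T ψ ξ = ∑ ψ ∈ Ψ, T e ψ := by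
    refine Finset.sum_congr rfl fun ψ hψ => ?_
    rw [hΨ, mem_filter] at hψ
    rw [h.symm ψ ξ, hψ.2.2.1, mul_one]
  have h4 : ∑ ψ ∈ R, T e ψ * T ψ ξ = 0 := by
    refine Finset.sum_eq_zero fun ψ hψ => ?_
    rw [hR, mem_filter] at hψ
    obtain ⟨-, h5, h6, h7⟩ := hψ
    rw [h.symm ψ ξ]
    rcases h.pos ψ with h8 | h8
    · rcases h1 ψ h8 with h9 | h9
      · rw [h9, mul_zero]
      · exact absurd ⟨h8, h9⟩ h7
    · rw [h0 ψ h5 h8, mul_zero]
  have h5 : ∑ ψ ∈ Ψ, T e ψ * a ψ = ∑ ψ ∈ Ψ, T e ψ := by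
    refine Finset.sum_congr rfl fun ψ hψ => ?_
    rw [hΨ, mem_filter] at hψ
    rw [hψ.2.1, mul_one]
  rw [h3, h4] at hs
  rw [h5] at hv
  have h6 : ∑ ψ ∈ Ψ, T e ψ = 1 := by linarith
  have h7 : ∑ ψ ∈ R, T e ψ * a ψ = 0 := by linarith
  have h8 : ∃ m, ∑ ψ ∈ Ψ, (T e ψ ^ 2 - T e ψ) = 2 * m := by
    choose m hm using fun ψ => even_sq_sub (T e ψ)
    exact ⟨∑ ψ ∈ Ψ, m ψ, by
      rw [Finset.mul_sum]; exact Finset.sum_congr rfl fun ψ _ => hm ψ⟩
  obtain ⟨m, hm⟩ := h8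
  rw [Finset.sum_sub_distrib, h6] at hm
  have h9 : 0 ≤ ∑ ψ ∈ Ψ, T e ψ ^ 2 := Finset.sum_nonneg fun ψ _ => sq_nonneg _
  have h10 : 0 ≤ ∑ ψ ∈ R, T e ψ ^ 2 := Finset.sum_nonneg fun ψ _ => sq_nonneg _
  have h11 : ∑ ψ ∈ R, T e ψ ^ 2 = 1 := by omega
  exact sum_one_ne R (fun ψ => T e ψ) a (fun ψ _ => by rcases h.pos ψ with h | h <;> omega) h11 h7

theorem Proj.sum_two {a : B → ℤ} {T : B → B → ℤ} (h : Proj a T) {ξ : B} (hξ : a ξ = 2)
    (h2 : ∀ χ ψ, a χ = 2 → a ψ = 2 → χ ≠ ξ → ψ ≠ ξ → χ = ψ) (h16 : ∑ χ, a χ ^ 2 = 16) :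
    ∃ ξ', ξ' ≠ ξ ∧ a ξ' = 2 ∧ T ξ ξ' = 2 ∧ ∀ ψ, a ψ = 1 → T ξ ψ = 0 := by
  rcases h.row_two hξ h2 with h3 | ⟨h3, h4, h5⟩
  · exact h3
  exfalso
  have htr := h.tr
  have hsplit : ∀ F : B → ℤ, ∑ ψ, F ψ = F ξ + (∑ ψ ∈ univ.filter (fun ψ => a ψ = 1), F ψ +
      ∑ ψ ∈ univ.filter (fun ψ => a ψ = 2 ∧ ψ ≠ ξ), F ψ) := by
    intro F
    rw [← Finset.add_sum_erase univ F (mem_univ ξ)]
    congr 1
    rw [← Finset.sum_union]
    · refine Finset.sum_congr ?_ fun _ _ => rfl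
      ext ψ
      simp only [mem_erase, mem_univ, and_true, mem_union, mem_filter, true_and]
      constructor
      · intro hne
        rcases h.pos ψ with h1 | h1
        · exact Or.inl h1
        · exact Or.inr ⟨h1, hne⟩
      · rintro (h1 | h1)
        · rintro rfl; omega
        · exact h1.2
    · rw [Finset.disjoint_left]
      intro ψ h1 h2
      rw [mem_filter] at h1 h2
      have := h1.2
      have := h2.2.1
      omega
  rw [hsplit] at htr h16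
  rw [h.two ξ hξ] at htr
  rw [hξ] at h16
  have hle : ∀ ψ ∈ univ.filter (fun ψ => a ψ = 1), 1 + T ξ ψ ≤ T ψ ψ := by
    intro ψ hψ
    have h6 := (mem_filter.mp hψ).2
    rcases h4 ψ h6 with h7 | h7
    · rw [h7, add_zero]; exact h.one ψ h6
    · rw [h7]; exact h.two_le hξ h3 h4 h6 h7
  have hc : ∑ ψ ∈ univ.filter (fun ψ => a ψ = 1), a ψ ^ 2 =
      ∑ _ψ ∈ univ.filter (fun ψ => a ψ = 1), (1 : ℤ) :=
    Finset.sum_congr rfl fun ψ hψ => by rw [(mem_filter.mp hψ).2]; norm_num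
  by_cases hex : ∃ ξ', ξ' ≠ ξ ∧ a ξ' = 2
  · obtain ⟨ξ', hne, hξ'⟩ := hex
    have hset : univ.filter (fun ψ => a ψ = 2 ∧ ψ ≠ ξ) = {ξ'} := by
      ext ψ
      rw [mem_filter, mem_singleton]
      constructor
      · rintro ⟨-, h1, h3⟩
        exact h2 ψ ξ' h1 hξ' h3 hne
      · rintro rfl
        exact ⟨mem_univ _, hξ', hne⟩
    rw [hset, Finset.sum_singleton] at htr h16
    rw [h.two ξ' hξ'] at htr
    rw [hξ'] at h16
    have h2' : ∀ χ ψ, a χ = 2 → a ψ = 2 → χ ≠ ξ' → ψ ≠ ξ' → χ = ψ := by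
      intro χ ψ h6 h7 h8 h9
      by_cases h10 : χ = ξ
      · by_cases h11 : ψ = ξ
        · rw [h10, h11]
        · exact absurd (h2 ψ ξ' h7 hξ' h11 hne) h9
      · exact absurd (h2 χ ξ' h6 hξ' h10 hne) h8
    rcases h.row_two hξ' h2' with ⟨ξ'', h6, h7, h8, h9⟩ | ⟨h6, h7, h8⟩
    · -- `T ξ' ξ = 0`
      by_cases h10 : ξ'' = ξ
      · rw [h10, h.symm, h3 ξ' hne hξ'] at h8
        norm_num at h8
      · exact absurd (h2 ξ'' ξ' h7 hξ' h10 hne) h6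
    · have hle' : ∀ ψ ∈ univ.filter (fun ψ => a ψ = 1), 1 + T ξ' ψ ≤ T ψ ψ := by
        intro ψ hψ
        have h6' := (mem_filter.mp hψ).2
        rcases h7 ψ h6' with h7' | h7'
        · rw [h7', add_zero]; exact h.one ψ h6'
        · rw [h7']; exact h.two_le hξ' h6 h7 h6' h7'
      -- disjointness
      have hd := h.sq ξ ξ'
      rw [h3 ξ' hne hξ', mul_zero, hsplit, hset, Finset.sum_singleton, h3 ξ' hne hξ', zero_mul,
        mul_zero, zero_add, add_zero] at hd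
      have hd' : ∀ ψ, a ψ = 1 → T ξ ψ * T ξ' ψ = 0 := by
        intro ψ hψ
        have := (Finset.sum_eq_zero_iff_of_nonneg fun ψ hψ => by
          have h8' := (mem_filter.mp hψ).2
          rw [h.symm ψ ξ']
          rcases h4 ψ h8' with h9 | h9 <;> rcases h7 ψ h8' with h10 | h10 <;> rw [h9, h10] <;>
            norm_num).mp hd ψ (mem_filter.mpr ⟨mem_univ _, hψ⟩)
        rwa [h.symm ψ ξ'] at this
      have hle2 : ∀ ψ ∈ univ.filter (fun ψ => a ψ = 1), 1 + T ξ ψ + T ξ' ψ ≤ T ψ ψ := by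
        intro ψ hψ
        have h6' := (mem_filter.mp hψ).2
        rcases mul_eq_zero.mp (hd' ψ h6') with h9 | h9
        · rw [h9, add_zero]; exact hle' ψ hψ
        · rw [h9, add_zero]; exact hle ψ hψ
      have h10 := Finset.sum_le_sum hle2
      rw [Finset.sum_add_distrib, Finset.sum_add_distrib, h5, h8, ← hc] at h10
      linarith
  · have hset : univ.filter (fun ψ => a ψ = 2 ∧ ψ ≠ ξ) = ∅ := by
      ext ψ
      rw [mem_filter]
      constructor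
      · rintro ⟨-, h1, h3⟩
        exact absurd ⟨ψ, h3, h1⟩ hex
      · intro h; exact absurd h (Finset.notMem_empty _)
    rw [hset, Finset.sum_empty] at htr h16
    have h10 := Finset.sum_le_sum hle
    rw [Finset.sum_add_distrib, h5, ← hc] at h10
    linarith

/-- two projections: no member has `a = 2` -/
theorem no_two {a : B → ℤ} {T U : B → B → ℤ} (h : Proj a T) (h' : Proj a U)
    (hTU : ∀ χ θ, ∑ ψ, T χ ψ * U ψ θ = a χ * a θ) (h16 : ∑ χ, a χ ^ 2 = 16)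
    (hcard : 9 ≤ Fintype.card B) : ∀ χ, a χ = 1 := by
  classical
  -- at most two members with `a = 2`
  have hcnt : (univ.filter (fun ψ => a ψ = 2)).card ≤ 2 := by
    have h1 : ∑ χ : B, (a χ ^ 2 - 1) = 16 - (Fintype.card B : ℤ) := by
      rw [Finset.sum_sub_distrib, h16, Finset.sum_const, Finset.card_univ, nsmul_eq_mul, mul_one]
    have h2 : ∑ χ : B, (a χ ^ 2 - 1) = ∑ χ ∈ univ.filter (fun ψ => a ψ = 2), (3 : ℤ) := by
      rw [Finset.sum_filter]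
      refine Finset.sum_congr rfl fun χ _ => ?_
      rcases h.pos χ with h3 | h3 <;> rw [h3] <;> norm_num
    rw [h1, Finset.sum_const, nsmul_eq_mul] at h2
    have h3 : (9 : ℤ) ≤ Fintype.card B := by exact_mod_cast hcard
    have h4 : ((univ.filter (fun ψ => a ψ = 2)).card : ℤ) ≤ 2 := by linarith
    exact_mod_cast h4
  have huniq : ∀ ξ, a ξ = 2 → ∀ χ ψ, a χ = 2 → a ψ = 2 → χ ≠ ξ → ψ ≠ ξ → χ = ψ := by
    intro ξ hξ χ ψ h1 h2 h3 h4
    by_contra h5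
    have h6 : ({ξ, χ, ψ} : Finset B) ⊆ univ.filter (fun ψ => a ψ = 2) := by
      intro x hx
      simp only [mem_insert, mem_singleton] at hx
      rw [mem_filter]
      refine ⟨mem_univ _, ?_⟩
      rcases hx with rfl | rfl | rfl <;> assumption
    have h7 := Finset.card_le_card h6
    rw [Finset.card_eq_three.mpr ⟨ξ, χ, ψ, Ne.symm h3, Ne.symm h4, h5, rfl⟩] at h7
    omega
  intro ξ
  rcases h.pos ξ with hξ | hξ
  · exact hξ
  exfalso
  obtain ⟨ξ', hne, hξ', hT, hT0⟩ := h.sum_two hξ (huniq ξ hξ) h16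
  obtain ⟨ξ₂, hne₂, hξ₂, hU, hU0⟩ := h'.sum_two hξ (huniq ξ hξ) h16
  obtain ⟨ξ₃, hne₃, hξ₃, hU3, hU03⟩ := h'.sum_two hξ' (huniq ξ' hξ') h16
  -- a member with `a = 1`
  obtain ⟨ψ, hψ⟩ : ∃ ψ, a ψ = 1 := by
    by_contra hno
    push Not at hno
    have h1 : univ.filter (fun ψ => a ψ = 2) = univ := by
      rw [Finset.filter_eq_self]
      intro x _
      rcases h.pos x with h2 | h2
      · exact absurd h2 (hno x)
      · exact h2
    rw [h1, Finset.card_univ] at hcnt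
    omega
  have h1 := hTU ξ ψ
  rw [Finset.sum_eq_zero] at h1
  · rw [hξ, hψ] at h1; norm_num at h1
  · intro φ _
    rcases h.pos φ with h2 | h2
    · rw [hT0 φ h2, zero_mul]
    · by_cases h3 : φ = ξ
      · rw [h3, hU0 ψ hψ, mul_zero]
      · rw [huniq ξ hξ φ ξ' h2 hξ' h3 hne, hU03 ψ hψ, mul_zero]

/-- **the numerical theorem** -/
theorem card_eq {a : B → ℤ} {T U : B → B → ℤ} (ha : ∀ χ, a χ ≠ 0)
    (hTs : ∀ χ ψ, T χ ψ = T ψ χ) (hUs : ∀ χ ψ, U χ ψ = U ψ χ)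
    (hT2 : ∀ χ θ, ∑ ψ, T χ ψ * T ψ θ = 4 * T χ θ)
    (hU2 : ∀ χ θ, ∑ ψ, U χ ψ * U ψ θ = 4 * U χ θ)
    (hTU : ∀ χ θ, ∑ ψ, T χ ψ * U ψ θ = a χ * a θ)
    (hT : ∀ χ, a χ ^ 2 < 4 * T χ χ) (hU : ∀ χ, a χ ^ 2 < 4 * U χ χ)
    (hS : ∀ χ, 4 * (T χ χ + U χ χ) < 16 + a χ ^ 2)
    (h16 : ∑ χ, a χ ^ 2 = 16) (htT : ∑ χ, T χ χ = 16) (htU : ∑ χ, U χ χ = 16)
    (hcard : 9 ≤ Fintype.card B) : Fintype.card B = 16 := by
  classical
  -- the absolute values
  have hb : ∀ χ, |a χ| = 1 ∨ |a χ| = 2 := by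
    intro χ
    have h1 := hT χ
    have h2 := hU χ
    have h3 := hS χ
    have h4 : a χ ^ 2 < 16 := by linarith
    have h5 : -4 < a χ ∧ a χ < 4 := by constructor <;> nlinarith
    have h6 : a χ ≠ 3 ∧ a χ ≠ -3 := by
      have h7 : a χ ^ 2 ≤ 8 := by
        rw [← Finset.add_sum_erase univ _ (mem_univ χ)] at h16
        have h8 : ∑ x ∈ univ.erase χ, (1 : ℤ) ≤ ∑ x ∈ univ.erase χ, a x ^ 2 := by
          refine Finset.sum_le_sum fun x _ => ?_
          have h9 := ha x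
          have : 0 < a x ^ 2 := by positivity
          omega
        rw [Finset.sum_const, Finset.card_erase_of_mem (mem_univ χ), Finset.card_univ,
          nsmul_eq_mul, mul_one] at h8
        have h9 : (8 : ℤ) ≤ ((Fintype.card B - 1 : ℕ) : ℤ) := by
          have : 8 ≤ Fintype.card B - 1 := by omega
          exact_mod_cast this
        linarith
      constructor
      · intro h8; rw [h8] at h7; norm_num at h7
      · intro h8; rw [h8] at h7; norm_num at h7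
    obtain ⟨h7, h8⟩ := h6
    have h9 := ha χ
    obtain ⟨h10, h11⟩ := h5
    have h12 : a χ = 1 ∨ a χ = 2 ∨ a χ = -1 ∨ a χ = -2 := by omega
    rcases h12 with h | h | h | h <;> rw [h] <;> norm_num
  obtain ⟨s, hs⟩ : ∃ s : B → ℤ, ∀ χ, s χ = SignType.sign (a χ) := ⟨_, fun _ => rfl⟩
  have hs2 : ∀ χ, s χ * s χ = 1 := by
    intro χ
    rw [hs]
    rcases lt_trichotomy (a χ) 0 with h | h | h
    · rw [sign_neg h]; norm_num
    · exact absurd h (ha χ)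
    · rw [sign_pos h]; norm_num
  have hsa : ∀ χ, s χ * a χ = |a χ| := by
    intro χ
    rw [hs]
    exact sign_mul_self (a χ)
  have hsum : ∀ (F K : B → B → ℤ) (χ θ : B), ∑ ψ, (s χ * s ψ * F χ ψ) * (s ψ * s θ * K ψ θ) =
      s χ * s θ * ∑ ψ, F χ ψ * K ψ θ := by
    intro F K χ θ
    rw [Finset.mul_sum]
    refine Finset.sum_congr rfl fun ψ _ => ?_
    calc (s χ * s ψ * F χ ψ) * (s ψ * s θ * K ψ θ) = (s ψ * s ψ) * (s χ * s θ * (F χ ψ * K ψ θ)) := by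
          ring
      _ = _ := by rw [hs2, one_mul]
  have hev : ∀ (F K : B → B → ℤ), (∀ χ θ, ∑ ψ, F χ ψ * F ψ θ = 4 * F χ θ) →
      (∀ χ θ, ∑ ψ, F χ ψ * K ψ θ = a χ * a θ) → ∀ χ, ∑ ψ, F χ ψ * a ψ = 4 * a χ := by
    intro F K hF hFK χ
    have h1 : ∑ φ, F χ φ * (∑ ψ, F φ ψ * K ψ χ) = ∑ ψ, (∑ φ, F χ φ * F φ ψ) * K ψ χ := by
      simp only [Finset.mul_sum, Finset.sum_mul]
      rw [Finset.sum_comm]
      exact Finset.sum_congr rfl fun _ _ => Finset.sum_congr rfl fun _ _ => by ring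
    simp only [hFK, hF] at h1
    have h2 : (∑ φ, F χ φ * a φ) * a χ = (4 * a χ) * a χ := by
      calc (∑ φ, F χ φ * a φ) * a χ = ∑ φ, F χ φ * (a φ * a χ) := by
            rw [Finset.sum_mul]; exact Finset.sum_congr rfl fun _ _ => by ring
        _ = ∑ ψ, 4 * F χ ψ * K ψ χ := h1
        _ = 4 * ∑ ψ, F χ ψ * K ψ χ := by
            rw [Finset.mul_sum]; exact Finset.sum_congr rfl fun _ _ => by ring
        _ = _ := by rw [hFK]; ring
    exact mul_right_cancel₀ (ha χ) h2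
  have hUT : ∀ χ θ, ∑ ψ, U χ ψ * T ψ θ = a χ * a θ := by
    intro χ θ
    rw [mul_comm (a χ), ← hTU θ χ]
    exact Finset.sum_congr rfl fun ψ _ => by rw [hTs θ ψ, hUs ψ χ, mul_comm]
  have key : ∀ (F K : B → B → ℤ), (∀ χ ψ, F χ ψ = F ψ χ) → (∀ χ θ, ∑ ψ, F χ ψ * F ψ θ = 4 * F χ θ) →
      (∀ χ θ, ∑ ψ, F χ ψ * K ψ θ = a χ * a θ) → (∀ χ, a χ ^ 2 < 4 * F χ χ) →
      (∀ χ, a χ ^ 2 < 4 * K χ χ) → (∀ χ, 4 * (F χ χ + K χ χ) < 16 + a χ ^ 2) →
      ∑ χ, F χ χ = 16 → Proj (fun χ => |a χ|) (fun χ ψ => s χ * s ψ * F χ ψ) := by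
    intro F K hFs hF2 hFK hF hK hFK2 htr
    have hd : ∀ χ, s χ * s χ * F χ χ = F χ χ := fun χ => by rw [hs2, one_mul]
    refine ⟨hb, ?_, ?_, ?_, ?_, ?_, ?_⟩
    · intro χ ψ; rw [hFs χ ψ]; ring
    · intro χ θ; rw [hsum, hF2]; ring
    · intro χ
      have h1 := hev F K hF2 hFK χ
      calc ∑ ψ, s χ * s ψ * F χ ψ * |a ψ| = ∑ ψ, s χ * (F χ ψ * a ψ) := by
            refine Finset.sum_congr rfl fun ψ _ => ?_
            rw [← hsa ψ]
            calc s χ * s ψ * F χ ψ * (s ψ * a ψ) = (s ψ * s ψ) * (s χ * (F χ ψ * a ψ)) := by ring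
              _ = _ := by rw [hs2, one_mul]
        _ = s χ * (4 * a χ) := by rw [← Finset.mul_sum, h1]
        _ = _ := by rw [← hsa χ]; ring
    · intro χ h1
      rw [hd]
      have h2 := hF χ
      rw [← sq_abs, h1] at h2
      omega
    · intro χ h1
      rw [hd]
      have h2 := hF χ
      have h3 := hK χ
      have h4 := hFK2 χ
      rw [← sq_abs, h1] at h2 h3 h4
      omega
    · simp only [hd]; exact htr
  have hP := key T U hTs hT2 hTU hT hU hS htT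
  have hQ := key U T hUs hU2 hUT hU hT (fun χ => by rw [add_comm (U χ χ)]; exact hS χ) htU
  have h1 := no_two hP hQ (fun χ θ => by
    rw [hsum, hTU, ← hsa χ, ← hsa θ]; ring) (by simp only [sq_abs]; exact h16) hcard
  have h2 : ∑ χ, a χ ^ 2 = Fintype.card B := by
    rw [Finset.sum_congr rfl fun χ _ => by rw [← sq_abs, h1 χ, one_pow], Finset.sum_const,
      Finset.card_univ, nsmul_eq_mul, mul_one]
  rw [h2] at h16
  exact_mod_cast h16

end Cfsg.Agent.H75.NumNine
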