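import Cfsg.Agent.BlkC.Contrib
import Cfsg.Agent.Char.Galois
import Cfsg.Agent.Coh.Basic
import Cfsg.Agent.H75.Tools

/-!
# `p`-conjugate characters (owner: helper75)
-/

set_option autoImplicit false
set_option linter.style.haveILetI false
set_option linter.unusedSectionVars false

namespace Cfsg.Agent.H75

open scoped ComplexConjugate
open Cfsg Cfsg.Agent.CharBase Cfsg.Agent.Char Cfsg.Agent.Blk Cfsg.Agent.BlkC

universe u

section

variable {G : Type u} [Group G] [Fintype G] {p : ℕ} [hp : Fact p.Prime]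

theorem fix_roots {n : ℕ} (hn : n ≠ 0) {σ : ℂ ≃+* ℂ}
    (hσ : σ (Complex.exp (2 * Real.pi * Complex.I / n)) = Complex.exp (2 * Real.pi * Complex.I / n))
    (ζ : ℂ) (hζ : ζ ^ n = 1) : σ ζ = ζ := by
  haveI : NeZero n := ⟨hn⟩
  obtain ⟨i, -, rfl⟩ := (Complex.isPrimitiveRoot_exp n hn).eq_pow_of_pow_eq_one hζ
  rw [map_pow, hσ]

theorem gp'_ne_zero : gp' G p ≠ 0 := by
  intro h
  have h1 := ppow_mul_gp' (G := G) (p := p)
  rw [h, mul_zero] at h1
  exact Nat.card_pos.ne' h1.symm

theorem orderOf_dvd_gp' {g : G} (hg : ¬ p ∣ orderOf g) : orderOf g ∣ gp' G p := by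
  have h3 : orderOf g ∣ p ^ (Nat.card G).factorization p * gp' G p := by
    rw [ppow_mul_gp']; exact orderOf_dvd_natCard g
  refine Nat.Coprime.dvd_of_dvd_mul_left ?_ h3
  exact Nat.Coprime.pow_right _ ((Nat.Prime.coprime_iff_not_dvd hp.out).mpr hg).symm

theorem map_eq_of_reg {σ : ℂ ≃+* ℂ} (hσ : σ (Complex.exp (2 * Real.pi * Complex.I / (gp' G p : ℕ))) =
    Complex.exp (2 * Real.pi * Complex.I / (gp' G p : ℕ))) {χ : G → ℂ} (hχ : IsCharacter G χ) {g : G}
    (hg : ¬ p ∣ orderOf g) : σ (χ g) = χ g := by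
  have h1 := map_char_eq (k := 1) hχ g (orderOf_dvd_gp' hg) σ
    (fun ζ hζ => by rw [pow_one]; exact fix_roots gp'_ne_zero hσ ζ hζ)
  rwa [pow_one] at h1

theorem Nreg_self_pos (χ : IrrCharacter G) : 0 < Nreg p χ χ := by
  classical
  have h1 := Nreg_spec (p := p) χ χ
  have h2 : 0 < (regInner p (χ : G → ℂ) (χ : G → ℂ)).re := by
    unfold regInner
    have h3 : ∀ g : G, (χ : G → ℂ) g * regConj p (χ : G → ℂ) g =
        ((if p ∣ orderOf g then 0 else Complex.normSq ((χ : G → ℂ) g) : ℝ) : ℂ) := by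
      intro g
      unfold regConj
      by_cases h : p ∣ orderOf g
      · simp [h]
      · simp [h, Complex.mul_conj]
    rw [Finset.sum_congr rfl fun g _ => h3 g, ← Complex.ofReal_sum, ← Complex.ofReal_natCast,
      ← Complex.ofReal_inv, ← Complex.ofReal_mul, Complex.ofReal_re]
    refine mul_pos (inv_pos.mpr (by exact_mod_cast Nat.card_pos)) ?_
    refine Finset.sum_pos' (fun g _ => ?_) ⟨1, Finset.mem_univ _, ?_⟩
    · split_ifs
      · exact le_rfl
      · exact Complex.normSq_nonneg _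
    · rw [if_neg (by simpa using hp.out.one_lt.ne')]
      exact Complex.normSq_pos.mpr (irr_one_ne_zero χ.2)
  have h4 : (0 : ℝ) < (Nreg p χ χ : ℝ) := by
    have h5 : ((Nreg p χ χ : ℤ) : ℂ).re = (Nreg p χ χ : ℝ) := by simp
    rw [← h5, ← h1]
    have h6 : (((p ^ (Nat.card G).factorization p : ℕ) : ℂ) *
        regInner p (χ : G → ℂ) (χ : G → ℂ)).re =
        ((p ^ (Nat.card G).factorization p : ℕ) : ℝ) * (regInner p (χ : G → ℂ) (χ : G → ℂ)).re := by
      rw [← Complex.ofReal_natCast, Complex.re_ofReal_mul]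
    rw [h6]
    exact mul_pos (by exact_mod_cast pow_pos hp.out.pos _) h2
  exact_mod_cast h4

/-- Bessel: a family of `r` distinct irreducible characters which agree on `p`-regular elements. -/
theorem bessel_reg (χ : IrrCharacter G) (S : Finset (IrrCharacter G))
    (hS : ∀ ψ ∈ S, ∀ g : G, ¬ p ∣ orderOf g → (ψ : G → ℂ) g = (χ : G → ℂ) g) :
    (S.card : ℤ) * Nreg p χ χ ≤ (p : ℤ) ^ (Nat.card G).factorization p ∧
    ((S.card : ℤ) * Nreg p χ χ = (p : ℤ) ^ (Nat.card G).factorization p →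
      ∀ g : G, p ∣ orderOf g → ∑ ψ ∈ S, (ψ : G → ℂ) g = 0) := by
  classical
  set c : ℂ := regInner p (χ : G → ℂ) (χ : G → ℂ) with hc
  set Θ : G → ℂ := ∑ ψ ∈ S, (ψ : G → ℂ) with hΘ
  set f : G → ℂ := pRegularPart p (χ : G → ℂ) with hf
  have hN := Nreg_spec (p := p) χ χ
  rw [← hc] at hN
  have hNpos := Nreg_self_pos (p := p) χ
  set N := Nreg p χ χ with hNdef
  have hcc : conj c = c := by rw [hc, regInner_conj]
  -- inner products
  have h1 : classInner f f = c := classInner_pRegularPart_both _ _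
  have h2 : ∀ ψ ∈ S, classInner f (ψ : G → ℂ) = c := by
    intro ψ hψ
    rw [hf, hc, regInner, classInner]
    congr 1
    refine Finset.sum_congr rfl fun g _ => ?_
    unfold pRegularPart IsPRegular regConj
    by_cases h : p ∣ orderOf g
    · simp [h]
    · simp [h, hS ψ hψ g h]
  have h3 : classInner f Θ = S.card * c := by
    rw [hΘ, classInner_sum_right, Finset.sum_congr rfl h2, Finset.sum_const, nsmul_eq_mul]
  have h4 : classInner Θ f = S.card * c := by
    rw [← CharBase.classInner_conj_symm, h3, map_mul, Complex.conj_natCast, hcc]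
  have h5 : classInner Θ Θ = S.card := by
    rw [hΘ, classInner_sum_left]
    have : ∀ ψ ∈ S, classInner (ψ : G → ℂ) (∑ φ ∈ S, (φ : G → ℂ)) = 1 := by
      intro ψ hψ
      rw [classInner_sum_right]
      rw [Finset.sum_eq_single_of_mem ψ hψ fun φ _ hφ => classInner_irr_of_ne (Ne.symm hφ)]
      exact classInner_irr_self ψ
    rw [Finset.sum_congr rfl this, Finset.sum_const, nsmul_eq_mul, mul_one]
  have h6 : classInner (f - c • Θ) (f - c • Θ) = c - S.card * c ^ 2 := by
    rw [classInner_sub_left, classInner_sub_right, classInner_sub_right, classInner_smul_left,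
      classInner_smul_left, classInner_smul_right, classInner_smul_right, h1, h3, h4, h5, hcc]
    ring
  have hq : ((p ^ (Nat.card G).factorization p : ℕ) : ℝ) ≠ 0 := by
    exact_mod_cast (pow_pos hp.out.pos _).ne'
  have hqpos : (0 : ℝ) < ((p ^ (Nat.card G).factorization p : ℕ) : ℝ) := by
    exact_mod_cast (pow_pos hp.out.pos _)
  set q : ℝ := ((p ^ (Nat.card G).factorization p : ℕ) : ℝ) with hqdef
  have hcq : c = (((N : ℝ) / q : ℝ) : ℂ) := by
    have hq' : (q : ℂ) = ((p ^ (Nat.card G).factorization p : ℕ) : ℂ) := by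
      rw [hqdef]; push_cast; rfl
    rw [← hq'] at hN
    have hq'' : (q : ℂ) ≠ 0 := by exact_mod_cast hq
    push_cast
    rw [eq_div_iff hq'', mul_comm]
    exact hN
  have h7 : classInner (f - c • Θ) (f - c • Θ) =
      (((N : ℝ) / q - S.card * ((N : ℝ) / q) ^ 2 : ℝ) : ℂ) := by
    rw [h6, hcq]; push_cast; ring
  have h8 := Cfsg.Agent.Coh.classInner_self_re_nonneg (f - c • Θ)
  rw [h7, Complex.ofReal_re] at h8
  have hNR : (0 : ℝ) < (N : ℝ) := by exact_mod_cast hNpos
  constructor
  · have h9 : 0 ≤ (N : ℝ) / q * (q - S.card * N) := by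
      have : (N : ℝ) / q * (q - S.card * N) = q * ((N : ℝ) / q - S.card * ((N : ℝ) / q) ^ 2) := by
        field_simp
      rw [this]
      exact mul_nonneg hqpos.le h8
    have h10 : 0 ≤ q - S.card * N := nonneg_of_mul_nonneg_right h9 (div_pos hNR hqpos)
    have h11 : (S.card : ℝ) * N ≤ q := by linarith
    rw [hqdef] at h11
    exact_mod_cast h11
  · intro heq g hg
    have h9 : (S.card : ℝ) * N = q := by
      rw [hqdef]; exact_mod_cast heq
    have h10 : (N : ℝ) / q - S.card * ((N : ℝ) / q) ^ 2 = 0 := by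
      have : (N : ℝ) / q - S.card * ((N : ℝ) / q) ^ 2 = (N : ℝ) / q ^ 2 * (q - S.card * N) := by
        field_simp
      rw [this, h9]; ring
    rw [h10, Complex.ofReal_zero] at h7
    have h11 := Cfsg.Agent.Coh.eq_zero_of_classInner_self h7
    have h12 := congrFun h11 g
    rw [Pi.sub_apply, Pi.smul_apply, smul_eq_mul, Pi.zero_apply] at h12
    have h13 : f g = 0 := by rw [hf]; unfold pRegularPart IsPRegular; simp [hg]
    rw [h13, zero_sub, neg_eq_zero] at h12
    have hc0 : c ≠ 0 := by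
      rw [hcq]
      exact_mod_cast (div_pos hNR hqpos).ne'
    have h14 := (mul_eq_zero.mp h12).resolve_left hc0
    rw [hΘ, Finset.sum_apply] at h14
    exact h14

end

end Cfsg.Agent.H75
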