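import Cfsg.Agent.H4.RankLoc
import Cfsg.Agent.H74.Prin2

/-!
# Contributions of sections to inner products in the principal block (owner: helper75)
-/

set_option autoImplicit false
set_option linter.style.haveILetI false
set_option linter.unusedSectionVars false

namespace Cfsg.Agent.H75.PS

open scoped ComplexConjugate
open Cfsg Cfsg.Agent.CharBase Cfsg.Agent.Blk Cfsg.Agent.BlkInd Cfsg.Agent.BlkC Cfsg.Agent.H4

universe u

variable {G : Type u} [Group G] [Fintype G] {p : ℕ} [hp : Fact p.Prime] {M : Ideal AlgInt}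

open Classical in
variable (p) in
/-- the contribution of the section of `x` to the inner product of `χ` and `ψ` -/
noncomputable def ms (x : G) (χ ψ : G → ℂ) : ℂ :=
  (Nat.card G : ℂ)⁻¹ * ∑ g : G, (if ∃ h : G, IsPPart p g (h * x * h⁻¹) then
    χ g * conj (ψ g) else 0)

theorem ms_conj (x : G) (χ ψ : G → ℂ) : conj (ms p x χ ψ) = ms p x ψ χ := by
  classical
  unfold ms
  rw [map_mul, map_inv₀, Complex.conj_natCast, map_sum]
  congr 1
  refine Finset.sum_congr rfl fun g _ => ?_
  split_ifs with h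
  · rw [map_mul, Complex.conj_conj, mul_comm]
  · exact map_zero _

theorem ms_congr {x y : G} (h : IsConj x y) (χ ψ : G → ℂ) : ms p x χ ψ = ms p y χ ψ := by
  classical
  obtain ⟨c, rfl⟩ := isConj_iff.mp h
  unfold ms
  congr 1
  refine Finset.sum_congr rfl fun g _ => ?_
  have : (∃ h : G, IsPPart p g (h * x * h⁻¹)) ↔ ∃ h : G, IsPPart p g (h * (c * x * c⁻¹) * h⁻¹) := by
    constructor
    · rintro ⟨h, hh⟩
      refine ⟨h * c⁻¹, ?_⟩
      have e : h * c⁻¹ * (c * x * c⁻¹) * (h * c⁻¹)⁻¹ = h * x * h⁻¹ := by group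
      rwa [e]
    · rintro ⟨h, hh⟩
      refine ⟨h * c, ?_⟩
      have e : h * c * x * (h * c)⁻¹ = h * (c * x * c⁻¹) * h⁻¹ := by group
      rwa [e]
  simp only [this]

section prin

variable [hMp : M.IsPrime]

/-- the contribution is the contribution of the principal subsection -/
theorem ms_eq_sc (hM : IsPModular p M) {x : G} (hx : ∃ k : ℕ, orderOf x = p ^ k)
    [Fintype (Subgroup.centralizer ({x} : Set G))]
    {χ ψ : IrrCharacter G} (hχ : χ ∈ principalBlock M G) (hψ : ψ ∈ principalBlock M G) :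
    ms p x (χ : G → ℂ) (ψ : G → ℂ) =
      sc p x (principalBlock M (Subgroup.centralizer ({x} : Set G))) (χ : G → ℂ) (ψ : G → ℂ) := by
  classical
  have h1 := sum_indB_sc hM hx (C := Subgroup.centralizer ({x} : Set G)) rfl
    (BlkC.isPBlock_principalBlock (G := G) M) hχ hψ
  rw [indB_principal hM hx, Finset.sum_singleton] at h1
  rw [h1]
  unfold ms
  congr 1

theorem induced_principal (hM : IsPModular p M) {x : G} (hx : ∃ k : ℕ, orderOf x = p ^ k) :
    IsInducedBlock M (Subgroup.centralizer ({x} : Set G))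
      (principalBlock M (Subgroup.centralizer ({x} : Set G))) (principalBlock M G) := by
  rw [← mem_indB, indB_principal hM hx, Finset.mem_singleton]

theorem ms_idem (hM : IsPModular p M) {x : G} (hx : ∃ k : ℕ, orderOf x = p ^ k)
    {χ θ : IrrCharacter G} (hχ : χ ∈ principalBlock M G) (hθ : θ ∈ principalBlock M G) :
    ∑ ψ ∈ Bfin (principalBlock M G), ms p x (χ : G → ℂ) (ψ : G → ℂ) * ms p x (ψ : G → ℂ) (θ : G → ℂ) =
      ms p x (χ : G → ℂ) (θ : G → ℂ) := by
  haveI := Fintype.ofFinite (Subgroup.centralizer ({x} : Set G))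
  rw [ms_eq_sc hM hx hχ hθ, ← sum_sc hM hx rfl (induced_principal hM hx)]
  refine Finset.sum_congr rfl fun ψ hψ => ?_
  rw [ms_eq_sc hM hx hχ (mem_Bfin.mp hψ), ms_eq_sc hM hx (mem_Bfin.mp hψ) hθ]

theorem ms_trace (hM : IsPModular p M) {x : G} (hx : ∃ k : ℕ, orderOf x = p ^ k) :
    ∑ χ ∈ Bfin (principalBlock M G), ms p x (χ : G → ℂ) (χ : G → ℂ) =
      (blockRank p (principalBlock M (Subgroup.centralizer ({x} : Set G))) : ℂ) := by
  haveI := Fintype.ofFinite (Subgroup.centralizer ({x} : Set G))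
  rw [← sum_sc_self hM hx rfl (induced_principal hM hx)]
  refine Finset.sum_congr rfl fun χ hχ => ?_
  rw [ms_eq_sc hM hx (mem_Bfin.mp hχ) (mem_Bfin.mp hχ)]

end prin

theorem ms_sum {X : Finset G} (hX : ∀ x ∈ X, ∃ k : ℕ, orderOf x = p ^ k)
    (hXrep : ∀ g : G, (∃ k : ℕ, orderOf g = p ^ k) → ∃! x, x ∈ X ∧ IsConj g x) (χ ψ : G → ℂ) :
    ∑ x ∈ X, ms p x χ ψ = classInner χ ψ := by
  classical
  unfold ms
  rw [← Finset.mul_sum, classInner]
  congr 1
  exact sum_sections hX hXrep (fun g => χ g * conj (ψ g))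

/-- contributions of different sections are orthogonal -/
theorem ms_orth (hM : IsPModular p M) {x y : G} (hxy : ¬ IsConj x y) (χ θ : G → ℂ) :
    ∑ ψ ∈ Bfin (principalBlock M G), ms p x χ (ψ : G → ℂ) * ms p y (ψ : G → ℂ) θ = 0 := by
  classical
  haveI := Fintype.ofFinite (IrrCharacter G)
  have h1 : ∀ ψ : IrrCharacter G, ms p x χ (ψ : G → ℂ) * ms p y (ψ : G → ℂ) θ =
      (Nat.card G : ℂ)⁻¹ * (Nat.card G : ℂ)⁻¹ * ∑ g : G, ∑ h : G,
        (if ∃ k : G, IsPPart p g (k * x * k⁻¹) then χ g else 0) *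
        (if ∃ k : G, IsPPart p h (k * y * k⁻¹) then conj (θ h) else 0) *
          ((ψ : G → ℂ) h * conj ((ψ : G → ℂ) g)) := by
    intro ψ
    unfold ms
    rw [mul_mul_mul_comm, Finset.sum_mul_sum]
    congr 1
    refine Finset.sum_congr rfl fun g _ => Finset.sum_congr rfl fun h _ => ?_
    split_ifs <;> ring
  rw [Finset.sum_congr rfl fun ψ _ => h1 ψ, ← Finset.mul_sum, Finset.sum_comm]
  apply mul_eq_zero_of_right
  refine Finset.sum_eq_zero fun g _ => ?_
  rw [Finset.sum_comm]
  refine Finset.sum_eq_zero fun h _ => ?_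
  rw [← Finset.mul_sum]
  by_cases hg : ∃ k : G, IsPPart p g (k * x * k⁻¹)
  · by_cases hh : ∃ k : G, IsPPart p h (k * y * k⁻¹)
    · obtain ⟨k, hk⟩ := hg
      obtain ⟨l, hl⟩ := hh
      haveI : M.IsPrime := isPrime_of_isPModular hM
      have h2 := block_orthogonality hM (BlkC.isPBlock_principalBlock (G := G) M) hl hk (by
        intro hc
        apply hxy
        have a : IsConj x (k * x * k⁻¹) := isConj_iff.mpr ⟨k, rfl⟩
        have b : IsConj y (l * y * l⁻¹) := isConj_iff.mpr ⟨l, rfl⟩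
        exact a.trans (hc.symm.trans b.symm))
      rw [finsum_mem_eq_Bfin] at h2
      rw [h2, mul_zero]
    · rw [if_neg hh, mul_zero, zero_mul]
  · rw [if_neg hg, zero_mul, zero_mul]

/-- positivity of the diagonal contributions -/
theorem ms_self_pos {x : G} (hx : ∃ k : ℕ, orderOf x = p ^ k) {χ : G → ℂ} (h : χ x ≠ 0) :
    ∃ r : ℝ, 0 < r ∧ ms p x χ χ = r := by
  classical
  refine ⟨(Nat.card G : ℝ)⁻¹ * ∑ g : G, (if ∃ h : G, IsPPart p g (h * x * h⁻¹) then
    Complex.normSq (χ g) else 0), ?_, ?_⟩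
  · apply mul_pos
    · have : 0 < Nat.card G := Nat.card_pos
      positivity
    · refine Finset.sum_pos' (fun g _ => ?_) ⟨x, Finset.mem_univ _, ?_⟩
      · split_ifs
        · exact Complex.normSq_nonneg _
        · exact le_refl _
      · rw [if_pos ⟨1, by simpa using H74.isPPart_self' hx⟩]
        exact Complex.normSq_pos.mpr h
  · unfold ms
    push_cast
    congr 1
    refine Finset.sum_congr rfl fun g _ => ?_
    split_ifs
    · rw [Complex.mul_conj]
    · simp

/-- the contribution of a section with `p`-nilpotent centralizer -/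
theorem ms_value (hM : IsPModular p M) {x : G} (hx : ∃ k : ℕ, orderOf x = p ^ k)
    (hnc : HasNormalPComplement p (Subgroup.centralizer ({x} : Set G)))
    {χ ψ : IrrCharacter G} (hχ : χ ∈ principalBlock M G) (hψ : ψ ∈ principalBlock M G) :
    ms p x (χ : G → ℂ) (ψ : G → ℂ) = (χ : G → ℂ) x * conj ((ψ : G → ℂ) x) /
      ((p ^ (Nat.card (Subgroup.centralizer ({x} : Set G))).factorization p : ℕ) : ℂ) := by
  classical
  haveI := Fintype.ofFinite (Subgroup.centralizer ({x} : Set G))
  have h1 := sum_section_eq hx (C := Subgroup.centralizer ({x} : Set G)) rfl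
    (fun g => (χ : G → ℂ) g * conj ((ψ : G → ℂ) g)) (fun g h => by
      show (χ : G → ℂ) (h * g * h⁻¹) * conj ((ψ : G → ℂ) (h * g * h⁻¹)) = _
      rw [irr_isClassFunction χ g h, irr_isClassFunction ψ g h])
  have h0 : ms p x (χ : G → ℂ) (ψ : G → ℂ) = (Nat.card (Subgroup.centralizer ({x} : Set G)) : ℂ)⁻¹ *
      ∑ s : Subgroup.centralizer ({x} : Set G), (if p ∣ orderOf s then 0 else
        (χ : G → ℂ) (x * (s : G)) * conj ((ψ : G → ℂ) (x * (s : G)))) := by
    rw [h1]
    unfold ms
    congr 1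
  rw [h0]
  have h2 : ∀ s : Subgroup.centralizer ({x} : Set G), (if p ∣ orderOf s then 0 else
        (χ : G → ℂ) (x * (s : G)) * conj ((ψ : G → ℂ) (x * (s : G)))) =
      if s ∈ pPrimeCore p (Subgroup.centralizer ({x} : Set G)) then
        (χ : G → ℂ) x * conj ((ψ : G → ℂ) x) else 0 := by
    intro s
    have h3 : s ∈ pPrimeCore p (Subgroup.centralizer ({x} : Set G)) ↔ ¬ p ∣ orderOf s := by
      rw [H74.mem_pPrimeCore_iff hnc, Nat.coprime_comm, Nat.Prime.coprime_iff_not_dvd hp.out]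
    by_cases hs : p ∣ orderOf s
    · rw [if_pos hs, if_neg (fun h => (h3.mp h) hs)]
    · rw [if_neg hs, if_pos (h3.mpr hs)]
      have h4 : (s : G) ∈ centralizerPPrimeCore p x := ⟨s, h3.mpr hs, rfl⟩
      rw [H74.principal_core_const hM hx hχ h4, H74.principal_core_const hM hx hψ h4]
  rw [Finset.sum_congr rfl fun s _ => h2 s, ← Finset.sum_filter, Finset.sum_const, nsmul_eq_mul]
  have h5 : (Finset.univ.filter fun s => s ∈ pPrimeCore p (Subgroup.centralizer ({x} : Set G))).card =
      Nat.card (pPrimeCore p (Subgroup.centralizer ({x} : Set G))) := by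
    rw [Nat.card_eq_fintype_card, Fintype.card_subtype]
  have h6 := (pPrimeCore p (Subgroup.centralizer ({x} : Set G))).card_mul_index
  obtain ⟨k, hk⟩ := H74.index_pPrimeCore hnc
  have h7 : (Nat.card (Subgroup.centralizer ({x} : Set G))).factorization p = k := by
    rw [← h6, hk, Nat.factorization_mul Nat.card_pos.ne' (pow_pos hp.out.pos k).ne',
      Nat.Prime.factorization_pow hp.out, Finsupp.add_apply, Finsupp.single_eq_same,
      Nat.factorization_eq_zero_of_not_dvd, zero_add]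
    have h8 := Cfsg.Agent.Solv.pPrimeCore_card_coprime (G := Subgroup.centralizer ({x} : Set G)) p
    rw [Nat.coprime_comm] at h8
    exact (Nat.Prime.coprime_iff_not_dvd hp.out).mp h8
  rw [h5, h7, ← h6, hk]
  have h9 : (Nat.card (pPrimeCore p (Subgroup.centralizer ({x} : Set G))) : ℂ) ≠ 0 := by
    exact_mod_cast Nat.card_pos.ne'
  have h10 : ((p : ℂ)) ^ k ≠ 0 := by
    have := hp.out.ne_zero
    positivity
  push_cast
  field_simp

end Cfsg.Agent.H75.PS
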