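import Cfsg.Agent.BlkC.AmGm
import Cfsg.Agent.Blk.Local
import Cfsg.Agent.H75.Ito
import Cfsg.Agent.H75.Tools
import Cfsg.Agent.Char.Linear
import Cfsg.Agent.Char.BrauerR
import Cfsg.Agent.Char.ModP
import Cfsg.Agent.Char.Regular
import Cfsg.Agent.Char.FrobTI

/-!
# Robinson–Thompson: functions with inner products in `ℤ[ζ_n]` (owner: helper75)
-/

set_option autoImplicit false
set_option linter.style.haveILetI false
set_option linter.unusedSectionVars false

namespace Cfsg.Agent.H75.RT

open scoped ComplexConjugate BigOperators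
open Cfsg Cfsg.Agent.CharBase Cfsg.Agent.Char Cfsg.Agent.BlkC

universe u v

section IGpart

variable {H : Type u} [Group H] [Fintype H]

/-- class functions with inner products in `ℤ[ζ_n]` -/
def IG (n : ℕ) (θ : H → ℂ) : Prop :=
  IsClassFunction H θ ∧ ∀ φ : H → ℂ, IsCharacter H φ → classInner θ φ ∈ cycRing n

theorem natCast_mem_cyc (n k : ℕ) : (k : ℂ) ∈ cycRing n := natCast_mem _ k

theorem intCast_mem_cyc (n : ℕ) (k : ℤ) : (k : ℂ) ∈ cycRing n := intCast_mem _ k

theorem root_mem_cyc {n : ℕ} {z : ℂ} (h : z ^ n = 1) : z ∈ cycRing n := Subring.subset_closure h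

variable {n : ℕ}

theorem IG.of_char {θ : H → ℂ} (h : IsCharacter H θ) : IG n θ := by
  refine ⟨isClassFunction_of_isCharacter h, fun φ hφ => ?_⟩
  obtain ⟨k, hk⟩ := classInner_natCast h hφ
  rw [hk]; exact natCast_mem_cyc n k

theorem IG.add {θ η : H → ℂ} (hθ : IG n θ) (hη : IG n η) : IG n (θ + η) := by
  refine ⟨isClassFunction_add hθ.1 hη.1, fun φ hφ => ?_⟩
  rw [classInner_add_left]
  exact add_mem (hθ.2 φ hφ) (hη.2 φ hφ)

theorem IG.smul {θ : H → ℂ} (hθ : IG n θ) {c : ℂ} (hc : c ∈ cycRing n) : IG n (c • θ) := by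
  refine ⟨isClassFunction_smul c hθ.1, fun φ hφ => ?_⟩
  rw [classInner_smul_left]
  exact mul_mem hc (hθ.2 φ hφ)

theorem IG.zero : IG n (0 : H → ℂ) := IG.of_char isCharacter_zero

theorem IG.sum {ι : Type*} (s : Finset ι) (f : ι → H → ℂ) (h : ∀ i ∈ s, IG n (f i)) :
    IG n (∑ i ∈ s, f i) := by
  classical
  induction s using Finset.induction_on with
  | empty => rw [Finset.sum_empty]; exact IG.zero
  | insert a s ha ih =>
    rw [Finset.sum_insert ha]
    exact (h a (Finset.mem_insert_self a s)).add (ih fun i hi => h i (Finset.mem_insert_of_mem hi))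

theorem IG.conj {θ : H → ℂ} (hθ : IG n θ) : IG n (fun h => conj (θ h)) := by
  refine ⟨isClassFunction_conj hθ.1, fun φ hφ => ?_⟩
  have h1 := hθ.2 _ (BR.isCharacter_conj hφ)
  have h2 : classInner (fun h => conj (θ h)) φ = conj (classInner θ (fun h => conj (φ h))) := by
    unfold classInner
    rw [map_mul, map_inv₀, map_sum, Complex.conj_natCast]
    simp only [map_mul, Complex.conj_conj]
  rw [h2]
  exact cycRing_conj_mem h1

theorem IG.mul {θ η : H → ℂ} (hθ : IG n θ) (hη : IG n η) : IG n (θ * η) := by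
  classical
  have : Fintype (IrrCharacter H) := Fintype.ofFinite _
  refine ⟨fun a b => ?_, fun ξ hξ => ?_⟩
  · rw [Pi.mul_apply, Pi.mul_apply, hθ.1 a b, hη.1 a b]
  · have h1 : classInner (θ * η) ξ = ∑ χ : IrrCharacter H, classInner θ (χ : H → ℂ) *
        classInner η (fun h => conj ((χ : H → ℂ) h) * ξ h) := by
      have h2 : θ * η = ∑ χ : IrrCharacter H, classInner θ (χ : H → ℂ) • ((χ : H → ℂ) * η) := by
        funext h
        rw [Pi.mul_apply, classFun_apply_eq_sum hθ.1 h, Finset.sum_mul, Finset.sum_apply]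
        refine Finset.sum_congr rfl fun χ _ => ?_
        simp only [Pi.smul_apply, Pi.mul_apply, smul_eq_mul]
        ring
      rw [h2, classInner_sum_left]
      refine Finset.sum_congr rfl fun χ _ => ?_
      rw [classInner_smul_left]
      congr 1
      unfold classInner
      congr 1
      refine Finset.sum_congr rfl fun h _ => ?_
      simp only [Pi.mul_apply, map_mul, Complex.conj_conj]
      ring
    rw [h1]
    exact sum_mem fun χ _ => mul_mem (hθ.2 _ (irr_isCharacter χ))
      (hη.2 _ (isCharacter_mul (BR.isCharacter_conj (irr_isCharacter χ)) hξ))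

theorem IG.const {c : ℂ} (hc : c ∈ cycRing n) : IG n (fun _ : H => c) := by
  have h1 := (IG.of_char (n := n) (isCharacter_one (G := H))).smul hc
  have h2 : (fun _ : H => c) = c • fun _ : H => (1 : ℂ) := by
    funext h; simp
  rw [h2]; exact h1

theorem IG.pow {θ : H → ℂ} (hθ : IG n θ) (k : ℕ) : IG n (θ ^ k) := by
  induction k with
  | zero =>
    rw [pow_zero]
    exact IG.const (one_mem _)
  | succ k ih => rw [pow_succ]; exact ih.mul hθ

theorem IG.poly {θ : H → ℂ} (hθ : IG n θ) (P : Polynomial ℤ) :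
    IG n (fun h => Polynomial.aeval (θ h) P) := by
  have h1 : (fun h => Polynomial.aeval (θ h) P) =
      ∑ i ∈ Finset.range (P.natDegree + 1), ((P.coeff i : ℤ) : ℂ) • θ ^ i := by
    funext h
    rw [Polynomial.aeval_eq_sum_range, Finset.sum_apply]
    refine Finset.sum_congr rfl fun i _ => ?_
    simp
  rw [h1]
  exact IG.sum _ _ fun i _ => (hθ.pow i).smul (intCast_mem_cyc n _)

theorem IG.apply_mem {θ : H → ℂ} (hθ : IG n θ) (hn : Nat.card H ∣ n) (h : H) :
    θ h ∈ cycRing n := by
  classical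
  have : Fintype (IrrCharacter H) := Fintype.ofFinite _
  rw [classFun_apply_eq_sum hθ.1 h]
  exact sum_mem fun χ _ => mul_mem (hθ.2 _ (irr_isCharacter χ))
    (char_mem_closure (irr_isCharacter χ) h hn)

/-- dividing by a character with values powers of `p` -/
theorem IG.quot {p : ℕ} [hp : Fact p.Prime] (hn : Nat.card H ∣ n) (hpH : ¬ p ∣ Nat.card H)
    {δ : H → ℂ} (hδ : IG n δ) {π : H → ℂ} (hπ : IG n π) {N : ℕ}
    (hπp : ∀ h, ∃ a ≤ N, π h = (p : ℂ) ^ a) {η : H → ℂ} (hηc : IsClassFunction H η)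
    (hηm : ∀ h, η h ∈ cycRing n) {c : ℂ} (hc : c ∈ cycRing n)
    (hmul : ∀ h, π h * η h = c * δ h) : IG n η := by
  classical
  let P : Polynomial ℤ := ∏ i ∈ Finset.range (N + 1),
    (Polynomial.C ((p : ℤ) ^ i) - Polynomial.X)
  have hP0 : ∀ h, Polynomial.aeval (π h) P = 0 := by
    intro h
    obtain ⟨a, ha, hπa⟩ := hπp h
    simp only [P, map_prod]
    refine Finset.prod_eq_zero (Finset.mem_range.mpr (Nat.lt_succ_of_le ha)) ?_
    rw [map_sub, Polynomial.aeval_C, Polynomial.aeval_X, hπa]
    simp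
  have hPc : ∃ M : ℕ, P.coeff 0 = ((p ^ M : ℕ) : ℤ) := by
    rw [Polynomial.coeff_zero_eq_eval_zero, Polynomial.eval_prod]
    refine ⟨∑ i ∈ Finset.range (N + 1), i, ?_⟩
    rw [← Finset.prod_pow_eq_pow_sum]
    push_cast
    refine Finset.prod_congr rfl fun i _ => ?_
    simp
  obtain ⟨M, hM⟩ := hPc
  have hdiv := Polynomial.divX_mul_X_add P
  have h1 : ∀ h, (((p ^ M : ℕ) : ℤ) : ℂ) = - (Polynomial.aeval (π h) P.divX * π h) := by
    intro h
    have h2 := hP0 h
    rw [← hdiv, map_add, map_mul, Polynomial.aeval_X, Polynomial.aeval_C, hM] at h2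
    have h3 : (algebraMap ℤ ℂ) ((p ^ M : ℕ) : ℤ) = (((p ^ M : ℕ) : ℤ) : ℂ) := by simp
    rw [h3] at h2
    exact eq_neg_of_add_eq_zero_right h2
  have h4 : IG n ((((p ^ M : ℕ) : ℤ) : ℂ) • η) := by
    have h5 : ((((p ^ M : ℕ) : ℤ) : ℂ) • η) =
        (-c) • ((fun h => Polynomial.aeval (π h) P.divX) * δ) := by
      funext h
      simp only [Pi.smul_apply, Pi.mul_apply, smul_eq_mul]
      rw [h1 h]
      linear_combination (-(Polynomial.aeval (π h) P.divX)) * hmul h
    rw [h5]
    exact ((hπ.poly P.divX).mul hδ).smul (neg_mem hc)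
  refine ⟨hηc, fun φ hφ => ?_⟩
  have h6 := h4.2 φ hφ
  rw [classInner_smul_left] at h6
  have h7 : (Nat.card H : ℂ) * classInner η φ ∈ cycRing n := by
    have h0 : (Nat.card H : ℂ) ≠ 0 := Nat.cast_ne_zero.mpr Nat.card_pos.ne'
    unfold classInner
    rw [mul_inv_cancel_left₀ h0]
    exact sum_mem fun h _ => mul_mem (hηm h) (cycRing_conj_mem (char_mem_closure hφ h hn))
  have hcop : IsCoprime ((p ^ M : ℕ) : ℤ) (Nat.card H : ℤ) := by
    rw [Nat.isCoprime_iff_coprime]
    exact Nat.Coprime.pow_left M ((Nat.Prime.coprime_iff_not_dvd hp.out).mpr hpH)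
  obtain ⟨a, b, hab⟩ := hcop
  have h8 : classInner η φ = (a : ℂ) * ((((p ^ M : ℕ) : ℤ) : ℂ) * classInner η φ) +
      (b : ℂ) * ((Nat.card H : ℂ) * classInner η φ) := by
    have h9 : ((a * ((p ^ M : ℕ) : ℤ) + b * (Nat.card H : ℤ) : ℤ) : ℂ) = 1 := by rw [hab]; simp
    push_cast at h9 ⊢
    linear_combination (-(classInner η φ)) * h9
  rw [h8]
  exact add_mem (mul_mem (intCast_mem_cyc n a) h6) (mul_mem (intCast_mem_cyc n b) h7)

end IGpart

section CC

/-- evaluation of a character on a commuting coset -/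
theorem IG.coset {X : Type u} [Group X] [Finite X] {H : Type v} [Group H] [Fintype H]
    (ι : H →* X) (x : X) (hx : ∀ h, Commute x (ι h)) {n : ℕ} (hn : orderOf x ∣ n) {χ : X → ℂ}
    (hχ : IsCharacter X χ) : IG n (fun h => χ (x * ι h)) := by
  classical
  have hχc := isClassFunction_of_isCharacter hχ
  refine ⟨fun a b => ?_, fun φ hφ => ?_⟩
  · have h1 : x * ι (b * a * b⁻¹) = ι b * (x * ι a) * (ι b)⁻¹ := by
      rw [map_mul, map_mul, map_inv, ← mul_assoc, ← mul_assoc, (hx b).eq]
      group
    have h2 := hχc (x * ι a) (ι b)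
    show χ (x * ι (b * a * b⁻¹)) = χ (x * ι a)
    rw [h1]
    exact h2
  · have : Fintype (Subgroup.zpowers x) := Fintype.ofFinite _
    have : Fintype (IrrCharacter (Subgroup.zpowers x)) := Fintype.ofFinite _
    have hcomm : ∀ (m : Subgroup.zpowers x) (k : H), Commute ((Subgroup.zpowers x).subtype m) (ι k) := by
      rintro ⟨m, hm⟩ k
      obtain ⟨j, rfl⟩ := Subgroup.mem_zpowers_iff.mp hm
      exact (hx k).zpow_left j
    let κ : Subgroup.zpowers x × H →* X := MonoidHom.noncommCoprod (Subgroup.zpowers x).subtype ι hcomm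
    have hκ : ∀ (m : Subgroup.zpowers x) (k : H), κ (m, k) = (m : X) * ι k := fun m k => rfl
    have hχκ : IsCharacter (Subgroup.zpowers x × H) (fun y => χ (κ y)) := isCharacter_comp hχ κ
    let x0 : Subgroup.zpowers x := ⟨x, Subgroup.mem_zpowers x⟩
    have hm : ∀ l : IrrCharacter (Subgroup.zpowers x), ∃ k : ℕ,
        classInner (fun y => χ (κ y)) (fun y : Subgroup.zpowers x × H => (l : Subgroup.zpowers x → ℂ) y.1 * φ y.2) = k := by
      intro l
      refine classInner_natCast hχκ (isCharacter_mul (χ := fun y : Subgroup.zpowers x × H =>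
        (l : Subgroup.zpowers x → ℂ) y.1) (ψ := fun y : Subgroup.zpowers x × H => φ y.2) ?_ ?_)
      · exact isCharacter_comp (irr_isCharacter l) (MonoidHom.fst (Subgroup.zpowers x) H)
      · exact isCharacter_comp hφ (MonoidHom.snd (Subgroup.zpowers x) H)
    choose m hm using hm
    have horth : ∀ y : Subgroup.zpowers x,
        ∑ l : IrrCharacter (Subgroup.zpowers x), (l : Subgroup.zpowers x → ℂ) x0 *
          conj ((l : Subgroup.zpowers x → ℂ) y) =
        if x0 = y then (Nat.card (Subgroup.zpowers x) : ℂ) else 0 := by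
      intro y
      rw [column_orthogonality]
      have hab : ∀ a b : Subgroup.zpowers x, a * b = b * a := by
        rintro ⟨a, ha⟩ ⟨b, hb⟩
        obtain ⟨i, rfl⟩ := Subgroup.mem_zpowers_iff.mp ha
        obtain ⟨j, rfl⟩ := Subgroup.mem_zpowers_iff.mp hb
        exact Subtype.ext ((Commute.refl x).zpow_zpow i j)
      have h1 : IsConj x0 y ↔ x0 = y := by
        constructor
        · intro h
          obtain ⟨c, hc⟩ := isConj_iff.mp h
          rw [hab c, mul_inv_cancel_right] at hc
          exact hc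
        · rintro rfl; exact IsConj.refl _
      have h2 : Subgroup.centralizer ({x0} : Set (Subgroup.zpowers x)) = ⊤ := by
        rw [eq_top_iff]
        intro a _
        rw [Subgroup.mem_centralizer_singleton_iff]
        exact hab _ _
      simp only [h1]
      split_ifs with h
      · rw [h2, Subgroup.card_top]
      · rfl
    have hfin : classInner (fun h => χ (x * ι h)) φ =
        ∑ l : IrrCharacter (Subgroup.zpowers x), (l : Subgroup.zpowers x → ℂ) x0 * (m l : ℂ) := by
      have hc0 : (Nat.card (Subgroup.zpowers x) : ℂ) ≠ 0 := Nat.cast_ne_zero.mpr Nat.card_pos.ne'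
      have h1 : ∀ l : IrrCharacter (Subgroup.zpowers x), (l : Subgroup.zpowers x → ℂ) x0 * (m l : ℂ) =
          (Nat.card (Subgroup.zpowers x × H) : ℂ)⁻¹ * ∑ y : Subgroup.zpowers x, ∑ h : H,
            χ ((y : X) * ι h) * conj (φ h) * ((l : Subgroup.zpowers x → ℂ) x0 *
              conj ((l : Subgroup.zpowers x → ℂ) y)) := by
        intro l
        rw [← hm l]
        unfold classInner
        rw [Fintype.sum_prod_type, mul_left_comm, Finset.mul_sum]
        congr 1
        refine Finset.sum_congr rfl fun y _ => ?_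
        rw [Finset.mul_sum]
        refine Finset.sum_congr rfl fun h _ => ?_
        show _ * (χ (κ (y, h)) * conj (_ * _)) = _
        rw [hκ, map_mul]
        ring
      rw [Finset.sum_congr rfl fun l _ => h1 l, ← Finset.mul_sum, Finset.sum_comm]
      have h2 : ∀ y : Subgroup.zpowers x, ∑ l : IrrCharacter (Subgroup.zpowers x), ∑ h : H,
          χ ((y : X) * ι h) * conj (φ h) * ((l : Subgroup.zpowers x → ℂ) x0 *
              conj ((l : Subgroup.zpowers x → ℂ) y)) =
          (∑ h : H, χ ((y : X) * ι h) * conj (φ h)) *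
            (if x0 = y then (Nat.card (Subgroup.zpowers x) : ℂ) else 0) := by
        intro y
        rw [← horth y, Finset.sum_mul_sum, Finset.sum_comm]
      rw [Finset.sum_congr rfl fun y _ => h2 y]
      simp only [mul_ite, mul_zero]
      rw [Finset.sum_ite_eq Finset.univ x0, if_pos (Finset.mem_univ _), Nat.card_prod]
      unfold classInner
      push_cast
      rw [mul_inv]
      field_simp
      rfl
    rw [hfin]
    refine sum_mem fun l _ => mul_mem ?_ (natCast_mem_cyc n _)
    have h1 := char_mem_closure (irr_isCharacter l) x0 (n := n) (by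
      rw [Nat.card_zpowers]; exact hn)
    exact h1

end CC

end Cfsg.Agent.H75.RT
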