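import Cfsg.Agent.H75.RTa
import Cfsg.Agent.Glaub.PGroup

/-!
# Robinson–Thompson: the inequality (owner: helper75)
-/

set_option autoImplicit false
set_option linter.style.haveILetI false
set_option linter.unusedSectionVars false

namespace Cfsg.Agent.H75.RT

open scoped ComplexConjugate BigOperators
open Cfsg Cfsg.Agent.CharBase Cfsg.Agent.Char Cfsg.Agent.BlkC Cfsg.Agent.Blk

universe u

theorem isIntegral_of_mem_cyc {n : ℕ} (hn : n ≠ 0) {z : ℂ} (hz : z ∈ cycRing n) : IsIntegral ℤ z := by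
  unfold cycRing at hz
  induction hz using Subring.closure_induction with
  | mem x hx =>
    refine ⟨Polynomial.X ^ n - 1, Polynomial.monic_X_pow_sub_C 1 hn, ?_⟩
    simp [show x ^ n = 1 from hx]
  | zero => exact isIntegral_zero
  | one => exact isIntegral_one
  | add x y _ _ h1 h2 => exact h1.add h2
  | neg x _ h => exact h.neg
  | mul x y _ _ h1 h2 => exact h1.mul h2

section

variable {X : Type u} [Group X] [Finite X] {p : ℕ} [hp : Fact p.Prime] {V G H : Subgroup X}
  [hVn : V.Normal] {v : X}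

theorem conj_aux (hVc : ∀ a ∈ V, ∀ b ∈ V, a * b = b * a) (hVp : ∀ a ∈ V, a ^ p = 1)
    (hidx : ¬ p ∣ V.index) (hGV : Subgroup.IsComplement' V G) (hv : v ∈ V)
    (hH : ∀ x, x ∈ H ↔ x ∈ G ∧ x * v = v * x) {g h h' : X} (hh : h ∈ H) (hh' : h' ∈ H)
    (hg : g * (v * h') * g⁻¹ = v * h) :
    ∃ w ∈ V, ∃ k ∈ H, g = w * k ∧ k * h' * k⁻¹ = h ∧ w * h = h * w := by
  have hcard : Nat.card G = V.index := hGV.symm.index_eq_card.symm
  have hcop : p.Coprime (Nat.card G) := by
    rw [hcard]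
    exact (Nat.Prime.coprime_iff_not_dvd hp.out).mpr hidx
  obtain ⟨e, he1, he2⟩ := Nat.chineseRemainder hcop 1 0
  have hpow : ∀ x ∈ H, (v * x) ^ e = v := by
    intro x hx
    have hc : Commute v x := ((hH x).mp hx).2.symm
    rw [hc.mul_pow]
    have h1 : v ^ e = v := by
      have := pow_eq_pow_of_modEq (x := v) he1 (hVp v hv)
      rw [this, pow_one]
    have h2 : x ^ Nat.card G = 1 := by
      have h3 : (⟨x, ((hH x).mp hx).1⟩ : G) ^ Nat.card G = 1 := pow_card_eq_one'
      exact congrArg Subtype.val h3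
    have h3 : x ^ e = 1 := by
      have := pow_eq_pow_of_modEq (x := x) he2 h2
      rw [this, pow_zero]
    rw [h1, h3, mul_one]
  have hgv : g * v * g⁻¹ = v := by
    have h1 := congrArg (· ^ e) hg
    simp only [conj_pow] at h1
    rw [hpow h' hh', hpow h hh] at h1
    exact h1
  obtain ⟨⟨⟨w, hw⟩, ⟨k, hk⟩⟩, hwk⟩ := hGV.2 g
  have hwk' : w * k = g := hwk
  have hkv : k * v * k⁻¹ = v := by
    have h1 : k * v * k⁻¹ ∈ V := hVn.conj_mem v hv k
    rw [← hwk'] at hgv
    have h2 : w * (k * v * k⁻¹) * w⁻¹ = v := by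
      have e : w * (k * v * k⁻¹) * w⁻¹ = w * k * v * (w * k)⁻¹ := by group
      rw [e]; exact hgv
    rw [hVc w hw _ h1, mul_inv_cancel_right] at h2
    exact h2
  have hkH : k ∈ H := (hH k).mpr ⟨hk, mul_inv_eq_iff_eq_mul.mp hkv⟩
  have hgh : g * h' * g⁻¹ = h := by
    have h1 : g * (v * h') * g⁻¹ = (g * v * g⁻¹) * (g * h' * g⁻¹) := by group
    rw [h1, hgv] at hg
    exact mul_left_cancel hg
  have h1 : k * h' * k⁻¹ = w⁻¹ * h * w := by
    rw [← hgh, ← hwk']; group
  have h2 : k * h' * k⁻¹ * h⁻¹ = w⁻¹ * (h * w * h⁻¹) := by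
    rw [h1]; group
  have h3 : k * h' * k⁻¹ * h⁻¹ ∈ V := by
    rw [h2]; exact mul_mem (inv_mem hw) (hVn.conj_mem w hw h)
  have h4 : k * h' * k⁻¹ * h⁻¹ ∈ G :=
    mul_mem (mul_mem (mul_mem hk ((hH _).mp hh').1) (inv_mem hk)) (inv_mem ((hH _).mp hh).1)
  have h5 : k * h' * k⁻¹ * h⁻¹ = 1 := by
    have : k * h' * k⁻¹ * h⁻¹ ∈ (⊥ : Subgroup X) := hGV.disjoint.le_bot ⟨h3, h4⟩
    exact Subgroup.mem_bot.mp this
  have h6 : k * h' * k⁻¹ = h := mul_inv_eq_one.mp h5
  refine ⟨w, hw, k, hkH, hwk'.symm, h6, ?_⟩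
  rw [h5] at h2
  have h7 : h * w * h⁻¹ = w := by
    have := congrArg (w * ·) h2
    simp only [mul_one, mul_inv_cancel_left] at this
    exact this.symm
  exact (mul_inv_eq_iff_eq_mul.mp h7).symm

/-- the fixed points in `V` -/
abbrev CV (V : Subgroup X) (h : X) : Type u := {w : X // w ∈ V ∧ w * h = h * w}

theorem card_cent (hVc : ∀ a ∈ V, ∀ b ∈ V, a * b = b * a) (hVp : ∀ a ∈ V, a ^ p = 1)
    (hidx : ¬ p ∣ V.index) (hGV : Subgroup.IsComplement' V G) (hv : v ∈ V)
    (hH : ∀ x, x ∈ H ↔ x ∈ G ∧ x * v = v * x) (h : H) :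
    Nat.card (Subgroup.centralizer ({v * (h : X)} : Set X)) =
      Nat.card (CV V (h : X)) * Nat.card (Subgroup.centralizer ({h} : Set H)) := by
  rw [← Nat.card_prod]
  symm
  have hvh : Commute v (h : X) := ((hH h).mp h.2).2.symm
  let f : CV V (h : X) × Subgroup.centralizer ({h} : Set H) → Subgroup.centralizer ({v * (h : X)} : Set X) :=
    fun y => ⟨(y.1 : X) * ((y.2 : H) : X), by
      rw [Subgroup.mem_centralizer_singleton_iff]
      have h1 : Commute (y.1 : X) v := hVc _ y.1.2.1 v hv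
      have h2 : Commute (y.1 : X) (h : X) := y.1.2.2
      have h3 : Commute ((y.2 : H) : X) v := ((hH _).mp (y.2 : H).2).2
      have h4 : Commute ((y.2 : H) : X) (h : X) := by
        have := Subgroup.mem_centralizer_singleton_iff.mp y.2.2
        exact congrArg Subtype.val this
      exact ((h1.mul_right h2).mul_left (h3.mul_right h4))⟩
  have hf : Function.Bijective f := by
    constructor
    · rintro ⟨⟨w, hw⟩, ⟨k, hk⟩⟩ ⟨⟨w', hw'⟩, ⟨k', hk'⟩⟩ heq
      have h1 : w * (k : X) = w' * (k' : X) := congrArg Subtype.val heq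
      have h2 : (⟨⟨w, hw.1⟩, ⟨(k : X), ((hH _).mp k.2).1⟩⟩ : V × G) =
          ⟨⟨w', hw'.1⟩, ⟨(k' : X), ((hH _).mp k'.2).1⟩⟩ := hGV.1 h1
      have h3 : w = w' := congrArg (fun z : V × G => (z.1 : X)) h2
      have h4 : (k : X) = k' := congrArg (fun z : V × G => (z.2 : X)) h2
      subst h3
      have h5 : k = k' := Subtype.ext h4
      subst h5
      rfl
    · rintro ⟨g, hg⟩
      rw [Subgroup.mem_centralizer_singleton_iff] at hg
      have h1 : g * (v * (h : X)) * g⁻¹ = v * h := by rw [hg, mul_inv_cancel_right]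
      obtain ⟨w, hw, k, hk, rfl, h2, h3⟩ := conj_aux hVc hVp hidx hGV hv hH h.2 h.2 h1
      refine ⟨⟨⟨w, hw, h3⟩, ⟨⟨k, hk⟩, ?_⟩⟩, rfl⟩
      rw [Subgroup.mem_centralizer_singleton_iff]
      exact Subtype.ext (mul_inv_eq_iff_eq_mul.mp h2)
  exact Nat.card_congr (Equiv.ofBijective f hf)

theorem isConj_iff' (hVc : ∀ a ∈ V, ∀ b ∈ V, a * b = b * a) (hVp : ∀ a ∈ V, a ^ p = 1)
    (hidx : ¬ p ∣ V.index) (hGV : Subgroup.IsComplement' V G) (hv : v ∈ V)
    (hH : ∀ x, x ∈ H ↔ x ∈ G ∧ x * v = v * x) (h h' : H) :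
    IsConj (v * (h : X)) (v * (h' : X)) ↔ IsConj h h' := by
  constructor
  · intro hc
    obtain ⟨g, hg⟩ := isConj_iff.mp hc
    obtain ⟨w, hw, k, hk, -, h2, -⟩ := conj_aux hVc hVp hidx hGV hv hH h'.2 h.2 hg
    exact isConj_iff.mpr ⟨⟨k, hk⟩, Subtype.ext h2⟩
  · intro hc
    obtain ⟨k, hk⟩ := isConj_iff.mp hc
    have h1 : (k : X) * h * (k : X)⁻¹ = h' := congrArg Subtype.val hk
    have h2 : (k : X) * v = v * k := ((hH _).mp k.2).2
    refine isConj_iff.mpr ⟨(k : X), ?_⟩
    rw [← h1, ← mul_assoc, h2]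
    group

end

section Main

variable {X : Type u} [Group X] [Finite X] {p : ℕ} [hp : Fact p.Prime] (V G H : Subgroup X)
  [hVn : V.Normal] (v : X) [Fintype H]

theorem kt (hVc : ∀ a ∈ V, ∀ b ∈ V, a * b = b * a) (hVp : ∀ a ∈ V, a ^ p = 1)
    (hidx : ¬ p ∣ V.index) (hGV : Subgroup.IsComplement' V G) (hv : v ∈ V)
    (hH : ∀ x, x ∈ H ↔ x ∈ G ∧ x * v = v * x) {n : ℕ} (hn0 : n ≠ 0) (hn : Nat.card X ∣ n)
    {η : H → ℂ} (hη : IG n η) (hη1 : η 1 * conj (η 1) = 1)
    (hηp : ∀ h : H, h ≠ 1 → ∃ (m : ℕ) (r : ℂ), IsIntegral ℤ r ∧ η h ^ m = p * r)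
    (c : H → ℕ) (hc : ∀ h : H, η h * conj (η h) * (Nat.card (CV V (h : X)) : ℂ) = c h)
    (hcV : ∀ h, c h ≤ Nat.card V) : Nat.card (ConjClasses X) ≤ Nat.card V := by
  classical
  have := Fintype.ofFinite X
  have : Fintype (IrrCharacter X) := Fintype.ofFinite _
  have hH0 : (Nat.card H : ℂ) ≠ 0 := Nat.cast_ne_zero.mpr Nat.card_pos.ne'
  have hcomm : ∀ h : H, Commute v (H.subtype h) := fun h => ((hH h).mp h.2).2.symm
  let N : IrrCharacter X → ℂ := fun χ => classInner ((fun h : H => (χ : X → ℂ) (v * H.subtype h)) * η)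
    (fun _ => 1)
  have hN : ∀ χ, N χ = (Nat.card H : ℂ)⁻¹ * ∑ h : H, (χ : X → ℂ) (v * h) * η h := by
    intro χ
    show classInner _ _ = _
    unfold classInner
    congr 1
    refine Finset.sum_congr rfl fun h _ => ?_
    simp
  have hNm : ∀ χ, N χ ∈ cycRing n := by
    intro χ
    exact ((IG.coset H.subtype v hcomm ((orderOf_dvd_natCard v).trans hn)
      (irr_isCharacter χ)).mul hη).2 _ isCharacter_one
  -- the sum of squares
  have hsum : ∑ χ, N χ * conj (N χ) = (Nat.card H : ℂ)⁻¹ * ∑ h : H, (c h : ℂ) := by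
    have h1 : ∀ χ, N χ * conj (N χ) = (Nat.card H : ℂ)⁻¹ * ((Nat.card H : ℂ)⁻¹ *
        ∑ h : H, ∑ h' : H, η h * conj (η h') *
          ((χ : X → ℂ) (v * h) * conj ((χ : X → ℂ) (v * h')))) := by
      intro χ
      rw [hN, map_mul, map_inv₀, Complex.conj_natCast, map_sum]
      have h2 : (∑ h : H, (χ : X → ℂ) (v * h) * η h) * (∑ h : H, conj ((χ : X → ℂ) (v * h) * η h)) =
          ∑ h : H, ∑ h' : H, η h * conj (η h') *
            ((χ : X → ℂ) (v * h) * conj ((χ : X → ℂ) (v * h'))) := by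
        rw [Finset.sum_mul_sum]
        refine Finset.sum_congr rfl fun h _ => Finset.sum_congr rfl fun h' _ => ?_
        rw [map_mul]; ring
      rw [← h2]; ring
    have h2 : ∀ h : H, ∑ h' : H, η h * conj (η h') *
        (if IsConj (v * (h : X)) (v * (h' : X)) then
          (Nat.card (Subgroup.centralizer ({v * (h : X)} : Set X)) : ℂ) else 0) =
        (Nat.card H : ℂ) * (c h : ℂ) := by
      intro h
      have h3 : ∀ h' : H, η h * conj (η h') *
        (if IsConj (v * (h : X)) (v * (h' : X)) then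
          (Nat.card (Subgroup.centralizer ({v * (h : X)} : Set X)) : ℂ) else 0) =
          if IsConj h h' then η h * conj (η h) * ((Nat.card (CV V (h : X)) *
            Nat.card (Subgroup.centralizer ({h} : Set H)) : ℕ) : ℂ) else 0 := by
        intro h'
        rw [card_cent hVc hVp hidx hGV hv hH h]
        simp only [isConj_iff' hVc hVp hidx hGV hv hH h h']
        split_ifs with h4
        · rw [classFun_eq_of_isConj hη.1 h4]
        · rw [mul_zero]
      have hcc : ∀ [DecidablePred (fun x : H => IsConj h x)],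
          (Finset.univ.filter (fun x : H => IsConj h x)).card =
          (Subgroup.centralizer ({h} : Set H)).index := by
        intro inst
        rw [← card_isConj_eq_index, Nat.card_eq_fintype_card, Fintype.card_subtype]
      rw [Finset.sum_congr rfl fun h' _ => h3 h', ← Finset.sum_filter, Finset.sum_const, hcc]
      rw [nsmul_eq_mul, ← hc h]
      have h5 := Subgroup.card_mul_index (Subgroup.centralizer ({h} : Set H))
      rw [← h5]
      push_cast
      ring
    rw [Finset.sum_congr rfl fun χ _ => h1 χ, ← Finset.mul_sum, ← Finset.mul_sum]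
    have h6 : ∑ χ : IrrCharacter X, ∑ h : H, ∑ h' : H, η h * conj (η h') *
          ((χ : X → ℂ) (v * h) * conj ((χ : X → ℂ) (v * h'))) =
        ∑ h : H, (Nat.card H : ℂ) * (c h : ℂ) := by
      rw [Finset.sum_comm]
      refine Finset.sum_congr rfl fun h _ => ?_
      rw [Finset.sum_comm, ← h2 h]
      refine Finset.sum_congr rfl fun h' _ => ?_
      rw [← Finset.mul_sum, column_orthogonality]
      congr
    rw [h6, ← Finset.mul_sum, inv_mul_cancel_left₀ hH0]
  -- integrality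
  have hint : IsIntegral ℤ (∑ χ, N χ * conj (N χ)) :=
    isIntegral_of_mem_cyc hn0 (sum_mem fun χ _ => mul_mem (hNm χ) (cycRing_conj_mem (hNm χ)))
  obtain ⟨m, hm⟩ := FT.int_of_rat_isIntegral ((Nat.card H : ℚ)⁻¹ * ∑ h : H, (c h : ℚ))
    (by rw [hsum]; push_cast; rfl) hint
  have hmV : m ≤ Nat.card V := by
    have h1 : (m : ℂ) * (Nat.card H : ℂ) = ∑ h : H, (c h : ℂ) := by
      rw [← hm, hsum]
      field_simp
    have h2 : m * (Nat.card H : ℤ) = ((∑ h : H, c h : ℕ) : ℤ) := by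
      have h3 : ((m * (Nat.card H : ℤ) : ℤ) : ℂ) = (((∑ h : H, c h : ℕ) : ℤ) : ℂ) := by
        push_cast; exact h1
      exact_mod_cast h3
    have h3 : ∑ h : H, c h ≤ Nat.card H * Nat.card V := by
      calc ∑ h : H, c h ≤ ∑ _h : H, Nat.card V := Finset.sum_le_sum fun h _ => hcV h
        _ = Nat.card H * Nat.card V := by
          rw [Finset.sum_const, Finset.card_univ, Nat.card_eq_fintype_card (α := H), smul_eq_mul]
    have h4 : m * (Nat.card H : ℤ) ≤ (Nat.card V : ℤ) * (Nat.card H : ℤ) := by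
      rw [h2, mul_comm (Nat.card V : ℤ)]
      exact_mod_cast h3
    exact le_of_mul_le_mul_right h4 (by exact_mod_cast Nat.card_pos (α := H))
  -- non-vanishing
  obtain ⟨M, hM⟩ := Glaub.exists_isPModular hp.out
  have hMp := isPrime_of_isPModular hM
  have hN0 : ∀ χ, N χ ≠ 0 := by
    intro χ h0
    rw [hN] at h0
    have h1 : ∑ h : H, (χ : X → ℂ) (v * h) * η h = 0 := by
      rcases mul_eq_zero.mp h0 with h2 | h2
      · exact absurd h2 (inv_ne_zero hH0)
      · exact h2
    rw [← Finset.add_sum_erase _ _ (Finset.mem_univ (1 : H))] at h1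
    have hηr : ∀ h : H, MemLocalRing M (η h) := fun h =>
      mlr_of_isIntegral (isIntegral_of_mem_cyc hn0 (hη.apply_mem
        ((Subgroup.card_subgroup_dvd_card H).trans hn) h))
    have h2 : MemLocalIdeal M (∑ h ∈ Finset.univ.erase (1 : H), (χ : X → ℂ) (v * h) * η h) := by
      refine mli_sum _ _ fun h hh => ?_
      obtain ⟨k, r, hr, hkr⟩ := hηp h (Finset.ne_of_mem_erase hh)
      refine mli_mul_left (MP.mlr_char (irr_isCharacter χ) _) ?_
      refine mli_of_pow (hηr h) (n := k) ?_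
      rw [hkr]
      exact mli_mul_right ((mli_natCast_iff hM p).mpr dvd_rfl) (mlr_of_isIntegral hr)
    have h3 : MemLocalIdeal M ((χ : X → ℂ) (v * (1 : H)) * η 1) := by
      rw [eq_neg_of_add_eq_zero_left h1]
      exact mli_neg h2
    rw [Subgroup.coe_one, mul_one] at h3
    rcases mli_or_of_mul (MP.mlr_char (irr_isCharacter χ) _) (hηr 1) h3 with h4 | h4
    · -- degrees are prime to `p`
      have h5 : rd M ((χ : X → ℂ) v) = rd M ((χ : X → ℂ) (v⁻¹ * v)) := by
        refine MP.rd_char_ppart hM (irr_isCharacter χ) (a := v) ⟨1, mul_one v, Commute.one_right v, ?_, ?_⟩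
        · obtain ⟨k, hk⟩ := (Nat.dvd_prime_pow hp.out).mp (show orderOf v ∣ p ^ 1 by
            rw [pow_one]; exact orderOf_dvd_of_pow_eq_one (hVp v hv))
          exact ⟨k, hk.2⟩
        · rw [orderOf_one]; exact hp.out.one_lt.ne' ∘ Nat.dvd_one.mp
      rw [inv_mul_cancel] at h5
      rw [← rd_eq_zero_iff (MP.mlr_char (irr_isCharacter χ) _), h5,
        rd_eq_zero_iff (MP.mlr_char (irr_isCharacter χ) _), deg_spec, mli_natCast_iff hM] at h4
      exact hidx (h4.trans (ito χ V hVc))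
    · have h5 : MemLocalIdeal M (η 1 * conj (η 1)) :=
        mli_mul_right h4 (mlr_of_isIntegral (isIntegral_of_mem_cyc hn0 (cycRing_conj_mem
          (hη.apply_mem ((Subgroup.card_subgroup_dvd_card H).trans hn) 1))))
      rw [hη1] at h5
      exact not_mli_one h5
  have hfin := card_le_of_sum_mul_conj hn0 Finset.univ N (fun χ _ => hNm χ) (fun χ _ => hN0 χ) hm
  have h1 : (Nat.card (ConjClasses X) : ℤ) ≤ Nat.card V := by
    rw [← card_irr_eq_card_conjClasses, Nat.card_eq_fintype_card]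
    exact hfin.trans hmV
  exact_mod_cast h1

end Main

end Cfsg.Agent.H75.RT
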