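import Mathlib

/-!
# Self-dual modules over finite fields: symplectic and orthogonal parts (owner: helper75)
-/

set_option autoImplicit false
set_option linter.style.haveILetI false
set_option linter.unusedSectionVars false
set_option linter.unusedVariables false

namespace Cfsg.Agent.H75.SD

open Module

variable {F : Type*} [Field F] {G : Type*} [Group G] {V : Type*} [AddCommGroup V] [Module F V]
  [FiniteDimensional F V] {ρ : Representation F G V}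

variable (ρ) in
/-- invariant subspaces -/
def Inv (M : Submodule F V) : Prop := ∀ g : G, ∀ m ∈ M, ρ g m ∈ M

theorem Inv.sup {M N : Submodule F V} (hM : Inv ρ M) (hN : Inv ρ N) : Inv ρ (M ⊔ N) := by
  intro g x hx
  obtain ⟨m, hm, n, hn, rfl⟩ := Submodule.mem_sup.mp hx
  rw [map_add]
  exact Submodule.add_mem_sup (hM g m hm) (hN g n hn)

theorem Inv.inf {M N : Submodule F V} (hM : Inv ρ M) (hN : Inv ρ N) : Inv ρ (M ⊓ N) :=
  fun g x hx => ⟨hM g x hx.1, hN g x hx.2⟩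

theorem inv_apply_self (g : G) (v : V) : ρ g⁻¹ (ρ g v) = v := by
  rw [← Module.End.mul_apply, ← map_mul, inv_mul_cancel, map_one]; rfl

theorem self_apply_inv (g : G) (v : V) : ρ g (ρ g⁻¹ v) = v := by
  rw [← Module.End.mul_apply, ← map_mul, mul_inv_cancel, map_one]; rfl

/-- Maschke -/
theorem exists_proj [Finite G] (hcop : (Nat.card G : F) ≠ 0) {R : Submodule F V} (hR : Inv ρ R) :
    ∃ P : V →ₗ[F] V, (∀ v, P v ∈ R) ∧ (∀ v ∈ R, P v = v) ∧ ∀ g v, P (ρ g v) = ρ g (P v) := by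
  classical
  haveI := Fintype.ofFinite G
  obtain ⟨C, hC⟩ := exists_isCompl R
  set P₀ : V →ₗ[F] V := R.projection C hC with hP₀
  have h0 : ∀ v, P₀ v ∈ R := fun v => Submodule.projection_apply_mem hC v
  have h1 : ∀ v ∈ R, P₀ v = v := fun v hv => Submodule.projection_apply_of_mem_left hC hv
  refine ⟨(Nat.card G : F)⁻¹ • ∑ g : G, (ρ g) ∘ₗ P₀ ∘ₗ (ρ g⁻¹), ?_, ?_, ?_⟩
  · intro v
    rw [LinearMap.smul_apply, LinearMap.sum_apply]
    exact R.smul_mem _ (R.sum_mem fun g _ => hR g _ (h0 _))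
  · intro v hv
    rw [LinearMap.smul_apply, LinearMap.sum_apply]
    have h2 : ∀ g : G, ((ρ g) ∘ₗ P₀ ∘ₗ (ρ g⁻¹)) v = v := by
      intro g
      show ρ g (P₀ (ρ g⁻¹ v)) = v
      rw [h1 _ (hR g⁻¹ v hv), self_apply_inv]
    rw [Finset.sum_congr rfl fun g _ => h2 g, Finset.sum_const, Finset.card_univ,
      ← Nat.card_eq_fintype_card, ← Nat.cast_smul_eq_nsmul F, smul_smul, inv_mul_cancel₀ hcop, one_smul]
  · intro g v
    rw [LinearMap.smul_apply, LinearMap.sum_apply, LinearMap.smul_apply, LinearMap.sum_apply, map_smul,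
      map_sum]
    congr 1
    refine Fintype.sum_equiv (Equiv.mulLeft g⁻¹) _ _ fun h => ?_
    show ρ h (P₀ (ρ h⁻¹ (ρ g v))) = ρ g (ρ (g⁻¹ * h) (P₀ (ρ (g⁻¹ * h)⁻¹ v)))
    rw [mul_inv_rev, inv_inv, map_mul, map_mul, Module.End.mul_apply, Module.End.mul_apply,
      self_apply_inv]

theorem exists_compl [Finite G] (hcop : (Nat.card G : F) ≠ 0) {R D : Submodule F V} (hR : Inv ρ R)
    (hD : Inv ρ D) (hRD : R ≤ D) : ∃ N ≤ D, Inv ρ N ∧ N ⊓ R = ⊥ ∧ N ⊔ R = D := by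
  obtain ⟨P, h1, h2, h3⟩ := exists_proj hcop hR
  refine ⟨D ⊓ LinearMap.ker P, inf_le_left, ?_, ?_, ?_⟩
  · rintro g x ⟨hx, hx'⟩
    refine ⟨hD g x hx, ?_⟩
    have h4 : P x = 0 := hx'
    show P (ρ g x) = 0
    rw [h3, h4, map_zero]
  · rw [eq_bot_iff]
    rintro x ⟨⟨hx, hx'⟩, hxR⟩
    have h4 : P x = 0 := hx'
    rw [h2 x hxR] at h4
    rw [h4]; exact Submodule.zero_mem _
  · apply le_antisymm
    · exact sup_le inf_le_left hRD
    · intro x hx
      have h4 : x = (x - P x) + P x := by abel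
      rw [h4]
      refine Submodule.add_mem_sup ⟨D.sub_mem hx (hRD (h1 x)), ?_⟩ (h1 x)
      show P (x - P x) = 0
      rw [map_sub, h2 _ (h1 x), sub_self]

/-- nonzero invariant subspaces contain irreducible ones -/
theorem exists_irr {X : Submodule F V} (hX : Inv ρ X) (hX0 : X ≠ ⊥) :
    ∃ M ≤ X, Inv ρ M ∧ M ≠ ⊥ ∧ ∀ M' ≤ M, Inv ρ M' → M' = ⊥ ∨ M' = M := by
  classical
  have hex : ∃ n, ∃ M ≤ X, Inv ρ M ∧ M ≠ ⊥ ∧ finrank F M = n := ⟨_, X, le_rfl, hX, hX0, rfl⟩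
  obtain ⟨M, hMX, hM, hM0, hn⟩ := Nat.find_spec hex
  refine ⟨M, hMX, hM, hM0, fun M' hM' hinv => ?_⟩
  by_contra hcon
  push Not at hcon
  have h1 : finrank F M' < finrank F M := Submodule.finrank_lt_finrank_of_lt (lt_of_le_of_ne hM' hcon.2)
  rw [hn] at h1
  exact Nat.find_min hex h1 ⟨M', hM'.trans hMX, hinv, hcon.1, rfl⟩

section form

variable {B : LinearMap.BilinForm F V}

/-- nondegenerate on a subspace -/
def NDeg (B : LinearMap.BilinForm F V) (X Y : Submodule F V) : Prop :=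
  ∀ x ∈ X, (∀ y ∈ Y, B x y = 0) → x = 0

/-- functionals are represented -/
theorem NDeg.repr {X Y : Submodule F V} (h : NDeg B X Y) (hd : finrank F Y ≤ finrank F X)
    (f : Dual F Y) : ∃ x ∈ X, ∀ y : Y, f y = B x y := by
  let T : X →ₗ[F] Dual F Y := (B.domRestrict₁₂ X Y)
  have hT : ∀ x y, T x y = B x y := fun x y => rfl
  have hTi : Function.Injective T := by
    rw [injective_iff_map_eq_zero]
    intro x hx
    apply Subtype.ext
    refine h x x.2 fun y hy => ?_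
    have := LinearMap.congr_fun hx ⟨y, hy⟩
    exact this
  have h1 : finrank F X ≤ finrank F Y := by
    have := LinearMap.finrank_le_finrank_of_injective hTi
    rwa [Subspace.dual_finrank_eq] at this
  have hTs : Function.Surjective T :=
    (LinearMap.injective_iff_surjective_of_finrank_eq_finrank
      (by rw [Subspace.dual_finrank_eq]; omega)).mp hTi
  obtain ⟨x, hx⟩ := hTs f
  exact ⟨x, x.2, fun y => by rw [← hx]; rfl⟩

theorem NDeg.finrank_le {X Y : Submodule F V} (h : NDeg B X Y) : finrank F X ≤ finrank F Y := by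
  let T : X →ₗ[F] Dual F Y := (B.domRestrict₁₂ X Y)
  have hTi : Function.Injective T := by
    rw [injective_iff_map_eq_zero]
    intro x hx
    apply Subtype.ext
    refine h x x.2 fun y hy => ?_
    have := LinearMap.congr_fun hx ⟨y, hy⟩
    exact this
  have := LinearMap.finrank_le_finrank_of_injective hTi
  rwa [Subspace.dual_finrank_eq] at this

theorem NDeg.flip {X Y : Submodule F V} (h : NDeg B X Y) (hd : finrank F Y ≤ finrank F X) :
    NDeg B.flip Y X := by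
  intro y hy hxy
  by_contra hy0
  obtain ⟨f, hf⟩ : ∃ f : Dual F Y, f ⟨y, hy⟩ ≠ 0 := by
    by_contra hcon
    push Not at hcon
    have := (forall_dual_apply_eq_zero_iff F (⟨y, hy⟩ : Y)).mp hcon
    exact hy0 (congrArg Subtype.val this)
  obtain ⟨x, hx, h1⟩ := h.repr hd f
  apply hf
  rw [h1]
  exact hxy x hx

/-- left orthogonal -/
def lorth (B : LinearMap.BilinForm F V) (X : Submodule F V) : Submodule F V where
  carrier := {v | ∀ y ∈ X, B v y = 0}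
  add_mem' := fun {a b} ha hb y hy => by rw [map_add, LinearMap.add_apply, ha y hy, hb y hy, add_zero]
  zero_mem' := fun y _ => by rw [map_zero, LinearMap.zero_apply]
  smul_mem' := fun c a ha y hy => by rw [map_smul, LinearMap.smul_apply, ha y hy, smul_zero]

theorem mem_lorth {X : Submodule F V} {v : V} : v ∈ lorth B X ↔ ∀ y ∈ X, B v y = 0 := Iff.rfl

theorem inv_lorth (hBinv : ∀ g : G, ∀ x y : V, B (ρ g x) (ρ g y) = B x y) {X : Submodule F V}
    (hX : Inv ρ X) : Inv ρ (lorth B X) := by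
  intro g v hv y hy
  have h1 := hBinv g v (ρ g⁻¹ y)
  rw [self_apply_inv] at h1
  rw [h1]
  exact hv _ (hX _ y hy)

theorem isCompl_lorth {X : Submodule F V} (h : NDeg B X X) : IsCompl X (lorth B X) := by
  constructor
  · rw [disjoint_iff, eq_bot_iff]
    rintro x ⟨hx, hx'⟩
    rw [h x hx hx']; exact Submodule.zero_mem _
  · rw [codisjoint_iff, eq_top_iff]
    intro v _
    obtain ⟨x, hx, h1⟩ := h.repr le_rfl ((B v).domRestrict X)
    have h2 : v = x + (v - x) := by abel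
    rw [h2]
    refine Submodule.add_mem_sup hx fun y hy => ?_
    have h3 := h1 ⟨y, hy⟩
    rw [map_sub, LinearMap.sub_apply, sub_eq_zero]
    exact h3


/-- functionals on `X` are represented by elements of `Y` -/
theorem NDeg.repr' {X Y : Submodule F V} (h : NDeg B X Y) (f : Dual F X) :
    ∃ y ∈ Y, ∀ x : X, f x = B x y := by
  let T : X →ₗ[F] Dual F Y := (B.domRestrict₁₂ X Y)
  have hTi : Function.Injective T := by
    rw [injective_iff_map_eq_zero]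
    intro x hx
    apply Subtype.ext
    refine h x x.2 fun y hy => ?_
    have := LinearMap.congr_fun hx ⟨y, hy⟩
    exact this
  obtain ⟨ξ, hξ⟩ := LinearMap.dualMap_surjective_of_injective hTi f
  obtain ⟨y, rfl⟩ := (Module.evalEquiv F Y).surjective ξ
  refine ⟨y, y.2, fun x => ?_⟩
  rw [← hξ]
  rfl

variable (ρ) in
/-- the decomposition -/
def Good (p : ℕ) (X : Submodule F V) : Prop :=
  ∃ U W : Submodule F V, Inv ρ U ∧ Inv ρ W ∧ U ⊓ W = ⊥ ∧ U ⊔ W = X ∧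
    (∃ A : LinearMap.BilinForm F V, (∀ x ∈ U, A x x = 0) ∧
      (∀ g : G, ∀ x ∈ U, ∀ y ∈ U, A (ρ g x) (ρ g y) = A x y) ∧ NDeg A U U) ∧
    (∃ S : LinearMap.BilinForm F V, (∀ x ∈ W, ∀ y ∈ W, S x y = S y x) ∧
      (∀ g : G, ∀ x ∈ W, ∀ y ∈ W, S (ρ g x) (ρ g y) = S x y) ∧ NDeg S W W) ∧
    (p = 2 → ∀ g : G, ∀ w ∈ W, ρ g w = w)

theorem inv_bot : Inv ρ (⊥ : Submodule F V) := by
  intro g m hm
  rw [Submodule.mem_bot] at hm ⊢
  rw [hm, map_zero]

/-- an alternating piece -/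
theorem good_of_alt {p : ℕ} {X : Submodule F V} (hX : Inv ρ X) {A : LinearMap.BilinForm F V}
    (h1 : ∀ x ∈ X, A x x = 0) (h2 : ∀ g : G, ∀ x ∈ X, ∀ y ∈ X, A (ρ g x) (ρ g y) = A x y)
    (h3 : NDeg A X X) : Good ρ p X := by
  refine ⟨X, ⊥, hX, inv_bot, inf_bot_eq _, sup_bot_eq _, ⟨A, h1, h2, h3⟩, ⟨0, ?_, ?_, ?_⟩, ?_⟩
  · intro x _ y _; rfl
  · intro g x _ y _; rfl
  · intro x hx _; exact (Submodule.mem_bot F).mp hx
  · intro _ g w hw
    rw [(Submodule.mem_bot F).mp hw, map_zero]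

/-- a symmetric piece -/
theorem good_of_symm {p : ℕ} {X : Submodule F V} (hX : Inv ρ X) {A : LinearMap.BilinForm F V}
    (h1 : ∀ x ∈ X, ∀ y ∈ X, A x y = A y x)
    (h2 : ∀ g : G, ∀ x ∈ X, ∀ y ∈ X, A (ρ g x) (ρ g y) = A x y)
    (h3 : NDeg A X X) (h4 : p = 2 → ∀ g : G, ∀ w ∈ X, ρ g w = w) : Good ρ p X := by
  refine ⟨⊥, X, inv_bot, hX, bot_inf_eq _, bot_sup_eq _, ⟨0, ?_, ?_, ?_⟩, ⟨A, h1, h2, h3⟩, h4⟩
  · intro x _; rfl
  · intro g x _ y _; rfl
  · intro x hx _; exact (Submodule.mem_bot F).mp hx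

/-- orthogonal sum of two forms -/
theorem sum_forms {X₁ C : Submodule F V} (hc : IsCompl X₁ C) (A₁ A₂ : LinearMap.BilinForm F V) :
    ∃ A : LinearMap.BilinForm F V, ∀ x ∈ X₁, ∀ y ∈ C, ∀ x' ∈ X₁, ∀ y' ∈ C,
      A (x + y) (x' + y') = A₁ x x' + A₂ y y' := by
  set P : V →ₗ[F] V := X₁.projection C hc with hP
  set Q : V →ₗ[F] V := C.projection X₁ hc.symm with hQ
  refine ⟨A₁.compl₁₂ P P + A₂.compl₁₂ Q Q, ?_⟩
  intro x hx y hy x' hx' y' hy'
  have e1 : ∀ x ∈ X₁, ∀ y ∈ C, P (x + y) = x := by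
    intro x hx y hy
    rw [map_add, hP, Submodule.projection_apply_of_mem_left hc hx, Submodule.projection_apply,
      (Submodule.projectionOnto_apply_eq_zero_iff hc).mpr hy]
    simp
  have e2 : ∀ x ∈ X₁, ∀ y ∈ C, Q (x + y) = y := by
    intro x hx y hy
    rw [map_add, hQ, Submodule.projection_apply_of_mem_left hc.symm hy, Submodule.projection_apply,
      (Submodule.projectionOnto_apply_eq_zero_iff hc.symm).mpr hx]
    simp
  rw [LinearMap.add_apply, LinearMap.add_apply, LinearMap.compl₁₂_apply, LinearMap.compl₁₂_apply,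
    e1 x hx y hy, e1 x' hx' y' hy', e2 x hx y hy, e2 x' hx' y' hy']

theorem Good.sup {p : ℕ} {X₁ X₂ C : Submodule F V} (hc : IsCompl X₁ C) (h2C : X₂ ≤ C)
    (h1 : Good ρ p X₁) (h2 : Good ρ p X₂) : Good ρ p (X₁ ⊔ X₂) := by
  obtain ⟨U₁, W₁, hU₁, hW₁, hd₁, hs₁, ⟨A₁, ha₁, hai₁, han₁⟩, ⟨S₁, hs₁', hsi₁, hsn₁⟩, ht₁⟩ := h1
  obtain ⟨U₂, W₂, hU₂, hW₂, hd₂, hs₂, ⟨A₂, ha₂, hai₂, han₂⟩, ⟨S₂, hs₂', hsi₂, hsn₂⟩, ht₂⟩ := h2
  have hU₁X : U₁ ≤ X₁ := hs₁ ▸ le_sup_left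
  have hW₁X : W₁ ≤ X₁ := hs₁ ▸ le_sup_right
  have hU₂X : U₂ ≤ C := (hs₂ ▸ le_sup_left : U₂ ≤ X₂).trans h2C
  have hW₂X : W₂ ≤ C := (hs₂ ▸ le_sup_right : W₂ ≤ X₂).trans h2C
  obtain ⟨A, hA⟩ := sum_forms hc A₁ A₂
  obtain ⟨S, hS⟩ := sum_forms hc S₁ S₂
  have hinvg : ∀ (T : LinearMap.BilinForm F V) (T₁ T₂ : LinearMap.BilinForm F V)
      (hT : ∀ x ∈ X₁, ∀ y ∈ C, ∀ x' ∈ X₁, ∀ y' ∈ C, T (x + y) (x' + y') = T₁ x x' + T₂ y y')
      (Y₁ Y₂ : Submodule F V) (hY₁ : Y₁ ≤ X₁) (hY₂ : Y₂ ≤ C) (hi₁ : Inv ρ Y₁) (hi₂ : Inv ρ Y₂)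
      (hT₁ : ∀ g : G, ∀ x ∈ Y₁, ∀ y ∈ Y₁, T₁ (ρ g x) (ρ g y) = T₁ x y)
      (hT₂ : ∀ g : G, ∀ x ∈ Y₂, ∀ y ∈ Y₂, T₂ (ρ g x) (ρ g y) = T₂ x y),
      ∀ g : G, ∀ x ∈ Y₁ ⊔ Y₂, ∀ y ∈ Y₁ ⊔ Y₂, T (ρ g x) (ρ g y) = T x y := by
    intro T T₁ T₂ hT Y₁ Y₂ hY₁ hY₂ hi₁ hi₂ hT₁ hT₂ g x hx y hy
    obtain ⟨a, ha, b, hb, rfl⟩ := Submodule.mem_sup.mp hx
    obtain ⟨a', ha', b', hb', rfl⟩ := Submodule.mem_sup.mp hy
    rw [map_add (ρ g) a b, map_add (ρ g) a' b', hT _ (hY₁ (hi₁ g a ha)) _ (hY₂ (hi₂ g b hb)) _ (hY₁ (hi₁ g a' ha')) _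
      (hY₂ (hi₂ g b' hb')), hT _ (hY₁ ha) _ (hY₂ hb) _ (hY₁ ha') _ (hY₂ hb'), hT₁ g a ha a' ha',
      hT₂ g b hb b' hb']
  have hndeg : ∀ (T : LinearMap.BilinForm F V) (T₁ T₂ : LinearMap.BilinForm F V)
      (hT : ∀ x ∈ X₁, ∀ y ∈ C, ∀ x' ∈ X₁, ∀ y' ∈ C, T (x + y) (x' + y') = T₁ x x' + T₂ y y')
      (Y₁ Y₂ : Submodule F V) (hY₁ : Y₁ ≤ X₁) (hY₂ : Y₂ ≤ C)
      (hT₁ : NDeg T₁ Y₁ Y₁) (hT₂ : NDeg T₂ Y₂ Y₂), NDeg T (Y₁ ⊔ Y₂) (Y₁ ⊔ Y₂) := by
    intro T T₁ T₂ hT Y₁ Y₂ hY₁ hY₂ hT₁ hT₂ x hx hxy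
    obtain ⟨a, ha, b, hb, rfl⟩ := Submodule.mem_sup.mp hx
    have e1 : a = 0 := by
      refine hT₁ a ha fun y hy => ?_
      have h3 := hxy y (Submodule.mem_sup_left hy)
      rw [← add_zero y, hT a (hY₁ ha) b (hY₂ hb) y (hY₁ hy) 0 (Submodule.zero_mem _), map_zero,
        add_zero] at h3
      exact h3
    have e2 : b = 0 := by
      refine hT₂ b hb fun y hy => ?_
      have h3 := hxy y (Submodule.mem_sup_right hy)
      rw [← zero_add y, hT a (hY₁ ha) b (hY₂ hb) 0 (Submodule.zero_mem _) y (hY₂ hy), map_zero,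
        zero_add] at h3
      exact h3
    rw [e1, e2, add_zero]
  refine ⟨U₁ ⊔ U₂, W₁ ⊔ W₂, hU₁.sup hU₂, hW₁.sup hW₂, ?_, ?_, ⟨A, ?_, ?_, ?_⟩, ⟨S, ?_, ?_, ?_⟩, ?_⟩
  · rw [eq_bot_iff]
    rintro x ⟨hx, hx'⟩
    obtain ⟨a, ha, b, hb, rfl⟩ := Submodule.mem_sup.mp hx
    obtain ⟨a', ha', b', hb', e⟩ := Submodule.mem_sup.mp hx'
    have h3 : a - a' = b' - b := by
      rw [sub_eq_sub_iff_add_eq_add, add_comm b' a', e]
    have h4 : a - a' ∈ X₁ ⊓ C := ⟨X₁.sub_mem (hU₁X ha) (hW₁X ha'), by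
      rw [h3]; exact C.sub_mem (hW₂X hb') (hU₂X hb)⟩
    rw [hc.inf_eq_bot, Submodule.mem_bot] at h4
    have h5 : b' - b = 0 := by rw [← h3, h4]
    have h6 : a ∈ U₁ ⊓ W₁ := ⟨ha, by rw [sub_eq_zero.mp h4]; exact ha'⟩
    have h7 : b ∈ U₂ ⊓ W₂ := ⟨hb, by rw [← sub_eq_zero.mp h5]; exact hb'⟩
    rw [hd₁, Submodule.mem_bot] at h6
    rw [hd₂, Submodule.mem_bot] at h7
    rw [h6, h7, add_zero]; exact Submodule.zero_mem _
  · rw [sup_sup_sup_comm, hs₁, hs₂]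
  · intro x hx
    obtain ⟨a, ha, b, hb, rfl⟩ := Submodule.mem_sup.mp hx
    rw [hA a (hU₁X ha) b (hU₂X hb) a (hU₁X ha) b (hU₂X hb), ha₁ a ha, ha₂ b hb, add_zero]
  · exact hinvg A A₁ A₂ hA U₁ U₂ hU₁X hU₂X hU₁ hU₂ hai₁ hai₂
  · exact hndeg A A₁ A₂ hA U₁ U₂ hU₁X hU₂X han₁ han₂
  · intro x hx y hy
    obtain ⟨a, ha, b, hb, rfl⟩ := Submodule.mem_sup.mp hx
    obtain ⟨a', ha', b', hb', rfl⟩ := Submodule.mem_sup.mp hy
    rw [hS _ (hW₁X ha) _ (hW₂X hb) _ (hW₁X ha') _ (hW₂X hb'),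
      hS _ (hW₁X ha') _ (hW₂X hb') _ (hW₁X ha) _ (hW₂X hb), hs₁' a ha a' ha', hs₂' b hb b' hb']
  · exact hinvg S S₁ S₂ hS W₁ W₂ hW₁X hW₂X hW₁ hW₂ hsi₁ hsi₂
  · exact hndeg S S₁ S₂ hS W₁ W₂ hW₁X hW₂X hsn₁ hsn₂
  · intro hp g w hw
    obtain ⟨a, ha, b, hb, rfl⟩ := Submodule.mem_sup.mp hw
    rw [map_add, ht₁ hp g a ha, ht₂ hp g b hb]

/-- irreducible self-dual pieces -/
theorem good_irr {p : ℕ} [CharP F p] (hBinv : ∀ g : G, ∀ x y : V, B (ρ g x) (ρ g y) = B x y)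
    {M : Submodule F V} (hM : Inv ρ M) (hirr : ∀ M' ≤ M, Inv ρ M' → M' = ⊥ ∨ M' = M)
    (hB : NDeg B M M) : Good ρ p M := by
  set A : LinearMap.BilinForm F V := B - B.flip with hA
  have hAv : ∀ x y, A x y = B x y - B y x := fun x y => rfl
  have hAinv : ∀ g : G, ∀ x y : V, A (ρ g x) (ρ g y) = A x y := by
    intro g x y
    rw [hAv, hAv, hBinv, hBinv]
  rcases hirr (M ⊓ lorth A M) inf_le_left (hM.inf (inv_lorth hAinv hM)) with h1 | h1
  · refine good_of_alt hM (A := A) ?_ (fun g x _ y _ => hAinv g x y) ?_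
    · intro x _
      rw [hAv, sub_self]
    · intro x hx hxy
      have h2 : x ∈ M ⊓ lorth A M := ⟨hx, hxy⟩
      rw [h1] at h2
      exact (Submodule.mem_bot F).mp h2
  · have hsym : ∀ x ∈ M, ∀ y ∈ M, B x y = B y x := by
      intro x hx y hy
      have h2 : x ∈ M ⊓ lorth A M := by rw [h1]; exact hx
      have h3 := h2.2 y hy
      rw [hAv, sub_eq_zero] at h3
      exact h3
    by_cases hp : p = 2
    · subst hp
      have h20 : ∀ a : F, a + a = 0 := CharTwo.add_self_eq_zero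
      let K : Submodule F V :=
        { carrier := {x | x ∈ M ∧ B x x = 0}
          add_mem' := by
            rintro a b ⟨ha, ha'⟩ ⟨hb, hb'⟩
            refine ⟨M.add_mem ha hb, ?_⟩
            simp only [map_add, LinearMap.add_apply]
            rw [ha', hb', hsym a ha b hb]
            linear_combination h20 (B b a)
          zero_mem' := ⟨M.zero_mem, by rw [map_zero]⟩
          smul_mem' := by
            rintro c a ⟨ha, ha'⟩
            refine ⟨M.smul_mem c ha, ?_⟩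
            simp only [map_smul, LinearMap.smul_apply, ha', smul_zero] }
      have hK : Inv ρ K := by
        rintro g x ⟨hx, hx'⟩
        exact ⟨hM g x hx, by rw [hBinv]; exact hx'⟩
      have hKM : K ≤ M := fun x hx => hx.1
      rcases hirr K hKM hK with h2 | h2
      · refine good_of_symm hM hsym (fun g x _ y _ => hBinv g x y) hB ?_
        intro _ g w hw
        have h3 : ρ g w - w ∈ K := by
          refine ⟨M.sub_mem (hM g w hw) hw, ?_⟩
          simp only [map_sub, LinearMap.sub_apply, hBinv]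
          rw [hsym w hw _ (hM g w hw)]
          have h4 := h20 (B (ρ g w) w)
          have h5 := h20 (B w w)
          linear_combination h5 - h4
        rw [h2, Submodule.mem_bot, sub_eq_zero] at h3
        exact h3
      · refine good_of_alt hM (A := B) ?_ (fun g x _ y _ => hBinv g x y) hB
        intro x hx
        have h3 : x ∈ K := by rw [h2]; exact hx
        exact h3.2
    · exact good_of_symm hM hsym (fun g x _ y _ => hBinv g x y) hB (fun h => absurd h hp)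

/-- pairs of dual irreducible pieces -/
theorem good_pair {p : ℕ} (hBinv : ∀ g : G, ∀ x y : V, B (ρ g x) (ρ g y) = B x y)
    {M N : Submodule F V} (hM : Inv ρ M) (hN : Inv ρ N) (hd : M ⊓ N = ⊥)
    (h1 : NDeg B M N) (h2 : ∀ n ∈ N, (∀ m ∈ M, B m n = 0) → n = 0) : Good ρ p (M ⊔ N) := by
  obtain ⟨C, hNC, hc⟩ := (disjoint_iff.mpr (by rw [inf_comm]; exact hd) : Disjoint N M).exists_isCompl
  set P : V →ₗ[F] V := M.projection C hc.symm with hP
  set Q : V →ₗ[F] V := C.projection M hc with hQ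
  have e1 : ∀ x ∈ M, ∀ y ∈ N, P (x + y) = x := by
    intro x hx y hy
    rw [map_add, hP, Submodule.projection_apply_of_mem_left hc.symm hx, Submodule.projection_apply,
      (Submodule.projectionOnto_apply_eq_zero_iff hc.symm).mpr (hNC hy)]
    simp
  have e2 : ∀ x ∈ M, ∀ y ∈ N, Q (x + y) = y := by
    intro x hx y hy
    rw [map_add, hQ, Submodule.projection_apply_of_mem_left hc (hNC hy), Submodule.projection_apply,
      (Submodule.projectionOnto_apply_eq_zero_iff hc).mpr hx]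
    simp
  have hAv : ∀ x y, (B.compl₁₂ P Q - (B.compl₁₂ P Q).flip : LinearMap.BilinForm F V) x y =
      B (P x) (Q y) - B (P y) (Q x) := fun x y => rfl
  refine good_of_alt (hM.sup hN) (A := B.compl₁₂ P Q - (B.compl₁₂ P Q).flip) ?_ ?_ ?_
  · intro x _
    rw [hAv, sub_self]
  · intro g x hx y hy
    obtain ⟨a, ha, b, hb, rfl⟩ := Submodule.mem_sup.mp hx
    obtain ⟨a', ha', b', hb', rfl⟩ := Submodule.mem_sup.mp hy
    rw [hAv, hAv, map_add (ρ g) a b, map_add (ρ g) a' b', e1 _ (hM g a ha) _ (hN g b hb), e2 _ (hM g a ha) _ (hN g b hb),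
      e1 _ (hM g a' ha') _ (hN g b' hb'), e2 _ (hM g a' ha') _ (hN g b' hb'), e1 a ha b hb, e2 a ha b hb,
      e1 a' ha' b' hb', e2 a' ha' b' hb', hBinv, hBinv]
  · intro x hx hxy
    obtain ⟨a, ha, b, hb, rfl⟩ := Submodule.mem_sup.mp hx
    have f1 : a = 0 := by
      refine h1 a ha fun y hy => ?_
      have h3 := hxy (0 + y) (by rw [zero_add]; exact Submodule.mem_sup_right hy)
      rw [hAv, e1 a ha b hb, e2 a ha b hb, e1 0 M.zero_mem y hy, e2 0 M.zero_mem y hy, map_zero,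
        LinearMap.zero_apply, sub_zero] at h3
      exact h3
    have f2 : b = 0 := by
      refine h2 b hb fun y hy => ?_
      have h3 := hxy (y + 0) (by rw [add_zero]; exact Submodule.mem_sup_left hy)
      rw [hAv, e1 a ha b hb, e2 a ha b hb, e1 y hy 0 N.zero_mem, e2 y hy 0 N.zero_mem, map_zero,
        zero_sub, neg_eq_zero] at h3
      exact h3
    rw [f1, f2, add_zero]


theorem NDeg.mono_left {X X' Y : Submodule F V} (h : NDeg B X Y) (hX : X' ≤ X) : NDeg B X' Y :=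
  fun x hx hxy => h x (hX hx) hxy

/-- the annihilator of an invariant subspace in an irreducible one -/
theorem ndeg_of_irr (hBinv : ∀ g : G, ∀ x y : V, B (ρ g x) (ρ g y) = B x y)
    {M Y : Submodule F V} (hM : Inv ρ M) (hirr : ∀ M' ≤ M, Inv ρ M' → M' = ⊥ ∨ M' = M)
    (hY : Inv ρ Y) (h : ¬ ∀ m ∈ M, ∀ y ∈ Y, B m y = 0) : NDeg B M Y := by
  rcases hirr (M ⊓ lorth B Y) inf_le_left (hM.inf (inv_lorth hBinv hY)) with h1 | h1
  · intro x hx hxy
    have h2 : x ∈ M ⊓ lorth B Y := ⟨hx, hxy⟩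
    rw [h1] at h2
    exact (Submodule.mem_bot F).mp h2
  · exfalso
    apply h
    intro m hm y hy
    have h2 : m ∈ M ⊓ lorth B Y := by rw [h1]; exact hm
    exact h2.2 y hy

/-- a good partner -/
theorem exists_partner [Finite G] (hcop : (Nat.card G : F) ≠ 0)
    (hBinv : ∀ g : G, ∀ x y : V, B (ρ g x) (ρ g y) = B x y)
    {M X : Submodule F V} (hM : Inv ρ M) (hM0 : M ≠ ⊥)
    (hirr : ∀ M' ≤ M, Inv ρ M' → M' = ⊥ ∨ M' = M) (hX : Inv ρ X)
    (hl : ∃ m ∈ M, ∃ x ∈ X, B m x ≠ 0) (hr : ∃ m ∈ M, ∃ x ∈ X, B x m ≠ 0) :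
    ∃ N ≤ X, Inv ρ N ∧ N ≠ ⊥ ∧ (∀ n ∈ N, (∀ m ∈ M, B m n = 0) → n = 0) ∧
      (∀ n ∈ N, (∀ m ∈ M, B n m = 0) → n = 0) := by
  classical
  have hBinv' : ∀ g : G, ∀ x y : V, B.flip (ρ g x) (ρ g y) = B.flip x y := fun g x y => hBinv g y x
  -- `R` right orthogonal, `L` left orthogonal
  set R : Submodule F V := X ⊓ lorth B.flip M with hR
  set L : Submodule F V := X ⊓ lorth B M with hL
  have hRi : Inv ρ R := hX.inf (inv_lorth hBinv' hM)
  have hLi : Inv ρ L := hX.inf (inv_lorth hBinv hM)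
  have hmR : ∀ x, x ∈ R ↔ x ∈ X ∧ ∀ m ∈ M, B m x = 0 := fun x => Iff.rfl
  have hmL : ∀ x, x ∈ L ↔ x ∈ X ∧ ∀ m ∈ M, B x m = 0 := fun x => Iff.rfl
  -- reduction
  suffices hD : ∃ D ≤ X, Inv ρ D ∧ ∃ K ≤ D, Inv ρ K ∧ K ≠ D ∧ D ⊓ R ≤ K ∧ D ⊓ L ≤ K by
    obtain ⟨D, hDX, hDi, K, hKD, hKi, hKne, hRK, hLK⟩ := hD
    obtain ⟨N, hND, hNi, hNK, hNs⟩ := exists_compl hcop hKi hDi hKD
    have h0 : ∀ n ∈ N, n ∈ K → n = 0 := by
      intro n hn hk
      have h1 : n ∈ N ⊓ K := ⟨hn, hk⟩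
      rw [hNK] at h1
      exact (Submodule.mem_bot F).mp h1
    refine ⟨N, hND.trans hDX, hNi, ?_, ?_, ?_⟩
    · intro h1
      rw [h1, bot_sup_eq] at hNs
      exact hKne hNs
    · intro n hn h1
      exact h0 n hn (hRK ⟨hND hn, (hmR n).mpr ⟨hDX (hND hn), h1⟩⟩)
    · intro n hn h1
      exact h0 n hn (hLK ⟨hND hn, (hmL n).mpr ⟨hDX (hND hn), h1⟩⟩)
  have hRX : R ≠ X := by
    intro h
    obtain ⟨m, hm, x, hx, h1⟩ := hl
    rw [← h] at hx
    exact h1 (((hmR x).mp hx).2 m hm)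
  have hLX : L ≠ X := by
    intro h
    obtain ⟨m, hm, x, hx, h1⟩ := hr
    rw [← h] at hx
    exact h1 (((hmL x).mp hx).2 m hm)
  by_cases h1 : L ≤ R
  · exact ⟨X, le_rfl, hX, R, inf_le_left, hRi, hRX, inf_le_right, inf_le_right.trans h1⟩
  by_cases h2 : R ≤ L
  · exact ⟨X, le_rfl, hX, L, inf_le_left, hLi, hLX, inf_le_right.trans h2, inf_le_right⟩
  -- the equalizer
  set D : Submodule F V := X ⊓ lorth (B - B.flip) M with hD
  have hmD : ∀ x, x ∈ D ↔ x ∈ X ∧ ∀ m ∈ M, B x m - B m x = 0 := fun x => Iff.rfl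
  have hDi : Inv ρ D := hX.inf (inv_lorth (by
    intro g x y
    show B (ρ g x) (ρ g y) - B (ρ g y) (ρ g x) = B x y - B y x
    rw [hBinv, hBinv]) hM)
  refine ⟨D, inf_le_left, hDi, D ⊓ R, inf_le_left, hDi.inf hRi, ?_, le_rfl, ?_⟩
  · intro hDR
    -- functionals
    have hn1 : NDeg B M L := by
      refine ndeg_of_irr hBinv hM hirr hLi ?_
      intro h3
      exact h1 fun x hx => (hmR x).mpr ⟨((hmL x).mp hx).1, fun m hm => h3 m hm x hx⟩
    have hn2 : NDeg B.flip M R := by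
      refine ndeg_of_irr hBinv' hM hirr hRi ?_
      intro h3
      exact h2 fun x hx => (hmL x).mpr ⟨((hmR x).mp hx).1, fun m hm => h3 m hm x hx⟩
    obtain ⟨m₀, hm₀, hm₀0⟩ := (Submodule.ne_bot_iff M).mp hM0
    obtain ⟨f, hf⟩ : ∃ f : Dual F M, f ⟨m₀, hm₀⟩ ≠ 0 := by
      by_contra hcon
      push Not at hcon
      have := (forall_dual_apply_eq_zero_iff F (⟨m₀, hm₀⟩ : M)).mp hcon
      exact hm₀0 (congrArg Subtype.val this)
    obtain ⟨x₁, hx₁, e1⟩ := hn1.repr' f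
    obtain ⟨x₂, hx₂, e2⟩ := hn2.repr' f
    have hxD : x₁ + x₂ ∈ D := by
      refine (hmD _).mpr ⟨X.add_mem ((hmL _).mp hx₁).1 ((hmR _).mp hx₂).1, fun m hm => ?_⟩
      have e1' := e1 ⟨m, hm⟩
      have e2' : f ⟨m, hm⟩ = B x₂ m := e2 ⟨m, hm⟩
      have e3 := ((hmL _).mp hx₁).2 m hm
      have e4 := ((hmR _).mp hx₂).2 m hm
      simp only [map_add, LinearMap.add_apply]
      rw [e3, e4, ← e1', ← e2']
      ring
    have h3 : x₁ + x₂ ∈ R := by
      rw [← hDR] at hxD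
      exact hxD.2
    apply hf
    have e4 := ((hmR _).mp hx₂).2 m₀ hm₀
    have e5 := ((hmR _).mp h3).2 m₀ hm₀
    rw [map_add, e4, add_zero] at e5
    rw [e1 ⟨m₀, hm₀⟩]
    exact e5
  · rintro x ⟨hx, hx'⟩
    refine ⟨hx, (hmR x).mpr ⟨((hmD x).mp hx).1, fun m hm => ?_⟩⟩
    have h3 := ((hmD x).mp hx).2 m hm
    rw [((hmL x).mp hx').2 m hm, zero_sub, neg_eq_zero] at h3
    exact h3

theorem good_of_ndeg [Finite G] {p : ℕ} [CharP F p] (hcop : (Nat.card G : F) ≠ 0)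
    (hBinv : ∀ g : G, ∀ x y : V, B (ρ g x) (ρ g y) = B x y) (n : ℕ) :
    ∀ X : Submodule F V, Inv ρ X → NDeg B X X → finrank F X = n → Good ρ p X := by
  induction n using Nat.strong_induction_on with
  | _ n ih =>
    intro X hX hnX hn
    by_cases hX0 : X = ⊥
    · rw [hX0]
      refine good_of_alt inv_bot (A := 0) (fun _ _ => rfl) (fun _ _ _ _ _ => rfl) ?_
      intro x hx _
      exact (Submodule.mem_bot F).mp hx
    have key : ∀ X₁ ≤ X, X₁ ≠ ⊥ → Inv ρ X₁ → Good ρ p X₁ → NDeg B X₁ X₁ → Good ρ p X := by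
      intro X₁ hX₁ hX₁0 hX₁i hg hnd
      have hc := isCompl_lorth hnd
      set C := lorth B X₁ with hC
      have hCi : Inv ρ C := inv_lorth hBinv hX₁i
      have hsup : X₁ ⊔ (X ⊓ C) = X := by
        rw [inf_comm, ← sup_inf_assoc_of_le C hX₁, hc.sup_eq_top, top_inf_eq]
      have hlt : X ⊓ C < X := by
        refine lt_of_le_of_ne inf_le_left fun h => hX₁0 ?_
        have h1 : X₁ ≤ C := by
          rw [inf_eq_left] at h
          exact hX₁.trans h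
        rw [← inf_eq_left.mpr h1]
        exact hc.inf_eq_bot
      have h2 : NDeg B (X ⊓ C) (X ⊓ C) := by
        intro x hx hxy
        refine hnX x hx.1 fun y hy => ?_
        rw [← hsup] at hy
        obtain ⟨a, ha, b, hb, rfl⟩ := Submodule.mem_sup.mp hy
        rw [map_add, hxy b hb, hx.2 a ha, add_zero]
      have h3 := ih _ (by rw [← hn]; exact Submodule.finrank_lt_finrank_of_lt hlt) (X ⊓ C)
        (hX.inf hCi) h2 rfl
      rw [← hsup]
      exact Good.sup hc inf_le_right hg h3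
    obtain ⟨M, hMX, hM, hM0, hirr⟩ := exists_irr hX hX0
    by_cases h1 : ∀ m ∈ M, ∀ y ∈ M, B m y = 0
    · -- a partner
      have hnM : NDeg B M X := hnX.mono_left hMX
      obtain ⟨m₀, hm₀, hm₀0⟩ := (Submodule.ne_bot_iff M).mp hM0
      have hl : ∃ m ∈ M, ∃ x ∈ X, B m x ≠ 0 := by
        by_contra hcon
        push Not at hcon
        exact hm₀0 (hnM m₀ hm₀ (hcon m₀ hm₀))
      have hr : ∃ m ∈ M, ∃ x ∈ X, B x m ≠ 0 := by
        by_contra hcon
        push Not at hcon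
        exact hm₀0 ((hnX.flip le_rfl) m₀ (hMX hm₀) (hcon m₀ hm₀))
      obtain ⟨N, hNX, hN, hN0, hN1, hN2⟩ := exists_partner hcop hBinv hM hM0 hirr hX hl hr
      have hMN : M ⊓ N = ⊥ := by
        rcases hirr (M ⊓ N) inf_le_left (hM.inf hN) with h2 | h2
        · exact h2
        · exfalso
          have h3 : m₀ ∈ M ⊓ N := by rw [h2]; exact hm₀
          exact hm₀0 (hN1 m₀ h3.2 fun m hm => h1 m hm m₀ hm₀)
      have hndMN : NDeg B M N := by
        refine ndeg_of_irr hBinv hM hirr hN ?_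
        intro h2
        apply hN0
        rw [eq_bot_iff]
        intro x hx
        rw [hN1 x hx fun m hm => h2 m hm x hx]
        exact Submodule.zero_mem _
      refine key (M ⊔ N) (sup_le hMX hNX) ?_ (hM.sup hN) (good_pair hBinv hM hN hMN hndMN hN1) ?_
      · intro h2
        apply hM0
        rw [eq_bot_iff, ← h2]
        exact le_sup_left
      · intro x hx hxy
        obtain ⟨a, ha, b, hb, rfl⟩ := Submodule.mem_sup.mp hx
        have e1 : b = 0 := by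
          refine hN2 b hb fun m hm => ?_
          have h3 := hxy m (Submodule.mem_sup_left hm)
          rw [map_add, LinearMap.add_apply, h1 a ha m hm, zero_add] at h3
          exact h3
        have e2 : a = 0 := by
          refine hndMN a ha fun y hy => ?_
          have h3 := hxy y (Submodule.mem_sup_right hy)
          rw [e1, add_zero] at h3
          exact h3
        rw [e1, e2, add_zero]
    · have hnd : NDeg B M M := ndeg_of_irr hBinv hM hirr hM h1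
      exact key M hMX hM0 hM (good_irr hBinv hM hirr hnd) hnd

end form

end Cfsg.Agent.H75.SD
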