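import Cfsg.Agent.H75.RTa
import Cfsg.Agent.H75.SelfDual2

/-!
# Robinson–Thompson: Gauss sums (owner: helper75)
-/

set_option autoImplicit false
set_option linter.style.haveILetI false
set_option linter.unusedSectionVars false

namespace Cfsg.Agent.H75.RT

open scoped ComplexConjugate BigOperators
open Cfsg Cfsg.Agent.CharBase Cfsg.Agent.Char Cfsg.Agent.BlkC

universe u v

section lin

variable {p : ℕ} [hp : Fact p.Prime] {H : Type u} [Group H] [Finite H] {W : Type v} [AddCommGroup W]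
  [Module (ZMod p) W] [Finite W] (ρ : Representation (ZMod p) H W)

/-- fixed points -/
def fixS (h : H) : Submodule (ZMod p) W := LinearMap.ker (ρ h - 1)

/-- the commutator space -/
def movS (h : H) : Submodule (ZMod p) W := LinearMap.range (ρ h - 1)

variable {ρ}

theorem mem_fixS {h : H} {x : W} : x ∈ fixS ρ h ↔ ρ h x = x := by
  unfold fixS
  rw [LinearMap.mem_ker, LinearMap.sub_apply, Module.End.one_apply, sub_eq_zero]

theorem mem_movS {h : H} {x : W} : x ∈ movS ρ h ↔ ∃ y, ρ h y - y = x := by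
  unfold movS
  rw [LinearMap.mem_range]
  rfl

theorem fix_inf_mov (hpH : ¬ p ∣ Nat.card H) (h : H) : Disjoint (fixS ρ h) (movS ρ h) := by
  rw [Submodule.disjoint_def]
  intro x hx hx'
  rw [mem_fixS] at hx
  obtain ⟨y, hy⟩ := mem_movS.mp hx'
  have h1 : ∀ i : ℕ, ρ (h ^ i) x = x := by
    intro i
    induction i with
    | zero => rw [pow_zero, map_one]; rfl
    | succ i ih => rw [pow_succ, map_mul, Module.End.mul_apply, hx, ih]
  have h2 : ∑ i ∈ Finset.range (Nat.card H), (ρ (h ^ (i + 1)) y - ρ (h ^ i) y) = 0 := by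
    rw [Finset.sum_range_sub (fun i => ρ (h ^ i) y), pow_card_eq_one', pow_zero, sub_self]
  have h3 : ∀ i ∈ Finset.range (Nat.card H), ρ (h ^ (i + 1)) y - ρ (h ^ i) y = x := by
    intro i _
    rw [pow_succ, map_mul, Module.End.mul_apply, ← map_sub, hy, h1]
  rw [Finset.sum_congr rfl h3, Finset.sum_const, Finset.card_range,
    ← Nat.cast_smul_eq_nsmul (ZMod p)] at h2
  rcases smul_eq_zero.mp h2 with h4 | h4
  · exact absurd ((ZMod.natCast_eq_zero_iff _ _).mp h4) hpH
  · exact h4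

theorem isCompl_fix (hpH : ¬ p ∣ Nat.card H) (h : H) : IsCompl (fixS ρ h) (movS ρ h) := by
  haveI : Module.Finite (ZMod p) W := Module.Finite.of_finite
  refine (Submodule.isCompl_iff_disjoint _ _ ?_).mpr (fix_inf_mov hpH h)
  have := LinearMap.finrank_range_add_finrank_ker (ρ h - 1)
  unfold fixS movS
  omega

theorem card_fix_mov (hpH : ¬ p ∣ Nat.card H) (h : H) :
    Nat.card (fixS ρ h) * Nat.card (movS ρ h) = Nat.card W := by
  rw [← Nat.card_prod]
  exact Nat.card_congr (Submodule.prodEquivOfIsCompl _ _ (isCompl_fix hpH h)).toEquiv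

theorem exists_fix_mov (hpH : ¬ p ∣ Nat.card H) (h : H) (y : W) :
    ∃ c ∈ fixS ρ h, ∃ r ∈ movS ρ h, c + r = y := by
  refine Submodule.mem_sup.mp ?_
  rw [(isCompl_fix hpH h).sup_eq_top]
  trivial

variable {B : LinearMap.BilinForm (ZMod p) W}

theorem fix_orth (hB : ∀ g : H, ∀ x y, B (ρ g x) (ρ g y) = B x y) {h : H} {c r : W}
    (hc : c ∈ fixS ρ h) (hr : r ∈ movS ρ h) : B c r = 0 := by
  obtain ⟨y, rfl⟩ := mem_movS.mp hr
  rw [mem_fixS] at hc
  have := hB h c y
  rw [hc] at this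
  rw [map_sub, this, sub_self]

theorem fix_nd (hpH : ¬ p ∣ Nat.card H) (hB : ∀ g : H, ∀ x y, B (ρ g x) (ρ g y) = B x y)
    (hnd : ∀ x, (∀ y, B x y = 0) → x = 0) {h : H} {c : W} (hc : c ∈ fixS ρ h)
    (h0 : ∀ c' ∈ fixS ρ h, B c c' = 0) : c = 0 := by
  refine hnd c fun y => ?_
  obtain ⟨c', hc', r, hr, rfl⟩ := exists_fix_mov hpH h y
  rw [map_add, h0 c' hc', fix_orth hB hc hr, add_zero]

theorem card_pow (M : Submodule (ZMod p) W) : ∃ a ≤ Nat.card W, Nat.card M = p ^ a := by
  haveI : Module.Finite (ZMod p) W := Module.Finite.of_finite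
  have h1 : Nat.card M = p ^ Module.finrank (ZMod p) M := by
    rw [Module.natCard_eq_pow_finrank (K := ZMod p), Nat.card_zmod]
  refine ⟨Module.finrank (ZMod p) M, ?_, h1⟩
  have h2 : Nat.card M ≤ Nat.card W := Nat.card_le_card_of_injective _ Subtype.val_injective
  have h3 : Module.finrank (ZMod p) M < p ^ Module.finrank (ZMod p) M :=
    Nat.lt_pow_self hp.out.one_lt
  omega

end lin

section piece

variable {p : ℕ} [hp : Fact p.Prime] {H : Type u} [Group H] [Fintype H] {W : Type v} [AddCommGroup W]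
  [Module (ZMod p) W] [Finite W] {ρ : Representation (ZMod p) H W} {n : ℕ}

/-- numbers of fixed points in a stable set -/
theorem perm_char {q : W → ZMod p} (hq : ∀ g x, q (ρ g x) = q x) (j : ZMod p) :
    IsCharacter H (fun h => (Nat.card {w : W // q w = j ∧ ρ h w = w} : ℂ)) := by
  letI : MulAction H {w : W // q w = j} :=
    { smul := fun h w => ⟨ρ h w, by rw [hq]; exact w.2⟩
      one_smul := fun w => Subtype.ext (by
        show ρ 1 (w : W) = w
        rw [map_one]; rfl)
      mul_smul := fun a b w => Subtype.ext (by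
        show ρ (a * b) (w : W) = ρ a (ρ b w)
        rw [map_mul]; rfl) }
  have h1 := Reg.isCharacter_fixedBy (G := H) (X := {w : W // q w = j})
  have h2 : (fun h => (Nat.card {w : W // q w = j ∧ ρ h w = w} : ℂ)) =
      (fun g : H => (Nat.card (MulAction.fixedBy {w : W // q w = j} g) : ℂ)) := by
    funext h
    congr 1
    refine Nat.card_congr
      { toFun := fun w => ⟨⟨w.1, w.2.1⟩, Subtype.ext w.2.2⟩
        invFun := fun w => ⟨w.1.1, w.1.2, congrArg Subtype.val w.2⟩
        left_inv := fun w => rfl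
        right_inv := fun w => rfl }
  rw [h2]
  exact h1

variable (ρ n) in
/-- a square root of the index function -/
def Piece : Prop :=
  ∃ η : H → ℂ, IG n η ∧ (∀ h, η h * conj (η h) * (Nat.card (fixS ρ h) : ℂ) = Nat.card W) ∧
    ∀ h, (∃ x, ρ h x ≠ x) → ∃ (m : ℕ) (r : ℂ), IsIntegral ℤ r ∧ η h ^ m = p * r

theorem fix_char : IsCharacter H (fun h => (Nat.card (fixS ρ h) : ℂ)) := by
  have h1 := perm_char (ρ := ρ) (q := fun _ => 0) (fun _ _ => rfl) 0
  have h2 : (fun h => (Nat.card (fixS ρ h) : ℂ)) =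
      (fun h => (Nat.card {w : W // (0 : ZMod p) = 0 ∧ ρ h w = w} : ℂ)) := by
    funext h
    congr 1
    refine Nat.card_congr (Equiv.subtypeEquivRight fun w => ?_)
    rw [mem_fixS]
    exact ⟨fun h => ⟨rfl, h⟩, fun h => h.2⟩
  rw [h2]
  exact h1

theorem fix_one : Nat.card (fixS ρ (1 : H)) = Nat.card W := by
  refine Nat.card_congr ((Equiv.subtypeEquivRight fun w => ?_).trans (Equiv.Set.univ W))
  rw [mem_fixS, map_one]
  exact ⟨fun _ => trivial, fun _ => rfl⟩

theorem Piece.of_delta (hn : Nat.card H ∣ n) (hpH : ¬ p ∣ Nat.card H) {δ : H → ℂ} (hδ : IG n δ)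
    (hδ2 : ∀ h, δ h * conj (δ h) = (Nat.card (fixS ρ h) : ℂ))
    (hη : ∀ h, ∃ e ∈ cycRing n, e * δ h = δ 1 ∧ ((∃ x, ρ h x ≠ x) →
      ∃ (m : ℕ) (r : ℂ), IsIntegral ℤ r ∧ e ^ m = p * r)) : Piece ρ n := by
  choose e he hed hep using hη
  have hπ0 : ∀ h, (Nat.card (fixS ρ h) : ℂ) ≠ 0 := fun h =>
    Nat.cast_ne_zero.mpr Nat.card_pos.ne'
  have hmul : ∀ h, (Nat.card (fixS ρ h) : ℂ) * e h = δ 1 * conj (δ h) := by
    intro h
    rw [← hδ2, ← hed h]; ring
  have hee : ∀ h, e h = δ 1 * conj (δ h) / (Nat.card (fixS ρ h) : ℂ) := by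
    intro h
    rw [eq_div_iff (hπ0 h), mul_comm, hmul]
  refine ⟨e, ?_, ?_, hep⟩
  · refine IG.quot hn hpH (δ := fun h => conj (δ h)) hδ.conj
      (π := fun h => (Nat.card (fixS ρ h) : ℂ)) (IG.of_char fix_char) (N := Nat.card W) ?_ ?_ he
      (c := δ 1) (hδ.apply_mem hn 1) hmul
    · intro h
      obtain ⟨a, ha, hc⟩ := card_pow (fixS ρ h)
      exact ⟨a, ha, by rw [hc]; push_cast; rfl⟩
    · intro a b
      rw [hee, hee, ← hδ2 (b * a * b⁻¹), ← hδ2 a, hδ.1 a b]
  · intro h
    rw [← hδ2 h]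
    have h1 : e h * conj (e h) * (δ h * conj (δ h)) = (e h * δ h) * conj (e h * δ h) := by
      rw [map_mul]; ring
    rw [h1, hed, hδ2 1, fix_one]

end piece

section gauss

variable {p : ℕ} [hp : Fact p.Prime]

theorem gauss_sq {C : Type v} [AddCommGroup C] [Fintype C] (q : C → ZMod p) (b : C → C →+ ZMod p)
    (hq : ∀ x y, q (x + y) = q x + q y + b x y) (hnd : ∀ x, (∀ y, b x y = 0) → x = 0) :
    (∑ x : C, (ZMod.stdAddChar (q x) : ℂ)) * conj (∑ x : C, (ZMod.stdAddChar (q x) : ℂ)) =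
      Nat.card C := by
  classical
  have hq0 : q 0 = 0 := by
    have := hq 0 0
    rw [add_zero, map_zero, add_zero] at this
    exact left_eq_add.mp this
  have h1 : ∀ y, ∑ x, (ZMod.stdAddChar (q x) : ℂ) * conj (ZMod.stdAddChar (q y) : ℂ) =
      ∑ u, (ZMod.stdAddChar (q u) : ℂ) * (ZMod.stdAddChar (b u y) : ℂ) := by
    intro y
    rw [← Equiv.sum_comp (Equiv.addRight y)]
    refine Finset.sum_congr rfl fun u _ => ?_
    rw [Equiv.coe_addRight, ← AddChar.map_neg_eq_conj, ← AddChar.map_add_eq_mul,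
      ← AddChar.map_add_eq_mul, hq]
    congr 1
    ring
  have h2 : ∀ u, ∑ y, (ZMod.stdAddChar (b u y) : ℂ) = if u = 0 then (Nat.card C : ℂ) else 0 := by
    intro u
    have h3 := AddChar.sum_eq_ite ((ZMod.stdAddChar (N := p)).compAddMonoidHom (b u))
    have h4 : ((ZMod.stdAddChar (N := p)).compAddMonoidHom (b u)) = 0 ↔ u = 0 := by
      constructor
      · intro h
        refine hnd u fun y => ?_
        have h5 := DFunLike.congr_fun h y
        rw [AddChar.compAddMonoidHom_apply, AddChar.zero_apply, ← AddChar.map_zero_eq_one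
          (ZMod.stdAddChar (N := p))] at h5
        exact ZMod.injective_stdAddChar h5
      · rintro rfl
        ext y
        have h5 : b 0 y = 0 := by
          have := hq 0 y
          rw [zero_add, hq0, zero_add] at this
          exact left_eq_add.mp this
        rw [AddChar.compAddMonoidHom_apply, h5, AddChar.map_zero_eq_one, AddChar.zero_apply]
    simp only [h4] at h3
    rw [Nat.card_eq_fintype_card]
    exact h3
  rw [map_sum, Finset.sum_mul_sum, Finset.sum_comm, Finset.sum_congr rfl fun y _ => h1 y,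
    Finset.sum_comm, Finset.sum_congr rfl fun u _ => (Finset.mul_sum _ _ _).symm]
  simp only [h2, mul_ite, mul_zero]
  rw [Finset.sum_ite_eq' Finset.univ (0 : C), if_pos (Finset.mem_univ _), hq0,
    AddChar.map_zero_eq_one, one_mul]

theorem sum_pow_prime {R : Type*} [CommRing R] {ι : Type*} (s : Finset ι) (f : ι → R) :
    ∃ r, (∑ i ∈ s, f i) ^ p = ∑ i ∈ s, f i ^ p + p * r := by
  classical
  induction s using Finset.induction_on with
  | empty => exact ⟨0, by simp [hp.out.ne_zero]⟩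
  | insert a s ha ih =>
    obtain ⟨r, hr⟩ := ih
    obtain ⟨r', hr'⟩ := exists_add_pow_prime_eq hp.out (f a) (∑ i ∈ s, f i)
    refine ⟨r + f a * (∑ i ∈ s, f i) * r', ?_⟩
    rw [Finset.sum_insert ha, Finset.sum_insert ha, hr', hr]
    ring

theorem std_pow (j : ZMod p) : (ZMod.stdAddChar j : ℂ) ^ p = 1 := by
  rw [← AddChar.map_nsmul_eq_pow, nsmul_eq_mul, CharP.cast_eq_zero, zero_mul,
    AddChar.map_zero_eq_one]

theorem gauss_pow {ι : Type*} (s : Finset ι) (q : ι → ZMod p) (hs : p ∣ s.card) :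
    ∃ (m : ℕ) (r : ℂ), IsIntegral ℤ r ∧ (∑ i ∈ s, (ZMod.stdAddChar (q i) : ℂ)) ^ m = p * r := by
  have hint : ∀ j : ZMod p, IsIntegral ℤ (ZMod.stdAddChar j : ℂ) := fun j => by
    refine ⟨Polynomial.X ^ p - 1, Polynomial.monic_X_pow_sub_C 1 hp.out.ne_zero, ?_⟩
    simp [std_pow]
  let f : ι → integralClosure ℤ ℂ := fun i => ⟨ZMod.stdAddChar (q i), hint _⟩
  obtain ⟨r, hr⟩ := sum_pow_prime (p := p) s f
  have h1 : ∀ i ∈ s, f i ^ p = 1 := fun i _ => Subtype.ext (std_pow (q i))
  rw [Finset.sum_congr rfl h1, Finset.sum_const, nsmul_eq_mul, mul_one] at hr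
  obtain ⟨k, hk⟩ := hs
  refine ⟨p, (k : ℂ) + r, ?_, ?_⟩
  · exact (isIntegral_algebraMap (R := ℤ) (x := (k : ℤ))).add r.2
  · have h2 := congrArg (fun z : integralClosure ℤ ℂ => (z : ℂ)) hr
    simp only [Subalgebra.coe_pow, Subalgebra.coe_add, Subalgebra.coe_mul, hk] at h2
    rw [show (∑ i ∈ s, (ZMod.stdAddChar (q i) : ℂ)) = ((∑ i ∈ s, f i : integralClosure ℤ ℂ) : ℂ) by
      push_cast; rfl, h2]
    push_cast
    ring

variable {H : Type u} [Group H] [Fintype H] {W : Type v} [AddCommGroup W]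
  [Module (ZMod p) W] [Finite W] {ρ : Representation (ZMod p) H W} {n : ℕ}

theorem Piece.of_quad (hn : Nat.card H ∣ n) (hpn : p ∣ n) (hpH : ¬ p ∣ Nat.card H)
    (q : W → ZMod p) (B : LinearMap.BilinForm (ZMod p) W)
    (hq : ∀ x y, q (x + y) = q x + q y + B x y) (hqi : ∀ g x, q (ρ g x) = q x)
    (hnd : ∀ x, (∀ y, B x y = 0) → x = 0) : Piece ρ n := by
  classical
  have := Fintype.ofFinite W
  have hBi : ∀ g : H, ∀ x y, B (ρ g x) (ρ g y) = B x y := by
    intro g x y
    have h1 := hq (ρ g x) (ρ g y)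
    rw [← map_add, hqi, hqi, hqi, hq] at h1
    exact (add_left_cancel h1).symm
  have hstd : ∀ j : ZMod p, (ZMod.stdAddChar j : ℂ) ∈ cycRing n := fun j =>
    root_mem_cyc (by
      obtain ⟨k, rfl⟩ := hpn
      rw [pow_mul, std_pow, one_pow])
  let δ : H → ℂ := fun h => ∑ x : fixS ρ h, (ZMod.stdAddChar (q x) : ℂ)
  have hδ2 : ∀ h, δ h * conj (δ h) = (Nat.card (fixS ρ h) : ℂ) := by
    intro h
    refine gauss_sq (fun x : fixS ρ h => q x)
      (fun x => ((B x).domRestrict (fixS ρ h)).toAddMonoidHom) (fun x y => hq x y) fun x hx => ?_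
    refine Subtype.ext (fix_nd hpH hBi hnd x.2 fun c' hc' => hx ⟨c', hc'⟩)
  have hδ : IG n δ := by
    have h1 : δ = ∑ j : ZMod p, (ZMod.stdAddChar j : ℂ) •
        (fun h => (Nat.card {w : W // q w = j ∧ ρ h w = w} : ℂ)) := by
      funext h
      rw [Finset.sum_apply]
      simp only [Pi.smul_apply, smul_eq_mul]
      have h2 : δ h = ∑ w ∈ Finset.univ.filter (fun w : W => ρ h w = w),
          (ZMod.stdAddChar (q w) : ℂ) := by
        rw [Finset.sum_subtype (p := fun w => w ∈ fixS ρ h)]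
        intro w
        rw [mem_fixS]; simp
      rw [h2, ← Finset.sum_fiberwise _ q]
      refine Finset.sum_congr rfl fun j _ => ?_
      rw [Finset.sum_congr rfl (g := fun _ => (ZMod.stdAddChar j : ℂ)) fun w hw => by
        rw [(Finset.mem_filter.mp hw).2], Finset.sum_const, nsmul_eq_mul, mul_comm]
      congr 2
      rw [Nat.card_eq_fintype_card, Fintype.card_subtype, Finset.filter_filter]
      congr 1
      ext w
      simp [and_comm]
    rw [h1]
    exact IG.sum _ _ fun j _ => (IG.of_char (perm_char hqi j)).smul (hstd j)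
  refine Piece.of_delta hn hpH hδ hδ2 fun h => ?_
  refine ⟨∑ x : movS ρ h, (ZMod.stdAddChar (q x) : ℂ), sum_mem fun x _ => hstd _, ?_, ?_⟩
  · have h1 : δ 1 = ∑ x : W, (ZMod.stdAddChar (q x) : ℂ) := by
      show ∑ x : fixS ρ 1, (ZMod.stdAddChar (q x) : ℂ) = _
      symm
      refine Fintype.sum_bijective (fun x : W => (⟨x, by rw [mem_fixS, map_one]; rfl⟩ : fixS ρ 1))
        ⟨fun a b hab => congrArg Subtype.val hab, fun a => ⟨a, rfl⟩⟩ _ _ fun x => rfl
    rw [h1, ← Equiv.sum_comp (Submodule.prodEquivOfIsCompl _ _ (isCompl_fix (ρ := ρ) hpH h)).toEquiv,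
      Fintype.sum_prod_type, mul_comm]
    show (∑ x : fixS ρ h, (ZMod.stdAddChar (q x) : ℂ)) * _ = _
    rw [Finset.sum_mul_sum]
    refine Finset.sum_congr rfl fun c _ => Finset.sum_congr rfl fun r _ => ?_
    rw [← AddChar.map_add_eq_mul]
    congr 1
    show _ = q ((c : W) + (r : W))
    rw [hq, fix_orth hBi c.2 r.2, add_zero]
  · rintro ⟨x, hx⟩
    refine gauss_pow _ _ ?_
    rw [Finset.card_univ, ← Nat.card_eq_fintype_card]
    obtain ⟨a, -, ha⟩ := card_pow (movS ρ h)
    rw [ha]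
    refine dvd_pow_self p fun h0 => ?_
    rw [h0, pow_zero, Nat.card_eq_one_iff_unique] at ha
    obtain ⟨h1, -⟩ := ha
    have h2 : (⟨ρ h x - x, mem_movS.mpr ⟨x, rfl⟩⟩ : movS ρ h) = 0 := Subsingleton.elim _ _
    exact hx (sub_eq_zero.mp (congrArg Subtype.val h2))

theorem Piece.of_symm (hn : Nat.card H ∣ n) (hpn : p ∣ n) (hpH : ¬ p ∣ Nat.card H) (hp2 : p ≠ 2)
    (S : LinearMap.BilinForm (ZMod p) W) (hS : ∀ x y, S x y = S y x)
    (hSi : ∀ g : H, ∀ x y, S (ρ g x) (ρ g y) = S x y)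
    (hnd : ∀ x, (∀ y, S x y = 0) → x = 0) : Piece ρ n := by
  refine Piece.of_quad hn hpn hpH (fun x => S x x) ((2 : ZMod p) • S) (fun x y => ?_)
    (fun g x => hSi g x x) fun x hx => hnd x fun y => ?_
  · simp only [map_add, LinearMap.add_apply, LinearMap.smul_apply, smul_eq_mul]
    rw [hS y x]; ring
  · have h1 := hx y
    simp only [LinearMap.smul_apply, smul_eq_mul] at h1
    rcases mul_eq_zero.mp h1 with h2 | h2
    · exfalso
      have h3 : ((2 : ℕ) : ZMod p) = 0 := by exact_mod_cast h2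
      rw [ZMod.natCast_eq_zero_iff] at h3
      exact hp2 ((Nat.prime_dvd_prime_iff_eq hp.out Nat.prime_two).mp h3)
    · exact h2

theorem Piece.of_alt_two (hn : Nat.card H ∣ n) (hpn : p ∣ n) (hpH : ¬ p ∣ Nat.card H) (hp2 : p = 2)
    (A : LinearMap.BilinForm (ZMod p) W) (hA : ∀ x, A x x = 0)
    (hAi : ∀ g : H, ∀ x y, A (ρ g x) (ρ g y) = A x y)
    (hnd : ∀ x, (∀ y, A x y = 0) → x = 0) : Piece ρ n := by
  classical
  have hAs : ∀ x y, A x y = - A y x := by
    intro x y
    have h1 := hA (x + y)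
    simp only [map_add, LinearMap.add_apply, hA, zero_add, add_zero] at h1
    exact eq_neg_of_add_eq_zero_right h1
  haveI : Module.Finite (ZMod p) W := Module.Finite.of_finite
  let b := Module.finBasis (ZMod p) W
  let M : Matrix (Fin (Module.finrank (ZMod p) W)) (Fin (Module.finrank (ZMod p) W)) (ZMod p) :=
    fun i j => if i < j then A (b i) (b j) else 0
  let T : LinearMap.BilinForm (ZMod p) W := Matrix.toBilin b M
  have hT : A = T - T.flip := by
    refine LinearMap.BilinForm.ext_basis b fun i j => ?_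
    have h1 : ∀ i j, T (b i) (b j) = M i j := by
      intro i j
      have := congrFun (congrFun (LinearMap.BilinForm.toMatrix_toBilin b M) i) j
      rw [← this, LinearMap.BilinForm.toMatrix_apply]
    rw [LinearMap.sub_apply, LinearMap.sub_apply, LinearMap.BilinForm.flip_apply, h1, h1]
    simp only [M]
    rcases lt_trichotomy i j with h | h | h
    · rw [if_pos h, if_neg h.not_gt, sub_zero]
    · subst h
      simp [hA]
    · rw [if_neg h.not_gt, if_pos h, zero_sub, hAs]
  have hTA : ∀ x y, A x y = T x y + T y x := by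
    intro x y
    have h1 := LinearMap.congr_fun (LinearMap.congr_fun hT x) y
    rw [LinearMap.sub_apply, LinearMap.sub_apply, LinearMap.BilinForm.flip_apply] at h1
    subst hp2
    rw [h1, CharTwo.sub_eq_add]
  refine Piece.of_quad hn hpn hpH (fun x => ∑ h : H, T (ρ h x) (ρ h x))
    ((Nat.card H : ZMod p) • A) (fun x y => ?_) (fun g x => ?_) fun x hx => hnd x fun y => ?_
  · have h1 : (((Nat.card H : ZMod p) • A) x) y = ∑ h : H, A (ρ h x) (ρ h y) := by
      rw [Finset.sum_congr rfl fun h _ => hAi h x y, Finset.sum_const, Finset.card_univ,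
        ← Nat.card_eq_fintype_card, nsmul_eq_mul]
      rfl
    rw [h1, ← Finset.sum_add_distrib, ← Finset.sum_add_distrib]
    refine Finset.sum_congr rfl fun h _ => ?_
    rw [hTA]
    simp only [map_add, LinearMap.add_apply]
    ring
  · refine Fintype.sum_equiv (Equiv.mulRight g) _ _ fun h => ?_
    rw [Equiv.coe_mulRight, map_mul]
    rfl
  · have h1 := hx y
    simp only [LinearMap.smul_apply, smul_eq_mul] at h1
    rcases mul_eq_zero.mp h1 with h2 | h2
    · exact absurd ((ZMod.natCast_eq_zero_iff _ _).mp h2) hpH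
    · exact h2

end gauss

end Cfsg.Agent.H75.RT
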