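import Cfsg.Agent.H75.RTc
import Cfsg.Agent.H75.RTb
import Cfsg.Agent.Glaub.CyclicFree
import Cfsg.Agent.Glaub.Count

/-!
# Robinson–Thompson: symplectic pieces (owner: helper75)
-/

set_option autoImplicit false
set_option linter.style.haveILetI false
set_option linter.unusedSectionVars false

namespace Cfsg.Agent.H75.RT

open scoped ComplexConjugate BigOperators
open Cfsg Cfsg.Agent.CharBase Cfsg.Agent.Char Cfsg.Agent.BlkC

universe u v

section abs

variable {p : ℕ} [hp : Fact p.Prime]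

local notation "𝐞" => (ZMod.stdAddChar (N := p) : ZMod p → ℂ)

theorem std_add (a b : ZMod p) : 𝐞 (a + b) = 𝐞 a * 𝐞 b := AddChar.map_add_eq_mul _ _ _

theorem std_conj (a : ZMod p) : 𝐞 a * conj (𝐞 a) = 1 := by
  rw [← AddChar.map_neg_eq_conj, ← AddChar.map_add_eq_mul, add_neg_cancel, AddChar.map_zero_eq_one]

theorem std_ne {a : ZMod p} (ha : a ≠ 0) : 𝐞 a ≠ 1 := by
  intro h
  rw [← AddChar.map_zero_eq_one (ZMod.stdAddChar (N := p))] at h
  exact ha (ZMod.injective_stdAddChar h)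

/-- multiplication by central elements -/
theorem central_char {K : Type u} [Group K] [Finite K] {χ : K → ℂ} (hχ : IsIrrCharacter K χ)
    {z : K} (hz : ∀ k, z * k = k * z) (k : K) : χ (z * k) * χ 1 = χ z * χ k := by
  classical
  haveI := Fintype.ofFinite K
  have h1 := sum_conj_mul hχ k z
  have h2 : ∀ x : K, χ (k * (x * z * x⁻¹)) = χ (z * k) := by
    intro x
    rw [← hz x, mul_inv_cancel_right, ← hz k]
  rw [Finset.sum_congr rfl fun x _ => h2 x, Finset.sum_const, Finset.card_univ, nsmul_eq_mul,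
    ← Nat.card_eq_fintype_card] at h1
  have h0 : χ 1 ≠ 0 := irr_one_ne_zero hχ
  have hK : (Nat.card K : ℂ) ≠ 0 := Nat.cast_ne_zero.mpr Nat.card_pos.ne'
  rw [eq_div_iff h0, mul_assoc, mul_assoc] at h1
  have h3 := mul_left_cancel₀ hK h1
  rw [h3]; ring

theorem ramified {K : Type u} [Group K] [Fintype K] (z : ZMod p → K)
    (hz : ∀ a b, z (a + b) = z a * z b) (hzi : Function.Injective z) (hzc : ∀ a k, z a * k = k * z a)
    (hnd : ∀ k, (∀ j, k ≠ z j) → ∃ k' j, j ≠ 0 ∧ k' * k * k'⁻¹ = z j * k) :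
    ∃ χ : K → ℂ, IsIrrCharacter K χ ∧ (∀ j k, χ (z j * k) = 𝐞 j * χ k) ∧
      (∀ k, (∀ j, k ≠ z j) → χ k = 0) ∧ χ 1 * conj (χ 1) * p = Nat.card K := by
  classical
  have hz0 : z 0 = 1 := by
    have := hz 0 0
    rw [add_zero] at this
    exact left_eq_mul.mp this
  let f : K → ℂ := fun k => ∑ j : ZMod p, if k = z j then 𝐞 j else 0
  have hfz : ∀ j, f (z j) = 𝐞 j := by
    intro j
    show ∑ i : ZMod p, (if z j = z i then 𝐞 i else 0) = _
    simp only [hzi.eq_iff]
    rw [Finset.sum_ite_eq Finset.univ j, if_pos (Finset.mem_univ _)]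
  have hf0 : ∀ k, (∀ j, k ≠ z j) → f k = 0 := by
    intro k hk
    exact Finset.sum_eq_zero fun j _ => if_neg (hk j)
  have hfc : IsClassFunction K f := by
    intro a b
    show ∑ i : ZMod p, (if b * a * b⁻¹ = z i then 𝐞 i else 0) = ∑ i : ZMod p, (if a = z i then 𝐞 i else 0)
    refine Finset.sum_congr rfl fun i _ => ?_
    have h1 : b * a * b⁻¹ = z i ↔ a = z i := by
      rw [mul_inv_eq_iff_eq_mul, hzc, mul_left_cancel_iff]
    simp only [h1]
  have : Fintype (IrrCharacter K) := Fintype.ofFinite _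
  have hsumz : ∀ F : K → ℂ, (∀ k, (∀ j, k ≠ z j) → F k = 0) → ∑ k, F k = ∑ j, F (z j) := by
    intro F hF
    symm
    refine Fintype.sum_of_injective z hzi _ _ (fun k hk => hF k fun j hj => hk ⟨j, hj.symm⟩)
      fun j => rfl
  obtain ⟨χ, hχ⟩ : ∃ χ : IrrCharacter K, classInner (χ : K → ℂ) f ≠ 0 := by
    by_contra hcon
    push Not at hcon
    have h1 := classFun_apply_eq_sum hfc 1
    have h2 : ∀ χ : IrrCharacter K, classInner f (χ : K → ℂ) = 0 := by
      intro χ
      have h3 : classInner f (χ : K → ℂ) = conj (classInner (χ : K → ℂ) f) := by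
        unfold classInner
        rw [map_mul, map_inv₀, map_sum, Complex.conj_natCast]
        simp only [map_mul, Complex.conj_conj]
        congr 1
        exact Finset.sum_congr rfl fun k _ => mul_comm _ _
      rw [h3, hcon, map_zero]
    rw [Finset.sum_congr rfl fun χ _ => by rw [h2 χ, zero_mul], Finset.sum_const_zero, ← hz0,
      hfz, AddChar.map_zero_eq_one] at h1
    exact one_ne_zero h1
  have hχ1 : (χ : K → ℂ) 1 ≠ 0 := irr_one_ne_zero χ.2
  have hcl := isClassFunction_of_isCharacter (irr_isCharacter χ)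
  -- the inner product
  have hS : ∑ j, (χ : K → ℂ) (z j) * conj (𝐞 j) ≠ 0 := by
    intro h
    refine hχ ?_
    unfold classInner
    rw [hsumz _ fun k hk => by rw [hf0 k hk, map_zero, mul_zero]]
    simp only [hfz]
    rw [h, mul_zero]
  have hzk : ∀ j k, (χ : K → ℂ) (z j * k) * (χ : K → ℂ) 1 = (χ : K → ℂ) (z j) * (χ : K → ℂ) k :=
    fun j k => central_char χ.2 (hzc j) k
  have hzj : ∀ j, (χ : K → ℂ) (z j) = 𝐞 j * (χ : K → ℂ) 1 := by
    intro j
    have h1 : (∑ i, (χ : K → ℂ) (z i) * conj (𝐞 i)) * (χ : K → ℂ) 1 =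
        ((χ : K → ℂ) (z j) * conj (𝐞 j)) * ∑ i, (χ : K → ℂ) (z i) * conj (𝐞 i) := by
      conv_lhs => rw [← Equiv.sum_comp (Equiv.addLeft j)]
      rw [Finset.sum_mul, Finset.mul_sum]
      refine Finset.sum_congr rfl fun i _ => ?_
      rw [Equiv.coe_addLeft, hz, std_add, map_mul]
      linear_combination (conj (𝐞 j) * conj (𝐞 i)) * hzk j (z i)
    rw [mul_comm] at h1
    have h2 := mul_right_cancel₀ hS h1
    linear_combination (-(𝐞 j)) * h2 - ((χ : K → ℂ) (z j)) * std_conj j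
  have hzk' : ∀ j k, (χ : K → ℂ) (z j * k) = 𝐞 j * (χ : K → ℂ) k := by
    intro j k
    have h1 := hzk j k
    rw [hzj] at h1
    exact mul_right_cancel₀ hχ1 (by linear_combination h1)
  have hvan : ∀ k, (∀ j, k ≠ z j) → (χ : K → ℂ) k = 0 := by
    intro k hk
    obtain ⟨k', j, hj, hkj⟩ := hnd k hk
    have h1 := hcl k k'
    rw [hkj, hzk'] at h1
    have h2 : (𝐞 j - 1) * (χ : K → ℂ) k = 0 := by linear_combination h1
    rcases mul_eq_zero.mp h2 with h3 | h3
    · exact absurd (sub_eq_zero.mp h3) (std_ne hj)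
    · exact h3
  refine ⟨χ, χ.2, hzk', hvan, ?_⟩
  have h1 := classInner_irr_self χ
  unfold classInner at h1
  have hK : (Nat.card K : ℂ) ≠ 0 := Nat.cast_ne_zero.mpr Nat.card_pos.ne'
  rw [hsumz _ fun k hk => by rw [hvan k hk, zero_mul], inv_mul_eq_iff_eq_mul₀ hK, mul_one] at h1
  rw [← h1]
  have h2 : ∀ j, (χ : K → ℂ) (z j) * conj ((χ : K → ℂ) (z j)) =
      (χ : K → ℂ) 1 * conj ((χ : K → ℂ) 1) := by
    intro j
    rw [hzj, map_mul]
    linear_combination ((χ : K → ℂ) 1 * conj ((χ : K → ℂ) 1)) * std_conj j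
  rw [Finset.sum_congr rfl fun j _ => h2 j, Finset.sum_const, Finset.card_univ, nsmul_eq_mul,
    ZMod.card, mul_comm]

end abs

section heis

variable {p : ℕ} {H : Type u} [Group H] {W : Type v} [AddCommGroup W]
  [Module (ZMod p) W]

/-- invariant alternating forms -/
structure Sym (ρ : Representation (ZMod p) H W) where
  /-- the form -/
  A : LinearMap.BilinForm (ZMod p) W
  alt : ∀ x, A x x = 0
  inv : ∀ (g : H) (x y : W), A (ρ g x) (ρ g y) = A x y

/-- the Heisenberg group extended by `H` -/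
@[ext]
structure Heis {ρ : Representation (ZMod p) H W} (D : Sym ρ) where
  /-- vector -/
  w : W
  /-- scalar -/
  a : ZMod p
  /-- operator -/
  h : H

namespace Heis

variable {ρ : Representation (ZMod p) H W} {D : Sym ρ}

instance : Mul (Heis D) := ⟨fun x y => ⟨x.w + ρ x.h y.w, x.a + y.a + D.A x.w (ρ x.h y.w), x.h * y.h⟩⟩
instance : One (Heis D) := ⟨⟨0, 0, 1⟩⟩
instance : Inv (Heis D) := ⟨fun x => ⟨-ρ x.h⁻¹ x.w, -x.a, x.h⁻¹⟩⟩

theorem mul_w (x y : Heis D) : (x * y).w = x.w + ρ x.h y.w := rfl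
theorem mul_a (x y : Heis D) : (x * y).a = x.a + y.a + D.A x.w (ρ x.h y.w) := rfl
theorem mul_h (x y : Heis D) : (x * y).h = x.h * y.h := rfl
theorem one_w : (1 : Heis D).w = 0 := rfl
theorem one_a : (1 : Heis D).a = 0 := rfl
theorem one_h : (1 : Heis D).h = 1 := rfl
theorem inv_w (x : Heis D) : x⁻¹.w = -ρ x.h⁻¹ x.w := rfl
theorem inv_a (x : Heis D) : x⁻¹.a = -x.a := rfl
theorem inv_h (x : Heis D) : x⁻¹.h = x.h⁻¹ := rfl

theorem rho_one (w : W) : ρ 1 w = w := by rw [map_one]; rfl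

theorem rho_mul (g h : H) (w : W) : ρ (g * h) w = ρ g (ρ h w) := by rw [map_mul]; rfl

instance : Group (Heis D) := Group.ofLeftAxioms
  (by
    intro x y z
    ext
    · rw [mul_w, mul_w, mul_w, mul_w, mul_h, map_add, rho_mul, add_assoc]
    · rw [mul_a, mul_a, mul_a, mul_a, mul_w, mul_w, mul_h, map_add, map_add, LinearMap.map_add,
        LinearMap.add_apply, rho_mul, D.inv]
      ring
    · rw [mul_h, mul_h, mul_h, mul_h, mul_assoc])
  (by
    intro x
    ext
    · rw [mul_w, one_w, one_h, zero_add, rho_one]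
    · rw [mul_a, one_a, one_w, map_zero, LinearMap.zero_apply, zero_add, add_zero]
    · rw [mul_h, one_h, one_mul])
  (by
    intro x
    ext
    · rw [mul_w, inv_w, inv_h, one_w, neg_add_cancel]
    · rw [mul_a, inv_a, inv_w, inv_h, map_neg, LinearMap.neg_apply, D.alt, one_a]
      ring
    · rw [mul_h, inv_h, inv_mul_cancel, one_h])

variable (D) in
/-- underlying type -/
def equiv : Heis D ≃ W × ZMod p × H where
  toFun x := (x.w, x.a, x.h)
  invFun y := ⟨y.1, y.2.1, y.2.2⟩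
  left_inv _ := rfl
  right_inv _ := rfl

instance [NeZero p] [Finite W] [Finite H] : Finite (Heis D) := Finite.of_equiv _ (equiv D).symm

variable (D) in
/-- the projection -/
def proj : Heis D →* H where
  toFun x := x.h
  map_one' := rfl
  map_mul' _ _ := rfl

variable (D) in
/-- the complement -/
def inc : H →* Heis D where
  toFun h := ⟨0, 0, h⟩
  map_one' := rfl
  map_mul' g h := by
    ext
    · rw [mul_w, map_zero, add_zero]
    · rw [mul_a]; simp
    · rfl

variable (D) in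
/-- fixed points of `h` in the Heisenberg group -/
def cs (h : H) : Subgroup (Heis D) where
  carrier := {x | x.h = 1 ∧ ρ h x.w = x.w}
  mul_mem' := by
    rintro x y ⟨h1, h2⟩ ⟨h3, h4⟩
    refine ⟨by rw [mul_h, h1, h3, one_mul], ?_⟩
    rw [mul_w, h1, rho_one, map_add, h2, h4]
  one_mem' := ⟨rfl, by rw [one_w, map_zero]⟩
  inv_mem' := by
    rintro x ⟨h1, h2⟩
    refine ⟨by rw [inv_h, h1, inv_one], ?_⟩
    rw [inv_w, h1, inv_one, rho_one, map_neg, h2]

theorem mem_cs {h : H} {x : Heis D} : x ∈ cs D h ↔ x.h = 1 ∧ ρ h x.w = x.w := Iff.rfl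

variable (D) in
/-- central elements -/
def zz (j : ZMod p) : Heis D := ⟨0, j, 1⟩

theorem zz_add (a b : ZMod p) : zz D (a + b) = zz D a * zz D b := by
  ext
  · rw [mul_w]; simp [zz]
  · rw [mul_a]; simp [zz]
  · rw [mul_h]; simp [zz]

theorem zz_inj : Function.Injective (zz D) := fun _ _ h => congrArg Heis.a h

theorem zz_comm (a : ZMod p) (k : Heis D) : zz D a * k = k * zz D a := by
  ext
  · rw [mul_w, mul_w]; simp [zz]
  · rw [mul_a, mul_a]; simp [zz, add_comm]
  · rw [mul_h, mul_h]; simp [zz]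

theorem zz_mem (h : H) (j : ZMod p) : zz D j ∈ cs D h := ⟨rfl, map_zero _⟩

theorem alt_neg (x y : W) : D.A x y = - D.A y x := by
  have h1 := D.alt (x + y)
  simp only [map_add, LinearMap.add_apply, D.alt, zero_add, add_zero] at h1
  exact eq_neg_of_add_eq_zero_right h1

theorem comm_formula (c' : W) (k : Heis D) (hk : k.h = 1) :
    (⟨c', 0, 1⟩ : Heis D) * k * (⟨c', 0, 1⟩ : Heis D)⁻¹ = zz D (-2 * D.A k.w c') * k := by
  ext
  · simp only [mul_w, inv_w, mul_h, hk, zz, mul_one, inv_one, rho_one]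
    abel
  · simp only [mul_a, mul_w, inv_w, inv_a, mul_h, hk, zz, mul_one, inv_one, rho_one, map_neg,
      map_add, LinearMap.add_apply, D.alt, map_zero, LinearMap.zero_apply]
    rw [alt_neg c' k.w]
    ring
  · simp only [mul_h, inv_h, hk, zz, mul_one, inv_one]

end Heis

end heis

section alt

variable {p : ℕ} [hp : Fact p.Prime] {H : Type u} [Group H] [Fintype H] {W : Type v} [AddCommGroup W]
  [Module (ZMod p) W] [Finite W] {ρ : Representation (ZMod p) H W} {n : ℕ}

local notation "𝐞" => (ZMod.stdAddChar (N := p) : ZMod p → ℂ)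

open Heis

theorem Piece.of_alt (hn0 : n ≠ 0) (hn : Nat.card H ∣ n) (hpH : ¬ p ∣ Nat.card H) (hp2 : p ≠ 2)
    (A : LinearMap.BilinForm (ZMod p) W) (hA : ∀ x, A x x = 0)
    (hAi : ∀ g : H, ∀ x y, A (ρ g x) (ρ g y) = A x y)
    (hnd : ∀ x, (∀ y, A x y = 0) → x = 0) : Piece ρ n := by
  classical
  have hp0 : (p : ℂ) ≠ 0 := Nat.cast_ne_zero.mpr hp.out.ne_zero
  have h20 : (2 : ZMod p) ≠ 0 := by
    intro h
    have h3 : ((2 : ℕ) : ZMod p) = 0 := by exact_mod_cast h
    rw [ZMod.natCast_eq_zero_iff] at h3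
    exact hp2 ((Nat.prime_dvd_prime_iff_eq hp.out Nat.prime_two).mp h3)
  let D : Sym ρ := ⟨A, hA, hAi⟩
  haveI := Fintype.ofFinite (Heis D)
  haveI : ∀ h, Fintype (cs D h) := fun h => Fintype.ofFinite _
  have hk' : ∀ h (k : Heis D), k ∈ cs D h → (∀ j, k ≠ zz D j) →
      ∃ k' ∈ cs D h, ∃ j, j ≠ 0 ∧ k' * k * k'⁻¹ = zz D j * k := by
    intro h k hk hne
    have hw : k.w ≠ 0 := fun h0 => hne k.a (Heis.ext h0 rfl hk.1)
    have : ∃ c' ∈ fixS ρ h, A k.w c' ≠ 0 := by
      by_contra hcon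
      push Not at hcon
      exact hw (fix_nd hpH hAi hnd (mem_fixS.mpr hk.2) hcon)
    obtain ⟨c', hc', hne'⟩ := this
    exact ⟨⟨c', 0, 1⟩, ⟨rfl, mem_fixS.mp hc'⟩, -2 * A k.w c',
      mul_ne_zero (neg_ne_zero.mpr h20) hne', comm_formula c' k hk.1⟩
  have hcard : ∀ h, Nat.card (cs D h) = Nat.card (fixS ρ h) * p := by
    intro h
    have h1 : Nat.card (cs D h) = Nat.card (fixS ρ h × ZMod p) := Nat.card_congr
      { toFun := fun x => (⟨x.1.w, mem_fixS.mpr x.2.2⟩, x.1.a)
        invFun := fun y => ⟨⟨y.1.1, y.2, 1⟩, ⟨rfl, mem_fixS.mp y.1.2⟩⟩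
        left_inv := fun x => Subtype.ext (Heis.ext rfl rfl x.2.1.symm)
        right_inv := fun y => rfl }
    rw [h1, Nat.card_prod, Nat.card_zmod]
  have hram : ∀ h : H, ∃ χ : cs D h → ℂ, IsIrrCharacter (cs D h) χ ∧
      (∀ j k, χ (⟨zz D j, zz_mem h j⟩ * k) = 𝐞 j * χ k) ∧
      (∀ k : cs D h, (∀ j, k ≠ ⟨zz D j, zz_mem h j⟩) → χ k = 0) ∧
      χ 1 * conj (χ 1) * p = Nat.card (cs D h) := by
    intro h
    refine ramified (fun j => (⟨zz D j, zz_mem h j⟩ : cs D h)) (fun a b => Subtype.ext (zz_add a b))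
      (fun a b hab => zz_inj (congrArg Subtype.val hab)) (fun a k => Subtype.ext (zz_comm (D := D) a (k : Heis D))) ?_
    intro k hk
    obtain ⟨k', hk1, j, hj, hk2⟩ := hk' h k k.2 fun j hj => hk j (Subtype.ext hj)
    exact ⟨⟨k', hk1⟩, j, hj, Subtype.ext hk2⟩
  choose θ hθ hθz hθ0 hθ1 using hram
  -- degrees
  have hdeg : ∀ h, ∃ d : ℕ, θ h 1 = d ∧ d * d = Nat.card (fixS ρ h) := by
    intro h
    obtain ⟨d, hd⟩ := exists_nat_degree (isCharacter_of_isIrr (hθ h))
    refine ⟨d, hd, ?_⟩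
    have h1 := hθ1 h
    rw [hd, hcard, Complex.conj_natCast] at h1
    push_cast at h1
    have h2 := mul_right_cancel₀ hp0 h1
    exact_mod_cast h2
  choose d hd hdd using hdeg
  have hd0 : ∀ h, (d h : ℂ) ≠ 0 := by
    intro h h0
    have h1 : d h = 0 := by exact_mod_cast h0
    have h2 := hdd h
    rw [h1] at h2
    exact Nat.card_pos.ne' h2.symm
  -- the normal subgroup
  have hE : ∀ x : Heis D, x ∈ cs D 1 ↔ x.h = 1 := fun x => by
    rw [mem_cs, rho_one]
    exact ⟨fun h => h.1, fun h => ⟨h, rfl⟩⟩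
  haveI hEn : (cs D 1).Normal := ⟨fun x hx g => by
    rw [hE] at hx ⊢
    rw [mul_h, mul_h, inv_h, hx, mul_one, mul_inv_cancel]⟩
  have hcardΓ : Nat.card (Heis D) = Nat.card W * p * Nat.card H := by
    rw [Nat.card_congr (Heis.equiv D), Nat.card_prod, Nat.card_prod, Nat.card_zmod, mul_assoc]
  have hindex : (cs D 1).index = Nat.card H := by
    have h1 := Subgroup.card_mul_index (cs D 1)
    rw [hcard, fix_one, hcardΓ] at h1
    exact Nat.eq_of_mul_eq_mul_left (Nat.mul_pos Nat.card_pos hp.out.pos) h1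
  have hWp : ∃ a, Nat.card W = p ^ a := by
    obtain ⟨a, -, ha⟩ := card_pow (fixS ρ 1)
    rw [fix_one] at ha
    exact ⟨a, ha⟩
  obtain ⟨wa, hwa⟩ := hWp
  have hcop0 : (Nat.card (cs D 1)).Coprime (Nat.card H) := by
    rw [hcard, fix_one, hwa, ← pow_succ]
    exact Nat.Coprime.pow_left _ ((Nat.Prime.coprime_iff_not_dvd hp.out).mpr hpH)
  have hinv : ∀ g : Heis D, cj (cs D 1) g (θ 1) = θ 1 := by
    intro g
    funext k
    rw [cj_apply]
    by_cases hk : ∃ j, k = ⟨zz D j, zz_mem 1 j⟩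
    · obtain ⟨j, rfl⟩ := hk
      congr 1
      apply Subtype.ext
      show g * zz D j * g⁻¹ = zz D j
      rw [← zz_comm, mul_inv_cancel_right]
    · push Not at hk
      rw [hθ0 1 k hk, hθ0 1]
      intro j hj
      refine hk j (Subtype.ext ?_)
      have h1 : g * (k : Heis D) * g⁻¹ = zz D j := congrArg Subtype.val hj
      rw [mul_inv_eq_iff_eq_mul, zz_comm, mul_left_cancel_iff] at h1
      exact h1
  obtain ⟨ψ, hψ, hψθ⟩ := Glaub.exists_extension_of_hall (cs D 1) (by rw [hindex]; exact hcop0)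
    (hθ 1) hinv
  have hψcl := isClassFunction_of_isCharacter (isCharacter_of_isIrr hψ)
  have hψ1 : ψ 1 = θ 1 1 := hψθ 1
  have hψ10 : ψ 1 ≠ 0 := irr_one_ne_zero hψ
  have hψz : ∀ j g, ψ (zz D j * g) = 𝐞 j * ψ g := by
    intro j g
    have h1 := central_char hψ (zz_comm (D := D) j) g
    have h2 : ψ (zz D j) = 𝐞 j * ψ 1 := by
      have h3 := hθz 1 j 1
      rw [mul_one, ← hψ1] at h3
      rw [← h3]
      exact hψθ ⟨zz D j, zz_mem 1 j⟩
    rw [h2] at h1
    exact mul_right_cancel₀ hψ10 (by linear_combination h1)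
  have hcomm : ∀ h (k : cs D h), Commute (inc D h) (k : Heis D) := by
    rintro h ⟨k, hk1, hk2⟩
    ext
    · rw [mul_w, mul_w]; simp [inc, hk2]
    · rw [mul_a, mul_a]; simp [inc]
    · rw [mul_h, mul_h]; simp [inc, hk1]
  have hvan : ∀ h (k : cs D h), (∀ j, k ≠ ⟨zz D j, zz_mem h j⟩) → ψ (inc D h * k) = 0 := by
    intro h k hk
    obtain ⟨k', hk1, j, hj, hk2⟩ := hk' h k k.2 fun j hj => hk j (Subtype.ext hj)
    have h1 := hψcl (inc D h * k) k'
    have h2 : k' * (inc D h * k) * k'⁻¹ = zz D j * (inc D h * k) := by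
      calc k' * (inc D h * k) * k'⁻¹ = (k' * inc D h) * k * k'⁻¹ := by group
        _ = (inc D h * k') * k * k'⁻¹ := by rw [(hcomm h ⟨k', hk1⟩).eq]
        _ = inc D h * (k' * k * k'⁻¹) := by group
        _ = zz D j * (inc D h * k) := by rw [hk2, ← mul_assoc, ← zz_comm, mul_assoc]
    rw [h2, hψz] at h1
    have h3 : (𝐞 j - 1) * ψ (inc D h * k) = 0 := by linear_combination h1
    rcases mul_eq_zero.mp h3 with h4 | h4
    · exact absurd (sub_eq_zero.mp h4) (std_ne hj)
    · exact h4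
  have hsumz : ∀ h (F : cs D h → ℂ), (∀ k : cs D h, (∀ j, k ≠ ⟨zz D j, zz_mem h j⟩) → F k = 0) →
      ∑ k, F k = ∑ j, F ⟨zz D j, zz_mem h j⟩ := by
    intro h F hF
    symm
    refine Fintype.sum_of_injective (fun j => (⟨zz D j, zz_mem h j⟩ : cs D h))
      (fun a b hab => zz_inj (congrArg Subtype.val hab)) _ _
      (fun k hk => hF k fun j hj => hk ⟨j, hj.symm⟩) fun j => rfl
  have hxz : ∀ h j, ψ (inc D h * zz D j) = 𝐞 j * ψ (inc D h) := by
    intro h j
    rw [← zz_comm, hψz]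
  have hcs0 : ∀ h, (Nat.card (cs D h) : ℂ) ≠ 0 := fun h => Nat.cast_ne_zero.mpr Nat.card_pos.ne'
  have hordH : ∀ h, orderOf (inc D h) ∣ Nat.card H := fun h =>
    (orderOf_map_dvd (inc D) h).trans (orderOf_dvd_natCard h)
  -- absolute values
  have hδ2 : ∀ h, ψ (inc D h) * conj (ψ (inc D h)) = (Nat.card (fixS ρ h) : ℂ) := by
    intro h
    have h1 := Glaub.norm_coset (cs D 1) (cs D h) (fun x hx => (hE x).mpr hx.1) (inc D h)
      ((hcop0.coprime_dvd_right (hordH h)).symm) (fun k hk => by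
        rw [hE] at hk
        constructor
        · intro hk2
          exact (hcomm h ⟨k, hk2⟩).eq.symm
        · intro h2
          refine ⟨hk, ?_⟩
          have h3 := congrArg Heis.w h2
          rw [mul_w, mul_w] at h3
          simp [inc] at h3
          exact h3.symm) ⟨ψ, hψ⟩ (by
        have : (fun g : cs D 1 => ψ (g : Heis D)) = θ 1 := funext hψθ
        show IsIrrCharacter _ (fun g : cs D 1 => ψ (g : Heis D))
        rw [this]; exact hθ 1)
    have h2 : (fun c : cs D h => ψ ((c : Heis D) * inc D h)) = fun c : cs D h => ψ (inc D h * c) := by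
      funext c
      rw [(hcomm h c).eq]
    simp only at h1
    rw [h2] at h1
    unfold classInner at h1
    rw [inv_mul_eq_iff_eq_mul₀ (hcs0 h), mul_one, hsumz h _ fun k hk => by
      show ψ (inc D h * k) * _ = 0
      rw [hvan h k hk, zero_mul]] at h1
    have h3 : ∀ j, ψ (inc D h * zz D j) * conj (ψ (inc D h * zz D j)) =
        ψ (inc D h) * conj (ψ (inc D h)) := by
      intro j
      rw [hxz, map_mul]
      linear_combination (ψ (inc D h) * conj (ψ (inc D h))) * std_conj j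
    rw [Finset.sum_congr rfl fun j _ => h3 j, Finset.sum_const, Finset.card_univ, nsmul_eq_mul,
      ZMod.card, hcard, mul_comm] at h1
    push_cast at h1
    exact mul_right_cancel₀ hp0 h1
  -- the values
  have ht : ∀ h, ∃ t ∈ cycRing n, ψ (inc D h) = t * d h := by
    intro h
    have h1 : IG n (fun k : cs D h => ψ (inc D h * k)) :=
      IG.coset (cs D h).subtype (inc D h) (hcomm h) ((hordH h).trans hn) (isCharacter_of_isIrr hψ)
    have h2 := h1.2 _ (isCharacter_of_isIrr (hθ h))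
    refine ⟨_, h2, ?_⟩
    unfold classInner
    rw [hsumz h _ fun k hk => by
      show ψ (inc D h * k) * _ = 0
      rw [hvan h k hk, zero_mul]]
    have h3 : ∀ j, ψ (inc D h * zz D j) * conj (θ h ⟨zz D j, zz_mem h j⟩) =
        ψ (inc D h) * d h := by
      intro j
      have h4 := hθz h j 1
      rw [mul_one, hd] at h4
      rw [h4, hxz, map_mul, Complex.conj_natCast]
      linear_combination (ψ (inc D h) * d h) * std_conj j
    rw [Finset.sum_congr rfl fun j _ => h3 j, Finset.sum_const, Finset.card_univ, nsmul_eq_mul,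
      ZMod.card]
    have h5 : (Nat.card (cs D h) : ℂ) = (d h * d h) * p := by
      rw [hcard, ← hdd]; push_cast; ring
    have h6 := hd0 h
    rw [h5]
    field_simp
  choose t htm ht using ht
  refine Piece.of_delta hn hpH (δ := fun h => ψ (inc D h))
    (IG.of_char (isCharacter_comp (isCharacter_of_isIrr hψ) (inc D))) hδ2 fun h => ?_
  have hd0 := hd0 h
  have htt : t h * conj (t h) = 1 := by
    have h1 := hδ2 h
    rw [ht, map_mul, Complex.conj_natCast, ← hdd h] at h1
    push_cast at h1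
    have h2 : (t h * conj (t h)) * ((d h : ℂ) * d h) = 1 * ((d h : ℂ) * d h) := by
      linear_combination h1
    exact mul_right_cancel₀ (mul_ne_zero hd0 hd0) h2
  have hdW : d 1 * d 1 = Nat.card W := by rw [hdd, fix_one]
  have hcm := card_fix_mov (ρ := ρ) hpH h
  obtain ⟨k, hk⟩ : d h ∣ d 1 := by
    have h1 : d h ^ 2 ∣ d 1 ^ 2 := by
      rw [sq, sq, hdW, hdd, ← hcm]
      exact dvd_mul_right _ _
    exact (Nat.pow_dvd_pow_iff two_ne_zero).mp h1
  have hk2 : k * k = Nat.card (movS ρ h) := by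
    rw [← hcm, hk, ← hdd] at hdW
    have h1 : 0 < d h * d h := by rw [hdd]; exact Nat.card_pos
    refine Nat.eq_of_mul_eq_mul_left h1 ?_
    rw [← hdW]; ring
  refine ⟨(k : ℂ) * conj (t h), mul_mem (natCast_mem_cyc n k) (cycRing_conj_mem (htm h)), ?_, ?_⟩
  · show (k : ℂ) * conj (t h) * ψ (inc D h) = ψ (inc D 1)
    rw [map_one (inc D), hψ1, hd, hk, ht]
    push_cast
    linear_combination ((k : ℂ) * d h) * htt
  · rintro ⟨x, hx⟩
    have hpk : p ∣ k := by
      have h1 : p ∣ k * k := by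
        rw [hk2]
        obtain ⟨a, -, ha⟩ := card_pow (movS ρ h)
        rw [ha]
        refine dvd_pow_self p fun h0 => ?_
        rw [h0, pow_zero, Nat.card_eq_one_iff_unique] at ha
        obtain ⟨h1, -⟩ := ha
        have h2 : (⟨ρ h x - x, mem_movS.mpr ⟨x, rfl⟩⟩ : movS ρ h) = 0 := Subsingleton.elim _ _
        exact hx (sub_eq_zero.mp (congrArg Subtype.val h2))
      exact (hp.out.dvd_mul.mp h1).elim id id
    obtain ⟨l, rfl⟩ := hpk
    exact ⟨1, (l : ℂ) * conj (t h), isIntegral_of_mem_cyc hn0 (mul_mem (natCast_mem_cyc n l)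
      (cycRing_conj_mem (htm h))), by push_cast; ring⟩

end alt

end Cfsg.Agent.H75.RT
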