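import Cfsg.Agent.H75.RTd

/-!
# Robinson–Thompson: assembly (owner: helper75)
-/

set_option autoImplicit false
set_option linter.style.haveILetI false
set_option linter.unusedSectionVars false

namespace Cfsg.Agent.H75.RT

open scoped ComplexConjugate BigOperators
open Cfsg Cfsg.Agent.CharBase Cfsg.Agent.Char Cfsg.Agent.BlkC

universe u v

variable {p : ℕ} [hp : Fact p.Prime] {H : Type u} [Group H] [Fintype H] {W : Type v} [AddCommGroup W]
  [Module (ZMod p) W] [Finite W] {ρ : Representation (ZMod p) H W} {n : ℕ}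

/-- the action on a stable subspace -/
def subrep {M : Submodule (ZMod p) W} (hM : SD.Inv ρ M) : Representation (ZMod p) H M where
  toFun g := (ρ g).restrict (hM g)
  map_one' := by
    ext x
    show ρ 1 (x : W) = x
    rw [map_one]; rfl
  map_mul' a b := by
    ext x
    show ρ (a * b) (x : W) = ρ a (ρ b x)
    rw [map_mul]; rfl

theorem subrep_apply {M : Submodule (ZMod p) W} (hM : SD.Inv ρ M) (g : H) (x : M) :
    (subrep hM g x : W) = ρ g x := rfl

theorem Piece.of_triv (h : ∀ g x, ρ g x = x) : Piece ρ n := by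
  refine ⟨fun _ => 1, IG.const (one_mem _), fun g => ?_, fun g hg => ?_⟩
  · rw [map_one, one_mul, one_mul]
    congr 1
    refine Nat.card_congr ((Equiv.subtypeEquivRight fun w => ?_).trans (Equiv.Set.univ W))
    rw [mem_fixS]
    exact ⟨fun _ => trivial, fun _ => h g w⟩
  · obtain ⟨x, hx⟩ := hg
    exact absurd (h g x) hx

theorem Piece.prod (hn0 : n ≠ 0) (hn : Nat.card H ∣ n) {M N : Submodule (ZMod p) W}
    (hM : SD.Inv ρ M) (hN : SD.Inv ρ N) (hc : IsCompl M N) (h1 : Piece (subrep hM) n)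
    (h2 : Piece (subrep hN) n) : Piece ρ n := by
  obtain ⟨η₁, a1, a2, a3⟩ := h1
  obtain ⟨η₂, b1, b2, b3⟩ := h2
  have hint1 : ∀ h, IsIntegral ℤ (η₁ h) := fun h => isIntegral_of_mem_cyc hn0 (a1.apply_mem hn h)
  have hint2 : ∀ h, IsIntegral ℤ (η₂ h) := fun h => isIntegral_of_mem_cyc hn0 (b1.apply_mem hn h)
  have hcW : Nat.card M * Nat.card N = Nat.card W := by
    rw [← Nat.card_prod]
    exact Nat.card_congr (Submodule.prodEquivOfIsCompl _ _ hc).toEquiv
  have hfix : ∀ h, Nat.card (fixS (subrep hM) h) * Nat.card (fixS (subrep hN) h) =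
      Nat.card (fixS ρ h) := by
    intro h
    rw [← Nat.card_prod]
    let f : fixS (subrep hM) h × fixS (subrep hN) h → fixS ρ h := fun x =>
      ⟨((x.1 : M) : W) + ((x.2 : N) : W), by
        have e1 : ρ h ((x.1 : M) : W) = ((x.1 : M) : W) := congrArg Subtype.val (mem_fixS.mp x.1.2)
        have e2 : ρ h ((x.2 : N) : W) = ((x.2 : N) : W) := congrArg Subtype.val (mem_fixS.mp x.2.2)
        rw [mem_fixS, map_add, e1, e2]⟩
    have hf : Function.Bijective f := by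
      constructor
      · intro x y hxy
        have e1 : ((x.1 : M) : W) + ((x.2 : N) : W) = ((y.1 : M) : W) + ((y.2 : N) : W) :=
          congrArg Subtype.val hxy
        have e2 : ((x.1 : M), (x.2 : N)) = ((y.1 : M), (y.2 : N)) :=
          (Submodule.prodEquivOfIsCompl _ _ hc).injective e1
        exact Prod.ext (Subtype.ext (congrArg Prod.fst e2)) (Subtype.ext (congrArg Prod.snd e2))
      · rintro ⟨w, hw⟩
        rw [mem_fixS] at hw
        obtain ⟨m, hm, k, hk, rfl⟩ := Submodule.mem_sup.mp (show w ∈ M ⊔ N by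
          rw [hc.sup_eq_top]; trivial)
        have e1 : ρ h m - m = k - ρ h k := by
          rw [map_add] at hw
          rw [sub_eq_sub_iff_add_eq_add, hw, add_comm]
        have e2 : ρ h m - m = 0 := by
          have : ρ h m - m ∈ M ⊓ N := ⟨M.sub_mem (hM h m hm) hm, by
            rw [e1]; exact N.sub_mem hk (hN h k hk)⟩
          rw [hc.inf_eq_bot] at this
          exact (Submodule.mem_bot _).mp this
        have e3 : ρ h m = m := sub_eq_zero.mp e2
        have e4 : ρ h k = k := by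
          rw [e2] at e1
          exact (sub_eq_zero.mp e1.symm).symm
        exact ⟨(⟨⟨m, hm⟩, mem_fixS.mpr (Subtype.ext e3)⟩, ⟨⟨k, hk⟩, mem_fixS.mpr (Subtype.ext e4)⟩),
          rfl⟩
    exact Nat.card_congr (Equiv.ofBijective f hf)
  refine ⟨η₁ * η₂, a1.mul b1, fun h => ?_, ?_⟩
  · rw [← hfix, ← hcW, Pi.mul_apply, map_mul]
    push_cast
    rw [← a2 h, ← b2 h]
    ring
  · rintro h ⟨x, hx⟩
    obtain ⟨m, hm, k, hk, rfl⟩ := Submodule.mem_sup.mp (show x ∈ M ⊔ N by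
      rw [hc.sup_eq_top]; trivial)
    by_cases hm1 : ρ h m = m
    · obtain ⟨l, r, hr, hl⟩ := b3 h ⟨⟨k, hk⟩, fun e => hx (by
        rw [map_add, hm1]
        congr 1
        exact congrArg Subtype.val e)⟩
      refine ⟨l, η₁ h ^ l * r, ((hint1 h).pow l).mul hr, ?_⟩
      rw [Pi.mul_apply, mul_pow, hl]; ring
    · obtain ⟨l, r, hr, hl⟩ := a3 h ⟨⟨m, hm⟩, fun e => hm1 (congrArg Subtype.val e)⟩
      refine ⟨l, r * η₂ h ^ l, hr.mul ((hint2 h).pow l), ?_⟩
      rw [Pi.mul_apply, mul_pow, hl]; ring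

theorem piece_of_form (hn0 : n ≠ 0) (hn : Nat.card H ∣ n) (hpn : p ∣ n) (hpH : ¬ p ∣ Nat.card H)
    (B : LinearMap.BilinForm (ZMod p) W) (hBi : ∀ g : H, ∀ x y, B (ρ g x) (ρ g y) = B x y)
    (hnd : ∀ x, (∀ y, B x y = 0) → x = 0) : Piece ρ n := by
  haveI : Module.Finite (ZMod p) W := Module.Finite.of_finite
  have hcop : (Nat.card H : ZMod p) ≠ 0 := fun h => hpH ((ZMod.natCast_eq_zero_iff _ _).mp h)
  obtain ⟨M, N, hM, hN, hMN, hMN', ⟨A, hA1, hA2, hA3⟩, ⟨S, hS1, hS2, hS3⟩, h2⟩ :=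
    SD.good_of_ndeg (ρ := ρ) (B := B) (p := p) hcop hBi _ ⊤ (fun _ _ _ => trivial)
      (fun x _ hx => hnd x fun y => hx y trivial) rfl
  have hc : IsCompl M N := IsCompl.of_eq hMN hMN'
  refine Piece.prod hn0 hn hM hN hc ?_ ?_
  · by_cases hp2 : p = 2
    · exact Piece.of_alt_two hn hpn hpH hp2 (A.domRestrict₁₂ M M) (fun x => hA1 x x.2)
        (fun g x y => hA2 g x x.2 y y.2) fun x hx => Subtype.ext (hA3 x x.2 fun y hy => hx ⟨y, hy⟩)
    · exact Piece.of_alt hn0 hn hpH hp2 (A.domRestrict₁₂ M M) (fun x => hA1 x x.2)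
        (fun g x y => hA2 g x x.2 y y.2) fun x hx => Subtype.ext (hA3 x x.2 fun y hy => hx ⟨y, hy⟩)
  · by_cases hp2 : p = 2
    · exact Piece.of_triv fun g x => Subtype.ext (h2 hp2 g x x.2)
    · exact Piece.of_symm hn hpn hpH hp2 (S.domRestrict₁₂ N N) (fun x y => hS1 x x.2 y y.2)
        (fun g x y => hS2 g x x.2 y y.2) fun x hx => Subtype.ext (hS3 x x.2 fun y hy => hx ⟨y, hy⟩)

/-- representations from additive actions -/
def mkRep (f : H → W →+ W) (h1 : ∀ w, f 1 w = w) (hm : ∀ a b w, f (a * b) w = f a (f b w)) :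
    Representation (ZMod p) H W where
  toFun h := (f h).toZModLinearMap p
  map_one' := LinearMap.ext h1
  map_mul' a b := LinearMap.ext (hm a b)

section sub

variable {X : Type u} [Group X] [Finite X] (U K : Subgroup X) [Fintype K]

theorem exists_eta_abs (W : Type u) [AddCommGroup W] [Module (ZMod p) W] (e : W ≃ U)
    (he : ∀ x y, (e (x + y) : X) = e x * e y)
    (hKU : ∀ h ∈ K, ∀ u ∈ U, h * u * h⁻¹ ∈ U) (hn0 : n ≠ 0) (hn : Nat.card K ∣ n) (hpn : p ∣ n)
    (hpK : ¬ p ∣ Nat.card K) (β : X → X → ZMod p)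
    (hβl : ∀ u ∈ U, ∀ u' ∈ U, ∀ w ∈ U, β (u * u') w = β u w + β u' w)
    (hβr : ∀ u ∈ U, ∀ w ∈ U, ∀ w' ∈ U, β u (w * w') = β u w + β u w')
    (hβinv : ∀ h ∈ K, ∀ u ∈ U, ∀ w ∈ U, β (h * u * h⁻¹) (h * w * h⁻¹) = β u w)
    (hβnd : ∀ u ∈ U, (∀ w ∈ U, β u w = 0) → u = 1) :
    ∃ η : K → ℂ, IG n η ∧ (∀ h : K, η h * conj (η h) *
      (Nat.card {u : X // u ∈ U ∧ u * h = h * u} : ℂ) = Nat.card U) ∧
      ∀ h : K, (∃ u ∈ U, h * u * (h : X)⁻¹ ≠ u) → ∃ (m : ℕ) (r : ℂ), IsIntegral ℤ r ∧ η h ^ m = p * r := by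
  haveI : Finite W := Finite.of_equiv _ e.symm
  have hei : ∀ x y : W, (e x : X) = e y → x = y := fun x y h => e.injective (Subtype.ext h)
  have he0 : (e 0 : X) = 1 := by
    have := he 0 0
    rw [add_zero] at this
    exact left_eq_mul.mp this
  let f : K → W →+ W := fun h => AddMonoidHom.mk'
    (fun x => e.symm ⟨h * (e x : X) * (h : X)⁻¹, hKU h h.2 _ (e x).2⟩) (fun x y => hei _ _ (by
      refine (congrArg Subtype.val (e.apply_symm_apply _)).trans ?_
      rw [he (e.symm _) (e.symm _), e.apply_symm_apply, e.apply_symm_apply]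
      show (h : X) * (e (x + y) : X) * (h : X)⁻¹ =
        (h * (e x : X) * (h : X)⁻¹) * (h * (e y : X) * (h : X)⁻¹)
      rw [he]; group))
  have hf : ∀ h x, (e (f h x) : X) = h * (e x : X) * (h : X)⁻¹ := fun h x => by
    show (e (e.symm ⟨h * (e x : X) * (h : X)⁻¹, hKU h h.2 _ (e x).2⟩) : X) = _
    rw [Equiv.apply_symm_apply]
  let ρ : Representation (ZMod p) K W := mkRep f
    (fun x => hei _ _ (by rw [hf, Subgroup.coe_one]; group))
    (fun a b x => hei _ _ (by rw [hf, hf, hf, Subgroup.coe_mul]; group))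
  have hρ : ∀ (h : K) (x : W), (e (ρ h x) : X) = h * (e x : X) * (h : X)⁻¹ := hf
  let B : LinearMap.BilinForm (ZMod p) W := AddMonoidHom.toZModLinearMap p
    (AddMonoidHom.mk' (fun x => AddMonoidHom.toZModLinearMap p
      (AddMonoidHom.mk' (fun y => β (e x) (e y)) (fun y z => by
        rw [he]; exact hβr _ (e x).2 _ (e y).2 _ (e z).2)))
      (fun x y => LinearMap.ext fun z => by
        show β (e (x + y)) (e z) = β (e x) (e z) + β (e y) (e z)
        rw [he]; exact hβl _ (e x).2 _ (e y).2 _ (e z).2))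
  have hB : ∀ x y : W, B x y = β (e x) (e y) := fun x y => rfl
  obtain ⟨η, h1, h2, h3⟩ := piece_of_form (ρ := ρ) hn0 hn hpn hpK B
    (fun g x y => by rw [hB, hB, hρ, hρ]; exact hβinv g g.2 _ (e x).2 _ (e y).2)
    (fun x hx => hei _ _ (by
      rw [he0]
      refine hβnd _ (e x).2 fun w hw => ?_
      have := hx (e.symm ⟨w, hw⟩)
      rw [hB, Equiv.apply_symm_apply] at this
      exact this))
  refine ⟨η, h1, fun h => ?_, ?_⟩
  · have e1 : Nat.card {u : X // u ∈ U ∧ u * h = h * u} = Nat.card (fixS ρ h) := by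
      refine Nat.card_congr
        { toFun := fun u => ⟨e.symm ⟨u.1, u.2.1⟩, mem_fixS.mpr (hei _ _ (by
            rw [hρ, Equiv.apply_symm_apply]
            exact mul_inv_eq_of_eq_mul u.2.2.symm))⟩
          invFun := fun x => ⟨(e x : X), (e x).2, by
            have e2 := mem_fixS.mp x.2
            have e3 : (h : X) * (e x : X) * (h : X)⁻¹ = e x := by rw [← hρ, e2]
            exact (mul_inv_eq_iff_eq_mul.mp e3).symm⟩
          left_inv := fun u => Subtype.ext (by simp)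
          right_inv := fun x => Subtype.ext (by simp) }
    rw [e1, h2, Nat.card_congr e]
  · rintro h ⟨u, hu, hne⟩
    refine h3 h ⟨e.symm ⟨u, hu⟩, fun h4 => hne ?_⟩
    have h5 := hρ h (e.symm ⟨u, hu⟩)
    rw [h4, Equiv.apply_symm_apply] at h5
    exact h5.symm

theorem exists_eta (hUc : ∀ a ∈ U, ∀ b ∈ U, a * b = b * a) (hUp : ∀ a ∈ U, a ^ p = 1)
    (hKU : ∀ h ∈ K, ∀ u ∈ U, h * u * h⁻¹ ∈ U) (hn0 : n ≠ 0) (hn : Nat.card K ∣ n) (hpn : p ∣ n)
    (hpK : ¬ p ∣ Nat.card K) (β : X → X → ZMod p)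
    (hβl : ∀ u ∈ U, ∀ u' ∈ U, ∀ w ∈ U, β (u * u') w = β u w + β u' w)
    (hβr : ∀ u ∈ U, ∀ w ∈ U, ∀ w' ∈ U, β u (w * w') = β u w + β u w')
    (hβinv : ∀ h ∈ K, ∀ u ∈ U, ∀ w ∈ U, β (h * u * h⁻¹) (h * w * h⁻¹) = β u w)
    (hβnd : ∀ u ∈ U, (∀ w ∈ U, β u w = 0) → u = 1) :
    ∃ η : K → ℂ, IG n η ∧ (∀ h : K, η h * conj (η h) *
      (Nat.card {u : X // u ∈ U ∧ u * h = h * u} : ℂ) = Nat.card U) ∧
      ∀ h : K, (∃ u ∈ U, h * u * (h : X)⁻¹ ≠ u) → ∃ (m : ℕ) (r : ℂ), IsIntegral ℤ r ∧ η h ^ m = p * r := by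
  letI : AddCommGroup (Additive U) :=
    { (inferInstance : AddGroup (Additive U)) with
      add_comm := fun a b => Subtype.ext (hUc _ a.toMul.2 _ b.toMul.2) }
  letI : Module (ZMod p) (Additive U) := AddCommGroup.zmodModule (fun x => by
    show Additive.ofMul (x.toMul ^ p) = Additive.ofMul 1
    congr 1
    exact Subtype.ext (hUp _ x.toMul.2))
  exact exists_eta_abs U K (Additive U) Additive.toMul (fun _ _ => rfl) hKU hn0 hn hpn hpK β hβl hβr
    hβinv hβnd

end sub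

end Cfsg.Agent.H75.RT
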