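import Cfsg.Agent.H75.ItoConv
import Cfsg.Agent.BR.Final
import Cfsg.Agent.S4713
import Cfsg.Agent.H69.PChain

/-!
# Groups all of whose irreducible degrees are less than `p` (owner: helper75)
-/

set_option autoImplicit false
set_option linter.style.haveILetI false
set_option linter.unusedSectionVars false

namespace Cfsg.Agent.H75.SmallDeg

open scoped ComplexConjugate BigOperators commutatorElement
open Cfsg Cfsg.Agent.CharBase Cfsg.Agent.H75 Subgroup

universe u

variable {G : Type u} [Group G] [Finite G]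

theorem deg_lt_subgroup {b : ℕ} (h : ∀ χ : IrrCharacter G, deg χ < b) (H : Subgroup G)
    (θ : IrrCharacter H) : deg θ < b := by
  classical
  haveI := Fintype.ofFinite G
  haveI := Fintype.ofFinite H
  obtain ⟨χ, hχ, hne⟩ := Char.exists_over H θ.2
  refine lt_of_le_of_lt ?_ (h ⟨χ, hχ⟩)
  exact deg_le_of_constituent (isCharacter_restrict (isCharacter_of_isIrr hχ) H)
    (deg_spec (⟨χ, hχ⟩ : IrrCharacter G)) θ hne

theorem deg_lt_quotient {b : ℕ} (h : ∀ χ : IrrCharacter G, deg χ < b) (N : Subgroup G) [N.Normal]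
    (β : IrrCharacter (G ⧸ N)) : deg β < b := by
  have h1 := isIrrCharacter_inflate N β.2
  have h2 : deg (⟨_, h1⟩ : IrrCharacter G) = deg β := by
    have : ((deg (⟨_, h1⟩ : IrrCharacter G) : ℕ) : ℂ) = deg β := by
      rw [← deg_spec, ← deg_spec]; rfl
    exact_mod_cast this
  rw [← h2]
  exact h _

theorem comm_of_pGroup {p : ℕ} (hp : p.Prime) (h : ∀ χ : IrrCharacter G, deg χ < p)
    (P : Subgroup G) (hP : IsPGroup p P) : ∀ x ∈ P, ∀ y ∈ P, x * y = y * x := by
  haveI : Fact p.Prime := ⟨hp⟩
  have hlin : ∀ θ : IrrCharacter P, θ.1 1 = 1 := by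
    intro θ
    have h1 := deg_lt_subgroup h P θ
    obtain ⟨n, hn⟩ := IsPGroup.iff_card.mp hP
    have h2 := deg_dvd θ
    rw [hn] at h2
    obtain ⟨j, -, hj⟩ := (Nat.dvd_prime_pow hp).mp h2
    rcases Nat.eq_zero_or_pos j with h0 | h0
    · rw [deg_spec, hj, h0, pow_zero, Nat.cast_one]
    · exfalso
      have : p ∣ deg θ := by rw [hj]; exact dvd_pow_self p h0.ne'
      have := Nat.le_of_dvd (deg_pos θ) this
      omega
  intro x hx y hy
  exact congrArg Subtype.val (comm_of_forall_linear hlin ⟨x, hx⟩ ⟨y, hy⟩)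

/-- the norm of the restriction to an abelian subgroup is at least the degree -/
theorem le_classInner_restrict (P : Subgroup G) [Fintype P]
    (hab : ∀ x ∈ P, ∀ y ∈ P, x * y = y * x) (χ : IrrCharacter G) :
    ∃ n : ℕ, deg χ ≤ n ∧ ∑ x : P, (χ : G → ℂ) x * conj ((χ : G → ℂ) x) = (Nat.card P : ℂ) * n := by
  classical
  haveI := Fintype.ofFinite (IrrCharacter P)
  have hres : IsCharacter P (fun x : P => (χ : G → ℂ) x) := isCharacter_restrict (irr_isCharacter χ) P
  obtain ⟨m, hm, hsum⟩ := exists_mult_of_isCharacter hres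
  refine ⟨∑ ψ : IrrCharacter P, m ψ ^ 2, ?_, ?_⟩
  · have h1 : (deg χ : ℂ) = ((∑ ψ : IrrCharacter P, m ψ : ℕ) : ℂ) := by
      rw [← deg_spec]
      have h2 := congrFun hsum 1
      simp only [Finset.sum_apply, Pi.smul_apply] at h2
      refine h2.trans ?_
      push_cast
      refine Finset.sum_congr rfl fun ψ _ => ?_
      rw [irr_one_of_comm (fun a b => Subtype.ext (hab a a.2 b b.2)) ψ]
      simp
    have h2 : deg χ = ∑ ψ : IrrCharacter P, m ψ := by exact_mod_cast h1
    rw [h2]
    exact Finset.sum_le_sum fun ψ _ => Nat.le_self_pow (by norm_num) _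
  · have h1 : classInner (fun x : P => (χ : G → ℂ) x) (fun x : P => (χ : G → ℂ) x) =
        ((∑ ψ : IrrCharacter P, m ψ ^ 2 : ℕ) : ℂ) := by
      rw [classInner_eq_sum (isClassFunction_of_isCharacter hres)]
      push_cast
      refine Finset.sum_congr rfl fun ψ _ => ?_
      rw [← classInner_conj_symm (fun x : P => (χ : G → ℂ) x) (ψ : P → ℂ), hm ψ]
      simp [pow_two]
    rw [← h1]
    unfold classInner
    rw [← mul_assoc, mul_inv_cancel₀, one_mul]
    exact_mod_cast Nat.card_pos.ne'

theorem sum_centralizer_ge (P : Subgroup G) [Fintype P] [Fintype (IrrCharacter G)]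
    (hab : ∀ x ∈ P, ∀ y ∈ P, x * y = y * x) :
    Nat.card P * ∑ χ : IrrCharacter G, deg χ ≤
      ∑ x : P, Nat.card (centralizer ({(x : G)} : Set G)) := by
  classical
  choose n hn hs using le_classInner_restrict P hab
  have h1 : ((∑ x : P, Nat.card (centralizer ({(x : G)} : Set G)) : ℕ) : ℂ) =
      ((Nat.card P * ∑ χ : IrrCharacter G, n χ : ℕ) : ℂ) := by
    push_cast
    rw [Finset.mul_sum, ← Finset.sum_congr rfl fun χ _ => hs χ, Finset.sum_comm]
    refine Finset.sum_congr rfl fun x _ => ?_
    rw [column_orthogonality_of_isConj (IsConj.refl (x : G))]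
  have h2 : (∑ x : P, Nat.card (centralizer ({(x : G)} : Set G)) : ℕ) =
      Nat.card P * ∑ χ : IrrCharacter G, n χ := by exact_mod_cast h1
  rw [h2]
  exact Nat.mul_le_mul_left _ (Finset.sum_le_sum fun χ _ => hn χ)

/-- the averaging bound -/
theorem avg_bound {p : ℕ} (hp : 1 ≤ p) (h : ∀ χ : IrrCharacter G, deg χ < p) (P : Subgroup G)
    (hab : ∀ x ∈ P, ∀ y ∈ P, x * y = y * x) (k : ℕ)
    (hk : ∀ x ∈ P, x ≠ 1 → k * Nat.card (centralizer ({x} : Set G)) ≤ Nat.card G) :
    k * Nat.card P ≤ (p - 1) * (Nat.card P - 1) + k * (p - 1) := by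
  classical
  haveI := Fintype.ofFinite G
  haveI := Fintype.ofFinite P
  haveI := Fintype.ofFinite (IrrCharacter G)
  have h1 := sum_centralizer_ge P hab
  have h2 : Nat.card G ≤ (p - 1) * ∑ χ : IrrCharacter G, deg χ := by
    rw [← sum_deg_sq, Finset.mul_sum]
    refine Finset.sum_le_sum fun χ _ => ?_
    rw [pow_two]
    exact Nat.mul_le_mul_right _ (by have := h χ; omega)
  have h3 : ∑ x : P, Nat.card (centralizer ({(x : G)} : Set G)) =
      Nat.card G + ∑ x ∈ (Finset.univ : Finset P).erase 1,
        Nat.card (centralizer ({(x : G)} : Set G)) := by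
    rw [← Finset.add_sum_erase _ _ (Finset.mem_univ (1 : P))]
    congr 1
    have : centralizer ({((1 : P) : G)} : Set G) = ⊤ := by
      rw [eq_top_iff]
      intro g _
      rw [mem_centralizer_singleton_iff]
      simp
    rw [this, card_top]
  have h4 : k * ∑ x ∈ (Finset.univ : Finset P).erase 1,
        Nat.card (centralizer ({(x : G)} : Set G)) ≤ (Nat.card P - 1) * Nat.card G := by
    rw [Finset.mul_sum]
    have : ∀ x ∈ (Finset.univ : Finset P).erase 1,
        k * Nat.card (centralizer ({(x : G)} : Set G)) ≤ Nat.card G := fun x hx =>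
      hk x x.2 (fun h => (Finset.mem_erase.mp hx).1 (Subtype.ext h))
    refine (Finset.sum_le_sum this).trans ?_
    rw [Finset.sum_const, Finset.card_erase_of_mem (Finset.mem_univ _), Finset.card_univ,
      ← Nat.card_eq_fintype_card, smul_eq_mul]
  rw [h3] at h1
  set S := ∑ χ : IrrCharacter G, deg χ with hS
  set A := ∑ x ∈ (Finset.univ : Finset P).erase 1, Nat.card (centralizer ({(x : G)} : Set G)) with hA
  have hG : 0 < Nat.card G := Nat.card_pos
  have hPpos : 0 < Nat.card P := Nat.card_pos
  -- (p-1) * k * (|G| + A) ≥ k |P| |G|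
  have h5 : k * Nat.card P * Nat.card G ≤ (p - 1) * k * Nat.card G + (p - 1) * (k * A) := by
    calc k * Nat.card P * Nat.card G ≤ k * Nat.card P * ((p - 1) * S) := Nat.mul_le_mul_left _ h2
      _ = k * (p - 1) * (Nat.card P * S) := by ring
      _ ≤ k * (p - 1) * (Nat.card G + A) := Nat.mul_le_mul_left _ h1
      _ = (p - 1) * k * Nat.card G + (p - 1) * (k * A) := by ring
  have h6 : (p - 1) * (k * A) ≤ (p - 1) * ((Nat.card P - 1) * Nat.card G) :=
    Nat.mul_le_mul_left _ h4
  have h7 : (k * Nat.card P) * Nat.card G ≤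
      ((p - 1) * (Nat.card P - 1) + k * (p - 1)) * Nat.card G := by
    calc (k * Nat.card P) * Nat.card G ≤ (p - 1) * k * Nat.card G +
        (p - 1) * ((Nat.card P - 1) * Nat.card G) := by omega
      _ = ((p - 1) * (Nat.card P - 1) + k * (p - 1)) * Nat.card G := by ring
  exact Nat.le_of_mul_le_mul_right h7 hG

theorem arith1 {p c k : ℕ} (hp : 2 ≤ p) (hc : p ^ 2 ≤ c) (hk : p + 1 ≤ k)
    (h : k * c ≤ (p - 1) * (c - 1) + k * (p - 1)) : False := by
  have hc1 : 1 ≤ c := by nlinarith
  zify [hc1, (by omega : 1 ≤ p)] at *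
  have h1 : (p : ℤ) ≤ c := by nlinarith
  have h2 : 0 ≤ ((k : ℤ) - (p + 1)) * (c - p + 1) := mul_nonneg (by linarith) (by linarith)
  nlinarith

theorem arith2 {p e : ℕ} (hp : 1 ≤ p) (h : e * p ≤ (p - 1) * (p - 1) + e * (p - 1)) :
    e ≤ (p - 1) * (p - 1) := by
  obtain ⟨q, rfl⟩ : ∃ q, p = q + 1 := ⟨p - 1, by omega⟩
  simp only [Nat.add_sub_cancel] at h ⊢
  nlinarith

theorem arith3 {p n : ℕ} (hp : 1 ≤ p) (h : 2 * (1 + n * p) ≤ (p - 1) * (p - 1)) :
    2 * n + 3 ≤ p := by
  obtain ⟨q, rfl⟩ : ∃ q, p = q + 1 := ⟨p - 1, by omega⟩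
  simp only [Nat.add_sub_cancel] at h
  by_contra hcon
  have h2 : q ≤ 2 * n + 1 := by omega
  nlinarith

theorem arith4 {p n : ℕ} (hb4 : 2 * n + 3 ≤ p) : ¬ BR.Third p n := by
  rintro ⟨a, u, ha, hu, hau⟩
  have h2 : (2 * n + 3) * (u + 1) ≤ p * (u + 1) := Nat.mul_le_mul_right _ hb4
  have h3 : u * p ≤ a * u * p := by
    calc u * p = 1 * (u * p) := (one_mul _).symm
      _ ≤ a * (u * p) := Nat.mul_le_mul_right _ ha
      _ = a * u * p := by ring
  have h4 : p ≤ u * p := Nat.le_mul_of_pos_left _ hu
  nlinarith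

theorem arith5 {p y n : ℕ} (h1 : 2 * y = p - 1) (hp : 3 ≤ p) (h2 : y = n + 1) (hn : 1 ≤ n)
    (h3 : p * 2 * (1 + n * p) = 1 + (p - 1) ^ 2 + y * (p - 2) ^ 2) : False := by
  obtain ⟨q, rfl⟩ : ∃ q, p = q + 3 := ⟨p - 3, by omega⟩
  have e1 : q = 2 * n := by omega
  subst h2 e1
  simp only [show 2 * n + 3 - 1 = 2 * n + 2 from rfl, show 2 * n + 3 - 2 = 2 * n + 1 from rfl] at h3
  nlinarith [Nat.zero_le (n * n), Nat.zero_le (n * n * n)]

/-- the simple case -/
theorem simple_case {p : ℕ} [hp : Fact p.Prime] [hsimp : IsSimpleGroup G]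
    (h : ∀ χ : IrrCharacter G, deg χ < p) (P : Sylow p G)
    (hsub : ∀ H : Subgroup G, H ≠ ⊤ → ∀ Q : Sylow p H, (Q : Subgroup H).Normal) :
    (P : Subgroup G).Normal := by
  classical
  haveI := Fintype.ofFinite G
  haveI := Fintype.ofFinite (IrrCharacter G)
  by_contra hPn
  have hab := comm_of_pGroup hp.out h (P : Subgroup G) P.isPGroup'
  -- the group is perfect
  have hZ : ∀ z : G, (∀ g : G, g * z = z * g) → z = 1 := by
    intro z hz
    rcases (inferInstance : (center G).Normal).eq_bot_or_eq_top with h1 | h1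
    · have : z ∈ center G := mem_center_iff.mpr hz
      rw [h1, mem_bot] at this
      exact this
    · exfalso
      apply hPn
      constructor
      intro n hn g
      have : n ∈ center G := by rw [h1]; trivial
      rw [mem_center_iff.mp this g, mul_inv_cancel_right]
      exact hn
  have hperf : commutator G = ⊤ := by
    rcases (inferInstance : (commutator G).Normal).eq_bot_or_eq_top with h1 | h1
    · exfalso
      apply hPn
      constructor
      intro n hn g
      have h2 : ⁅g, n⁆ ∈ commutator G := by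
        rw [_root_.commutator_def]
        exact commutator_mem_commutator (mem_top g) (mem_top n)
      rw [h1, mem_bot, commutatorElement_eq_one_iff_mul_comm] at h2
      rw [h2, mul_inv_cancel_right]
      exact hn
    · exact h1
  -- centralizers normalize P
  have hCN : ∀ x ∈ (P : Subgroup G), x ≠ 1 →
      centralizer ({x} : Set G) ≤ normalizer ((P : Subgroup G) : Set G) := by
    intro x hx hx1
    have hPC : (P : Subgroup G) ≤ centralizer ({x} : Set G) := by
      intro y hy
      rw [mem_centralizer_singleton_iff]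
      exact hab y hy x hx
    have hne : centralizer ({x} : Set G) ≠ ⊤ := by
      intro htop
      apply hx1
      apply hZ
      intro g
      have : g ∈ centralizer ({x} : Set G) := by rw [htop]; trivial
      exact mem_centralizer_singleton_iff.mp this
    have h1 := hsub _ hne (P.subtype hPC)
    have h2 : ((P : Subgroup G).subgroupOf (centralizer ({x} : Set G))).Normal := h1
    exact (normal_subgroupOf_iff_le_normalizer hPC).mp h2
  -- number of Sylow subgroups
  have hnS : Nat.card (Sylow p G) = (normalizer ((P : Subgroup G) : Set G)).index :=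
    P.card_eq_index_normalizer
  have hmod := card_sylow_modEq_one p G
  rw [hnS] at hmod
  set N := normalizer ((P : Subgroup G) : Set G) with hN
  have hNi1 : N.index ≠ 1 := by
    rw [Ne, index_eq_one, hN, normalizer_eq_top_iff]
    exact hPn
  have hNpos : 1 ≤ N.index := Nat.pos_of_ne_zero index_ne_zero_of_finite
  obtain ⟨n, hn⟩ := (Nat.modEq_iff_dvd' hNpos).mp hmod.symm
  have hn' : N.index = 1 + n * p := by rw [mul_comm]; omega
  have hn1 : 1 ≤ n := by
    rcases Nat.eq_zero_or_pos n with h0 | h0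
    · rw [h0] at hn'; omega
    · exact h0
  have hb1 := avg_bound hp.out.one_lt.le h (P : Subgroup G) hab N.index (by
    intro x hx hx1
    have h1 := card_le_of_le (hCN x hx hx1)
    have h2 := card_mul_index N
    calc N.index * Nat.card (centralizer ({x} : Set G)) ≤ N.index * Nat.card N :=
          Nat.mul_le_mul_left _ h1
      _ = Nat.card G := by rw [mul_comm]; exact h2)
  have hpp := hp.out.two_le
  -- |P| = p
  obtain ⟨j, hj⟩ := IsPGroup.iff_card.mp P.isPGroup'
  have hj1 : j = 1 := by
    rcases Nat.lt_or_ge j 1 with h0 | h0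
    · exfalso
      have h00 : j = 0 := by omega
      rw [h00, pow_zero, card_eq_one] at hj
      apply hPn
      rw [hj]; infer_instance
    · rcases Nat.lt_or_ge 1 j with h2 | h2
      · exfalso
        have hPc : p ^ 2 ≤ Nat.card (P : Subgroup G) := by
          rw [hj]; exact Nat.pow_le_pow_right hp.out.pos h2
        exact arith1 hpp hPc (by rw [hn']; nlinarith) hb1
      · omega
  have hPc : Nat.card (P : Subgroup G) = p := by rw [hj, hj1, pow_one]
  have hSp : BR.Sp p (P : Subgroup G) := BR.Sp.of_sylow P hPc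
  have he2 := BR.two_le_ind hSp hperf
  have hp3 := BR.three_le hSp hperf
  -- the bound for the index of the centralizer
  have hb2 := avg_bound hp.out.one_lt.le h (P : Subgroup G) hab (BR.ind (P : Subgroup G) * N.index) (by
    intro x hx hx1
    have h1 := hSp.index_centralizer hx hx1
    have h2 := card_mul_index (centralizer ({x} : Set G))
    rw [h1, mul_comm] at h2
    exact h2.le)
  rw [hPc] at hb2
  have hb3 : BR.ind (P : Subgroup G) * N.index ≤ (p - 1) * (p - 1) :=
    arith2 hp.out.one_lt.le hb2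
  have hb4 : 2 * n + 3 ≤ p := by
    have h1 : 2 * N.index ≤ (p - 1) * (p - 1) := (Nat.mul_le_mul_right _ he2).trans hb3
    rw [hn'] at h1
    exact arith3 hp.out.one_lt.le h1
  have hT : ¬ BR.Third p n := arith4 hb4
  obtain ⟨B⟩ := CycG.nonempty_data hSp
  have hcore : pPrimeCore p G = ⊥ := by
    rcases (inferInstance : (pPrimeCore p G).Normal).eq_bot_or_eq_top with h1 | h1
    · exact h1
    · exfalso
      have h2 := Solv.pPrimeCore_card_coprime (G := G) p
      rw [h1, card_top] at h2
      have h3 : p ∣ Nat.card G := by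
        rw [← hPc]; exact card_subgroup_dvd_card _
      have h4 := Nat.dvd_gcd h3 (dvd_refl p)
      rw [h2] at h4
      exact hp.out.one_lt.ne' (Nat.dvd_one.mp h4)
  have hshape := B.shape hSp hp3 hperf hn1 hn' hT
  have hC := B.self_cent hSp hp3 hperf hn1 hn' hT hcore
  have hlt : ∀ χ : IrrCharacter G, BR.dg χ < p := fun χ => by
    show charDegree (χ : G → ℂ) < p
    rw [charDegree_eq_deg]; exact h χ
  -- no positive nonexceptional characters
  have ha0 : B.a = 0 := by
    unfold BR.Data.a
    rw [Nat.card_eq_zero]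
    left
    constructor
    rintro ⟨χ, h1, h2, h3⟩
    have h4 := hshape.pos χ h1 h2 h3
    have h5 := hlt χ
    nlinarith
  obtain ⟨ψ, hψ⟩ := B.Y_nonempty (by omega)
  have hcardx := hshape.card
  rcases hshape.cases with ⟨-, hY, m, hm1, hm2, hm3, hm4⟩ | ⟨-, -, h2, -⟩
  swap
  · rw [ha0] at h2; omega
  rw [ha0] at hm4 hcardx
  have hind : m + 1 = BR.ind (P : Subgroup G) := by omega
  have hψp := hm2 ψ hψ
  have hψlt := hlt ψ
  have hcY := B.cardY
  have hile : BR.ind (P : Subgroup G) ≤ p - 1 := by
    have h1 : 0 < B.Y.card := Finset.card_pos.mpr ⟨ψ, hψ⟩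
    calc BR.ind (P : Subgroup G) ≤ B.Y.card * BR.ind (P : Subgroup G) := Nat.le_mul_of_pos_left _ h1
      _ = p - 1 := hcY
  have hm : m = 1 := by
    by_contra hm0
    have h1 : 2 ≤ m := by omega
    have h2 : 2 * p ≤ m * p := Nat.mul_le_mul_right _ h1
    omega
  subst hm
  have hind2 : BR.ind (P : Subgroup G) = 2 := by omega
  rw [hind2] at hψp hcY hcardx
  -- all characters are in the block
  obtain ⟨x0, hx0, hx01⟩ := BR.exists_ne_one hSp
  have hall : ∀ χ : IrrCharacter G, χ ∈ B.X ∨ χ ∈ B.Y := by
    intro χ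
    by_contra hcon
    push Not at hcon
    have hv := B.out hC χ hcon.1 hcon.2
    haveI := Fintype.ofFinite (P : Subgroup G)
    obtain ⟨k, hk⟩ := hSp.exists_sum (irr_isCharacter χ)
    have h1 : ∑ x : (P : Subgroup G), (χ : G → ℂ) x = (χ : G → ℂ) 1 := by
      rw [Finset.sum_eq_single (1 : (P : Subgroup G))]
      · rfl
      · intro b _ hb
        exact hv b b.2 (fun h => hb (Subtype.ext h))
      · intro h; exact absurd (Finset.mem_univ _) h
    rw [h1, deg_spec] at hk
    have h2 : deg χ = p * k := by exact_mod_cast hk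
    have h3 : p ∣ deg χ := Dvd.intro _ h2.symm
    have h4 := Nat.le_of_dvd (deg_pos χ) h3
    have h5 := h χ
    omega
  -- count
  have hX2 : B.X.card = 2 := by rw [B.cardX, hind2]
  have hX : ∀ χ ∈ B.X, χ ≠ oneIrr G → deg χ = p - 1 := by
    intro χ hχ hne
    rw [← charDegree_eq_deg]
    rcases B.sgn χ hχ with h1 | h1
    · exfalso
      have h4 := hshape.pos χ hχ h1 hne
      have h5 := hlt χ
      nlinarith
    · exact hshape.neg χ hχ h1
  have hYd : ∀ χ ∈ B.Y, deg χ = p - 2 := by
    intro χ hχ
    have h1 := hm2 χ hχ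
    rw [hind2, one_mul] at h1
    have h2 : BR.dg χ = deg χ := charDegree_eq_deg χ
    omega
  have hdone : deg (oneIrr G) = 1 := by
    rw [← charDegree_eq_deg]
    exact charDegree_eq (by rw [CharBase.oneIrr_apply]; simp)
  have hunion : (Finset.univ : Finset (IrrCharacter G)) = B.X ∪ B.Y := by
    ext χ
    simp only [Finset.mem_univ, Finset.mem_union, true_iff]
    exact hall χ
  have hcardG : Nat.card G = p * 2 * (1 + n * p) := by
    have h3 : ((P : Subgroup G)).relIndex N = 2 := by
      have := hind2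
      unfold BR.ind at this
      rw [hC] at this
      exact this
    have h1 := relIndex_mul_index (H := (P : Subgroup G)) (K := N) le_normalizer
    have h2 := card_mul_index (P : Subgroup G)
    rw [← h1, h3, hn', hPc] at h2
    rw [← h2]; ring
  have hsq := sum_deg_sq (G := G)
  rw [hunion, Finset.sum_union B.disj] at hsq
  have hYs : ∑ χ ∈ B.Y, deg χ ^ 2 = B.Y.card * (p - 2) ^ 2 := by
    rw [Finset.sum_congr rfl (g := fun _ => (p - 2) ^ 2) (fun χ hχ => by rw [hYd χ hχ]),
      Finset.sum_const, smul_eq_mul]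
  have hXs : ∑ χ ∈ B.X, deg χ ^ 2 = 1 + (p - 1) ^ 2 := by
    rw [← Finset.add_sum_erase _ _ B.one_mem, hdone, one_pow]
    congr 1
    rw [Finset.sum_congr rfl (g := fun _ => (p - 1) ^ 2)]
    · rw [Finset.sum_const, Finset.card_erase_of_mem B.one_mem, hX2]
      simp
    · intro χ hχ
      rw [hX χ (Finset.mem_of_mem_erase hχ) (Finset.ne_of_mem_erase hχ)]
  rw [hXs, hYs, hcardG] at hsq
  exact arith5 (y := B.Y.card) (by rw [mul_comm]; exact hcY) hp3 (by rw [mul_one] at hm3; exact hm3)
    hn1 hsq.symm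

theorem normal_sylow_aux {p : ℕ} [hp : Fact p.Prime] (n : ℕ) : ∀ (G : Type u) [Group G] [Finite G],
    Nat.card G = n → (∀ χ : IrrCharacter G, deg χ < p) → ∀ P : Sylow p G,
      (P : Subgroup G).Normal := by
  induction n using Nat.strong_induction_on with
  | _ n ih =>
  intro G _ _ hcard h P
  by_cases hsimp : ∃ N : Subgroup G, N.Normal ∧ N ≠ ⊥ ∧ N ≠ ⊤
  · obtain ⟨N, hN, hNb, hNt⟩ := hsimp
    have hNlt : Nat.card N < n := by
      rw [← hcard]
      exact lt_of_le_of_ne (card_le_card_group N) (fun he => hNt (eq_top_of_card_eq N he))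
    have hGNlt : Nat.card (G ⧸ N) < n := by
      have h1 := card_mul_index N
      rw [hcard] at h1
      have h2 : 2 ≤ Nat.card N := by
        have : Nat.card N ≠ 1 := fun h => hNb (card_eq_one.mp h)
        have : 0 < Nat.card N := Nat.card_pos
        omega
      have h3 : 0 < N.index := Nat.pos_of_ne_zero index_ne_zero_of_finite
      rw [← index_eq_card]
      nlinarith
    obtain ⟨Q⟩ : Nonempty (Sylow p N) := inferInstance
    obtain ⟨R⟩ : Nonempty (Sylow p (G ⧸ N)) := inferInstance
    haveI hQn : (Q : Subgroup N).Normal := ih _ hNlt N rfl (deg_lt_subgroup h N) Q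
    haveI hRn : (R : Subgroup (G ⧸ N)).Normal := ih _ hGNlt (G ⧸ N) rfl (deg_lt_quotient h N) R
    haveI : (Q : Subgroup N).Characteristic := Sylow.characteristic_of_normal Q hQn
    let Q' : Subgroup G := (Q : Subgroup N).map N.subtype
    haveI hQ' : Q'.Normal := inferInstance
    let M : Subgroup G := (R : Subgroup (G ⧸ N)).comap (QuotientGroup.mk' N)
    haveI hM : M.Normal := inferInstance
    have hQN : Q' ≤ N := map_subtype_le _
    have hNM : N ≤ M := by
      intro x hx
      show (QuotientGroup.mk x : G ⧸ N) ∈ (R : Subgroup (G ⧸ N))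
      rw [(QuotientGroup.eq_one_iff x).mpr hx]
      exact one_mem _
    have hchain : IsPSolvable p G := by
      apply H69.PChain.isPSolvable
      have c1 : H69.PChain p Q' := by
        refine (H69.PChain.bot p (G := G)).step bot_le hQ' (Or.inl ?_)
        rw [relIndex_bot_left]
        obtain ⟨j, hj⟩ := IsPGroup.iff_card.mp (Q.isPGroup'.map N.subtype)
        exact ⟨j, hj⟩
      have c2 : H69.PChain p N := by
        refine c1.step hQN hN (Or.inr ?_)
        have : Q'.relIndex N = (Q : Subgroup N).index := by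
          unfold relIndex
          congr 1
          exact comap_map_eq_self_of_injective N.subtype_injective _
        rw [this]
        exact ((Nat.Prime.coprime_iff_not_dvd hp.out).mpr Q.not_dvd_index).symm
      have c3 : H69.PChain p M := by
        refine c2.step hNM hM (Or.inl ?_)
        obtain ⟨j, hj⟩ := IsPGroup.iff_card.mp R.isPGroup'
        refine ⟨j, ?_⟩
        have h1 := relIndex_mul_index hNM
        have h2 : M.index = (R : Subgroup (G ⧸ N)).index :=
          index_comap_of_surjective _ (QuotientGroup.mk'_surjective N)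
        have h3 := card_mul_index (R : Subgroup (G ⧸ N))
        rw [h2, show N.index = Nat.card (G ⧸ N) from index_eq_card N, ← h3, hj] at h1
        exact Nat.eq_of_mul_eq_mul_right (Nat.pos_of_ne_zero index_ne_zero_of_finite) h1
      refine c3.step le_top inferInstance (Or.inr ?_)
      rw [relIndex_top_right, show M.index = (R : Subgroup (G ⧸ N)).index from
        index_comap_of_surjective _ (QuotientGroup.mk'_surjective N)]
      exact ((Nat.Prime.coprime_iff_not_dvd hp.out).mpr R.not_dvd_index).symm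
    refine ((S4713.result p hchain P).mpr fun χ hdvd => ?_).1
    rw [charDegree_eq_deg] at hdvd
    have h1 := Nat.le_of_dvd (deg_pos χ) hdvd
    have h2 := h χ
    omega
  · push Not at hsimp
    by_cases hnt : Nontrivial G
    · haveI : IsSimpleGroup G := ⟨fun N hN => by
        by_cases hb : N = ⊥
        · exact Or.inl hb
        · exact Or.inr (hsimp N hN hb)⟩
      refine simple_case h P fun H hH Q => ?_
      refine ih (Nat.card H) ?_ H rfl (deg_lt_subgroup h H) Q
      rw [← hcard]
      exact lt_of_le_of_ne (card_le_card_group H) (fun he => hH (eq_top_of_card_eq H he))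
    · rw [not_nontrivial_iff_subsingleton] at hnt
      have : (P : Subgroup G) = ⊥ := Subsingleton.elim _ _
      rw [this]; infer_instance

end Cfsg.Agent.H75.SmallDeg
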