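import Cfsg.Agent.Char.HallExt
import Cfsg.Agent.BlkInd.PPart

/-!
# Stable characters of a Sylow subgroup (owner: helper75)

A character `f` of a Sylow `p`-subgroup `P` which takes equal values on `G`-conjugate elements of `P`
gives a generalized character `g ↦ f (g_p)` of `G`.
-/

set_option autoImplicit false

namespace Cfsg.Agent.H75.Stab

open Cfsg Cfsg.Agent.Char Cfsg.Agent.CharBase Cfsg.Agent.BlkInd
open scoped ComplexConjugate

universe u

variable {G : Type u} [Group G] [Finite G] {p : ℕ} [hp : Fact p.Prime]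

theorem card_coprime_index (P : Sylow p G) :
    (Nat.card (P : Subgroup G)).Coprime (P : Subgroup G).index := by
  obtain ⟨k, hk⟩ := IsPGroup.iff_card.mp P.2
  rw [hk]
  exact Nat.Coprime.pow_left k ((Nat.Prime.coprime_iff_not_dvd hp.out).mpr P.not_dvd_index)

/-- **extension of stable characters** -/
theorem exists_ext (P : Sylow p G) {f : ↥(P : Subgroup G) → ℂ} (hf : IsCharacter (P : Subgroup G) f)
    (hst : ∀ x y : (P : Subgroup G), IsConj (x : G) (y : G) → f x = f y) :
    ∃ F : G → ℂ, IsClassFunction G F ∧ IsGeneralizedCharacter G F ∧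
      ∀ (g u : G) (x : (P : Subgroup G)), IsPPart p g u → IsConj u (x : G) → F g = f x := by
  classical
  have := Fintype.ofFinite G
  have hHall := card_coprime_index P
  have hcardG : Nat.card G = Nat.card (P : Subgroup G) * (P : Subgroup G).index :=
    (P : Subgroup G).card_mul_index.symm
  obtain ⟨N, hN1, hN0⟩ := Nat.chineseRemainder hHall 1 0
  have hN0' : (P : Subgroup G).index ∣ N := Nat.modEq_zero_iff_dvd.mp hN0
  have hordN : ∀ g : G, orderOf (g ^ N) ∣ Nat.card (P : Subgroup G) := by
    intro g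
    apply orderOf_dvd_of_pow_eq_one
    rw [← pow_mul]
    apply orderOf_dvd_iff_pow_eq_one.mp
    refine (orderOf_dvd_natCard g).trans ?_
    rw [hcardG, mul_comm]
    exact Nat.mul_dvd_mul_right hN0' _
  -- conjugation of `p`-subgroups into `P`
  have hsyl : ∀ Q : Subgroup G, IsPGroup p Q → ∃ t : G, ∀ x ∈ Q, t * x * t⁻¹ ∈ (P : Subgroup G) := by
    intro Q hQ
    obtain ⟨S, hS⟩ := hQ.exists_le_sylow
    obtain ⟨t, ht⟩ := MulAction.exists_smul_eq G S P
    refine ⟨t, fun x hx => ?_⟩
    rw [← ht]
    exact ⟨x, hS hx, rfl⟩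
  have hpgrp : ∀ Q : Subgroup G, (∀ x ∈ Q, orderOf x ∣ Nat.card (P : Subgroup G)) → IsPGroup p Q := by
    intro Q hQ
    rw [IsPGroup.iff_orderOf]
    intro x
    obtain ⟨k, hk⟩ := IsPGroup.iff_card.mp P.2
    have h1 := hQ x x.2
    rw [hk, Subgroup.orderOf_coe] at h1
    obtain ⟨j, -, hj⟩ := (Nat.dvd_prime_pow hp.out).mp h1
    exact ⟨j, hj⟩
  -- representatives
  have hrep : ∀ g : G, ∃ h : (P : Subgroup G), IsConj (g ^ N) (h : G) := by
    intro g
    obtain ⟨t, ht⟩ := hsyl (Subgroup.zpowers (g ^ N)) (hpgrp _ (by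
      intro x hx
      exact (orderOf_dvd_of_mem_zpowers hx).trans (hordN g)))
    exact ⟨⟨_, ht _ (Subgroup.mem_zpowers _)⟩, isConj_iff.mpr ⟨t, rfl⟩⟩
  choose r hr using hrep
  have hwd : ∀ (g : G) (h : (P : Subgroup G)), IsConj (g ^ N) (h : G) → f (r g) = f h :=
    fun g h hgh => hst _ _ ((hr g).symm.trans hgh)
  have hcf : IsClassFunction G (fun g => f (r g)) := by
    intro g x
    apply hwd
    refine IsConj.trans ?_ (hr g)
    rw [conj_pow]
    exact (isConj_iff.mpr ⟨x, rfl⟩ : IsConj (g ^ N) _).symm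
  refine ⟨fun g => f (r g), hcf, ?_, ?_⟩
  · apply Cfsg.Agent.Char.BI.brauer_characterization _ hcf
    intro E q hq hE
    have hEn := Cfsg.Agent.BlkInd.isNilpotent_of_isElementary hq hE
    have hcardE : Nat.card E ∣ Nat.card (P : Subgroup G) * (P : Subgroup G).index :=
      hcardG ▸ Subgroup.card_subgroup_dvd_card E
    let ν : E →* E :=
      { toFun := fun e => e ^ N
        map_one' := one_pow N
        map_mul' := fun e f => Cfsg.Agent.Char.HE.pow_mul_of_nilpotent hEn hHall hcardE hN1 hN0' e f }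
    obtain ⟨t, ht⟩ := hsyl (ν.range.map E.subtype) (hpgrp _ (by
      rintro _ ⟨_, ⟨e, rfl⟩, rfl⟩
      exact hordN e))
    let κ : E →* (P : Subgroup G) :=
      { toFun := fun e => ⟨t * ((ν e : E) : G) * t⁻¹, ht _ ⟨_, ⟨e, rfl⟩, rfl⟩⟩
        map_one' := Subtype.ext (by simp)
        map_mul' := fun e f => Subtype.ext (by
          change t * ((ν (e * f) : E) : G) * t⁻¹
            = (t * ((ν e : E) : G) * t⁻¹) * (t * ((ν f : E) : G) * t⁻¹)
          rw [map_mul]
          simp only [Subgroup.coe_mul]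
          group) }
    have h1 : (fun e : E => f (r (e : G))) = f ∘ κ := by
      funext e
      apply hwd
      refine isConj_iff.mpr ⟨t, ?_⟩
      rfl
    rw [h1]
    exact Cfsg.Agent.Char.BI.isGeneralizedCharacter_of_isCharacter (isCharacter_comp hf κ)
  · intro g u x hgu hux
    apply hwd
    obtain ⟨y, rfl, hc, ⟨k, hk⟩, hy⟩ := hgu
    have h1 : (u * y) ^ N = u := by
      rw [hc.mul_pow]
      have h2 : u ^ N = u := by
        have h3 : orderOf u ∣ Nat.card (P : Subgroup G) := by
          obtain ⟨c, hc'⟩ := isConj_iff.mp hux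
          have h4 : orderOf u = orderOf (x : G) := by
            rw [← hc']
            have := orderOf_injective (MulAut.conj c).toMonoidHom (MulAut.conj c).injective u
            simpa using this.symm
          rw [h4]
          exact Subgroup.orderOf_dvd_natCard _ x.2
        have h4 := pow_eq_pow_iff_modEq.mpr (hN1.of_dvd h3)
        rwa [pow_one] at h4
      have h3 : y ^ N = 1 := by
        apply orderOf_dvd_iff_pow_eq_one.mp
        refine Nat.dvd_trans ?_ hN0'
        have h4 : orderOf y ∣ Nat.card (P : Subgroup G) * (P : Subgroup G).index :=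
          hcardG ▸ orderOf_dvd_natCard y
        refine Nat.Coprime.dvd_of_dvd_mul_left ?_ h4
        obtain ⟨j, hj⟩ := IsPGroup.iff_card.mp P.2
        rw [hj]
        exact Nat.Coprime.pow_right j ((Nat.Prime.coprime_iff_not_dvd hp.out).mpr hy).symm
      rw [h2, h3, mul_one]
    rw [h1]
    exact hux

end Cfsg.Agent.H75.Stab
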