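import Cfsg.Agent.H75.StabChar
import Cfsg.Agent.H75.PrinSec
import Cfsg.Agent.H76.Cover
import Cfsg.Agent.Transfer.SmallSylow
import Cfsg.Agent.Transfer.Fusion
import Cfsg.Agent.Blk.Dict

/-!
# Elementary abelian Sylow `2`-subgroups of order 16 and inertial index three: `k(B₀) = 16`,
`l(B₀) = 3` (owner: helper75)
-/

set_option autoImplicit false
set_option linter.style.haveILetI false
set_option linter.unusedSectionVars false

namespace Cfsg.Agent.H75.Tri

open scoped ComplexConjugate
open Cfsg Cfsg.Agent.CharBase Cfsg.Agent.Blk Cfsg.Agent.BlkC Cfsg.Agent.H4 Cfsg.Agent.H75.PS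

universe u

section gen

variable {G : Type u} [Group G] [Finite G] {p : ℕ} [hp : Fact p.Prime]

theorem conj_N (P : Sylow p G)
    (hc : ∀ a ∈ (P : Subgroup G), ∀ b ∈ (P : Subgroup G), a * b = b * a) {a b : G}
    (ha : a ∈ (P : Subgroup G)) (hb : b ∈ (P : Subgroup G)) (h : IsConj a b) :
    ∃ n ∈ Subgroup.normalizer ((P : Subgroup G) : Set G), n * a * n⁻¹ = b := by
  have hcomm : IsMulCommutative (P : Subgroup G) :=
    ⟨⟨fun x y => Subtype.ext (hc x x.2 y y.2)⟩⟩
  obtain ⟨g, hg⟩ := isConj_iff.1 h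
  obtain ⟨n, hn, h1⟩ := Transfer.controlsFusion_normalizer_of_isMulCommutative P hcomm a ha g
    (by rw [hg]; exact hb)
  exact ⟨n, hn, h1.trans hg⟩

/-- a centralizer in which `P` is self-centralizing-normalizing is `p`-nilpotent -/
theorem npc_of_free (P : Sylow p G)
    (hc : ∀ a ∈ (P : Subgroup G), ∀ b ∈ (P : Subgroup G), a * b = b * a) {x : G}
    (hx : x ∈ (P : Subgroup G))
    (h : ∀ n ∈ Subgroup.normalizer ((P : Subgroup G) : Set G), n * x * n⁻¹ = x →
      n ∈ Subgroup.centralizer ((P : Subgroup G) : Set G)) :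
    HasNormalPComplement p (Subgroup.centralizer ({x} : Set G)) := by
  have hle : (P : Subgroup G) ≤ Subgroup.centralizer ({x} : Set G) := fun y hy =>
    Subgroup.mem_centralizer_singleton_iff.mpr (hc y hy x hx)
  refine Transfer.hasNPC_of_normalizer_le_centralizer (P.subtype hle) ?_
  intro n hn
  have hn2 : (n : G) ∈ Subgroup.normalizer ((P : Subgroup G) : Set G) := by
    rw [Subgroup.mem_normalizer_iff]
    intro y
    constructor
    · intro hy
      have h1 := (Subgroup.mem_normalizer_iff.mp hn ⟨y, hle hy⟩).mp (by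
        rw [Sylow.coe_subtype]; exact Subgroup.mem_subgroupOf.mpr hy)
      rw [Sylow.coe_subtype] at h1
      exact Subgroup.mem_subgroupOf.mp h1
    · intro hy
      have hyc : y ∈ Subgroup.centralizer ({x} : Set G) := by
        have h1 := hle hy
        have h2 := mul_mem (mul_mem (inv_mem n.2) h1) n.2
        have h3 : (n : G)⁻¹ * (n * y * (n : G)⁻¹) * n = y := by group
        rwa [h3] at h2
      have h1 := (Subgroup.mem_normalizer_iff.mp hn ⟨y, hyc⟩).mpr (by
        rw [Sylow.coe_subtype]; exact Subgroup.mem_subgroupOf.mpr hy)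
      rw [Sylow.coe_subtype] at h1
      exact Subgroup.mem_subgroupOf.mp h1
  have hnx : (n : G) * x * (n : G)⁻¹ = x := by
    rw [Subgroup.mem_centralizer_singleton_iff.mp n.2]; group
  have h1 := h n hn2 hnx
  rw [Subgroup.mem_centralizer_iff]
  intro y hy
  have hy' : y ∈ ((P.subtype hle : Sylow p _) : Subgroup _) := hy
  rw [Sylow.coe_subtype] at hy'
  exact Subtype.ext (Subgroup.mem_centralizer_iff.mp h1 y (Subgroup.mem_subgroupOf.mp hy'))

theorem card_factorization (P : Sylow p G)
    (hc : ∀ a ∈ (P : Subgroup G), ∀ b ∈ (P : Subgroup G), a * b = b * a) {x : G}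
    (hx : x ∈ (P : Subgroup G)) :
    p ^ (Nat.card (Subgroup.centralizer ({x} : Set G))).factorization p =
      Nat.card (P : Subgroup G) := by
  have hle : (P : Subgroup G) ≤ Subgroup.centralizer ({x} : Set G) := fun y hy =>
    Subgroup.mem_centralizer_singleton_iff.mpr (hc y hy x hx)
  rw [← Sylow.card_eq_multiplicity (P.subtype hle), Sylow.coe_subtype]
  exact Nat.card_congr (Subgroup.subgroupOfEquivOfLe hle).toEquiv

theorem not_dvd_index (P : Sylow p G)
    (hc : ∀ a ∈ (P : Subgroup G), ∀ b ∈ (P : Subgroup G), a * b = b * a) {x : G}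
    (hx : x ∈ (P : Subgroup G)) : ¬ p ∣ (Subgroup.centralizer ({x} : Set G)).index := by
  have hle : (P : Subgroup G) ≤ Subgroup.centralizer ({x} : Set G) := fun y hy =>
    Subgroup.mem_centralizer_singleton_iff.mpr (hc y hy x hx)
  intro h
  exact P.not_dvd_index (h.trans (Subgroup.index_dvd_of_le hle))

theorem pel (P : Sylow p G) {x : G} (hx : x ∈ (P : Subgroup G)) : ∃ k : ℕ, orderOf x = p ^ k := by
  obtain ⟨k, hk⟩ := IsPGroup.iff_orderOf.1 P.2 ⟨x, hx⟩
  exact ⟨k, by rwa [Subgroup.orderOf_mk] at hk⟩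

theorem exists_conj_mem (P : Sylow p G) {x : G} (hx : ∃ k : ℕ, orderOf x = p ^ k) :
    ∃ y ∈ (P : Subgroup G), IsConj x y := by
  have hQ : IsPGroup p (Subgroup.zpowers x) := by
    obtain ⟨k, hk⟩ := hx
    exact IsPGroup.of_card (n := k) (by rw [Nat.card_zpowers, hk])
  obtain ⟨S, hS⟩ := hQ.exists_le_sylow
  obtain ⟨t, ht⟩ := MulAction.exists_smul_eq G S P
  refine ⟨t * x * t⁻¹, ?_, isConj_iff.mpr ⟨t, rfl⟩⟩
  rw [← ht]
  exact ⟨x, hS (Subgroup.mem_zpowers x), rfl⟩

/-- the normalizer of `P` in a centralizer -/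
theorem mem_normalizer_of (P : Sylow p G) {H : Subgroup G} (hle : (P : Subgroup G) ≤ H) {n : H}
    (hn : n ∈ Subgroup.normalizer (((P.subtype hle : Sylow p H) : Subgroup H) : Set H)) :
    (n : G) ∈ Subgroup.normalizer ((P : Subgroup G) : Set G) := by
  rw [Subgroup.mem_normalizer_iff]
  intro y
  constructor
  · intro hy
    have h1 := (Subgroup.mem_normalizer_iff.mp hn ⟨y, hle hy⟩).mp (by
      rw [Sylow.coe_subtype]; exact Subgroup.mem_subgroupOf.mpr hy)
    rw [Sylow.coe_subtype] at h1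
    exact Subgroup.mem_subgroupOf.mp h1
  · intro hy
    have hyc : y ∈ H := by
      have h1 := hle hy
      have h2 := mul_mem (mul_mem (inv_mem n.2) h1) n.2
      have h3 : (n : G)⁻¹ * (n * y * (n : G)⁻¹) * n = y := by group
      rwa [h3] at h2
    have h1 := (Subgroup.mem_normalizer_iff.mp hn ⟨y, hyc⟩).mpr (by
      rw [Sylow.coe_subtype]; exact Subgroup.mem_subgroupOf.mpr hy)
    rw [Sylow.coe_subtype] at h1
    exact Subgroup.mem_subgroupOf.mp h1

theorem mem_normalizer_mk (P : Sylow p G) {H : Subgroup G} (hle : (P : Subgroup G) ≤ H) {n : G}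
    (hnH : n ∈ H) (hn : n ∈ Subgroup.normalizer ((P : Subgroup G) : Set G)) :
    (⟨n, hnH⟩ : H) ∈ Subgroup.normalizer (((P.subtype hle : Sylow p H) : Subgroup H) : Set H) := by
  rw [Subgroup.mem_normalizer_iff]
  intro y
  rw [Sylow.coe_subtype, Subgroup.mem_subgroupOf, Subgroup.mem_subgroupOf]
  exact Subgroup.mem_normalizer_iff.mp hn y

end gen

section twist

variable {G : Type u} [Group G] [Finite G] {M : Ideal AlgInt}

/-- multiplication by a generalized character with values `±1` -/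
theorem twist (hM : IsPModular 2 M) {F : G → ℂ} (hgen : IsGeneralizedCharacter G F)
    (hpm : ∀ g, F g = 1 ∨ F g = -1) (h1 : F 1 = 1) (χ : IrrCharacter G) :
    ∃ ψ : IrrCharacter G, (∀ g, (ψ : G → ℂ) g = F g * (χ : G → ℂ) g) ∧
      (χ ∈ principalBlock M G → ψ ∈ principalBlock M G) := by
  classical
  haveI := Fintype.ofFinite G
  haveI := isPrime_of_isPModular hM
  have hgen2 : IsGeneralizedCharacter G (F * (χ : G → ℂ)) :=
    Cfsg.Agent.Char.BI.isGeneralizedCharacter_mul hgen
      (Cfsg.Agent.Char.BI.isGeneralizedCharacter_of_isCharacter (irr_isCharacter χ))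
  have hn : classInner (F * (χ : G → ℂ)) (F * (χ : G → ℂ)) = 1 := by
    rw [← classInner_irr_self χ]
    unfold classInner
    congr 1
    refine Finset.sum_congr rfl fun g _ => ?_
    rw [Pi.mul_apply]
    rcases hpm g with h | h <;> rw [h] <;> simp
  have hirr : IsIrrCharacter G (F * (χ : G → ℂ)) := by
    rcases Cfsg.Agent.Coh.irr_or_neg_of_norm_one hgen2 hn with h | h
    · exact h
    · exfalso
      have h2 := charDegree_spec ⟨_, h⟩
      have h3 := charDegree_spec χ
      have h4 := charDegree_pos (⟨_, h⟩ : IrrCharacter G)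
      have h5 := charDegree_pos χ
      rw [show ((⟨-(F * (χ : G → ℂ)), h⟩ : IrrCharacter G) : G → ℂ) 1 = -(F 1 * (χ : G → ℂ) 1) from rfl,
        h1, one_mul, h3] at h2
      have h6 : (charDegree ((⟨-(F * (χ : G → ℂ)), h⟩ : IrrCharacter G) : G → ℂ) : ℂ) +
        (charDegree (χ : G → ℂ) : ℂ) = 0 := by rw [← h2]; ring
      have h7 : charDegree ((⟨-(F * (χ : G → ℂ)), h⟩ : IrrCharacter G) : G → ℂ) +
        charDegree (χ : G → ℂ) = 0 := by exact_mod_cast h6
      omega
  refine ⟨⟨_, hirr⟩, fun g => rfl, ?_⟩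
  intro hχ g
  have hcc : centralChar (F * (χ : G → ℂ)) g = F g * centralChar (χ : G → ℂ) g := by
    unfold centralChar
    rw [Pi.mul_apply, Pi.mul_apply, h1, one_mul]
    ring
  change MemLocalIdeal M (centralChar (fun _ : G => (1 : ℂ)) g - centralChar (F * (χ : G → ℂ)) g)
  rw [hcc]
  have h2 := hχ g
  rcases hpm g with h | h
  · rw [h, one_mul]; exact h2
  · rw [h]
    have h3 : centralChar (fun _ : G => (1 : ℂ)) g - -1 * centralChar (χ : G → ℂ) g =
        (centralChar (fun _ : G => (1 : ℂ)) g - centralChar (χ : G → ℂ) g) +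
          centralChar (χ : G → ℂ) g * ((2 : ℕ) : ℂ) := by push_cast; ring
    rw [h3]
    exact mli_add h2 (mli_mul_left (mlr_centralChar χ g) ((mli_natCast_iff hM 2).mpr (dvd_refl 2)))

/-- rank and size of the principal block are invariant -/
theorem blockRank_equiv {H K : Type u} [Group H] [Group K] [Finite H] [Finite K] (φ : H ≃* K) :
    blockRank 2 (principalBlock M H) = blockRank 2 (principalBlock M K) := by
  classical
  have himg : irrMap φ '' principalBlock M H = principalBlock M K := by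
    ext ψ
    constructor
    · rintro ⟨χ, hχ, rfl⟩
      exact H76.comp_equiv_mem_principalBlock φ.symm hχ fun x => rfl
    · intro hψ
      refine ⟨(irrMap φ).symm ψ, ?_, Equiv.apply_symm_apply _ _⟩
      exact H76.comp_equiv_mem_principalBlock φ hψ fun x => rfl
  rw [← himg]
  let L : (H → ℂ) ≃ₗ[ℂ] (K → ℂ) := LinearEquiv.funCongrLeft ℂ ℂ φ.symm.toEquiv
  have h1 : ∀ χ : IrrCharacter H, pRegularPart 2 ((irrMap φ χ : IrrCharacter K) : K → ℂ) =
      L (pRegularPart 2 (χ : H → ℂ)) := by
    intro χ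
    funext y
    change pRegularPart 2 ((irrMap φ χ : IrrCharacter K) : K → ℂ) y =
      pRegularPart 2 (χ : H → ℂ) (φ.symm y)
    unfold pRegularPart
    have h2 : IsPRegular 2 y ↔ IsPRegular 2 (φ.symm y) := by
      unfold IsPRegular
      rw [MulEquiv.orderOf_eq φ.symm y]
    by_cases h : IsPRegular 2 y
    · rw [if_pos h, if_pos (h2.1 h), irrMap_apply]
    · rw [if_neg h, if_neg (fun h' => h (h2.2 h'))]
  unfold blockRank
  rw [Set.image_image, Set.image_congr (fun χ _ => h1 χ),
    ← Set.image_image (fun f => L f) (fun χ : IrrCharacter H => pRegularPart 2 (χ : H → ℂ))]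
  have h3 : (fun f => L f) '' ((fun χ : IrrCharacter H => pRegularPart 2 (χ : H → ℂ)) ''
      principalBlock M H) = (L : (H → ℂ) →ₗ[ℂ] (K → ℂ)) ''
        ((fun χ : IrrCharacter H => pRegularPart 2 (χ : H → ℂ)) '' principalBlock M H) := rfl
  rw [h3, Submodule.span_image]
  exact (LinearEquiv.finrank_map_eq L _).symm

end twist

end Cfsg.Agent.H75.Tri
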