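import Cfsg.Agent.H75.TriA

/-!
# Elementary abelian Sylow `2`-subgroups of order 16 and inertial index three: `k(B₀) = 16`,
`l(B₀) = 3` (owner: helper75)
-/

set_option autoImplicit false
set_option linter.style.haveILetI false
set_option linter.unusedSectionVars false
set_option linter.dupNamespace false
set_option linter.unusedVariables false

namespace Cfsg.Agent.H75.Tri

open scoped ComplexConjugate
open Cfsg Cfsg.Agent.CharBase Cfsg.Agent.Blk Cfsg.Agent.BlkC Cfsg.Agent.H4 Cfsg.Agent.H75.PS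

universe u

/-- an elementary abelian Sylow `2`-subgroup `P = V × W` of order `16`, with `N(P)` centralizing `V`
and inducing a group of order `3` on `W` -/
structure Tri {G : Type u} [Group G] [Finite G] (P : Sylow 2 G) (V W : Subgroup G) : Prop where
  comm : ∀ a ∈ (P : Subgroup G), ∀ b ∈ (P : Subgroup G), a * b = b * a
  sq : ∀ a ∈ (P : Subgroup G), a * a = 1
  leV : V ≤ (P : Subgroup G)
  leW : W ≤ (P : Subgroup G)
  dec : ∀ a ∈ (P : Subgroup G), ∃ v ∈ V, ∃ w ∈ W, a = v * w
  disj : ∀ a ∈ V, a ∈ W → a = 1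
  cardV : Nat.card V = 4
  cardP : Nat.card (P : Subgroup G) = 16
  normV : ∀ n ∈ Subgroup.normalizer ((P : Subgroup G) : Set G), ∀ v ∈ V, n * v * n⁻¹ = v
  normW : ∀ n ∈ Subgroup.normalizer ((P : Subgroup G) : Set G), ∀ w ∈ W, n * w * n⁻¹ ∈ W
  free : ∀ n ∈ Subgroup.normalizer ((P : Subgroup G) : Set G), ∀ w ∈ W, w ≠ 1 → n * w * n⁻¹ = w →
    n ∈ Subgroup.centralizer ((P : Subgroup G) : Set G)
  trans : ∀ w ∈ W, w ≠ 1 → ∀ w' ∈ W, w' ≠ 1 →
    ∃ n ∈ Subgroup.normalizer ((P : Subgroup G) : Set G), n * w * n⁻¹ = w'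
  nt : ∃ w ∈ W, w ≠ 1

theorem conj_intC (n : ℤ) : conj (n : ℂ) = n := by
  rw [show (n : ℂ) = ((n : ℝ) : ℂ) by push_cast; rfl, Complex.conj_ofReal]

namespace Tri

variable {G : Type u} [Group G] [Finite G] {P : Sylow 2 G} {V W : Subgroup G} {M : Ideal AlgInt}

theorem npc (h : Tri P V W) {v w : G} (hv : v ∈ V) (hw : w ∈ W) (hw1 : w ≠ 1) :
    HasNormalPComplement 2 (Subgroup.centralizer ({v * w} : Set G)) := by
  haveI : Fact (Nat.Prime 2) := ⟨Nat.prime_two⟩
  refine npc_of_free P h.comm (mul_mem (h.leV hv) (h.leW hw)) fun n hn hnx => ?_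
  refine h.free n hn w hw hw1 ?_
  have h1 : n * (v * w) * n⁻¹ = (n * v * n⁻¹) * (n * w * n⁻¹) := by group
  rw [h1, h.normV n hn v hv] at hnx
  exact mul_left_cancel hnx

/-- the subgroup data pass to subgroups containing `N_G(P)`-elements and `P` -/
theorem sub (h : Tri P V W) {H : Subgroup G} (hP : (P : Subgroup G) ≤ H)
    (hN : Subgroup.normalizer ((P : Subgroup G) : Set G) ≤ H) :
    Tri (P.subtype hP) (V.subgroupOf H) (W.subgroupOf H) := by
  have hmem : ∀ x : H, x ∈ ((P.subtype hP : Sylow 2 H) : Subgroup H) ↔ (x : G) ∈ (P : Subgroup G) := by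
    intro x; rw [Sylow.coe_subtype, Subgroup.mem_subgroupOf]
  have hC : ∀ n : H, (n : G) ∈ Subgroup.centralizer ((P : Subgroup G) : Set G) →
      n ∈ Subgroup.centralizer (((P.subtype hP : Sylow 2 H) : Subgroup H) : Set H) := by
    intro n hn
    rw [Subgroup.mem_centralizer_iff]
    intro y hy
    exact Subtype.ext (Subgroup.mem_centralizer_iff.mp hn y ((hmem y).mp hy))
  refine ⟨?_, ?_, ?_, ?_, ?_, ?_, ?_, ?_, ?_, ?_, ?_, ?_, ?_⟩
  · intro a ha b hb
    exact Subtype.ext (h.comm a ((hmem a).mp ha) b ((hmem b).mp hb))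
  · intro a ha
    exact Subtype.ext (h.sq a ((hmem a).mp ha))
  · intro a ha
    exact (hmem a).mpr (h.leV ha)
  · intro a ha
    exact (hmem a).mpr (h.leW ha)
  · intro a ha
    obtain ⟨v, hv, w, hw, e⟩ := h.dec a ((hmem a).mp ha)
    exact ⟨⟨v, hP (h.leV hv)⟩, hv, ⟨w, hP (h.leW hw)⟩, hw, Subtype.ext e⟩
  · intro a ha hb
    exact Subtype.ext (h.disj a ha hb)
  · rw [← h.cardV]
    exact Nat.card_congr (Subgroup.subgroupOfEquivOfLe (h.leV.trans hP)).toEquiv
  · rw [← h.cardP, Sylow.coe_subtype]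
    exact Nat.card_congr (Subgroup.subgroupOfEquivOfLe hP).toEquiv
  · intro n hn v hv
    exact Subtype.ext (h.normV n (mem_normalizer_of P hP hn) v hv)
  · intro n hn w hw
    exact h.normW n (mem_normalizer_of P hP hn) w hw
  · intro n hn w hw hw1 hnw
    exact hC n (h.free n (mem_normalizer_of P hP hn) w hw (fun e => hw1 (Subtype.ext e))
      (congrArg Subtype.val hnw))
  · intro w hw hw1 w' hw' hw1'
    obtain ⟨n, hn, e⟩ := h.trans w hw (fun e => hw1 (Subtype.ext e)) w' hw'
      (fun e => hw1' (Subtype.ext e))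
    exact ⟨⟨n, hN hn⟩, mem_normalizer_mk P hP (hN hn) hn, Subtype.ext e⟩
  · obtain ⟨w, hw, hw1⟩ := h.nt
    exact ⟨⟨w, hP (h.leW hw)⟩, hw, fun e => hw1 (congrArg Subtype.val e)⟩

theorem dec_unique (h : Tri P V W) {v v' w w' : G} (hv : v ∈ V) (hv' : v' ∈ V) (hw : w ∈ W)
    (hw' : w' ∈ W) (e : v * w = v' * w') : v = v' ∧ w = w' := by
  have h1 : v'⁻¹ * v = w' * w⁻¹ := by
    calc v'⁻¹ * v = v'⁻¹ * (v * w) * w⁻¹ := by group
      _ = v'⁻¹ * (v' * w') * w⁻¹ := by rw [e]
      _ = _ := by group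
  have h2 : v'⁻¹ * v = 1 := h.disj _ (mul_mem (inv_mem hv') hv) (by
    rw [h1]; exact mul_mem hw' (inv_mem hw))
  have h3 : v = v' := by rw [inv_mul_eq_one] at h2; exact h2.symm
  refine ⟨h3, ?_⟩
  rw [h3] at e
  exact mul_left_cancel e

/-- the projection onto `V` -/
theorem exists_proj (h : Tri P V W) : ∃ π : (P : Subgroup G) →* V,
    ∀ (v w : G) (hv : v ∈ V) (hw : w ∈ W) (hx : v * w ∈ (P : Subgroup G)), π ⟨v * w, hx⟩ = ⟨v, hv⟩ := by
  choose v hv w hw e using fun a : (P : Subgroup G) => h.dec a a.2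
  have key : ∀ (a : (P : Subgroup G)) (v' w' : G), v' ∈ V → w' ∈ W → (a : G) = v' * w' → v a = v' :=
    fun a v' w' hv' hw' ha => (h.dec_unique (hv a) hv' (hw a) hw' ((e a).symm.trans ha)).1
  refine ⟨{ toFun := fun a => ⟨v a, hv a⟩
            map_one' := Subtype.ext (key 1 1 1 (one_mem _) (one_mem _) (by simp))
            map_mul' := fun a b => Subtype.ext (key (a * b) (v a * v b) (w a * w b)
              (mul_mem (hv a) (hv b)) (mul_mem (hw a) (hw b)) ?_) }, ?_⟩
  · rw [Subgroup.coe_mul, e a, e b]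
    have h1 := h.comm (w a) (h.leW (hw a)) (v b) (h.leV (hv b))
    calc v a * w a * (v b * w b) = v a * (w a * v b) * w b := by group
      _ = v a * (v b * w a) * w b := by rw [h1]
      _ = _ := by group
  · intro v' w' hv' hw' hx
    exact Subtype.ext (key ⟨v' * w', hx⟩ v' w' hv' hw' rfl)

theorem conj_iff (h : Tri P V W) {v v' w w' : G} (hv : v ∈ V) (hv' : v' ∈ V) (hw : w ∈ W)
    (hw' : w' ∈ W) : IsConj (v * w) (v' * w') ↔ v = v' ∧ (w = 1 ↔ w' = 1) := by
  haveI : Fact (Nat.Prime 2) := ⟨Nat.prime_two⟩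
  constructor
  · intro hc
    obtain ⟨n, hn, e⟩ := conj_N P h.comm (mul_mem (h.leV hv) (h.leW hw))
      (mul_mem (h.leV hv') (h.leW hw')) hc
    have h1 : n * (v * w) * n⁻¹ = (n * v * n⁻¹) * (n * w * n⁻¹) := by group
    rw [h1, h.normV n hn v hv] at e
    obtain ⟨h2, h3⟩ := h.dec_unique hv hv' (h.normW n hn w hw) hw' e
    refine ⟨h2, ?_⟩
    rw [← h3]
    constructor
    · rintro rfl; group
    · intro h4
      have h5 : w = n⁻¹ * (n * w * n⁻¹) * n := by group
      rw [h5, h4]; group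
  · rintro ⟨rfl, h1⟩
    by_cases hw1 : w = 1
    · rw [hw1, h1.mp hw1]
    · obtain ⟨n, hn, e⟩ := h.trans w hw hw1 w' hw' (fun h2 => hw1 (h1.mpr h2))
      refine isConj_iff.mpr ⟨n, ?_⟩
      rw [← e, ← h.normV n hn v hv]
      have h3 := h.normV n hn v hv
      calc n * (n * v * n⁻¹ * w) * n⁻¹ = n * (v * w) * n⁻¹ := by rw [h3]
        _ = _ := by group

/-- four generalized characters of `G`, from the linear characters of `V` -/
theorem exists_F (h : Tri P V W) (l : V →* ℂˣ) : ∃ F : G → ℂ, IsGeneralizedCharacter G F ∧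
    (∀ g, F g = 1 ∨ F g = -1) ∧ F 1 = 1 ∧
    ∀ (v w : G) (hv : v ∈ V), w ∈ W → F (v * w) = ((l ⟨v, hv⟩ : ℂˣ) : ℂ) := by
  haveI : Fact (Nat.Prime 2) := ⟨Nat.prime_two⟩
  obtain ⟨π, hπ⟩ := h.exists_proj
  have hpm : ∀ v : V, ((l v : ℂˣ) : ℂ) = 1 ∨ ((l v : ℂˣ) : ℂ) = -1 := by
    intro v
    have h1 : v * v = 1 := Subtype.ext (h.sq v (h.leV v.2))
    have h2 : ((l v : ℂˣ) : ℂ) * ((l v : ℂˣ) : ℂ) = 1 := by
      rw [← Units.val_mul, ← map_mul, h1, map_one, Units.val_one]
    exact mul_self_eq_one_iff.mp h2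
  have hf : IsCharacter (P : Subgroup G) (fun x => ((l (π x) : ℂˣ) : ℂ)) :=
    Cfsg.Agent.Char.isCharacter_of_hom ((Units.coeHom ℂ).comp (l.comp π))
  obtain ⟨F, hcf, hgen, hF⟩ := Stab.exists_ext P hf (by
    intro x y hxy
    obtain ⟨v, hv, w, hw, ex⟩ := h.dec x x.2
    obtain ⟨v', hv', w', hw', ey⟩ := h.dec y y.2
    rw [ex, ey] at hxy
    obtain ⟨h1, -⟩ := (h.conj_iff hv hv' hw hw').mp hxy
    have hx : x = ⟨v * w, by rw [← ex]; exact x.2⟩ := Subtype.ext ex
    have hy : y = ⟨v' * w', by rw [← ey]; exact y.2⟩ := Subtype.ext ey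
    rw [hx, hy, hπ v w hv hw, hπ v' w' hv' hw']
    subst h1
    rfl)
  have hval : ∀ (v w : G) (hv : v ∈ V), w ∈ W → F (v * w) = ((l ⟨v, hv⟩ : ℂˣ) : ℂ) := by
    intro v w hv hw
    have hm : v * w ∈ (P : Subgroup G) := mul_mem (h.leV hv) (h.leW hw)
    rw [hF (v * w) (v * w) ⟨v * w, hm⟩ (H74.isPPart_self' (pel P hm)) (IsConj.refl _), hπ v w hv hw]
  refine ⟨F, hgen, ?_, ?_, hval⟩
  · intro g
    obtain ⟨u, hu⟩ := BlkInd.exists_isPPart Nat.prime_two g
    obtain ⟨y, hy, hc⟩ := exists_conj_mem P (by obtain ⟨_, _, _, h, _⟩ := hu; exact h)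
    rw [hF g u ⟨y, hy⟩ hu hc]
    exact hpm _
  · have := hval 1 1 (one_mem _) (one_mem _)
    rw [one_mul] at this
    rw [this, show (⟨1, one_mem _⟩ : V) = 1 from rfl, map_one, Units.val_one]

theorem card_dual (h : Tri P V W) : Nat.card (V →* ℂˣ) = 4 := by
  letI : CommGroup V := { (inferInstance : Group V) with
    mul_comm := fun a b => Subtype.ext (h.comm a (h.leV a.2) b (h.leV b.2)) }
  rw [← h.cardV]
  exact CommGroup.card_monoidHom_of_hasEnoughRootsOfUnity V ℂ

/-- the sum of the squares of the values at an element outside `V` -/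
theorem sum_norm [Fintype G] (h : Tri P V W) (hM : IsPModular 2 M) {v w : G} (hv : v ∈ V) (hw : w ∈ W)
    (hw1 : w ≠ 1) :
    ∑ χ ∈ Bfin (principalBlock M G), (χ : G → ℂ) (v * w) * conj ((χ : G → ℂ) (v * w)) = 16 := by
  classical
  haveI : Fact (Nat.Prime 2) := ⟨Nat.prime_two⟩
  haveI := Fintype.ofFinite (IrrCharacter G)
  have hm : v * w ∈ (P : Subgroup G) := mul_mem (h.leV hv) (h.leW hw)
  have hne : v * w ≠ 1 := by
    intro h1
    apply hw1
    exact (h.dec_unique hv (one_mem _) hw (one_mem _) (h1.trans (one_mul 1).symm)).2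
  have h1 := H74.sum_principal_norm (p := 2) hM hne (pel P hm) (h.npc hv hw hw1)
  rw [card_factorization P h.comm hm, h.cardP] at h1
  rw [← Finset.sum_filter] at h1
  have h2 : Finset.univ.filter (fun χ => χ ∈ principalBlock M G) = Bfin (principalBlock M G) := by
    ext χ; simp
  rw [h2] at h1
  rw [h1]
  norm_num

theorem value_ne (h : Tri P V W) (hM : IsPModular 2 M) {x : G} (hx : x ∈ (P : Subgroup G))
    {χ : IrrCharacter G} (hχ : χ ∈ principalBlock M G) : (χ : G → ℂ) x ≠ 0 := by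
  haveI : Fact (Nat.Prime 2) := ⟨Nat.prime_two⟩
  exact H74.principal_value_ne_zero hM (not_dvd_index P h.comm hx) hχ

theorem value_int (h : Tri P V W) {x : G} (hx : x ∈ (P : Subgroup G))
    (χ : IrrCharacter G) : ∃ n : ℤ, (χ : G → ℂ) x = n :=
  H4.exists_int_value (irr_isCharacter χ) (h.sq x hx)

/-- the values outside `V` are `±1` -/
theorem value_sq (h : Tri P V W) (hM : IsPModular 2 M) {w : G} (hw : w ∈ W)
    (hw1 : w ≠ 1) {χ : IrrCharacter G} (hχ : χ ∈ principalBlock M G) {n : ℤ}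
    (hn : (χ : G → ℂ) w = n) : n ^ 2 = 1 := by
  classical
  haveI := isPrime_of_isPModular hM
  haveI := Fintype.ofFinite G
  haveI : Finite (V →* ℂˣ) := Nat.finite_of_card_ne_zero (by rw [h.card_dual]; norm_num)
  haveI := Fintype.ofFinite (V →* ℂˣ)
  have hwP := h.leW hw
  -- integral values
  choose z hz using fun ψ : IrrCharacter G => h.value_int hwP ψ
  have hsum : ∑ ψ ∈ Bfin (principalBlock M G), z ψ ^ 2 = 16 := by
    have h1 := h.sum_norm hM (one_mem V) hw hw1
    rw [one_mul] at h1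
    have h2 : ∀ ψ : IrrCharacter G, (ψ : G → ℂ) w * conj ((ψ : G → ℂ) w) = ((z ψ ^ 2 : ℤ) : ℂ) := by
      intro ψ
      rw [hz ψ, conj_intC]; push_cast; ring
    rw [Finset.sum_congr rfl fun ψ _ => h2 ψ] at h1
    exact_mod_cast h1
  have hzn : z χ = n := by
    have := (hz χ).symm.trans hn
    exact_mod_cast this
  rw [← hzn]
  by_contra hne
  have hz0 : z χ ≠ 0 := by
    intro h0
    apply h.value_ne hM hwP hχ
    rw [hz χ, h0]; norm_num
  have hge : 4 ≤ z χ ^ 2 := by
    have h1 : z χ ≠ 1 := fun e => hne (by rw [e]; norm_num)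
    have h2 : z χ ≠ -1 := fun e => hne (by rw [e]; norm_num)
    have h3 : 2 ≤ z χ ∨ z χ ≤ -2 := by omega
    rcases h3 with h3 | h3 <;> nlinarith
  -- the four twists
  choose F hgen hpm hF1 hF using fun l : V →* ℂˣ => h.exists_F l
  choose τ hτ hτB using fun l : V →* ℂˣ => twist hM (hgen l) (hpm l) (hF1 l) χ
  have hinj : Function.Injective τ := by
    intro l l' e
    ext v
    have h1 : (τ l : G → ℂ) (v * w) = (τ l' : G → ℂ) (v * w) := by rw [e]
    rw [hτ, hτ, hF l v w v.2 hw, hF l' v w v.2 hw] at h1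
    exact mul_right_cancel₀ (h.value_ne hM (mul_mem (h.leV v.2) hwP) hχ) h1
  have hval : ∀ l, z (τ l) = z χ := by
    intro l
    have h1 : (τ l : G → ℂ) w = (χ : G → ℂ) w := by
      rw [hτ]
      have := hF l 1 w (one_mem _) hw
      rw [one_mul] at this
      rw [this, show (⟨1, one_mem _⟩ : V) = 1 from rfl, map_one, Units.val_one, one_mul]
    rw [hz, hz] at h1
    exact_mod_cast h1
  have hone : z (oneIrr G) = 1 := by
    have h1 := hz (oneIrr G)
    rw [oneIrr_apply] at h1
    exact_mod_cast h1.symm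
  have hsub : insert (oneIrr G) (Finset.univ.image τ) ⊆ Bfin (principalBlock M G) := by
    intro ψ hψ
    rw [Finset.mem_insert, Finset.mem_image] at hψ
    rw [mem_Bfin]
    rcases hψ with rfl | ⟨l, -, rfl⟩
    · exact oneIrr_mem_principalBlock
    · exact hτB l hχ
  have hnot : oneIrr G ∉ Finset.univ.image τ := by
    rw [Finset.mem_image]
    rintro ⟨l, -, e⟩
    have h1 := hval l
    rw [e, hone] at h1
    rw [← h1] at hge
    norm_num at hge
  have h1 := Finset.sum_le_sum_of_subset_of_nonneg hsub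
    (f := fun ψ => z ψ ^ 2) (fun _ _ _ => sq_nonneg _)
  rw [hsum, Finset.sum_insert hnot, hone, Finset.sum_image (fun a _ b _ e => hinj e)] at h1
  simp only [hval] at h1
  rw [Finset.sum_const, Finset.card_univ, ← Nat.card_eq_fintype_card, h.card_dual, nsmul_eq_mul] at h1
  push_cast at h1
  nlinarith

theorem card_block (h : Tri P V W) (hM : IsPModular 2 M) :
    Nat.card (principalBlock M G) = 16 := by
  classical
  haveI := Fintype.ofFinite G
  obtain ⟨w, hw, hw1⟩ := h.nt
  have h1 := h.sum_norm hM (one_mem V) hw hw1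
  rw [one_mul] at h1
  have h2 : ∀ ψ ∈ Bfin (principalBlock M G), (ψ : G → ℂ) w * conj ((ψ : G → ℂ) w) = 1 := by
    intro ψ hψ
    obtain ⟨n, hn⟩ := h.value_int (h.leW hw) ψ
    have h3 := h.value_sq hM hw hw1 (mem_Bfin.mp hψ) hn
    rw [hn, conj_intC]
    have h4 : ((n ^ 2 : ℤ) : ℂ) = 1 := by rw [h3]; norm_num
    push_cast at h4
    rw [← h4]; ring
  rw [Finset.sum_congr rfl h2, Finset.sum_const, nsmul_eq_mul, mul_one] at h1
  rw [natCard_eq_Bfin]
  exact_mod_cast h1

theorem sum_rank (h : Tri P V W) (hM : IsPModular 2 M) [Fintype V] :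
    ∑ v : V, blockRank 2 (principalBlock M (Subgroup.centralizer ({(v : G)} : Set G))) = 12 := by
  classical
  haveI : Fact (Nat.Prime 2) := ⟨Nat.prime_two⟩
  haveI := isPrime_of_isPModular hM
  haveI := Fintype.ofFinite G
  obtain ⟨w, hw, hw1⟩ := h.nt
  set X₀ : Finset G := Finset.univ.image (fun v : V => (v : G)) with hX₀
  set X₁ : Finset G := Finset.univ.image (fun v : V => (v : G) * w) with hX₁
  have hdisj : Disjoint X₀ X₁ := by
    rw [Finset.disjoint_left]
    intro x hx hx'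
    rw [hX₀, Finset.mem_image] at hx
    rw [hX₁, Finset.mem_image] at hx'
    obtain ⟨v, -, rfl⟩ := hx
    obtain ⟨v', -, e⟩ := hx'
    exact hw1 (h.dec_unique v'.2 v.2 hw (one_mem _) (e.trans (mul_one _).symm)).2
  have hX : ∀ x ∈ X₀ ∪ X₁, x ∈ (P : Subgroup G) := by
    intro x hx
    rw [Finset.mem_union, hX₀, hX₁, Finset.mem_image, Finset.mem_image] at hx
    rcases hx with ⟨v, -, rfl⟩ | ⟨v, -, rfl⟩
    · exact h.leV v.2
    · exact mul_mem (h.leV v.2) (h.leW hw)
  have hrep : ∀ g : G, (∃ k : ℕ, orderOf g = 2 ^ k) → ∃! x, x ∈ X₀ ∪ X₁ ∧ IsConj g x := by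
    intro g hg
    obtain ⟨y, hy, hgy⟩ := exists_conj_mem P hg
    obtain ⟨v, hv, u, hu, rfl⟩ := h.dec y hy
    by_cases hu1 : u = 1
    · refine ⟨v, ⟨Finset.mem_union_left _ (Finset.mem_image.mpr ⟨⟨v, hv⟩, Finset.mem_univ _, rfl⟩),
        by rw [hu1, mul_one] at hgy; exact hgy⟩, ?_⟩
      rintro x ⟨hx, hgx⟩
      have hc := hgy.symm.trans hgx
      rw [Finset.mem_union, hX₀, hX₁, Finset.mem_image, Finset.mem_image] at hx
      rcases hx with ⟨v', -, rfl⟩ | ⟨v', -, rfl⟩
      · rw [← mul_one (v' : G)] at hc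
        exact ((h.conj_iff hv v'.2 hu (one_mem _)).mp hc).1.symm
      · exact absurd (((h.conj_iff hv v'.2 hu hw).mp hc).2.mp hu1) hw1
    · refine ⟨v * w, ⟨Finset.mem_union_right _ (Finset.mem_image.mpr ⟨⟨v, hv⟩, Finset.mem_univ _, rfl⟩),
        hgy.trans ((h.conj_iff hv hv hu hw).mpr ⟨rfl, iff_of_false hu1 hw1⟩)⟩, ?_⟩
      rintro x ⟨hx, hgx⟩
      have hc := hgy.symm.trans hgx
      rw [Finset.mem_union, hX₀, hX₁, Finset.mem_image, Finset.mem_image] at hx
      rcases hx with ⟨v', -, rfl⟩ | ⟨v', -, rfl⟩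
      · rw [← mul_one (v' : G)] at hc
        exact absurd (((h.conj_iff hv v'.2 hu (one_mem _)).mp hc).2.mpr rfl) hu1
      · rw [((h.conj_iff hv v'.2 hu hw).mp hc).1]
  have h1 := card_eq_sum_blockRank hM (BlkC.isPBlock_principalBlock (G := G) M)
    (fun x hx => pel P (hX x hx)) hrep
  rw [h.card_block hM, Finset.sum_congr rfl fun x hx => by
    rw [indB_principal hM (pel P (hX x hx)), Finset.sum_singleton], Finset.sum_union hdisj] at h1
  rw [hX₀, hX₁, Finset.sum_image (fun a _ b _ e => Subtype.ext e),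
    Finset.sum_image (fun a _ b _ e => Subtype.ext (mul_right_cancel e))] at h1
  have h2 : ∀ v : V, blockRank 2 (principalBlock M
      (Subgroup.centralizer ({(v : G) * w} : Set G))) = 1 := by
    intro v
    obtain ⟨k, hk⟩ := H74.index_pPrimeCore (h.npc v.2 hw hw1)
    exact blockRank_principal_of_npc hM hk
  rw [Finset.sum_congr rfl fun v _ => h2 v, Finset.sum_const, Finset.card_univ,
    ← Nat.card_eq_fintype_card, h.cardV] at h1
  simp only [smul_eq_mul, mul_one] at h1
  omega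

end Tri

/-- **`l(B₀) = 3`** -/
theorem rank_eq_three {M : Ideal AlgInt} (hM : IsPModular 2 M) (n : ℕ) :
    ∀ (G : Type u) [Group G] [Finite G] (P : Sylow 2 G) (V W : Subgroup G), Tri P V W →
      Nat.card G = n → blockRank 2 (principalBlock M G) = 3 := by
  induction n using Nat.strong_induction_on with
  | _ n ih =>
    intro G _ _ P V W h hn
    classical
    haveI : Fact (Nat.Prime 2) := ⟨Nat.prime_two⟩
    haveI := Fintype.ofFinite V
    set r : V → ℕ := fun v => blockRank 2 (principalBlock M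
      (Subgroup.centralizer ({(v : G)} : Set G))) with hr
    have h1 : ∑ v : V, r v = 12 := h.sum_rank hM
    have h2 : ∀ v : V, r v = 3 ∨ r v = blockRank 2 (principalBlock M G) := by
      intro v
      by_cases ht : Subgroup.centralizer ({(v : G)} : Set G) = ⊤
      · right
        rw [hr]
        simp only
        rw [ht]
        exact blockRank_equiv Subgroup.topEquiv
      · left
        have hP : (P : Subgroup G) ≤ Subgroup.centralizer ({(v : G)} : Set G) := fun y hy =>
          Subgroup.mem_centralizer_singleton_iff.mpr (h.comm y hy v (h.leV v.2))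
        have hN : Subgroup.normalizer ((P : Subgroup G) : Set G) ≤
            Subgroup.centralizer ({(v : G)} : Set G) := by
          intro n hn
          rw [Subgroup.mem_centralizer_singleton_iff]
          have h3 := h.normV n hn v v.2
          rwa [mul_inv_eq_iff_eq_mul] at h3
        refine ih _ ?_ _ _ _ _ (h.sub hP hN) rfl
        rw [← hn]
        have h4 := (Subgroup.centralizer ({(v : G)} : Set G)).card_mul_index
        have h5 : (Subgroup.centralizer ({(v : G)} : Set G)).index ≠ 1 := fun e =>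
          ht (Subgroup.index_eq_one.mp e)
        have h6 : (Subgroup.centralizer ({(v : G)} : Set G)).index ≠ 0 := Subgroup.index_ne_zero_of_finite
        have h7 : 0 < Nat.card (Subgroup.centralizer ({(v : G)} : Set G)) := Nat.card_pos
        rw [← h4]
        nlinarith [Nat.one_lt_iff_ne_zero_and_ne_one.mpr ⟨h6, h5⟩]
    have h3 : r 1 = blockRank 2 (principalBlock M G) := by
      have ht : Subgroup.centralizer ({((1 : V) : G)} : Set G) = ⊤ := by
        rw [eq_top_iff]
        intro x _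
        rw [Subgroup.mem_centralizer_singleton_iff]
        simp
      rw [hr]
      simp only
      rw [ht]
      exact blockRank_equiv Subgroup.topEquiv
    set R := blockRank 2 (principalBlock M G) with hR
    have hcard : (Finset.univ : Finset V).card = 4 := by
      rw [Finset.card_univ, ← Nat.card_eq_fintype_card, h.cardV]
    rcases lt_trichotomy R 3 with hlt | heq | hgt
    · exfalso
      have h4 : ∑ v : V, r v < ∑ _v : V, 3 := by
        refine Finset.sum_lt_sum (fun v _ => ?_) ⟨1, Finset.mem_univ _, by rw [h3]; exact hlt⟩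
        rcases h2 v with h5 | h5 <;> rw [h5]; exact hlt.le
      rw [Finset.sum_const, hcard] at h4
      simp only [smul_eq_mul] at h4
      omega
    · exact heq
    · exfalso
      have h4 : ∑ _v : V, 3 < ∑ v : V, r v := by
        refine Finset.sum_lt_sum (fun v _ => ?_) ⟨1, Finset.mem_univ _, by rw [h3]; exact hgt⟩
        rcases h2 v with h5 | h5 <;> rw [h5]; exact hgt.le
      rw [Finset.sum_const, hcard] at h4
      simp only [smul_eq_mul] at h4
      omega

end Cfsg.Agent.H75.Tri
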