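import Cfsg.Agent.H75.TriB

/-!
# A group of order `9` acting faithfully on an elementary abelian group of order `16`
(owner: helper75)
-/

set_option autoImplicit false
set_option linter.style.haveILetI false
set_option linter.unusedSectionVars false
set_option linter.dupNamespace false
set_option linter.unusedVariables false

namespace Cfsg.Agent.H75.Tri

universe u

section abs

variable {A : Type u} [Group A] [Finite A]

/-- fixed points of a `3`-element in an invariant subgroup -/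
theorem card_fix_modEq {τ : MulAut A} (hτ : τ ^ 9 = 1) (U F : Subgroup A)
    (hU : ∀ a ∈ U, τ a ∈ U) (hF : ∀ a, a ∈ F ↔ a ∈ U ∧ τ a = a) :
    Nat.card U ≡ Nat.card F [MOD 3] := by
  classical
  haveI := Fintype.ofFinite U
  haveI := Fintype.ofFinite F
  haveI : Fact (Nat.Prime 3) := ⟨Nat.prime_three⟩
  let f : Function.End U := fun a => ⟨τ a, hU a a.2⟩
  have hpow : ∀ (n : ℕ) (a : U), (((f ^ n : Function.End U) a : U) : A) = (τ ^ n) (a : A) := by
    intro n
    induction n with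
    | zero => intro a; rfl
    | succ n ih =>
      intro a
      rw [pow_succ, pow_succ, MulAut.mul_apply]
      exact ih (f a)
  have hf : f ^ 3 ^ 2 = 1 := by
    funext a
    apply Subtype.ext
    have h1 := hpow 9 a
    rw [hτ] at h1
    exact h1
  have h1 := Equiv.Perm.card_fixedPoints_modEq (p := 3) hf
  rw [← Nat.card_eq_fintype_card, ← Nat.card_eq_fintype_card] at h1
  have h2 : Nat.card (Function.fixedPoints f) = Nat.card F := by
    refine Nat.card_congr ⟨fun a => ⟨((a : U) : A), (hF _).mpr ⟨(a : U).2, ?_⟩⟩,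
      fun a => ⟨⟨(a : A), ((hF _).mp a.2).1⟩, ?_⟩, fun a => rfl, fun a => rfl⟩
    · exact congrArg Subtype.val a.2
    · exact Subtype.ext ((hF _).mp a.2).2
  rwa [h2] at h1

/-- the fixed points of an automorphism in a subgroup -/
def fix (τ : MulAut A) (U : Subgroup A) : Subgroup A where
  carrier := {a | a ∈ U ∧ τ a = a}
  mul_mem' := fun {a b} ha hb => ⟨mul_mem ha.1 hb.1, by rw [map_mul, ha.2, hb.2]⟩
  one_mem' := ⟨one_mem _, map_one _⟩
  inv_mem' := fun {a} ha => ⟨inv_mem ha.1, by rw [map_inv, ha.2]⟩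

theorem mem_fix {τ : MulAut A} {U : Subgroup A} {a : A} : a ∈ fix τ U ↔ a ∈ U ∧ τ a = a := Iff.rfl

theorem fix_all {τ : MulAut A} (hτ : τ ^ 9 = 1) {U : Subgroup A} (hU4 : Nat.card U = 4)
    (hU : ∀ a ∈ U, τ a ∈ U) {u : A} (hu : u ∈ U) (hu1 : u ≠ 1) (hfix : τ u = u) :
    ∀ a ∈ U, τ a = a := by
  have h1 := card_fix_modEq hτ U (fix τ U) hU (fun a => Iff.rfl)
  have hle : fix τ U ≤ U := fun a ha => ha.1
  have h2 : Nat.card (fix τ U) ∣ 4 := hU4 ▸ Subgroup.card_dvd_of_le hle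
  have h3 : Nat.card (fix τ U) ≠ 1 := by
    intro h
    rw [Subgroup.card_eq_one] at h
    exact hu1 ((Subgroup.mem_bot).mp (h ▸ (show u ∈ fix τ U from ⟨hu, hfix⟩)))
  have h4 : Nat.card (fix τ U) = 4 := by
    have h5 : Nat.card (fix τ U) ≤ 4 := Nat.le_of_dvd (by norm_num) h2
    rw [hU4] at h1
    have h6 : 0 < Nat.card (fix τ U) := Nat.card_pos
    unfold Nat.ModEq at h1
    interval_cases h : Nat.card (fix τ U) <;> omega
  have h5 : fix τ U = U := Subgroup.eq_of_le_of_card_ge hle (by rw [h4, hU4])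
  intro a ha
  rw [← h5] at ha
  exact ha.2


variable {E : Subgroup (MulAut A)}

theorem pow_nine (hE : Nat.card E = 9) {e : MulAut A} (he : e ∈ E) : e ^ 9 = 1 := by
  have h1 : (⟨e, he⟩ : E) ^ 9 = 1 := by rw [← hE]; exact pow_card_eq_one'
  exact congrArg Subtype.val h1

theorem comm_nine (hE : Nat.card E = 9) {e f : MulAut A} (he : e ∈ E) (hf : f ∈ E) :
    e * f = f * e := by
  haveI : Fact (Nat.Prime 3) := ⟨Nat.prime_three⟩
  have h1 : IsMulCommutative E := IsPGroup.isMulCommutative_of_card_eq_prime_sq (p := 3) (by rw [hE]; norm_num)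
  have h2 := h1.is_comm.comm (⟨e, he⟩ : E) ⟨f, hf⟩
  exact congrArg Subtype.val h2

/-- some nontrivial element of `E` fixes a nontrivial element -/
theorem exists_fix (hA : Nat.card A = 16) (hE : Nat.card E = 9) :
    ∃ e ∈ E, e ≠ 1 ∧ ∃ a : A, a ≠ 1 ∧ e a = a := by
  classical
  by_contra hcon
  push Not at hcon
  haveI := Fintype.ofFinite A
  haveI := Fintype.ofFinite E
  haveI := Fintype.ofFinite (Quotient (MulAction.orbitRel E A))
  haveI : ∀ e : E, Fintype (MulAction.fixedBy A e) := fun e => Fintype.ofFinite _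
  have h1 := MulAction.sum_card_fixedBy_eq_card_orbits_mul_card_group E A
  have h2 : ∀ e : E, Fintype.card (MulAction.fixedBy A e) = if e = 1 then 16 else 1 := by
    intro e
    split_ifs with he
    · rw [← Nat.card_eq_fintype_card, ← hA]
      refine Nat.card_congr ⟨fun a => a, fun a => ⟨a, ?_⟩, fun a => rfl, fun a => rfl⟩
      rw [he]
      exact one_smul _ _
    · rw [Fintype.card_eq_one_iff]
      refine ⟨⟨1, ?_⟩, ?_⟩
      · show (e : MulAut A) 1 = 1
        exact map_one _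
      · rintro ⟨a, ha⟩
        apply Subtype.ext
        by_contra ha1
        exact hcon e e.2 (fun h => he (Subtype.ext h)) a ha1 ha
  rw [Finset.sum_congr rfl fun e _ => h2 e, Finset.sum_ite, Finset.sum_const, Finset.sum_const,
    Finset.filter_eq' , if_pos (Finset.mem_univ _), Finset.card_singleton,
    ← Nat.card_eq_fintype_card (α := E), hE] at h1
  have h3 : (Finset.univ.filter (fun e : E => ¬ e = 1)).card = 8 := by
    have h4 := Finset.card_filter_add_card_filter_not (s := (Finset.univ : Finset E)) (fun e : E => e = 1)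
    rw [Finset.filter_eq', if_pos (Finset.mem_univ _), Finset.card_singleton, Finset.card_univ,
      ← Nat.card_eq_fintype_card, hE] at h4
    omega
  rw [h3] at h1
  simp only [smul_eq_mul] at h1
  omega

/-- `a ↦ σ a * a⁻¹` -/
def diff (hc : ∀ a b : A, a * b = b * a) (σ : MulAut A) : A →* A where
  toFun a := σ a * a⁻¹
  map_one' := by rw [map_one, inv_one, mul_one]
  map_mul' a b := by
    rw [map_mul, mul_inv_rev, hc b⁻¹ a⁻¹]
    calc σ a * σ b * (a⁻¹ * b⁻¹) = σ a * (σ b * a⁻¹) * b⁻¹ := by group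
      _ = σ a * (a⁻¹ * σ b) * b⁻¹ := by rw [hc (σ b) a⁻¹]
      _ = _ := by group

theorem card_fix_four (hA : Nat.card A = 16) (hE : Nat.card E = 9) {σ : MulAut A} (hσ : σ ∈ E)
    (hσ1 : σ ≠ 1) {a : A} (ha : a ≠ 1) (hfix : σ a = a) : Nat.card (fix σ ⊤) = 4 := by
  have h1 := card_fix_modEq (pow_nine hE hσ) ⊤ (fix σ ⊤) (fun _ _ => Subgroup.mem_top _) (fun a => Iff.rfl)
  rw [Subgroup.card_top, hA] at h1
  have h2 : Nat.card (fix σ ⊤) ∣ 16 := hA ▸ Subgroup.card_subgroup_dvd_card _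
  have h3 : Nat.card (fix σ ⊤) ≠ 1 := by
    intro h
    rw [Subgroup.card_eq_one] at h
    exact ha ((Subgroup.mem_bot).mp (h ▸ (show a ∈ fix σ ⊤ from ⟨Subgroup.mem_top _, hfix⟩)))
  have h4 : Nat.card (fix σ ⊤) ≠ 16 := by
    intro h
    have h5 : fix σ ⊤ = ⊤ := Subgroup.eq_top_of_card_eq _ (by rw [h, hA])
    apply hσ1
    ext b
    have h6 : b ∈ fix σ ⊤ := by rw [h5]; exact Subgroup.mem_top _
    exact h6.2
  have h5 : Nat.card (fix σ ⊤) ≤ 16 := Nat.le_of_dvd (by norm_num) h2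
  have h6 : 0 < Nat.card (fix σ ⊤) := Nat.card_pos
  unfold Nat.ModEq at h1
  interval_cases h : Nat.card (fix σ ⊤) <;> omega

theorem dec_of_card {V W : Subgroup A} (hA : Nat.card A = 16) (hV : Nat.card V = 4)
    (hW : Nat.card W = 4) (hd : ∀ a ∈ V, a ∈ W → a = 1) (a : A) : ∃ v ∈ V, ∃ w ∈ W, a = v * w := by
  have h1 : Subgroup.IsComplement' V W := Subgroup.isComplement'_of_card_mul_and_disjoint
    (by rw [hV, hW, hA]) (by
      rw [Subgroup.disjoint_def]
      exact fun {x} hx hx' => hd x hx hx')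
  obtain ⟨⟨v, w⟩, e⟩ := h1.2 a
  exact ⟨v, v.2, w, w.2, e.symm⟩

/-- the kernel on `W` is transitive on the nontrivial elements of `V` -/
theorem trans_aux (hA : Nat.card A = 16) (hE : Nat.card E = 9) {V W : Subgroup A}
    (hV : Nat.card V = 4)
    (hW : Nat.card W = 4) (hdec : ∀ a : A, ∃ v ∈ V, ∃ w ∈ W, a = v * w)
    (hVE : ∀ e ∈ E, ∀ a ∈ V, e a ∈ V) (hWE : ∀ e ∈ E, ∀ a ∈ W, e a ∈ W) :
    ∀ v ∈ V, v ≠ 1 → ∀ v' ∈ V, v' ≠ 1 → ∃ e ∈ E, e v = v' ∧ ∀ w ∈ W, e w = w := by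
  classical
  -- a nontrivial element acting trivially on `W`
  obtain ⟨w₀, hw₀, hw₀1⟩ : ∃ w ∈ W, w ≠ 1 := by
    have h1 : W ≠ ⊥ := by
      intro h
      rw [h, Subgroup.card_bot] at hW
      norm_num at hW
    obtain ⟨w, hw⟩ := (Subgroup.ne_bot_iff_exists_ne_one).mp h1
    exact ⟨w, w.2, fun h => hw (Subtype.ext h)⟩
  obtain ⟨κ, hκ, hκ1, hκW⟩ : ∃ κ ∈ E, κ ≠ 1 ∧ ∀ w ∈ W, κ w = w := by
    by_contra hcon
    push Not at hcon
    have hinj : Function.Injective (fun e : E => (⟨(e : MulAut A) w₀, hWE e e.2 w₀ hw₀⟩ : W)) := by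
      intro e f hef
      have h1 : (e : MulAut A) w₀ = (f : MulAut A) w₀ := congrArg Subtype.val hef
      by_contra hne
      have h2 : ((f : MulAut A)⁻¹ * (e : MulAut A)) ∈ E := mul_mem (inv_mem f.2) e.2
      have h3 : ((f : MulAut A)⁻¹ * (e : MulAut A)) ≠ 1 := by
        intro h
        rw [inv_mul_eq_one] at h
        exact hne (Subtype.ext h.symm)
      obtain ⟨w, hw, hw'⟩ := hcon _ h2 h3
      apply hw'
      refine fix_all (pow_nine hE h2) hW (hWE _ h2) hw₀ hw₀1 ?_ w hw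
      rw [MulAut.mul_apply, h1, MulAut.inv_apply_self]
    have h1 := Nat.card_le_card_of_injective _ hinj
    rw [hE, hW] at h1
    norm_num at h1
  intro v hv hv1 v' hv' hv'1
  have hfree : ∀ x ∈ V, x ≠ 1 → κ x ≠ x := by
    intro x hx hx1 hκx
    apply hκ1
    ext a
    obtain ⟨y, hy, w, hw, rfl⟩ := hdec a
    rw [map_mul, hκW w hw, fix_all (pow_nine hE hκ) hV (hVE κ hκ) hx hx1 hκx y hy]
    rfl
  have hne : κ v ≠ 1 := fun h => hv1 ((map_eq_one_iff κ κ.injective).mp h)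
  have hκv := hVE κ hκ v hv
  have hκκv := hVE κ hκ _ hκv
  have hne2 : κ (κ v) ≠ 1 := fun h => hne ((map_eq_one_iff κ κ.injective).mp h)
  have hκκ : κ (κ v) ≠ v := by
    intro h
    apply hfree v hv hv1
    have h1 : (κ ^ 9) v = v := by rw [pow_nine hE hκ]; rfl
    have h2 : (κ ^ 9) v = κ (κ (κ (κ (κ (κ (κ (κ (κ v)))))))) := rfl
    rw [h2, h, h, h, h] at h1
    exact h1
  -- `V = {1, v, κ v, κ κ v}`
  haveI := Fintype.ofFinite V
  have hcard : ({⟨1, one_mem _⟩, ⟨v, hv⟩, ⟨κ v, hκv⟩, ⟨κ (κ v), hκκv⟩} : Finset V).card = 4 := by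
    rw [Finset.card_insert_of_notMem, Finset.card_insert_of_notMem, Finset.card_insert_of_notMem,
      Finset.card_singleton]
    · rw [Finset.mem_singleton, Subtype.mk.injEq]
      exact fun h => hfree _ hκv hne h.symm
    · rw [Finset.mem_insert, Finset.mem_singleton, Subtype.mk.injEq, Subtype.mk.injEq]
      rintro (h | h)
      · exact hfree v hv hv1 h.symm
      · exact hκκ h.symm
    · rw [Finset.mem_insert, Finset.mem_insert, Finset.mem_singleton, Subtype.mk.injEq,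
        Subtype.mk.injEq, Subtype.mk.injEq]
      rintro (h | h | h)
      · exact hv1 h.symm
      · exact hne h.symm
      · exact hne2 h.symm
  have huniv : ({⟨1, one_mem _⟩, ⟨v, hv⟩, ⟨κ v, hκv⟩, ⟨κ (κ v), hκκv⟩} : Finset V) = Finset.univ := by
    rw [← Finset.card_eq_iff_eq_univ, hcard, ← Nat.card_eq_fintype_card, hV]
  have hmem : (⟨v', hv'⟩ : V) ∈ ({⟨1, one_mem _⟩, ⟨v, hv⟩, ⟨κ v, hκv⟩, ⟨κ (κ v), hκκv⟩} : Finset V) := by
    rw [huniv]; exact Finset.mem_univ _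
  rw [Finset.mem_insert, Finset.mem_insert, Finset.mem_insert, Finset.mem_singleton, Subtype.mk.injEq,
    Subtype.mk.injEq, Subtype.mk.injEq, Subtype.mk.injEq] at hmem
  rcases hmem with h | h | h | h
  · exact absurd h hv'1
  · exact ⟨1, one_mem _, by rw [h]; rfl, fun w _ => rfl⟩
  · exact ⟨κ, hκ, h.symm, hκW⟩
  · refine ⟨κ * κ, mul_mem hκ hκ, by rw [h]; rfl, fun w hw => ?_⟩
    rw [MulAut.mul_apply, hκW w hw, hκW w hw]

/-- the structure of the action -/
theorem exists_dec (hc : ∀ a b : A, a * b = b * a) (hsq : ∀ a : A, a * a = 1)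
    (hA : Nat.card A = 16) (hE : Nat.card E = 9) :
    ∃ V W : Subgroup A, Nat.card V = 4 ∧ Nat.card W = 4 ∧ (∀ a ∈ V, a ∈ W → a = 1) ∧
      (∀ e ∈ E, ∀ a ∈ V, e a ∈ V) ∧ (∀ e ∈ E, ∀ a ∈ W, e a ∈ W) := by
  obtain ⟨σ, hσ, hσ1, a, ha1, hfix⟩ := exists_fix hA hE
  have hV4 := card_fix_four hA hE hσ hσ1 ha1 hfix
  have hker : (diff hc σ).ker = fix σ ⊤ := by
    ext b
    rw [MonoidHom.mem_ker, mem_fix]
    show σ b * b⁻¹ = 1 ↔ _
    rw [mul_inv_eq_one]
    exact ⟨fun h => ⟨Subgroup.mem_top _, h⟩, fun h => h.2⟩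
  have hW4 : Nat.card (diff hc σ).range = 4 := by
    have h1 := (diff hc σ).ker.index_mul_card
    rw [Subgroup.index_ker, hker, hV4, hA] at h1
    omega
  refine ⟨fix σ ⊤, (diff hc σ).range, hV4, hW4, ?_, ?_, ?_⟩
  · rintro w hw ⟨b, hb⟩
    have hb' : σ b * b⁻¹ = w := hb
    have h1 : σ b = w * b := by rw [← hb']; group
    have hσw : σ w = w := hw.2
    have hpow : ∀ n : ℕ, (σ ^ n) b = w ^ n * b := by
      intro n
      induction n with
      | zero => rw [pow_zero, pow_zero, one_mul]; rfl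
      | succ n ih =>
        rw [pow_succ', MulAut.mul_apply, ih, map_mul, map_pow, hσw, h1, pow_succ]
        group
    have h2 := hpow 9
    rw [pow_nine hE hσ] at h2
    have h3 : w ^ 9 = 1 := by
      have h4 : b = w ^ 9 * b := h2
      exact (mul_eq_right.mp h4.symm)
    have h4 : w ^ 9 = w := by
      have h5 : w ^ 2 = 1 := by rw [pow_two]; exact hsq w
      have h6 : w ^ 9 = (w ^ 2) ^ 4 * w := by rw [← pow_mul, ← pow_succ]
      rw [h6, h5, one_pow, one_mul]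
    rw [← h4, h3]
  · intro e he b hb
    refine ⟨Subgroup.mem_top _, ?_⟩
    have h1 : (σ * e) b = (e * σ) b := by rw [comm_nine hE hσ he]
    rw [MulAut.mul_apply, MulAut.mul_apply, hb.2] at h1
    exact h1
  · rintro e he _ ⟨b, rfl⟩
    refine ⟨e b, ?_⟩
    show σ (e b) * (e b)⁻¹ = e (σ b * b⁻¹)
    have h1 : (σ * e) b = (e * σ) b := by rw [comm_nine hE hσ he]
    rw [MulAut.mul_apply, MulAut.mul_apply] at h1
    rw [h1, map_mul, map_inv]

end abs


open Cfsg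

/-- an elementary abelian Sylow `2`-subgroup `P = V × W` of order `16`, with `N(P)` inducing a group
of order `9` -/
structure Nine {G : Type u} [Group G] [Finite G] (P : Sylow 2 G) (V W : Subgroup G) : Prop where
  comm : ∀ a ∈ (P : Subgroup G), ∀ b ∈ (P : Subgroup G), a * b = b * a
  sq : ∀ a ∈ (P : Subgroup G), a * a = 1
  leV : V ≤ (P : Subgroup G)
  leW : W ≤ (P : Subgroup G)
  dec : ∀ a ∈ (P : Subgroup G), ∃ v ∈ V, ∃ w ∈ W, a = v * w
  disj : ∀ a ∈ V, a ∈ W → a = 1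
  cardV : Nat.card V = 4
  cardW : Nat.card W = 4
  cardP : Nat.card (P : Subgroup G) = 16
  normV : ∀ n ∈ Subgroup.normalizer ((P : Subgroup G) : Set G), ∀ v ∈ V, n * v * n⁻¹ ∈ V
  normW : ∀ n ∈ Subgroup.normalizer ((P : Subgroup G) : Set G), ∀ w ∈ W, n * w * n⁻¹ ∈ W
  freeV : ∀ n ∈ Subgroup.normalizer ((P : Subgroup G) : Set G), ∀ v ∈ V, v ≠ 1 → n * v * n⁻¹ = v →
    ∀ v' ∈ V, n * v' * n⁻¹ = v'
  freeW : ∀ n ∈ Subgroup.normalizer ((P : Subgroup G) : Set G), ∀ v ∈ W, v ≠ 1 → n * v * n⁻¹ = v →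
    ∀ v' ∈ W, n * v' * n⁻¹ = v'
  transV : ∀ v ∈ V, v ≠ 1 → ∀ v' ∈ V, v' ≠ 1 →
    ∃ n ∈ Subgroup.normalizer ((P : Subgroup G) : Set G), n * v * n⁻¹ = v' ∧
      ∀ w ∈ W, n * w * n⁻¹ = w
  transW : ∀ v ∈ W, v ≠ 1 → ∀ v' ∈ W, v' ≠ 1 →
    ∃ n ∈ Subgroup.normalizer ((P : Subgroup G) : Set G), n * v * n⁻¹ = v' ∧
      ∀ w ∈ V, n * w * n⁻¹ = w

/-- the structure of the normalizer of the Sylow subgroup -/
theorem exists_nine {G : Type u} [Group G] [Finite G] (P : Sylow 2 G) (hcard : Nat.card P = 16)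
    (hel : ∀ x : P, x ^ 2 = 1)
    (he : (Subgroup.centralizer ((P : Subgroup G) : Set G)).relIndex
      (Subgroup.normalizer ((P : Subgroup G) : Set G)) = 9) :
    ∃ V W : Subgroup G, Nine P V W := by
  classical
  have hsq' : ∀ a : (P : Subgroup G), a * a = 1 := fun a => by rw [← pow_two]; exact hel a
  have hc' : ∀ a b : (P : Subgroup G), a * b = b * a := by
    intro a b
    have h1 : ∀ x : (P : Subgroup G), x⁻¹ = x := fun x => inv_eq_of_mul_eq_one_left (hsq' x)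
    have h2 := h1 (a * b)
    rw [mul_inv_rev, h1, h1] at h2
    exact h2.symm
  set φ := Subgroup.normalizerMonoidHom (P : Subgroup G) with hφ
  have hE : Nat.card φ.range = 9 := by
    rw [← Subgroup.index_ker, Subgroup.normalizerMonoidHom_ker]
    exact he
  have hval : ∀ (n : Subgroup.normalizer ((P : Subgroup G) : Set G)) (a : (P : Subgroup G)),
      ((φ n a : (P : Subgroup G)) : G) = n * a * (n : G)⁻¹ := fun n a => rfl
  obtain ⟨V, W, hV, hW, hd, hVE, hWE⟩ := exists_dec hc' hsq' hcard hE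
  have hdec := dec_of_card hcard hV hW hd
  have hdec' : ∀ a : (P : Subgroup G), ∃ w ∈ W, ∃ v ∈ V, a = w * v := by
    intro a
    obtain ⟨v, hv, w, hw, e⟩ := hdec a
    exact ⟨w, hw, v, hv, by rw [e, hc']⟩
  have htV := trans_aux hcard hE hV hW hdec hVE hWE
  have htW := trans_aux hcard hE hW hV hdec' hWE hVE
  have key : ∀ U : Subgroup (P : Subgroup G), (∀ e ∈ φ.range, ∀ a ∈ U, e a ∈ U) →
      ∀ n ∈ Subgroup.normalizer ((P : Subgroup G) : Set G), ∀ v ∈ U.map (P : Subgroup G).subtype,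
        n * v * n⁻¹ ∈ U.map (P : Subgroup G).subtype := by
    rintro U hU n hn _ ⟨v, hv, rfl⟩
    exact ⟨φ ⟨n, hn⟩ v, hU _ ⟨_, rfl⟩ v hv, hval ⟨n, hn⟩ v⟩
  have keyf : ∀ U : Subgroup (P : Subgroup G), Nat.card U = 4 → (∀ e ∈ φ.range, ∀ a ∈ U, e a ∈ U) →
      ∀ n ∈ Subgroup.normalizer ((P : Subgroup G) : Set G), ∀ v ∈ U.map (P : Subgroup G).subtype,
        v ≠ 1 → n * v * n⁻¹ = v → ∀ v' ∈ U.map (P : Subgroup G).subtype, n * v' * n⁻¹ = v' := by
    rintro U hU4 hU n hn _ ⟨v, hv, rfl⟩ hv1 hnv _ ⟨v', hv', rfl⟩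
    have h1 := fix_all (pow_nine hE ⟨⟨n, hn⟩, rfl⟩) hU4 (hU (φ ⟨n, hn⟩) ⟨_, rfl⟩) hv
      (fun h => hv1 (by rw [h]; rfl)) (Subtype.ext hnv) v' hv'
    exact congrArg Subtype.val h1
  have keyt : ∀ U T : Subgroup (P : Subgroup G),
      (∀ v ∈ U, v ≠ 1 → ∀ v' ∈ U, v' ≠ 1 → ∃ e ∈ φ.range, e v = v' ∧ ∀ w ∈ T, e w = w) →
      ∀ v ∈ U.map (P : Subgroup G).subtype, v ≠ 1 → ∀ v' ∈ U.map (P : Subgroup G).subtype, v' ≠ 1 →
        ∃ n ∈ Subgroup.normalizer ((P : Subgroup G) : Set G), n * v * n⁻¹ = v' ∧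
          ∀ w ∈ T.map (P : Subgroup G).subtype, n * w * n⁻¹ = w := by
    rintro U T hUT _ ⟨v, hv, rfl⟩ hv1 _ ⟨v', hv', rfl⟩ hv1'
    obtain ⟨_, ⟨n, rfl⟩, h1, h2⟩ := hUT v hv (fun h => hv1 (by rw [h]; rfl)) v' hv'
      (fun h => hv1' (by rw [h]; rfl))
    refine ⟨n, n.2, congrArg Subtype.val h1, ?_⟩
    rintro _ ⟨w, hw, rfl⟩
    exact congrArg Subtype.val (h2 w hw)
  refine ⟨V.map (P : Subgroup G).subtype, W.map (P : Subgroup G).subtype, ?_, ?_, ?_, ?_, ?_, ?_, ?_, ?_,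
    ?_, key V hVE, key W hWE, keyf V hV hVE, keyf W hW hWE, keyt V W htV, keyt W V htW⟩
  · intro a ha b hb
    exact congrArg Subtype.val (hc' ⟨a, ha⟩ ⟨b, hb⟩)
  · intro a ha
    exact congrArg Subtype.val (hsq' ⟨a, ha⟩)
  · rintro _ ⟨v, hv, rfl⟩
    exact v.2
  · rintro _ ⟨v, hv, rfl⟩
    exact v.2
  · intro a ha
    obtain ⟨v, hv, w, hw, e⟩ := hdec ⟨a, ha⟩
    exact ⟨v, ⟨v, hv, rfl⟩, w, ⟨w, hw, rfl⟩, congrArg Subtype.val e⟩
  · rintro _ ⟨v, hv, rfl⟩ ⟨w, hw, e⟩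
    have h1 : w = v := Subtype.ext e
    rw [h1] at hw
    rw [hd v hv hw]; rfl
  · rw [Subgroup.card_map_of_injective (P : Subgroup G).subtype_injective, hV]
  · rw [Subgroup.card_map_of_injective (P : Subgroup G).subtype_injective, hW]
  · exact hcard

namespace Nine

variable {G : Type u} [Group G] [Finite G] {P : Sylow 2 G} {V W : Subgroup G}

theorem swap (h : Nine P V W) : Nine P W V :=
  ⟨h.comm, h.sq, h.leW, h.leV, fun a ha => by
    obtain ⟨v, hv, w, hw, e⟩ := h.dec a ha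
    exact ⟨w, hw, v, hv, by rw [e, h.comm v (h.leV hv) w (h.leW hw)]⟩,
    fun a ha hb => h.disj a hb ha, h.cardW, h.cardV, h.cardP, h.normW, h.normV, h.freeW, h.freeV,
    h.transW, h.transV⟩

theorem exists_ne (h : Nine P V W) : ∃ v ∈ V, v ≠ 1 := by
  have h1 : V ≠ ⊥ := by
    intro h1
    have h2 := h.cardV
    rw [h1, Subgroup.card_bot] at h2
    norm_num at h2
  obtain ⟨w, hw⟩ := (Subgroup.ne_bot_iff_exists_ne_one).mp h1
  exact ⟨w, w.2, fun h => hw (Subtype.ext h)⟩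

/-- `C_G(v)` is of the type `Tri` -/
theorem tri (h : Nine P V W) {v₀ : G} (hv₀ : v₀ ∈ V) (hv₀1 : v₀ ≠ 1) :
    ∃ hP : (P : Subgroup G) ≤ Subgroup.centralizer ({v₀} : Set G),
      Tri (P.subtype hP) (V.subgroupOf (Subgroup.centralizer ({v₀} : Set G)))
        (W.subgroupOf (Subgroup.centralizer ({v₀} : Set G))) := by
  have hP : (P : Subgroup G) ≤ Subgroup.centralizer ({v₀} : Set G) := fun y hy =>
    Subgroup.mem_centralizer_singleton_iff.mpr (h.comm y hy v₀ (h.leV hv₀))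
  refine ⟨hP, ?_⟩
  set H := Subgroup.centralizer ({v₀} : Set G) with hH
  have hmem : ∀ x : H, x ∈ ((P.subtype hP : Sylow 2 H) : Subgroup H) ↔ (x : G) ∈ (P : Subgroup G) := by
    intro x; rw [Sylow.coe_subtype, Subgroup.mem_subgroupOf]
  have hC : ∀ n : H, (n : G) ∈ Subgroup.centralizer ((P : Subgroup G) : Set G) →
      n ∈ Subgroup.centralizer (((P.subtype hP : Sylow 2 H) : Subgroup H) : Set H) := by
    intro n hn
    rw [Subgroup.mem_centralizer_iff]
    intro y hy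
    exact Subtype.ext (Subgroup.mem_centralizer_iff.mp hn y ((hmem y).mp hy))
  have hfV : ∀ n : H, n ∈ Subgroup.normalizer (((P.subtype hP : Sylow 2 H) : Subgroup H) : Set H) →
      ∀ v ∈ V, (n : G) * v * (n : G)⁻¹ = v := by
    intro n hn v hv
    refine h.freeV n (mem_normalizer_of P hP hn) v₀ hv₀ hv₀1 ?_ v hv
    have h1 := Subgroup.mem_centralizer_singleton_iff.mp
      (show (n : G) ∈ Subgroup.centralizer ({v₀} : Set G) from n.2)
    rw [h1]; group
  refine ⟨?_, ?_, ?_, ?_, ?_, ?_, ?_, ?_, ?_, ?_, ?_, ?_, ?_⟩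
  · intro a ha b hb
    exact Subtype.ext (h.comm a ((hmem a).mp ha) b ((hmem b).mp hb))
  · intro a ha
    exact Subtype.ext (h.sq a ((hmem a).mp ha))
  · intro a ha
    exact (hmem a).mpr (h.leV ha)
  · intro a ha
    exact (hmem a).mpr (h.leW ha)
  · intro a ha
    obtain ⟨v, hv, w, hw, e⟩ := h.dec a ((hmem a).mp ha)
    exact ⟨⟨v, hP (h.leV hv)⟩, hv, ⟨w, hP (h.leW hw)⟩, hw, Subtype.ext e⟩
  · intro a ha hb
    exact Subtype.ext (h.disj a ha hb)
  · rw [← h.cardV]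
    exact Nat.card_congr (Subgroup.subgroupOfEquivOfLe (h.leV.trans hP)).toEquiv
  · rw [← h.cardP, Sylow.coe_subtype]
    exact Nat.card_congr (Subgroup.subgroupOfEquivOfLe hP).toEquiv
  · intro n hn v hv
    exact Subtype.ext (hfV n hn v hv)
  · intro n hn w hw
    exact h.normW n (mem_normalizer_of P hP hn) w hw
  · intro n hn w hw hw1 hnw
    apply hC
    have h1 := h.freeW n (mem_normalizer_of P hP hn) w hw (fun e => hw1 (Subtype.ext e))
      (congrArg Subtype.val hnw)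
    rw [Subgroup.mem_centralizer_iff]
    intro y hy
    obtain ⟨v', hv', w', hw', rfl⟩ := h.dec y hy
    have h2 := hfV n hn v' hv'
    have h3 := h1 w' hw'
    rw [mul_inv_eq_iff_eq_mul] at h2 h3
    calc v' * w' * (n : G) = v' * (w' * n) := by group
      _ = v' * (n * w') := by rw [h3]
      _ = v' * n * w' := by group
      _ = n * v' * w' := by rw [h2]
      _ = _ := by group
  · intro w hw hw1 w' hw' hw1'
    obtain ⟨n, hn, e, hnv⟩ := h.transW w hw (fun e => hw1 (Subtype.ext e)) w' hw'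
      (fun e => hw1' (Subtype.ext e))
    have h2 : n ∈ H := by
      rw [hH, Subgroup.mem_centralizer_singleton_iff]
      have h3 := hnv v₀ hv₀
      rwa [mul_inv_eq_iff_eq_mul] at h3
    exact ⟨⟨n, h2⟩, mem_normalizer_mk P hP h2 hn, Subtype.ext e⟩
  · obtain ⟨w, hw, hw1⟩ := h.swap.exists_ne
    exact ⟨⟨w, hP (h.leW hw)⟩, hw, fun e => hw1 (congrArg Subtype.val e)⟩

theorem dec_unique (h : Nine P V W) {v v' w w' : G} (hv : v ∈ V) (hv' : v' ∈ V) (hw : w ∈ W)
    (hw' : w' ∈ W) (e : v * w = v' * w') : v = v' ∧ w = w' := by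
  have h1 : v'⁻¹ * v = w' * w⁻¹ := by
    calc v'⁻¹ * v = v'⁻¹ * (v * w) * w⁻¹ := by group
      _ = v'⁻¹ * (v' * w') * w⁻¹ := by rw [e]
      _ = _ := by group
  have h2 : v'⁻¹ * v = 1 := h.disj _ (mul_mem (inv_mem hv') hv) (by
    rw [h1]; exact mul_mem hw' (inv_mem hw))
  have h3 : v = v' := by rw [inv_mul_eq_one] at h2; exact h2.symm
  refine ⟨h3, ?_⟩
  rw [h3] at e
  exact mul_left_cancel e

/-- the projection onto `V` -/
theorem exists_proj (h : Nine P V W) : ∃ π : (P : Subgroup G) →* V,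
    ∀ (v w : G) (hv : v ∈ V) (hw : w ∈ W) (hx : v * w ∈ (P : Subgroup G)), π ⟨v * w, hx⟩ = ⟨v, hv⟩ := by
  choose v hv w hw e using fun a : (P : Subgroup G) => h.dec a a.2
  have key : ∀ (a : (P : Subgroup G)) (v' w' : G), v' ∈ V → w' ∈ W → (a : G) = v' * w' → v a = v' :=
    fun a v' w' hv' hw' ha => (h.dec_unique (hv a) hv' (hw a) hw' ((e a).symm.trans ha)).1
  refine ⟨{ toFun := fun a => ⟨v a, hv a⟩
            map_one' := Subtype.ext (key 1 1 1 (one_mem _) (one_mem _) (by simp))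
            map_mul' := fun a b => Subtype.ext (key (a * b) (v a * v b) (w a * w b)
              (mul_mem (hv a) (hv b)) (mul_mem (hw a) (hw b)) ?_) }, ?_⟩
  · rw [Subgroup.coe_mul, e a, e b]
    have h1 := h.comm (w a) (h.leW (hw a)) (v b) (h.leV (hv b))
    calc v a * w a * (v b * w b) = v a * (w a * v b) * w b := by group
      _ = v a * (v b * w a) * w b := by rw [h1]
      _ = _ := by group
  · intro v' w' hv' hw' hx
    exact Subtype.ext (key ⟨v' * w', hx⟩ v' w' hv' hw' rfl)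

theorem conj_iff (h : Nine P V W) {v v' w w' : G} (hv : v ∈ V) (hv' : v' ∈ V) (hw : w ∈ W)
    (hw' : w' ∈ W) : IsConj (v * w) (v' * w') ↔ (v = 1 ↔ v' = 1) ∧ (w = 1 ↔ w' = 1) := by
  haveI : Fact (Nat.Prime 2) := ⟨Nat.prime_two⟩
  constructor
  · intro hc
    obtain ⟨n, hn, e⟩ := conj_N P h.comm (mul_mem (h.leV hv) (h.leW hw))
      (mul_mem (h.leV hv') (h.leW hw')) hc
    have h1 : n * (v * w) * n⁻¹ = (n * v * n⁻¹) * (n * w * n⁻¹) := by group
    rw [h1] at e
    obtain ⟨h2, h3⟩ := h.dec_unique (h.normV n hn v hv) hv' (h.normW n hn w hw) hw' e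
    rw [← h2, ← h3]
    have key : ∀ a : G, a = 1 ↔ n * a * n⁻¹ = 1 := by
      intro a
      constructor
      · rintro rfl; group
      · intro h4
        have h5 : a = n⁻¹ * (n * a * n⁻¹) * n := by group
        rw [h5, h4]; group
    exact ⟨key v, key w⟩
  · rintro ⟨h1, h2⟩
    have h3 : ∃ n ∈ Subgroup.normalizer ((P : Subgroup G) : Set G), n * v * n⁻¹ = v' ∧
        n * w * n⁻¹ = w := by
      by_cases hv1 : v = 1
      · refine ⟨1, one_mem _, ?_, by group⟩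
        rw [hv1, h1.mp hv1]; group
      · obtain ⟨n, hn, e, hnw⟩ := h.transV v hv hv1 v' hv' (fun h2 => hv1 (h1.mpr h2))
        exact ⟨n, hn, e, hnw w hw⟩
    have h4 : ∃ n ∈ Subgroup.normalizer ((P : Subgroup G) : Set G), n * w * n⁻¹ = w' ∧
        n * v' * n⁻¹ = v' := by
      by_cases hw1 : w = 1
      · refine ⟨1, one_mem _, ?_, by group⟩
        rw [hw1, h2.mp hw1]; group
      · obtain ⟨n, hn, e, hnw⟩ := h.transW w hw hw1 w' hw' (fun h3 => hw1 (h2.mpr h3))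
        exact ⟨n, hn, e, hnw v' hv'⟩
    obtain ⟨n, -, e1, e2⟩ := h3
    obtain ⟨m, -, e3, e4⟩ := h4
    refine isConj_iff.mpr ⟨m * n, ?_⟩
    calc m * n * (v * w) * (m * n)⁻¹ = m * ((n * v * n⁻¹) * (n * w * n⁻¹)) * m⁻¹ := by group
      _ = m * (v' * w) * m⁻¹ := by rw [e1, e2]
      _ = (m * v' * m⁻¹) * (m * w * m⁻¹) := by group
      _ = v' * w' := by rw [e4, e3]

end Nine

end Cfsg.Agent.H75.Tri
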