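import Cfsg.Agent.H75.TriC
import Cfsg.Agent.H75.NumNine
import Cfsg.Agent.Char.Regular

/-!
# Elementary abelian Sylow `2`-subgroups of order 16 and inertial index nine (owner: helper75)
-/

set_option autoImplicit false
set_option linter.style.haveILetI false
set_option linter.unusedSectionVars false
set_option linter.dupNamespace false
set_option linter.unusedVariables false

namespace Cfsg.Agent.H75.Tri

open scoped ComplexConjugate
open Cfsg Cfsg.Agent.CharBase Cfsg.Agent.Blk Cfsg.Agent.BlkC Cfsg.Agent.H4 Cfsg.Agent.H75.PS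

universe u

/-- contributions of a section on which a factor is constant -/
theorem ms_const_mul {G : Type u} [Group G] [Fintype G] {p : ℕ} [Fact p.Prime] {x : G} {F : G → ℂ} {c : ℂ}
    (hF : ∀ g h : G, IsPPart p g (h * x * h⁻¹) → F g = c) (χ ψ : G → ℂ) :
    ms p x (F * χ) ψ = c * ms p x χ ψ := by
  classical
  unfold ms
  rw [mul_left_comm c, Finset.mul_sum _ _ c]
  congr 1
  refine Finset.sum_congr rfl fun g _ => ?_
  split_ifs with hg
  · obtain ⟨h, hh⟩ := hg
    rw [Pi.mul_apply, hF g h hh, mul_assoc]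
  · rw [mul_zero]

namespace Nine

variable {G : Type u} [Group G] [Finite G] {P : Sylow 2 G} {V W : Subgroup G} {M : Ideal AlgInt}

theorem npc (h : Nine P V W) {v w : G} (hv : v ∈ V) (hv1 : v ≠ 1) (hw : w ∈ W) (hw1 : w ≠ 1) :
    HasNormalPComplement 2 (Subgroup.centralizer ({v * w} : Set G)) := by
  haveI : Fact (Nat.Prime 2) := ⟨Nat.prime_two⟩
  refine npc_of_free P h.comm (mul_mem (h.leV hv) (h.leW hw)) fun n hn hnx => ?_
  have h1 : n * (v * w) * n⁻¹ = (n * v * n⁻¹) * (n * w * n⁻¹) := by group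
  rw [h1] at hnx
  obtain ⟨e1, e2⟩ := h.dec_unique (h.normV n hn v hv) hv (h.normW n hn w hw) hw hnx
  have h2 := h.freeV n hn v hv hv1 e1
  have h3 := h.freeW n hn w hw hw1 e2
  rw [Subgroup.mem_centralizer_iff]
  intro y hy
  obtain ⟨v', hv', w', hw', rfl⟩ := h.dec y hy
  have h4 := h2 v' hv'
  have h5 := h3 w' hw'
  rw [mul_inv_eq_iff_eq_mul] at h4 h5
  calc v' * w' * (n : G) = v' * (w' * n) := by group
    _ = v' * (n * w') := by rw [h5]
    _ = v' * n * w' := by group
    _ = n * v' * w' := by rw [h4]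
    _ = _ := by group

theorem rank_V (h : Nine P V W) (hM : IsPModular 2 M) {v₀ : G} (hv₀ : v₀ ∈ V) (hv₀1 : v₀ ≠ 1) :
    blockRank 2 (principalBlock M (Subgroup.centralizer ({v₀} : Set G))) = 3 := by
  obtain ⟨hP, ht⟩ := h.tri hv₀ hv₀1
  exact rank_eq_three hM _ _ _ _ _ ht rfl

open Classical in
theorem exists_F (h : Nine P V W) : ∃ F : G → ℂ, IsGeneralizedCharacter G F ∧
    ∀ (g u v w : G), IsPPart 2 g u → v ∈ V → w ∈ W → IsConj u (v * w) →
      F g = if v = 1 then 4 else 0 := by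
  classical
  haveI : Fact (Nat.Prime 2) := ⟨Nat.prime_two⟩
  obtain ⟨π, hπ⟩ := h.exists_proj
  have h0 : IsCharacter V (fun g => ((Nat.card (MulAction.fixedBy V g) : ℕ) : ℂ)) :=
    Cfsg.Agent.Char.Reg.isCharacter_fixedBy
  have hval : ∀ v : V, ((Nat.card (MulAction.fixedBy V v) : ℕ) : ℂ) = if v = 1 then 4 else 0 := by
    intro v
    split_ifs with hv
    · have h1 : Nat.card (MulAction.fixedBy V v) = 4 := by
        rw [← h.cardV, hv]
        refine Nat.card_congr ⟨fun a => a, fun a => ⟨a, ?_⟩, fun a => rfl, fun a => rfl⟩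
        exact one_smul _ _
      rw [h1]; norm_num
    · have h1 : IsEmpty (MulAction.fixedBy V v) := by
        refine ⟨fun a => hv ?_⟩
        have h2 : v * (a : V) = a := a.2
        exact mul_eq_right.mp h2
      rw [Nat.card_of_isEmpty]; norm_num
  have h1 : (fun g : V => ((Nat.card (MulAction.fixedBy V g) : ℕ) : ℂ)) =
      fun g => if g = 1 then 4 else 0 := funext hval
  rw [h1] at h0
  have hf := isCharacter_comp h0 π
  obtain ⟨F, hcf, hgen, hF⟩ := Stab.exists_ext P hf (by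
    intro x y hxy
    obtain ⟨v, hv, w, hw, ex⟩ := h.dec x x.2
    obtain ⟨v', hv', w', hw', ey⟩ := h.dec y y.2
    rw [ex, ey] at hxy
    obtain ⟨h1, -⟩ := (h.conj_iff hv hv' hw hw').mp hxy
    have hx : x = ⟨v * w, by rw [← ex]; exact x.2⟩ := Subtype.ext ex
    have hy : y = ⟨v' * w', by rw [← ey]; exact y.2⟩ := Subtype.ext ey
    rw [hx, hy, Function.comp_apply, Function.comp_apply, hπ v w hv hw, hπ v' w' hv' hw']
    have e1 : ((⟨v, hv⟩ : V) = 1) ↔ v = 1 := by
      rw [Subtype.ext_iff]; rfl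
    have e2 : ((⟨v', hv'⟩ : V) = 1) ↔ v' = 1 := by
      rw [Subtype.ext_iff]; rfl
    by_cases hv1 : v = 1
    · rw [if_pos (e1.mpr hv1), if_pos (e2.mpr (h1.mp hv1))]
    · rw [if_neg (fun h2 => hv1 (e1.mp h2)), if_neg (fun h2 => hv1 (h1.mpr (e2.mp h2)))])
  refine ⟨F, hgen, ?_⟩
  intro g u v w hu hv hw hc
  have hm : v * w ∈ (P : Subgroup G) := mul_mem (h.leV hv) (h.leW hw)
  rw [hF g u ⟨v * w, hm⟩ hu hc, Function.comp_apply, hπ v w hv hw]
  have e1 : ((⟨v, hv⟩ : V) = 1) ↔ v = 1 := by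
    rw [Subtype.ext_iff]; rfl
  by_cases hv1 : v = 1
  · rw [if_pos (e1.mpr hv1), if_pos hv1]
  · rw [if_neg (fun h2 => hv1 (e1.mp h2)), if_neg hv1]

open Classical in
/-- representatives of the classes of `2`-elements -/
noncomputable def reps (v w : G) : Finset G := {1, v, w, v * w}

variable {v w : G}

theorem reps_mem (h : Nine P V W) (hv : v ∈ V) (hw : w ∈ W) : ∀ x ∈ reps v w, x ∈ (P : Subgroup G) := by
  classical
  intro x hx
  unfold reps at hx
  rw [Finset.mem_insert, Finset.mem_insert, Finset.mem_insert, Finset.mem_singleton] at hx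
  rcases hx with rfl | rfl | rfl | rfl
  · exact one_mem _
  · exact h.leV hv
  · exact h.leW hw
  · exact mul_mem (h.leV hv) (h.leW hw)

theorem reps_rep (h : Nine P V W) (hv : v ∈ V) (hv1 : v ≠ 1) (hw : w ∈ W) (hw1 : w ≠ 1) :
    ∀ g : G, (∃ k : ℕ, orderOf g = 2 ^ k) → ∃! x, x ∈ reps v w ∧ IsConj g x := by
  classical
  haveI : Fact (Nat.Prime 2) := ⟨Nat.prime_two⟩
  -- each representative as a product
  have hr : ∀ x ∈ reps v w, ∃ a b : G, (a = 1 ∨ a = v) ∧ (b = 1 ∨ b = w) ∧ x = a * b := by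
    intro x hx
    unfold reps at hx
    rw [Finset.mem_insert, Finset.mem_insert, Finset.mem_insert, Finset.mem_singleton] at hx
    rcases hx with rfl | rfl | rfl | rfl
    · exact ⟨1, 1, Or.inl rfl, Or.inl rfl, by group⟩
    · exact ⟨_, 1, Or.inr rfl, Or.inl rfl, by group⟩
    · exact ⟨1, _, Or.inl rfl, Or.inr rfl, by group⟩
    · exact ⟨_, _, Or.inr rfl, Or.inr rfl, rfl⟩
  have hr' : ∀ a b : G, (a = 1 ∨ a = v) → (b = 1 ∨ b = w) → a * b ∈ reps v w := by
    intro a b ha hb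
    unfold reps
    rw [Finset.mem_insert, Finset.mem_insert, Finset.mem_insert, Finset.mem_singleton]
    rcases ha with rfl | rfl <;> rcases hb with rfl | rfl
    · left; group
    · right; right; left; group
    · right; left; group
    · right; right; right; rfl
  have hmV : ∀ a : G, (a = 1 ∨ a = v) → a ∈ V := by
    rintro a (rfl | rfl)
    · exact one_mem _
    · exact hv
  have hmW : ∀ a : G, (a = 1 ∨ a = w) → a ∈ W := by
    rintro a (rfl | rfl)
    · exact one_mem _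
    · exact hw
  have huniq : ∀ (c a a' : G), c ≠ 1 → (a = 1 ∨ a = c) → (a' = 1 ∨ a' = c) → (a = 1 ↔ a' = 1) → a = a' := by
    rintro c a a' hc (ha | ha) (ha' | ha') he
    · rw [ha, ha']
    · exact absurd (ha' ▸ he.mp ha) hc
    · exact absurd (ha ▸ he.mpr ha') hc
    · rw [ha, ha']
  intro g hg
  obtain ⟨y, hy, hgy⟩ := exists_conj_mem P hg
  obtain ⟨a, ha, b, hb, rfl⟩ := h.dec y hy
  obtain ⟨a', ha', haa⟩ : ∃ a', (a' = 1 ∨ a' = v) ∧ (a = 1 ↔ a' = 1) := by
    by_cases h1 : a = 1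
    · exact ⟨1, Or.inl rfl, iff_of_true h1 rfl⟩
    · exact ⟨v, Or.inr rfl, iff_of_false h1 hv1⟩
  obtain ⟨b', hb', hbb⟩ : ∃ b', (b' = 1 ∨ b' = w) ∧ (b = 1 ↔ b' = 1) := by
    by_cases h1 : b = 1
    · exact ⟨1, Or.inl rfl, iff_of_true h1 rfl⟩
    · exact ⟨w, Or.inr rfl, iff_of_false h1 hw1⟩
  have hc1 : IsConj g (a' * b') := hgy.trans ((h.conj_iff ha (hmV a' ha') hb (hmW b' hb')).mpr ⟨haa, hbb⟩)
  refine ⟨a' * b', ⟨hr' a' b' ha' hb', hc1⟩, ?_⟩
  rintro x ⟨hx, hgx⟩
  obtain ⟨a'', b'', ha'', hb'', rfl⟩ := hr x hx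
  have hc := hc1.symm.trans hgx
  obtain ⟨e1, e2⟩ := (h.conj_iff (hmV _ ha') (hmV _ ha'') (hmW _ hb') (hmW _ hb'')).mp hc
  rw [huniq v a' a'' hv1 ha' ha'' e1, huniq w b' b'' hw1 hb' hb'' e2]

theorem sum_reps (h : Nine P V W) (hv : v ∈ V) (hv1 : v ≠ 1) (hw : w ∈ W) (hw1 : w ≠ 1)
    {α : Type*} [AddCommMonoid α] (f : G → α) :
    ∑ x ∈ reps v w, f x = f 1 + (f v + (f w + f (v * w))) := by
  classical
  unfold reps
  have e1 : w ≠ v * w := fun e => hv1 (by rw [eq_comm, mul_eq_right] at e; exact e)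
  have e2 : v ≠ v * w := fun e => hw1 (by rw [eq_comm, mul_eq_left] at e; exact e)
  have e3 : v ≠ w := fun e => hv1 (h.disj v hv (e ▸ hw))
  have e4 : (1 : G) ≠ v * w := fun e => hv1 ((h.dec_unique hv (one_mem _) hw (one_mem _)
    (e.symm.trans (one_mul 1).symm)).1)
  rw [Finset.sum_insert, Finset.sum_insert, Finset.sum_insert, Finset.sum_singleton]
  · rw [Finset.mem_singleton]; exact e1
  · rw [Finset.mem_insert, Finset.mem_singleton, not_or]; exact ⟨e3, e2⟩
  · rw [Finset.mem_insert, Finset.mem_insert, Finset.mem_singleton, not_or, not_or]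
    exact ⟨hv1.symm, hw1.symm, e4⟩

/-- `k(B₀) = l(B₀) + 7` -/
theorem card_eq_rank (h : Nine P V W) (hM : IsPModular 2 M) :
    Nat.card (principalBlock M G) = blockRank 2 (principalBlock M G) + 7 := by
  classical
  haveI : Fact (Nat.Prime 2) := ⟨Nat.prime_two⟩
  haveI := isPrime_of_isPModular hM
  haveI := Fintype.ofFinite G
  obtain ⟨v, hv, hv1⟩ := h.exists_ne
  obtain ⟨w, hw, hw1⟩ := h.swap.exists_ne
  have hX := h.reps_mem hv hw
  have h1 := card_eq_sum_blockRank hM (BlkC.isPBlock_principalBlock (G := G) M)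
    (fun x hx => pel P (hX x hx)) (h.reps_rep hv hv1 hw hw1)
  rw [Finset.sum_congr rfl fun x hx => by
    rw [indB_principal hM (pel P (hX x hx)), Finset.sum_singleton], h.sum_reps hv hv1 hw hw1,
    h.rank_V hM hv hv1, h.swap.rank_V hM hw hw1] at h1
  have h2 : blockRank 2 (principalBlock M (Subgroup.centralizer ({v * w} : Set G))) = 1 := by
    obtain ⟨k, hk⟩ := H74.index_pPrimeCore (h.npc hv hv1 hw hw1)
    exact blockRank_principal_of_npc hM hk
  have h3 : blockRank 2 (principalBlock M (Subgroup.centralizer ({1} : Set G))) =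
      blockRank 2 (principalBlock M G) := by
    have ht : Subgroup.centralizer ({1} : Set G) = ⊤ := by
      rw [eq_top_iff]
      intro x _
      rw [Subgroup.mem_centralizer_singleton_iff]
      simp
    rw [ht]
    exact blockRank_equiv Subgroup.topEquiv
  rw [h2, h3] at h1
  omega

end Nine

end Cfsg.Agent.H75.Tri
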