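import Cfsg.Agent.H75.TriD

/-!
# Elementary abelian Sylow `2`-subgroups of order 16 and inertial index nine: `k(B₀) = 16`
(owner: helper75)
-/

set_option autoImplicit false
set_option linter.style.haveILetI false
set_option linter.unusedSectionVars false
set_option linter.dupNamespace false
set_option linter.unusedVariables false

namespace Cfsg.Agent.H75.Tri

open scoped ComplexConjugate
open Cfsg Cfsg.Agent.CharBase Cfsg.Agent.Blk Cfsg.Agent.BlkC Cfsg.Agent.H4 Cfsg.Agent.H75.PS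

universe u

namespace Nine

variable {G : Type u} [Group G] [Finite G] {P : Sylow 2 G} {V W : Subgroup G} {M : Ideal AlgInt}
  {v w : G}

/-- the sum of two contributions is an integer -/
theorem int_T [Fintype G] (h : Nine P V W) (hv : v ∈ V) (hv1 : v ≠ 1) (hw : w ∈ W) (hw1 : w ≠ 1)
    (χ ψ : IrrCharacter G) :
    haveI : Fact (Nat.Prime 2) := ⟨Nat.prime_two⟩
    ∃ n : ℤ, 4 * (ms 2 v (χ : G → ℂ) (ψ : G → ℂ) + ms 2 (v * w) (χ : G → ℂ) (ψ : G → ℂ)) = n := by
  classical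
  haveI : Fact (Nat.Prime 2) := ⟨Nat.prime_two⟩
  have hX := h.reps_mem hv hw
  obtain ⟨F, hgen, hF⟩ := h.exists_F
  obtain ⟨n₁, h1⟩ := classInner_intCast
    (Cfsg.Agent.Char.BI.isGeneralizedCharacter_of_isCharacter (irr_isCharacter χ))
    (Cfsg.Agent.Char.BI.isGeneralizedCharacter_of_isCharacter (irr_isCharacter ψ))
  obtain ⟨n₂, h2⟩ := classInner_intCast (Cfsg.Agent.Char.BI.isGeneralizedCharacter_mul hgen
      (Cfsg.Agent.Char.BI.isGeneralizedCharacter_of_isCharacter (irr_isCharacter χ)))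
    (Cfsg.Agent.Char.BI.isGeneralizedCharacter_of_isCharacter (irr_isCharacter ψ))
  have h3 := ms_sum (p := 2) (fun x hx => pel P (hX x hx)) (h.reps_rep hv hv1 hw hw1)
    (χ : G → ℂ) (ψ : G → ℂ)
  have h4 := ms_sum (p := 2) (fun x hx => pel P (hX x hx)) (h.reps_rep hv hv1 hw hw1)
    (F * (χ : G → ℂ)) (ψ : G → ℂ)
  rw [h.sum_reps hv hv1 hw hw1] at h3 h4
  have hconj : ∀ c x : G, IsConj (c * x * c⁻¹) x := fun c x =>
    isConj_iff.mpr ⟨c⁻¹, by group⟩
  have e1 := ms_const_mul (p := 2) (x := (1 : G)) (F := F) (c := 4)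
    (fun g c hg => by
      rw [hF g _ 1 1 hg (one_mem _) (one_mem _) (by rw [one_mul]; exact hconj c 1), if_pos rfl])
    (χ : G → ℂ) (ψ : G → ℂ)
  have e2 := ms_const_mul (p := 2) (x := v) (F := F) (c := 0)
    (fun g c hg => by
      rw [hF g _ v 1 hg hv (one_mem _) (by rw [mul_one]; exact hconj c v), if_neg hv1])
    (χ : G → ℂ) (ψ : G → ℂ)
  have e3 := ms_const_mul (p := 2) (x := w) (F := F) (c := 4)
    (fun g c hg => by
      rw [hF g _ 1 w hg (one_mem _) hw (by rw [one_mul]; exact hconj c w), if_pos rfl])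
    (χ : G → ℂ) (ψ : G → ℂ)
  have e4 := ms_const_mul (p := 2) (x := v * w) (F := F) (c := 0)
    (fun g c hg => by
      rw [hF g _ v w hg hv hw (hconj c (v * w)), if_neg hv1])
    (χ : G → ℂ) (ψ : G → ℂ)
  rw [e1, e2, e3, e4, h2] at h4
  rw [h1] at h3
  refine ⟨4 * n₁ - n₂, ?_⟩
  push_cast
  linear_combination 4 * h3 - h4

theorem card_block (h : Nine P V W) (hM : IsPModular 2 M)
    (h9 : 9 ≤ Nat.card (principalBlock M G)) : Nat.card (principalBlock M G) = 16 := by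
  classical
  haveI : Fact (Nat.Prime 2) := ⟨Nat.prime_two⟩
  haveI := isPrime_of_isPModular hM
  haveI := Fintype.ofFinite G
  obtain ⟨v, hv, hv1⟩ := h.exists_ne
  obtain ⟨w, hw, hw1⟩ := h.swap.exists_ne
  have hwv : w * v = v * w := h.comm w (h.leW hw) v (h.leV hv)
  have hvP := h.leV hv
  have hwP := h.leW hw
  have hxP := mul_mem hvP hwP
  have hX := h.reps_mem hv hw
  -- class facts
  have hnc_vx : ¬ IsConj v (v * w) := by
    intro hc
    have h1 : IsConj (v * 1) (v * w) := by rwa [mul_one]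
    exact hw1 (((h.conj_iff hv hv (one_mem _) hw).mp h1).2.mp rfl)
  have hnc_wx : ¬ IsConj w (v * w) := by
    intro hc
    have h1 : IsConj (1 * w) (v * w) := by rwa [one_mul]
    exact hv1 (((h.conj_iff (one_mem _) hv hw hw).mp h1).1.mp rfl)
  have hnc_vw : ¬ IsConj v w := by
    intro hc
    have h1 : IsConj (v * 1) (1 * w) := by rwa [mul_one, one_mul]
    exact hv1 (((h.conj_iff hv (one_mem _) (one_mem _) hw).mp h1).1.mpr rfl)
  -- the index type
  set B := {χ // χ ∈ Bfin (principalBlock M G)} with hB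
  have hm : ∀ χ : B, (χ : IrrCharacter G) ∈ principalBlock M G := fun χ => mem_Bfin.mp χ.2
  have hsum : ∀ f : IrrCharacter G → ℂ, ∑ χ : B, f χ = ∑ χ ∈ Bfin (principalBlock M G), f χ :=
    fun f => Finset.sum_coe_sort _ _
  -- values at `x = v * w`
  have hval : ∀ χ : IrrCharacter G, ∃ n : ℤ, (χ : G → ℂ) (v * w) = n := fun χ =>
    H4.exists_int_value (irr_isCharacter χ) (h.sq _ hxP)
  choose a ha using hval
  have hTi : ∀ χ ψ : IrrCharacter G, ∃ n : ℤ,
      4 * (ms 2 v (χ : G → ℂ) (ψ : G → ℂ) + ms 2 (v * w) (χ : G → ℂ) (ψ : G → ℂ)) = n :=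
    h.int_T hv hv1 hw hw1
  have hUi : ∀ χ ψ : IrrCharacter G, ∃ n : ℤ,
      4 * (ms 2 w (χ : G → ℂ) (ψ : G → ℂ) + ms 2 (v * w) (χ : G → ℂ) (ψ : G → ℂ)) = n := by
    rw [← hwv]
    exact h.swap.int_T hw hw1 hv hv1
  choose T hT using hTi
  choose U hU using hUi
  have hval0 : ∀ {x : G}, x ∈ (P : Subgroup G) → ∀ χ : B, ((χ : IrrCharacter G) : G → ℂ) x ≠ 0 := by
    intro x hx χ
    exact H74.principal_value_ne_zero hM (not_dvd_index P h.comm hx) (hm χ)
  have hmx : ∀ χ ψ : B, ms 2 (v * w) ((χ : IrrCharacter G) : G → ℂ) ((ψ : IrrCharacter G) : G → ℂ) =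
      (a χ : ℂ) * (a ψ : ℂ) / 16 := by
    intro χ ψ
    rw [ms_value hM (pel P hxP) (h.npc hv hv1 hw hw1) (hm χ) (hm ψ), ha, ha, conj_intC,
      card_factorization P h.comm hxP, h.cardP]
    norm_num
  have hrx : blockRank 2 (principalBlock M (Subgroup.centralizer ({v * w} : Set G))) = 1 := by
    obtain ⟨k, hk⟩ := H74.index_pPrimeCore (h.npc hv hv1 hw hw1)
    exact blockRank_principal_of_npc hM hk
  have hid : ∀ {x : G}, x ∈ (P : Subgroup G) → ∀ χ θ : B,
      ∑ ψ : B, ms 2 x ((χ : IrrCharacter G) : G → ℂ) ((ψ : IrrCharacter G) : G → ℂ) *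
        ms 2 x ((ψ : IrrCharacter G) : G → ℂ) ((θ : IrrCharacter G) : G → ℂ) =
        ms 2 x ((χ : IrrCharacter G) : G → ℂ) ((θ : IrrCharacter G) : G → ℂ) := by
    intro x hx χ θ
    rw [hsum fun ψ => ms 2 x ((χ : IrrCharacter G) : G → ℂ) (ψ : G → ℂ) *
        ms 2 x (ψ : G → ℂ) ((θ : IrrCharacter G) : G → ℂ)]
    exact ms_idem hM (pel P hx) (hm χ) (hm θ)
  have hor : ∀ {x y : G}, ¬ IsConj x y → ∀ χ θ : B,
      ∑ ψ : B, ms 2 x ((χ : IrrCharacter G) : G → ℂ) ((ψ : IrrCharacter G) : G → ℂ) *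
        ms 2 y ((ψ : IrrCharacter G) : G → ℂ) ((θ : IrrCharacter G) : G → ℂ) = 0 := by
    intro x y hxy χ θ
    rw [hsum fun ψ => ms 2 x ((χ : IrrCharacter G) : G → ℂ) (ψ : G → ℂ) *
        ms 2 y (ψ : G → ℂ) ((θ : IrrCharacter G) : G → ℂ)]
    exact ms_orth hM hxy _ _
  have htr : ∀ {x : G}, x ∈ (P : Subgroup G) →
      ∑ ψ : B, ms 2 x ((ψ : IrrCharacter G) : G → ℂ) ((ψ : IrrCharacter G) : G → ℂ) =
        (blockRank 2 (principalBlock M (Subgroup.centralizer ({x} : Set G))) : ℂ) := by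
    intro x hx
    rw [hsum fun ψ => ms 2 x (ψ : G → ℂ) (ψ : G → ℂ)]
    exact ms_trace hM (pel P hx)
  have hms : ∀ χ : B, 1 = ms 2 1 ((χ : IrrCharacter G) : G → ℂ) ((χ : IrrCharacter G) : G → ℂ) +
      (ms 2 v ((χ : IrrCharacter G) : G → ℂ) ((χ : IrrCharacter G) : G → ℂ) +
      (ms 2 w ((χ : IrrCharacter G) : G → ℂ) ((χ : IrrCharacter G) : G → ℂ) +
      ms 2 (v * w) ((χ : IrrCharacter G) : G → ℂ) ((χ : IrrCharacter G) : G → ℂ))) := by
    intro χ
    have h3 := ms_sum (p := 2) (fun x hx => pel P (hX x hx)) (h.reps_rep hv hv1 hw hw1)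
      ((χ : IrrCharacter G) : G → ℂ) ((χ : IrrCharacter G) : G → ℂ)
    rw [h.sum_reps hv hv1 hw hw1, classInner_irr_self] at h3
    exact h3.symm
  have hgoal : Fintype.card B = 16 := by
    refine NumNine.card_eq (a := fun χ : B => a χ) (T := fun χ ψ : B => T χ ψ)
      (U := fun χ ψ : B => U χ ψ) ?_ ?_ ?_ ?_ ?_ ?_ ?_ ?_ ?_ ?_ ?_ ?_ ?_
    · intro χ h0
      apply hval0 hxP χ
      rw [ha, h0]; norm_num
    · intro χ ψ
      have h1 := hT χ ψ
      have h2 : conj (4 * (ms 2 v ((χ : IrrCharacter G) : G → ℂ) ((ψ : IrrCharacter G) : G → ℂ) +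
        ms 2 (v * w) ((χ : IrrCharacter G) : G → ℂ) ((ψ : IrrCharacter G) : G → ℂ))) =
          ((T χ ψ : ℤ) : ℂ) := by rw [h1, conj_intC]
      rw [map_mul, map_add, ms_conj, ms_conj] at h2
      have h3 := hT ψ χ
      have h4 : conj (4 : ℂ) = 4 := by
        have := conj_intC 4
        push_cast at this
        exact this
      rw [h4, h3] at h2
      exact_mod_cast h2.symm
    · intro χ ψ
      have h1 := hU χ ψ
      have h2 : conj (4 * (ms 2 w ((χ : IrrCharacter G) : G → ℂ) ((ψ : IrrCharacter G) : G → ℂ) +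
        ms 2 (v * w) ((χ : IrrCharacter G) : G → ℂ) ((ψ : IrrCharacter G) : G → ℂ))) =
          ((U χ ψ : ℤ) : ℂ) := by rw [h1, conj_intC]
      rw [map_mul, map_add, ms_conj, ms_conj] at h2
      have h3 := hU ψ χ
      have h4 : conj (4 : ℂ) = 4 := by
        have := conj_intC 4
        push_cast at this
        exact this
      rw [h4, h3] at h2
      exact_mod_cast h2.symm
    · intro χ θ
      have h1 : ((∑ ψ : B, T χ ψ * T ψ θ : ℤ) : ℂ) = ((4 * T χ θ : ℤ) : ℂ) := by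
        push_cast
        simp only [← hT]
        have h2 : ∀ ψ : B, 4 * (ms 2 v ((χ : IrrCharacter G) : G → ℂ) ((ψ : IrrCharacter G) : G → ℂ) +
            ms 2 (v * w) ((χ : IrrCharacter G) : G → ℂ) ((ψ : IrrCharacter G) : G → ℂ)) *
            (4 * (ms 2 v ((ψ : IrrCharacter G) : G → ℂ) ((θ : IrrCharacter G) : G → ℂ) +
            ms 2 (v * w) ((ψ : IrrCharacter G) : G → ℂ) ((θ : IrrCharacter G) : G → ℂ))) =
            16 * (ms 2 v ((χ : IrrCharacter G) : G → ℂ) ((ψ : IrrCharacter G) : G → ℂ) *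
              ms 2 v ((ψ : IrrCharacter G) : G → ℂ) ((θ : IrrCharacter G) : G → ℂ)) +
            16 * (ms 2 v ((χ : IrrCharacter G) : G → ℂ) ((ψ : IrrCharacter G) : G → ℂ) *
              ms 2 (v * w) ((ψ : IrrCharacter G) : G → ℂ) ((θ : IrrCharacter G) : G → ℂ)) +
            16 * (ms 2 (v * w) ((χ : IrrCharacter G) : G → ℂ) ((ψ : IrrCharacter G) : G → ℂ) *
              ms 2 v ((ψ : IrrCharacter G) : G → ℂ) ((θ : IrrCharacter G) : G → ℂ)) +
            16 * (ms 2 (v * w) ((χ : IrrCharacter G) : G → ℂ) ((ψ : IrrCharacter G) : G → ℂ) *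
              ms 2 (v * w) ((ψ : IrrCharacter G) : G → ℂ) ((θ : IrrCharacter G) : G → ℂ)) := by
          intro ψ; ring
        rw [Finset.sum_congr rfl fun ψ _ => h2 ψ, Finset.sum_add_distrib, Finset.sum_add_distrib,
          Finset.sum_add_distrib, ← Finset.mul_sum, ← Finset.mul_sum, ← Finset.mul_sum,
          ← Finset.mul_sum, hid hvP, hid hxP, hor hnc_vx, hor (fun hc => hnc_vx hc.symm)]
        ring
      exact_mod_cast h1
    · intro χ θ
      have h1 : ((∑ ψ : B, U χ ψ * U ψ θ : ℤ) : ℂ) = ((4 * U χ θ : ℤ) : ℂ) := by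
        push_cast
        simp only [← hU]
        have h2 : ∀ ψ : B, 4 * (ms 2 w ((χ : IrrCharacter G) : G → ℂ) ((ψ : IrrCharacter G) : G → ℂ) +
            ms 2 (v * w) ((χ : IrrCharacter G) : G → ℂ) ((ψ : IrrCharacter G) : G → ℂ)) *
            (4 * (ms 2 w ((ψ : IrrCharacter G) : G → ℂ) ((θ : IrrCharacter G) : G → ℂ) +
            ms 2 (v * w) ((ψ : IrrCharacter G) : G → ℂ) ((θ : IrrCharacter G) : G → ℂ))) =
            16 * (ms 2 w ((χ : IrrCharacter G) : G → ℂ) ((ψ : IrrCharacter G) : G → ℂ) *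
              ms 2 w ((ψ : IrrCharacter G) : G → ℂ) ((θ : IrrCharacter G) : G → ℂ)) +
            16 * (ms 2 w ((χ : IrrCharacter G) : G → ℂ) ((ψ : IrrCharacter G) : G → ℂ) *
              ms 2 (v * w) ((ψ : IrrCharacter G) : G → ℂ) ((θ : IrrCharacter G) : G → ℂ)) +
            16 * (ms 2 (v * w) ((χ : IrrCharacter G) : G → ℂ) ((ψ : IrrCharacter G) : G → ℂ) *
              ms 2 w ((ψ : IrrCharacter G) : G → ℂ) ((θ : IrrCharacter G) : G → ℂ)) +
            16 * (ms 2 (v * w) ((χ : IrrCharacter G) : G → ℂ) ((ψ : IrrCharacter G) : G → ℂ) *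
              ms 2 (v * w) ((ψ : IrrCharacter G) : G → ℂ) ((θ : IrrCharacter G) : G → ℂ)) := by
          intro ψ; ring
        rw [Finset.sum_congr rfl fun ψ _ => h2 ψ, Finset.sum_add_distrib, Finset.sum_add_distrib,
          Finset.sum_add_distrib, ← Finset.mul_sum, ← Finset.mul_sum, ← Finset.mul_sum,
          ← Finset.mul_sum, hid hwP, hid hxP, hor hnc_wx, hor (fun hc => hnc_wx hc.symm)]
        ring
      exact_mod_cast h1
    · intro χ θ
      have h1 : ((∑ ψ : B, T χ ψ * U ψ θ : ℤ) : ℂ) = ((a χ * a θ : ℤ) : ℂ) := by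
        push_cast
        simp only [← hU, ← hT]
        have h2 : ∀ ψ : B, 4 * (ms 2 v ((χ : IrrCharacter G) : G → ℂ) ((ψ : IrrCharacter G) : G → ℂ) +
            ms 2 (v * w) ((χ : IrrCharacter G) : G → ℂ) ((ψ : IrrCharacter G) : G → ℂ)) *
            (4 * (ms 2 w ((ψ : IrrCharacter G) : G → ℂ) ((θ : IrrCharacter G) : G → ℂ) +
            ms 2 (v * w) ((ψ : IrrCharacter G) : G → ℂ) ((θ : IrrCharacter G) : G → ℂ))) =
            16 * (ms 2 v ((χ : IrrCharacter G) : G → ℂ) ((ψ : IrrCharacter G) : G → ℂ) *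
              ms 2 w ((ψ : IrrCharacter G) : G → ℂ) ((θ : IrrCharacter G) : G → ℂ)) +
            16 * (ms 2 v ((χ : IrrCharacter G) : G → ℂ) ((ψ : IrrCharacter G) : G → ℂ) *
              ms 2 (v * w) ((ψ : IrrCharacter G) : G → ℂ) ((θ : IrrCharacter G) : G → ℂ)) +
            16 * (ms 2 (v * w) ((χ : IrrCharacter G) : G → ℂ) ((ψ : IrrCharacter G) : G → ℂ) *
              ms 2 w ((ψ : IrrCharacter G) : G → ℂ) ((θ : IrrCharacter G) : G → ℂ)) +
            16 * (ms 2 (v * w) ((χ : IrrCharacter G) : G → ℂ) ((ψ : IrrCharacter G) : G → ℂ) *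
              ms 2 (v * w) ((ψ : IrrCharacter G) : G → ℂ) ((θ : IrrCharacter G) : G → ℂ)) := by
          intro ψ; ring
        rw [Finset.sum_congr rfl fun ψ _ => h2 ψ, Finset.sum_add_distrib, Finset.sum_add_distrib,
          Finset.sum_add_distrib, ← Finset.mul_sum, ← Finset.mul_sum, ← Finset.mul_sum,
          ← Finset.mul_sum, hid hxP, hor hnc_vw, hor hnc_vx, hor (fun hc => hnc_wx hc.symm), hmx]
        ring
      exact_mod_cast h1
    · intro χ
      obtain ⟨r, hr, e⟩ := ms_self_pos (pel P hvP) (hval0 hvP χ)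
      have h1 : ((4 * T χ χ : ℤ) : ℂ) = ((16 * r + (a χ : ℝ) ^ 2 : ℝ) : ℂ) := by
        push_cast
        rw [← hT, e, hmx]
        ring
      have h2 : ((4 * T χ χ : ℤ) : ℝ) = 16 * r + (a χ : ℝ) ^ 2 := by exact_mod_cast h1
      have h3 : ((a χ ^ 2 : ℤ) : ℝ) < ((4 * T χ χ : ℤ) : ℝ) := by
        rw [h2]; push_cast; linarith
      exact_mod_cast h3
    · intro χ
      obtain ⟨r, hr, e⟩ := ms_self_pos (pel P hwP) (hval0 hwP χ)
      have h1 : ((4 * U χ χ : ℤ) : ℂ) = ((16 * r + (a χ : ℝ) ^ 2 : ℝ) : ℂ) := by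
        push_cast
        rw [← hU, e, hmx]
        ring
      have h2 : ((4 * U χ χ : ℤ) : ℝ) = 16 * r + (a χ : ℝ) ^ 2 := by exact_mod_cast h1
      have h3 : ((a χ ^ 2 : ℤ) : ℝ) < ((4 * U χ χ : ℤ) : ℝ) := by
        rw [h2]; push_cast; linarith
      exact_mod_cast h3
    · intro χ
      obtain ⟨r, hr, e⟩ := ms_self_pos (pel P (one_mem _)) (hval0 (one_mem _) χ)
      have h1 : ((4 * (T χ χ + U χ χ) : ℤ) : ℂ) = ((16 - 16 * r + (a χ : ℝ) ^ 2 : ℝ) : ℂ) := by
        have h0 := hms χ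
        rw [e, hmx] at h0
        push_cast
        rw [← hU, ← hT, hmx]
        linear_combination (-16) * h0
      have h2 : ((4 * (T χ χ + U χ χ) : ℤ) : ℝ) = 16 - 16 * r + (a χ : ℝ) ^ 2 := by exact_mod_cast h1
      have h3 : ((4 * (T χ χ + U χ χ) : ℤ) : ℝ) < ((16 + a χ ^ 2 : ℤ) : ℝ) := by
        rw [h2]; push_cast; linarith
      exact_mod_cast h3
    · have h1 : ((∑ χ : B, a χ ^ 2 : ℤ) : ℂ) = ((16 : ℤ) : ℂ) := by
        have h2 := htr hxP
        rw [hrx] at h2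
        simp only [hmx] at h2
        rw [← Finset.sum_div] at h2
        push_cast
        field_simp at h2
        push_cast at h2
        rw [h2]; ring
      exact_mod_cast h1
    · have h1 : ((∑ χ : B, T χ χ : ℤ) : ℂ) = ((16 : ℤ) : ℂ) := by
        push_cast
        simp only [← hT]
        rw [← Finset.mul_sum, Finset.sum_add_distrib, htr hvP, htr hxP, hrx, h.rank_V hM hv hv1]
        norm_num
      exact_mod_cast h1
    · have h1 : ((∑ χ : B, U χ χ : ℤ) : ℂ) = ((16 : ℤ) : ℂ) := by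
        push_cast
        simp only [← hU]
        rw [← Finset.mul_sum, Finset.sum_add_distrib, htr hwP, htr hxP, hrx, h.swap.rank_V hM hw hw1]
        norm_num
      exact_mod_cast h1
    · rw [natCard_eq_Bfin] at h9
      have e : Fintype.card B = (Bfin (principalBlock M G)).card := Fintype.card_coe _
      rw [e]
      exact h9
  rw [natCard_eq_Bfin]
  have e : Fintype.card B = (Bfin (principalBlock M G)).card := Fintype.card_coe _
  rw [← e]
  exact hgoal

end Nine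

end Cfsg.Agent.H75.Tri
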